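import Mathlib
import Cfsg.Agent.H8.Vec
import Cfsg.Agent.H8.Glaub
import Cfsg.Agent.H8.Real
import Cfsg.Agent.H6.BrSuz

/-!
The principal `2`-block of a group with dihedral Sylow `2`-subgroups.
-/

set_option autoImplicit false

namespace Cfsg.Agent.H8

open Cfsg H9 Subgroup
open Cfsg.Agent.H7 (ip ind)
open scoped ComplexConjugate

local notation:max "𝐙 " x:max => Subgroup.centralizer (Singleton.singleton x : Set _)
local notation:max "𝐂 " Q:max => Subgroup.centralizer (SetLike.coe Q)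
local notation:max "𝐍 " Q:max => Subgroup.normalizer (SetLike.coe Q)

variable {M : Ideal AlgInt} [hMm : M.IsMaximal] {G : Type*} [Group G] [Finite G]

section Grp
variable {P : Sylow 2 G} {a b : G} {m : ℕ} (h : H3.MCD (P : Subgroup G) a b m)
include h

theorem dih_le : (P : Subgroup G) ≤ 𝐙 (a ^ 2 ^ (m - 1)) := fun s hs =>
  mem_centralizer_singleton_iff.2 (h.z_cen s hs)

theorem dih_hasNPC_J : HasNormalPComplement 2 (𝐙 (a ^ 2 ^ (m - 1))) := by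
  refine H4.hasNPC_of_forall_le_sylow (P.subtype (dih_le h)) fun Q hQ _ g hg ho => ?_
  have hg' : ∀ q ∈ Q.map (𝐙 (a ^ 2 ^ (m - 1))).subtype, g * q * (g : G)⁻¹ ∈ Q.map (Subgroup.subtype _) := by
    rintro _ ⟨q, hq, rfl⟩
    exact ⟨_, (mem_normalizer_iff.1 hg q).1 hq, rfl⟩
  have hQ' : Q.map (𝐙 (a ^ 2 ^ (m - 1))).subtype ≤ P := by rintro _ ⟨q, hq, rfl⟩; exact hQ hq
  suffices (g : G) ∈ 𝐂 (Q.map (𝐙 (a ^ 2 ^ (m - 1))).subtype) from
    fun q hq => Subtype.ext (this q ⟨q, hq, rfl⟩)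
  rw [← orderOf_coe] at ho
  generalize Q.map (𝐙 (a ^ 2 ^ (m - 1))).subtype = R at *
  obtain ⟨g, hgJ⟩ := g
  have h1 : g ∈ 𝐂 (R ⊓ zpowers a) := fun q hq => by
    by_cases e : q ^ 2 = 1
    · rcases h.eq_one_or hq.2 e with rfl | rfl
      exacts [by simp, (mem_centralizer_singleton_iff.1 hgJ).symm]
    obtain ⟨k, hk⟩ := pElt_of_mem P.2 (hQ' hq.1)
    refine (H6.commute_of_odd_of_two_pow (H6.mem_normalizer_zpowers (H6.mem_zpowers_of_orderOf_dvd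
      (by_contra fun e' => e ?_) hq.2 (orderOf_conj' _ _).dvd)) ho hk).symm
    simpa using (h.out (hQ' (hg' q hq.1)) e').sq
  intro q hq
  by_cases e : q ∈ zpowers a
  · exact h1 q ⟨hq, e⟩
  refine commute_of_coprime_of_mem (P.2.to_le (inf_le_left.trans hQ')) ho h1
    ⟨R.mul_mem (R.inv_mem hq) (hg' q hq), h.mul_mem (inv_mem (hQ' hq)) (hQ' (hg' q hq))
      (by simpa) fun e' => e ?_⟩
  have := h1 _ ⟨hg' q hq, e'⟩
  rw [inv_mul_cancel_right, mul_right_inj] at this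
  exact this ▸ e'

theorem dih_z_mem {u : G} (hu : u ∈ zpowers a) (h1 : u ≠ 1) : a ^ 2 ^ (m - 1) ∈ zpowers u :=
  h.z_mem_of_ne (zpowers_le.2 hu) (by simpa)

theorem dih_hasNPC {u : G} (hu : u ∈ zpowers a) (h1 : u ≠ 1) : HasNormalPComplement 2 (𝐙 u) :=
  H4.hasNPC_of_le (centralizer_zpowers u ▸ centralizer_le (by simpa using dih_z_mem h hu h1))
    (dih_hasNPC_J h)

theorem dih_control {x g : G} (hg : g ∈ 𝐙 (a ^ 2 ^ (m - 1))) (hx : x ∈ (P : Subgroup G))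
    (hx' : g * x * g⁻¹ ∈ (P : Subgroup G)) : ∃ s ∈ (P : Subgroup G), s * x * s⁻¹ = g * x * g⁻¹ := by
  obtain ⟨s, hs, e⟩ := H4.hasNPC_exists_conj_eq (dih_hasNPC_J h) (P.subtype (dih_le h)) ⟨g, hg⟩
  exact ⟨s, hs, congrArg Subtype.val (e ⟨x, dih_le h hx⟩ hx hx')⟩

theorem dih_conj_inv {u : G} (hu : u ∈ zpowers a) : b * u * b⁻¹ = u⁻¹ := by
  obtain ⟨k, rfl⟩ := hu
  exact (H20.conj_zpow_of_inverts h.inv k).trans (zpow_neg _ _)

theorem dih_fusion {u v : G} (hu : u ∈ zpowers a) (hv : v ∈ zpowers a) :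
    IsConj u v ↔ v = u ∨ v = u⁻¹ := by
  refine ⟨fun hc => ?_, ?_⟩
  · obtain ⟨g, rfl⟩ := isConj_iff.1 hc
    by_cases h1 : u = 1
    · simp [h1]
    obtain ⟨s, hs, e⟩ := dih_control h (g := g) (mem_centralizer_singleton_iff.2
      (mul_inv_eq_iff_eq_mul.1 (eq_of_mem_zpowers_two (H6.conj_mem_zpowers_conj (dih_z_mem h hu h1) g)
        (dih_z_mem h hv (by simpa)) ((orderOf_conj' _ _).trans h.ord_z) h.ord_z))) (h.le hu) (h.le hv)
    rw [← e]
    by_cases e' : s ∈ zpowers a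
    · exact Or.inl (mul_inv_eq_iff_eq_mul.2 (H3.comm_of_mem_zpowers e' hu))
    · exact Or.inr (dih_conj_inv (h.out hs e') hu)
  · rintro (rfl | rfl)
    exacts [IsConj.refl _, isConj_iff.2 ⟨b, dih_conj_inv h hu⟩]

theorem dih_lamP (hM : IsPModular 2 M) {u : G} (hu : u ∈ zpowers a) (h1 : u ≠ 1) [DecidableEq G] :
    lamP M (𝐙 u) = if u⁻¹ = u then 2 * 2 ^ m else 2 ^ m := by
  have h2 := ((H4.IsSylowIn.sylow_of_le P (h.nml_of_le (zpowers_le.2 hu)).2).inf_of_normal_le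
    (centralizer_le_normalizer _) (H1.le_normalizer_centralizer le_rfl)).card_eq
  rw [centralizer_zpowers] at h2
  rw [lamP_of_hasNPC hM (dih_hasNPC h hu h1), ← h2]
  have h3 : u⁻¹ = u ↔ u = a ^ 2 ^ (m - 1) := ⟨fun e => h.eq_z hu (by
    rw [sq]; nth_rw 1 [← e]; simp) h1, fun e => e ▸ h.z_inv⟩
  split_ifs with e
  · rw [h3.1 e, inf_eq_left.2 (dih_le h), h.card, pow_succ']
    simp
  · rw [h.cen1_of_mem hu (by simp [h.mem_z_iff, h1, ← h3, e]), h.card_a]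
    simp

theorem dih_colW (hM : IsPModular 2 M) {θ : zpowers a → ℂ} (h0 : θ 1 = 0) (u : zpowers a) :
    colW M (zpowers a).subtype θ u = θ u + θ u⁻¹ := by
  classical
  have := Fintype.ofFinite (zpowers a)
  have hP : IsPGroup 2 (zpowers a) := P.2.to_le h.le
  by_cases h1 : u = 1
  · rw [colW_reg _ hM hP Subtype.val_injective h0 (by simp [h1])]
    simp [h1, h0]
  rw [colW_apply _ hM hP θ (pElt_of_mem hP u.2), dih_lamP h hM u.2 (by simpa), h.card_a,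
    show Finset.univ.filter (fun z : zpowers a => IsConj (u : G) ((zpowers a).subtype z)) = {u, u⁻¹} by
      ext z
      simp only [Finset.mem_filter, Finset.mem_univ, true_and, Finset.mem_insert,
        Finset.mem_singleton, Subtype.ext_iff]
      exact dih_fusion h u.2 z.2]
  split_ifs with e
  · rw [show u⁻¹ = u from Subtype.ext e]
    simp
    field_simp
    ring
  · rw [Finset.sum_pair fun e' => e (congrArg Subtype.val e').symm]
    simp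

theorem dih_gram (hM : IsPModular 2 M) {θ : zpowers a → ℂ} (h0 : θ 1 = 0) (η : zpowers a → ℂ) :
    ip (colW M (zpowers a).subtype θ) (colW M (zpowers a).subtype η) =
      ip θ η + ip (fun u => θ u⁻¹) η := by
  rw [ip_colW_colW, ← H7.ip_add_left]
  exact congrArg (ip · η) (funext (dih_colW h hM h0))

end Grp

section Cyc
variable {a : G} {N : ℕ} (ha : orderOf a = N) {lam : zpowers a →* ℂˣ} {ζ : ℂ}
  (hζ : IsPrimitiveRoot ζ N) (hl : (lam ⟨a, mem_zpowers a⟩ : ℂ) = ζ)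

include ha hζ in
theorem exists_lam : ∃ lam : zpowers a →* ℂˣ, (lam ⟨a, mem_zpowers a⟩ : ℂ) = ζ := by
  have hN : N ≠ 0 := ha ▸ (orderOf_pos a).ne'
  obtain ⟨lam, -, h⟩ := H6.exists_linear_of_cyclic_quotient (⊥ : Subgroup (zpowers a))
    ⟨a, mem_zpowers a⟩ (by
      rintro ⟨_, k, rfl⟩
      exact ⟨1, one_mem _, _, ⟨k, rfl⟩, Subtype.ext (by simp)⟩) (hζ.isUnit hN).unit fun j hj => by
        ext
        simpa [hζ.pow_eq_one_iff_dvd, ← ha, orderOf_dvd_iff_pow_eq_one, Subtype.ext_iff] using hj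
  exact ⟨lam, by simp [h]⟩

variable (lam) in
/-- The function `1 - λ ^ j`. -/
noncomputable def etaF (j : ℤ) : zpowers a → ℂ := fun u => 1 - ((lam ^ j) u : ℂ)

omit [Finite G] in
theorem etaF_one (j : ℤ) : etaF lam j 1 = 0 := by simp [etaF]

omit [Finite G] in
theorem etaF_inv (j : ℤ) (u : zpowers a) : etaF lam j u⁻¹ = etaF lam (-j) u := by simp [etaF]

omit [Finite G] in
theorem isGen_etaF (j : ℤ) : IsGeneralizedCharacter _ (etaF lam j) :=
  H6.isGen_sub H6.isGen_one (H6.isGen_of_isCharacter (H7.char_of_hom (lam ^ j)))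

include hζ hl

omit [Finite G] in
theorem lam_zpow_eq_iff (i j : ℤ) : lam ^ i = lam ^ j ↔ (N : ℤ) ∣ i - j := by
  rw [← hζ.zpow_eq_one_iff_dvd, ← mul_inv_eq_one, ← zpow_sub lam, ← hl]
  refine ⟨fun h => by simpa using congrArg Units.val (DFunLike.congr_fun h ⟨a, mem_zpowers a⟩),
    fun h => MonoidHom.ext ?_⟩
  rintro ⟨_, k, rfl⟩
  have : lam ⟨a, mem_zpowers a⟩ ^ (i - j) = 1 := Units.ext (by simpa using h)
  rw [show (⟨a ^ k, _⟩ : zpowers a) = ⟨a, mem_zpowers a⟩ ^ k from rfl, map_zpow]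
  simp [this]

theorem ip_etaF (i j : ℤ) : ip (etaF lam i) (etaF lam j) = 1 - (if (N : ℤ) ∣ j then 1 else 0) -
    (if (N : ℤ) ∣ i then 1 else 0) + if (N : ℤ) ∣ i - j then 1 else 0 := by
  have h : ∀ i j : ℤ, ip (fun u => ((lam ^ i) u : ℂ)) (fun u => ((lam ^ j) u : ℂ)) =
      if (N : ℤ) ∣ i - j then 1 else 0 := fun i j => by
    split_ifs with e <;> rw [← lam_zpow_eq_iff hζ hl] at e
    · rw [e, H7.ip_irr_self (H7.irr_of_hom _)]
    · exact H7.ip_irr_ne (H7.irr_of_hom _) (H7.irr_of_hom _) fun e' => e (H6.linear_injective e')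
  have e : ∀ i : ℤ, etaF lam i = (fun u => ((lam ^ (0 : ℤ)) u : ℂ)) - fun u => ((lam ^ i) u : ℂ) :=
    fun i => funext fun u => by simp [etaF]
  simp only [e, H7.ip_sub_left, H7.ip_sub_right, h]
  simp
  ring

theorem ip_etaF_one {j : ℤ} (hj : ¬ (N : ℤ) ∣ j) : ip (etaF lam j) (fun _ => 1) = 1 := by
  rw [show etaF lam j = (fun _ => 1) - fun u => ((lam ^ j) u : ℂ) from rfl, H7.ip_sub_left,
    H7.ip_irr_self isIrr_one, H7.ip_irr_ne (H7.irr_of_hom _) isIrr_one fun e => hj (by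
      simpa using (lam_zpow_eq_iff hζ hl j 0).1 (H6.linear_injective (e.trans (by simp)))), sub_zero]

include ha in
theorem sum_lam_pow {u : zpowers a} (hu : u ≠ 1) : ∑ j ∈ Finset.range N, (lam u : ℂ) ^ j = 0 := by
  obtain ⟨_, k, rfl⟩ := u
  have e : (lam ⟨a ^ k, k, rfl⟩ : ℂ) = ζ ^ k := by
    rw [show (⟨a ^ k, _⟩ : zpowers a) = ⟨a, mem_zpowers a⟩ ^ k from rfl, map_zpow, ← hl]; simp
  have h1 : ζ ^ k ≠ 1 := fun h => hu (Subtype.ext (by
    simpa [hζ.zpow_eq_one_iff_dvd, ← ha, orderOf_dvd_iff_zpow_eq_one] using h))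
  rw [e, geom_sum_eq h1, ← zpow_natCast, ← zpow_mul, mul_comm, zpow_mul, zpow_natCast,
    hζ.pow_eq_one]
  simp

include ha in
theorem apply_eq_sum_etaF (φ : zpowers a → ℂ) {u : zpowers a} (hu : u ≠ 1) :
    φ u = -∑ j ∈ Finset.range N, (lam u : ℂ) ^ j * ip φ (etaF lam j) := by
  classical
  have := Fintype.ofFinite (zpowers a)
  have hN : (N : ℂ) ≠ 0 := Nat.cast_ne_zero.2 (ha ▸ (orderOf_pos a).ne')
  have h1 : ∀ v : zpowers a, ∑ j ∈ Finset.range N, (lam u : ℂ) ^ j * conj (etaF lam j v) =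
      if v = u then -(N : ℂ) else 0 := fun v => by
    have e : ∀ j : ℕ, (lam u : ℂ) ^ j * conj (etaF lam j v) = (lam u : ℂ) ^ j - (lam (u * v⁻¹) : ℂ) ^ j :=
      fun j => by
        rw [etaF, map_sub, map_one, ← H7.char_inv (H7.char_of_hom (lam ^ (j : ℤ)))]
        simp [mul_sub, mul_pow]
    simp only [e, Finset.sum_sub_distrib, sum_lam_pow ha hζ hl hu]
    split_ifs with h
    · simp [h]
    · rw [sum_lam_pow ha hζ hl fun e => h (mul_inv_eq_one.1 e).symm, sub_zero]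
  simp only [H7.ip_def, Finset.mul_sum, Nat.card_zpowers, ha]
  rw [Finset.sum_comm]
  simp only [mul_left_comm (_ ^ _), ← Finset.mul_sum, h1]
  simp [mul_comm (φ u), hN]

end Cyc

section Main
variable {P : Sylow 2 G} {a b : G} {m : ℕ} (h : H3.MCD (P : Subgroup G) a b m)
  (hM : IsPModular 2 M) {lam : zpowers a →* ℂˣ} {ζ : ℂ}
  (hζ : IsPrimitiveRoot ζ (2 ^ m)) (hl : (lam ⟨a, mem_zpowers a⟩ : ℂ) = ζ)

variable (M lam) in
/-- The columns of the principal block. -/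
noncomputable def dihW (j : ℤ) : G → ℂ := colW M (zpowers a).subtype (etaF lam j)

omit hMm in
theorem isGen_dihW (j : ℤ) : IsGeneralizedCharacter G (dihW M lam j) := isGen_colW _ (isGen_etaF j)

include h hM

theorem dihW_reg (j : ℤ) {g : G} (hg : ¬ 2 ∣ orderOf g) : dihW M lam j g = 0 :=
  colW_reg _ hM (P.2.to_le h.le) Subtype.val_injective (etaF_one j) hg

theorem dihW_apply (j : ℤ) (u : zpowers a) :
    dihW M lam j u = 2 - (lam u : ℂ) ^ j - ((lam u : ℂ) ^ j)⁻¹ := by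
  rw [dihW, dih_colW h hM (etaF_one j)]
  simp [etaF]
  ring

theorem dihW_neg (j : ℤ) : dihW M lam (-j) = dihW M lam j := by
  refine sub_eq_zero.1 (H7.eq_zero_of_ip_self ?_)
  rw [dihW, dihW, ← colW_sub, dih_gram h hM (by simp [etaF_one]), ← H7.ip_add_left]
  refine (congrArg (ip · _) (funext fun u => ?_)).trans (H7.ip_zero_left _)
  simp [etaF_inv]

include hζ hl

theorem dihW_sub (j : ℤ) : dihW M lam (2 ^ m - j) = dihW M lam j := by
  rw [← dihW_neg h hM j, dihW, dihW]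
  congr 1
  ext u
  rw [etaF, etaF, (lam_zpow_eq_iff hζ hl _ (-j)).2 (by simp)]

variable [Fintype G]

theorem dihW_gram {i j : ℤ} (hi : ¬ 2 ^ m ∣ i) (hj : ¬ 2 ^ m ∣ j) :
    cz (dihW M lam i) ⬝ᵥ cz (dihW M lam j) =
      2 + (if 2 ^ m ∣ i - j then 1 else 0) + if 2 ^ m ∣ i + j then 1 else 0 := by
  apply Int.cast_injective (α := ℂ)
  rw [cz_dot (isGen_dihW i) (isGen_dihW j), dihW, dihW, dih_gram h hM (etaF_one i)]
  simp only [etaF_inv, ip_etaF hζ hl, ← neg_add', dvd_neg, Nat.cast_pow, Nat.cast_ofNat, hi, hj]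
  simp
  ring

omit h hM in
theorem cz_dihW_one {j : ℤ} (hj : ¬ 2 ^ m ∣ j) : cz (dihW M lam j) (irrOne G) = 1 := by
  apply Int.cast_injective (α := ℂ)
  rw [cz_spec (isGen_dihW j), dihW, ip_colW_of_mem _ _ irrOne_mem_principalBlock, Int.cast_one]
  exact ip_etaF_one hζ hl (by simpa)

theorem dih_apply {χ : IrrCharacter G} (hχ : χ ∈ principalBlock M G) {u : zpowers a} (hu : u ≠ 1) :
    (χ : G → ℂ) u = -∑ j ∈ Finset.range (2 ^ m), (lam u : ℂ) ^ j * cz (dihW M lam j) χ := by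
  rw [apply_eq_sum_etaF h.ord hζ hl (fun u => (χ : G → ℂ) u) hu]
  congr 1
  refine Finset.sum_congr rfl fun j _ => ?_
  rw [← map_intCast (starRingEnd ℂ), cz_spec (isGen_dihW _), dihW, ip_colW_of_mem _ _ hχ,
    H7.ip_conj_symm]
  rfl

theorem dih_struct [DecidableEq (IrrCharacter G)] : ∃ (χ₁ χ₂ χ₃ : IrrCharacter G)
    (k : Fin (2 ^ (m - 1) - 1) → IrrCharacter G) (δ₁ δ₂ δ₃ : ℤ), (δ₁ = 1 ∨ δ₁ = -1) ∧
      (δ₂ = 1 ∨ δ₂ = -1) ∧ (δ₃ = 1 ∨ δ₃ = -1) ∧ Function.Injective k ∧ χ₁ ≠ irrOne G ∧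
      χ₂ ≠ irrOne G ∧ χ₃ ≠ irrOne G ∧ χ₁ ≠ χ₂ ∧ χ₁ ≠ χ₃ ∧ χ₂ ≠ χ₃ ∧
      (∀ j, k j ≠ χ₁ ∧ k j ≠ χ₂ ∧ k j ≠ χ₃ ∧ k j ≠ irrOne G) ∧
      cz (dihW M lam (2 ^ (m - 1) : ℕ)) = Pi.single (irrOne G) 1 +
        (Pi.single χ₁ δ₁ + Pi.single χ₂ δ₂ + Pi.single χ₃ δ₃) ∧
      ∀ j : Fin (2 ^ (m - 1) - 1), cz (dihW M lam ((j : ℕ) + 1 : ℕ)) = Pi.single (irrOne G) 1 +
        (Pi.single χ₁ δ₁ + Pi.single (k j) (-δ₁)) := by
  obtain ⟨r, hr, hN⟩ : ∃ r : ℕ, 2 ^ (m - 1) = 2 * r + 2 ∧ (2 : ℤ) ^ m = 4 * r + 4 := by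
    obtain ⟨k, rfl⟩ := Nat.exists_eq_add_of_le' h.two_le
    obtain ⟨r, hr⟩ := Nat.exists_eq_succ_of_ne_zero (pow_ne_zero k two_ne_zero)
    exact ⟨r, by simp [pow_succ, hr]; ring, by
      rw [pow_add, show (2 : ℤ) ^ k = r + 1 by exact_mod_cast hr]; ring⟩
  have h0 : ∀ x : ℤ, x ≠ 0 → -(4 * r + 4) < x → x < 4 * r + 4 → ¬ (2 : ℤ) ^ m ∣ x :=
    fun x h1 h2 h3 e => h1 (Int.eq_zero_of_abs_lt_dvd e (by rw [hN, abs_lt]; omega))
  have h1 : ∀ i j : ℤ, ¬ 2 ^ m ∣ i → ¬ 2 ^ m ∣ j →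
      (cz (dihW M lam i) - Pi.single (irrOne G) 1) ⬝ᵥ (cz (dihW M lam j) - Pi.single (irrOne G) 1) =
        1 + (if 2 ^ m ∣ i - j then 1 else 0) + if 2 ^ m ∣ i + j then 1 else 0 := fun i j hi hj => by
    simp [sub_dotProduct, dotProduct_sub, dihW_gram h hM hζ hl hi hj, cz_dihW_one hζ hl hi,
      cz_dihW_one hζ hl hj]
    ring
  have h2 : ∀ i : ℤ, (cz (dihW M lam i) - Pi.single (irrOne G) 1) ⬝ᵥ
      (fun χ : IrrCharacter G => (charDegree (χ : G → ℂ) : ℤ)) = -1 := fun i => by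
    apply Int.cast_injective (α := ℂ)
    rw [sub_dotProduct, Int.cast_sub, cz_dot_deg (isGen_dihW i), dihW_reg h hM i (by simp)]
    simp [← irr_one_eq]
  have : Nonempty (Fin (2 ^ (m - 1) - 1)) := ⟨⟨0, by omega⟩⟩
  have h3 : ¬ (2 : ℤ) ^ m ∣ (2 ^ (m - 1) : ℕ) := h0 _ (by omega) (by omega) (by omega)
  have h4 : ∀ j : Fin (2 ^ (m - 1) - 1), ¬ (2 : ℤ) ^ m ∣ ((j : ℕ) + 1 : ℕ) := fun j =>
    h0 _ (by omega) (by omega) (by omega)
  obtain ⟨χ₁, χ₂, χ₃, k, δ₁, δ₂, δ₃, a1, a2, a3, a4, a5, a6, a7, a8, a9, a10⟩ := star_lemma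
    (κ := Fin (2 ^ (m - 1) - 1)) (c := cz (dihW M lam (2 ^ (m - 1) : ℕ)) - Pi.single (irrOne G) 1)
    (b := fun j => cz (dihW M lam ((j : ℕ) + 1 : ℕ)) - Pi.single (irrOne G) 1)
    (fun j j' e => by
      have : (j : ℕ) ≠ j' := fun e' => e (Fin.ext e')
      by_contra! hc
      have a0 := hc ⟨0, by omega⟩
      have a1 := hc ⟨1, by omega⟩
      have a2 := hc ⟨2, by omega⟩
      simp only [ne_eq, Fin.ext_iff] at a0 a1 a2
      omega)
    (by rw [h1 _ _ h3 h3, if_pos (by simp), if_pos ⟨1, by omega⟩]; rfl)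
    (fun j => by rw [h1 _ _ (h4 j) (h4 j), if_pos (by simp), if_neg (h0 _ (by omega) (by omega)
      (by omega))]; rfl)
    (fun j k e => by
      have : (j : ℕ) ≠ k := fun e' => e (Fin.ext e')
      rw [h1 _ _ (h4 j) (h4 k), if_neg (h0 _ (by omega) (by omega) (by omega)),
        if_neg (h0 _ (by omega) (by omega) (by omega))]; rfl)
    (fun j => by rw [h1 _ _ (h4 j) h3, if_neg (h0 _ (by omega) (by omega) (by omega)),
        if_neg (h0 _ (by omega) (by omega) (by omega))]; rfl) (h2 _) (fun j => h2 _)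
    fun χ => by exact_mod_cast Nat.pos_of_ne_zero (charDegree_irr_ne_zero χ)
  have b1 := congrFun a9 (irrOne G)
  rw [Pi.sub_apply, cz_dihW_one hζ hl h3] at b1
  refine ⟨χ₁, χ₂, χ₃, k, δ₁, δ₂, δ₃, a1, a2, a3, a4, ?_, ?_, ?_, a5, a6, a7,
    fun j => ⟨(a8 j).1, (a8 j).2.1, (a8 j).2.2, fun e => ?_⟩, sub_eq_iff_eq_add'.1 a9,
    fun j => sub_eq_iff_eq_add'.1 (a10 j)⟩
  · rintro rfl; simp [a5, a6] at b1; omega
  · rintro rfl; simp [a5.symm, a7] at b1; omega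
  · rintro rfl; simp [a6.symm, a7.symm] at b1; omega
  · have b2 := congrFun (a10 j) (irrOne G)
    rw [Pi.sub_apply, cz_dihW_one hζ hl (h4 j)] at b2
    simp [← e, (a8 j).1] at b2
    omega

end Main

end Cfsg.Agent.H8
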