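import Mathlib
import Cfsg.Agent.H8.Ito3
import Cfsg.Agent.H3.Extra2
import Cfsg.Agent.H22.Hol
import Cfsg.Agent.S4127

/-!
Groups with class sizes `1, m, k m`, `m` and `k` coprime.
-/

set_option autoImplicit false
set_option linter.unusedSectionVars false
set_option linter.unusedVariables false

namespace Cfsg.Agent.H8.Ito

open Cfsg Subgroup Cfsg.Agent.FT Cfsg.Agent.H28 Cfsg.Agent.H9.TC
open scoped commutatorElement Pointwise

variable {G : Type*} [Group G] [Finite G] {A C D E H K P R S : Subgroup G} {m k p q r s t : ℕ} {b f g u v w x y : G}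

theorem idx_dvd_of_fpf (hp : p.Prime) (hP : PGrp p P) (hA : PiGrp {p}ᶜ A) (hn : P ≤ N(A)) (hE : E ≤ P) (hc : E ≤ C(A))
    (h1 : ⁅P, P⁆ ≤ E) (h2 : ∀ g ∈ P, g ^ p ∈ E) (h3 : ∀ b ∈ A, b ∉ center G → P ⊓ C[b] ≤ E) (h4 : ¬ A ≤ center G) :
    E.relIndex P ∣ p := by
  have n1 : P ≤ N(E) := norms_of_comm_le ((commSS hE le_rfl).trans h1)
  have n2 : A ≤ N(E) := cents_norm (centsC hc)
  have a1 := (abelem_quo_iff (p := p) n1).2 ⟨h1, h2⟩
  have c1 : Cop E A := (hP.mono hE).cop hA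
  rw [← card_quo n1]
  refine a1.card_dvd_of_cyc (by_contra fun hne => h4 ?_)
  have a2 := coprime_abelian_gen_cent1 (L := (A ⊓ center G) /ₛ E) a1.ab hne (pmap_norms _ hn)
    ((hA.quo E).cop' (hP.quo E)) fun a ha a3 u hu => by
      obtain ⟨g, g1, g2, rfl⟩ := mem_quo.1 ha
      obtain ⟨b, b1, b2, rfl⟩ := mem_quo.1 hu.1
      refine mem_quo_of_mem b2 ⟨b1, by_contra fun z => a3 (coset_of_mem (h3 b b1 z ⟨g1, mem_cen1.2 ?_⟩))⟩
      exact commutatorElement_eq_one_iff_mul_comm.1 (c1.inf.le ⟨(coset_commute_iff g2 b2).1 (mem_cen1.1 hu.2).symm,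
        A.mul_mem ((mem_normalizer_iff.1 (hn g1) b).1 b1) (A.inv_mem b1)⟩)
  have a3 := card_le_of_le a2
  rw [card_quo_of_cop n2 c1] at a3
  exact (eq_of_card_le inf_le_left (a3.trans (card_quo_le _ _))).ge.trans inf_le_right

theorem exists_zbar' (hp : p.Prime) (hP : PGrp p P) (hH : H ⊴ P) (h : ¬ H ≤ center G) :
    ∃ w ∈ H, w ∉ center G ∧ P ≤ N(C[w]) ∧ ⁅P, P⁆ ≤ C[w] ∧ ∀ g ∈ P, g ^ p ∈ C[w] := by
  classical
  obtain ⟨w₀, a, b, c⟩ := hP.nil.exists_comm_mem hH h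
  have e : ∃ j, w₀ ^ p ^ j ∈ center G := let ⟨j, hj⟩ := (hP.piElt (hH.le a)).exists_pow; ⟨j, hj ▸ one_mem _⟩
  obtain ⟨j, hj⟩ : ∃ j, Nat.find e = j + 1 := Nat.exists_eq_succ_of_ne_zero fun z => b (by
    simpa [z] using Nat.find_spec e)
  have a1 : ⁅⟪w₀⟫, P⁆ ≤ center G := bg4_comm_zpowers_le (le_nrm_of_normal ⊤ _ (mem_top _)) fun g hg => (c g hg).1
  have a2 : ⁅⟪w₀ ^ p ^ j⟫, P⁆ ≤ center G := (commSS (zpowers_le.2 (npow_mem_zpowers _ _)) le_rfl).trans a1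
  have a3 : (w₀ ^ p ^ j) ^ p ∈ center G := by rw [← pow_mul, ← pow_succ, ← hj]; exact Nat.find_spec e
  refine ⟨w₀ ^ p ^ j, pow_mem a _, Nat.find_min e (by omega), norm_cen1 fun g hg =>
    a2 (commutator_mem_commutator (mem_zpowers _) hg), ?_, fun g hg => ?_⟩
  · rw [← cen_zpowers]
    exact comm_eq_bot.1 (three_subgroup (comm_eq_bot.2 ((commC _ _).le.trans (a2.trans (center_le_cen' _))))
      (comm_eq_bot.2 (a2.trans (center_le_cen' _))))
  · generalize w₀ ^ p ^ j = w at *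
    have a4 := mem_center_iff.1 (a2 (commutator_mem_commutator (mem_zpowers w) hg))
    have a5 : w * g * w⁻¹ = ⁅w, g⁆ * g := by rw [commutatorElement_def]; group
    have a6 : g⁻¹ * w * g = ⁅w, g⁆ * w := by
      have := a4 (g⁻¹)
      calc _ = g⁻¹ * ⁅w, g⁆ * g * w := by rw [commutatorElement_def]; group
        _ = _ := by rw [this]; group
    have a7 : ⁅w, g⁆ ^ p = 1 := by
      have c1 : (g⁻¹ * w * g⁻¹⁻¹) ^ p = g⁻¹ * w ^ p * g⁻¹⁻¹ := conj_pow
      rw [inv_inv, a6, (show Commute ⁅w, g⁆ w from (a4 w).symm).mul_pow, mem_center_iff.1 a3 g⁻¹] at c1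
      simpa using c1
    have c1 : (w * g * w⁻¹) ^ p = w * g ^ p * w⁻¹ := conj_pow
    rw [a5, (show Commute ⁅w, g⁆ g from (a4 g).symm).mul_pow, a7, one_mul] at c1
    exact mem_cen1.2 (by rw [eq_mul_inv_iff_mul_eq.1 c1])

theorem rel_center (x : G) : (center G).relIndex C[x] * C[x].index = (center G).index :=
  relIndex_mul_index (center_le_cen1 x)

/-- class sizes `1, m, k m` where `m` is a power of `p` and `k` is prime to `p` -/
structure CP (G : Type*) [Group G] (p m k : ℕ) : Prop where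
  cs : ∀ x : G, x ∉ center G → C[x].index = m ∨ C[x].index = k * m
  hp : p.Prime
  dm : p ∣ m
  hm : PiNat {p} m
  hk : PiNat {p}ᶜ k

namespace CP

theorem part (H : CP G p m k) (hx : x ∉ center G) : partn {p} #C[x] * m = partn {p} (Nat.card G) := by
  have := cs_pos x
  rw [← C[x].card_mul_index, partn_mul _ (card_ne_zero _) this.ne']
  congr 1
  rcases H.cs x hx with e | e <;> rw [e] at this ⊢
  · exact (H.hm.partn_eq this.ne').symm
  · rw [mul_comm, partn_eq_of_mul H.hm H.hk (mul_comm k m ▸ this.ne')]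

theorem m0 (H : CP G p m k) (hx : x ∉ center G) : 0 < m := by
  have := cs_pos x
  rcases H.cs x hx with e | e <;> rw [e] at this
  · exact this
  · exact Nat.pos_of_mul_pos_left this

theorem maxp (H : CP G p m k) (hx : x ∉ center G) (hy : y ∉ center G) (hS : Syl p S C[x]) (h1 : S ≤ R) (h2 : R ≤ C[y])
    (hR : PGrp p R) : R = S :=
  (hall_of_card (h1.trans h2) (hS.card.trans (Nat.eq_of_mul_eq_mul_right (H.m0 hx)
    ((H.part hx).trans (H.part hy).symm)))).max hR h1 h2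

theorem nle (H : CP G p m k) (hP : Syl p P ⊤) (hx : x ∉ center G) : ¬ P ≤ C[x] := fun e =>
  not_dvd_index_of_syl_le H.hp hP e ((H.cs x hx).elim (fun a => a ▸ H.dm) fun a => a ▸ H.dm.mul_left k)

theorem rel (H : CP G p m k) (hP : Syl p P ⊤) (hx : x ∉ center G) (h : Syl p (P ⊓ C[x]) C[x]) :
    C[x].relIndex P = m := by
  have a := FT.card_inf_mul_relIndex C[x] P
  rw [hP.card, card_top, ← H.part hx, inf_comm, h.card] at a
  exact Nat.eq_of_mul_eq_mul_left (partn_pos _ _) a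

theorem relI (H : CP G p m k) (hP : Syl p P ⊤) (hy : C[y].index = m) :
    MulEq P C[y] ⊤ ∧ C[y].relIndex P = m :=
  have a := hP.mulEq_of_relIndex le_top (((relIndex_top_right C[y]).trans hy).symm ▸ H.hm)
  ⟨a, a.relIndex_right.symm.trans ((relIndex_top_right _).trans hy)⟩

/-- no `p`-element has class size `m` -/
theorem noI (H : CP G p m k) (F : NF G m k) (hg : PiElt {p} g) : C[g].index ≠ m := fun hI => by
  haveI := Fact.mk H.hp
  have z := F.nz (Or.inl hI)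
  obtain ⟨a, ha⟩ := H.hm.exists_pow (H.m0 z).ne'
  have hN : NPC p (⊤ : Subgroup G) := (npc_top_iff H.hp).2 (S4127.result p a (fun y hy => by
    have e : ¬ p ^ (a + 1) ∣ m := ha ▸ fun e => by
      have := (Nat.pow_dvd_pow_iff_le_right H.hp.one_lt).1 e; omega
    by_cases c : y ∈ center G
    · rw [cs_eq_one.2 c] at hy
      exact e (hy.trans (one_dvd m))
    rcases H.cs y c with d | d <;> rw [d] at hy
    · exact e hy
    · exact e (PiNat.dvd_of_dvd_mul_left ((pnat_iff H.hp (pow_pos H.hp.pos _).ne').2 ⟨_, rfl⟩) H.hk hy))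
    ⟨g, PiNat.exists_pow hg (orderOf_pos g).ne', hI.trans ha⟩)
  have nN : ∀ X : Subgroup G, X ≤ N(O[{p}ᶜ]((⊤ : Subgroup G))) := fun X => le_top.trans (pcore_nrm _ _)
  have hN' := hN.hall
  generalize O[{p}ᶜ]((⊤ : Subgroup G)) = N at nN hN'
  have a1 : N ≤ C[g] := relIndex_eq_one.1 (PiNat.eq_one (π := {p}) (H.hm.of_dvd (hI ▸ (mulEq_sup (nN C[g])).relIndex_right ▸
    relIndex_dvd_index_of_le le_sup_right)) (PiNat.of_dvd hN'.pi (relIndex_dvd _ _)))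
  obtain ⟨E, hE⟩ := exists_syl p C[g]
  have a2 : N ≤ C(E) := subgroupOf_eq_top.1 (jordan_cover fun y => by
    obtain ⟨S, hS, hle⟩ : ∃ S, Syl p S C[g] ∧ S ≤ C[(y : G)] := by
      rcases F.dich hg z (hN'.pi.piElt y.2) (a1 y.2) with e | e
      · exact ⟨E, hE, hE.le.trans e⟩
      · obtain ⟨S, hS, hle⟩ := (p'nat_relIndex_iff inf_le_left).1 ((F.rel inf_le_left e.idx hI).symm ▸ H.hk)
        exact ⟨S, hS, hle.trans inf_le_right⟩
    obtain ⟨c, hc, e⟩ := hS.syl_trans hE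
    obtain ⟨n, hn, d, hd, rfl⟩ := ((hN'.subl a1 le_top).mulEq (by rw [compl_compl]; exact hS)).mul c hc
    refine ⟨⟨n, hn⟩, ?_⟩
    change n * y * n⁻¹ ∈ C(E)
    rw [← le_cen1, ← cj_cen1, e, ← cj_cj, cj_of_mem hd]
    exact cj_mono _ hle)
  obtain ⟨P, hP, hle⟩ := hE.pi.exists_syl le_top
  obtain ⟨h, h1, h2⟩ := SetLike.not_le_iff_exists.1 (H.nle hP z)
  have h3 : h ∉ center G := fun e => h2 (center_le_cen1 g e)
  obtain ⟨q, hq, dq⟩ := Nat.exists_prime_and_dvd F.k1.ne'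
  obtain ⟨b, b1, b2, b3⟩ : NC q C[h] :=
    (H.cs h h3).elim (F.ncI hq (F.nck hq dq)) fun e => F.ncII hq (F.nck hq dq) ⟨h, rfl, e⟩
  have b4 : b ∈ N := hN'.le_of_norm (b2.pi (H.hk q hq dq)).zpowers le_top (nN _) (mem_zpowers b)
  exact h2 (hE.le ((H.maxp z b3 hE (le_inf hle (le_cen1.2 (a2 b4))) inf_le_right (hP.pi.inf_left _)).le
    ⟨h1, cen1_comm.1 b1⟩))

theorem core (H : CP G p p k) (hy : C[y].index = p) (hg : PiElt {p} g) (h : g ∈ C[y]) (c : G) :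
    g ∈ C[c * y * c⁻¹] := by
  obtain ⟨P, hP, hle⟩ := hg.zpowers.exists_syl le_top
  obtain ⟨a, ha, d, hd, rfl⟩ := (H.relI hP hy).1.mul c trivial
  have a1 := hP.pi.nml_of_relIndex H.hp (inf_le_right : C[y] ⊓ P ≤ P) ((inf_relIndex_right _ _).trans (H.relI hP hy).2)
  rw [← cj_cen1, ← cj_cj, cj_of_mem hd]
  exact cj_mono a inf_le_left ((cj_of_mem_nrm (a1.nrm ha)).ge ⟨h, hle (mem_zpowers g)⟩)

theorem same (H : CP G p p k) (hy : C[y].index = p) (hb : C[b].index = p) (y1 : PiElt {p}ᶜ y) (hg : PiElt {p} g)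
    (h : g ∈ C[b]) : g ∈ C[y] := by
  have zy : y ∉ center G := fun e => H.hp.one_lt.ne ((cs_eq_one.2 e).symm.trans hy)
  obtain ⟨S, hS⟩ := exists_syl p C[y * b]
  obtain ⟨P, hP, hle⟩ := hS.pi.exists_syl le_top
  suffices e : P ⊓ C[b] ≤ C[y] by
    obtain ⟨c, -, hc⟩ := hP.syl_elt (mem_top g) hg
    have a1 : c * g * c⁻¹ ∈ C[b] := by
      have := H.core hb hg h c⁻¹
      rwa [← cj_cen1, mem_cj, inv_inv] at this
    have := H.core hy (hg.conj c) (e ⟨hc, a1⟩) c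
    rwa [← cj_cen1, conj_mem_cj] at this
  by_contra e
  have a1 : (C[y] ⊓ P) ⊔ (P ⊓ C[b]) = P := (eq_or_eq_of_prime_relIndex
    (((inf_relIndex_right _ _).trans (H.relI hP hy).2).symm ▸ H.hp) le_sup_left
    (sup_le inf_le_right inf_le_left)).resolve_left fun a => e ((le_sup_right.trans a.le).trans inf_le_left)
  have a2 : S ≤ C[y] ⊓ C[b] := fun s hs => by
    have c1 := mem_cen1.1 (hS.le hs)
    have c2 : y⁻¹ * (s * y * s⁻¹) = b * (s * b * s⁻¹)⁻¹ := by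
      calc _ = y⁻¹ * (s * (y * b)) * b⁻¹ * s⁻¹ := by group
        _ = _ := by rw [c1]; group
    have c3 : y⁻¹ * (s * y * s⁻¹) ∈ center G := by_contra fun z => H.nle hP z (a1.ge.trans (sup_le
      (fun a ha => cen1_comm.1 (mul_mem (inv_mem (cen1_comm.1 ha.1))
        (cen1_comm.1 (H.core hy (hP.pi.piElt ha.2) ha.1 s))))
      fun a ha => c2 ▸ cen1_comm.1 (mul_mem (cen1_comm.1 ha.2)
        (inv_mem (cen1_comm.1 (H.core hb (hP.pi.piElt ha.1) ha.2 s))))))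
    have c4 := comm_of_center (hS.pi.piElt hs) y1 (by
      convert Normal.conj_mem inferInstance _ c3 y using 1
      rw [commutatorElement_def]; group)
    refine ⟨mem_cen1.2 c4, mem_cen1.2 ?_⟩
    rwa [← mul_assoc, c4, mul_assoc, mul_assoc, mul_left_cancel_iff] at c1
  by_cases z : y * b ∈ center G
  · rw [cen1_eq_top_iff.2 z] at hS
    exact H.nle hS zy (a2.trans inf_le_left)
  have zb : b ∉ center G := fun e => H.hp.one_lt.ne ((cs_eq_one.2 e).symm.trans hb)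
  exact e ((H.maxp z zb hS (le_inf hle (a2.trans inf_le_right)) inf_le_right (hP.pi.inf_left _)).le.trans
    (a2.trans inf_le_left))

theorem false (H : CP G p m k) (F : NF G m k) (hk : PiNat {q} k) : False := by
  have hq := hk.prime_of_ne_one F.k1.ne'
  have dq := hk.dvd_of_ne_one F.k1.ne'
  have hqp : q ≠ p := H.hk q hq dq
  have h2 : ∀ g : G, PiElt {p} g → g ∉ center G → C[g].index = k * m := fun g a z =>
    (H.cs g z).resolve_left (H.noI F a)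
  obtain ⟨x₀, y₀, hx₀, hy₀, z₀, -⟩ := F.ex
  obtain ⟨P, hP⟩ := exists_syl p (⊤ : Subgroup G)
  obtain rfl : m = p := by
    obtain ⟨w, w1, w2, w3, w4, w5⟩ := exists_zbar' H.hp hP.pi (Nml.refl P) fun e =>
      H.nle hP z₀ (e.trans (center_le_cen1 _))
    have w6 := h2 w (hP.pi.piElt w1) w2
    obtain ⟨A, hA⟩ := exists_syl q C[w]
    have a1 : C[w] ≤ C(A) := centsC fun b hb => le_cen1.1
      (F.cenII (hP.pi.piElt w1) w6 ((hA.pi.piElt hb).pi hqp) (hA.le hb))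
    obtain ⟨R, hR, r1, r2⟩ := hP.pi.exists_syl_norms w3
    have a2 : Syl p (P ⊓ C[w]) C[w] := (r2.antisymm (le_inf (hP.le_of_normed hR.pi le_top r1) hR.le)).symm ▸ hR
    obtain ⟨b, b1, b2, b3⟩ := F.ncII hq (F.nck hq dq) ⟨w, rfl, w6⟩
    have a3 := idx_dvd_of_fpf H.hp hP.pi (hA.pi.p' hqp) (hA.norms_of_nml (cents_norm a1) w3) inf_le_left
      (inf_le_right.trans a1) (le_inf (der_le P) w4) (fun g hg => ⟨pow_mem hg _, w5 g hg⟩) (fun b hb z =>
        (H.maxp w2 z a2 (inf_le_inf_left P (a1.trans (cen_le_cen1 hb))) inf_le_right (hP.pi.inf_left _)).le)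
      fun e => b3 (e (hA.mem_of_cen b1 b2 (a1 b1)))
    rw [inf_comm, inf_relIndex_right, H.rel hP w2 a2] at a3
    exact Nat.dvd_antisymm a3 H.dm
  obtain ⟨t, ht, zt⟩ := exists_part z₀
  have e₀ := F.eqI hy₀ zt (cen1_le_cen1_constt _ _)
  rw [e₀] at hy₀
  have htp : t ≠ m := fun e => H.noI F (e ▸ piElt_constt _ _) hy₀
  obtain ⟨h, h1, h3⟩ := SetLike.not_le_iff_exists.1 (H.nle hP zt)
  have h4 : h ∉ center G := fun e => h3 (center_le_cen1 _ e)
  have h5 := hP.pi.piElt h1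
  have h6 := h2 h h5 h4
  have a1 : ∀ b ∈ C[h], PiElt {q} b → C[h] ≤ C[b] := fun b hb hb' => F.cenII h5 h6 (hb'.pi hqp) hb
  have a2 : ∀ b ∈ C[h], PiElt {q} b → b ∉ center G → C[h] = C[b] := fun b hb hb' z =>
    F.eqII ((H.cs b z).resolve_left fun e =>
      h3 (H.same hy₀ e ((piElt_constt _ _).pi htp) h5 (cen1_comm.1 hb))) (a1 b hb hb')
  obtain ⟨b, b1, b2, b3⟩ := F.ncII hq (F.nck hq dq) ⟨h, rfl, h6⟩
  have a3 : ∀ v ∈ C[h], PiElt {m} v → C[h] ≤ C[v] := fun v hv hv' => by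
    rw [a2 b b1 b2 b3] at hv h6 ⊢
    exact F.cenII b2 h6 (hv'.pi hqp.symm) hv
  exact Gd.false (C := C[h]) ⟨H.hp, ⟨h, self_mem_cen1 h, h5, h4⟩, a3, fun v hv hv' z =>
    (F.eqII (h2 v hv' z) (a3 v hv hv')).ge⟩ ⟨hq, ⟨b, b1, b2, b3⟩, a1, fun v hv hv' z => (a2 v hv hv' z).ge⟩
    hqp.symm (h6 ▸ dvd_mul_left _ _) (h6 ▸ dq.mul_right _)

end CP

theorem fg_of_cop (cs : ∀ x : G, x ∉ center G → C[x].index = m ∨ C[x].index = k * m) (hm : 1 < m) (hk : 1 < k)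
    (hc : m.Coprime k) : FG G := by
  by_contra h
  obtain ⟨k', e, F⟩ := exists_nf cs (by nlinarith) h
  obtain rfl : k = k' := Nat.eq_of_mul_eq_mul_right (by omega) e
  obtain ⟨p, hp, dp⟩ := Nat.exists_prime_and_dvd hm.ne'
  obtain ⟨q, hq, dq⟩ := Nat.exists_prime_and_dvd hk.ne'
  have ne : ∀ r : ℕ, r.Prime → r ∣ m → ¬ r ∣ k := fun r hr a b => hr.one_lt.ne' (Nat.eq_one_of_dvd_coprimes hc a b)
  have nc : ∀ r : ℕ, r.Prime → r ∣ k * m → NC r (⊤ : Subgroup G) := fun r hr a =>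
    let ⟨_, _, b, _⟩ := F.ex
    nc_of_dvd hr (b ▸ a)
  by_cases h3 : ∃ r : ℕ, r.Prime ∧ r ∣ k * m ∧ r ≠ p ∧ r ≠ q
  · obtain ⟨r, hr, dr, r1, r2⟩ := h3
    have hpq : p ≠ q := fun e => ne p hp dp (e ▸ dq)
    refine N3.false ⟨F, fun s t _ _ => ?_⟩
    by_cases a : p ≠ s ∧ p ≠ t
    · exact ⟨p, hp, a.1, a.2, nc p hp (dp.mul_left k)⟩
    by_cases b : q ≠ s ∧ q ≠ t
    · exact ⟨q, hq, b.1, b.2, nc q hq (dq.mul_right m)⟩
    exact ⟨r, hr, by omega, by omega, nc r hr dr⟩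
  push Not at h3
  exact CP.false (q := q) ⟨cs, hp, dp, fun r hr dr => by_contra fun e => ne r hr dr (h3 r hr (dr.mul_left k) e ▸ dq),
    (p'nat_iff hp).2 (ne p hp dp)⟩ F fun r hr dr => h3 r hr (dr.mul_right m) fun e => ne p hp dp (e ▸ dr)

theorem fg_struct (cs : ∀ x : G, x ∉ center G → C[x].index = m ∨ C[x].index = k * m) (hm : 1 < m) (hk : 1 < k)
    (hc : m.Coprime k) (hx : C[x].index = m) (hy : C[y].index = k * m) :
    m.Prime ∧ m ∣ k - 1 ∧ (C[x].Normal ∧ (C[x] : Set G) = {z : G | C[z].index = 1 ∨ C[z].index = m} ∧ Ab C[x]) ∧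
      (∃ N : Subgroup G, N.Normal ∧ (#N).Coprime m ∧ ∃ a : ℕ, N.index = m ^ a) ∧
      ∀ P : Subgroup G, Syl m P ⊤ → #⁅P, P⁆ = m := by
  have h := fg_of_cop cs hm hk hc
  have lt : m < k * m := by nlinarith
  have nz : ∀ z : G, C[z].index = m ∨ C[z].index = k * m → z ∉ center G := fun z a e => by
    have := cs_eq_one.2 e; omega
  have ne : ∀ r : ℕ, r.Prime → r ∣ m → ¬ r ∣ k := fun r hr a b => hr.one_lt.ne' (Nat.eq_one_of_dvd_coprimes hc a b)
  have rel : ∀ y : G, C[y].index = k * m → (center G).relIndex C[x] = k * (center G).relIndex C[y] := fun y hy => by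
    have a := rel_center x
    rw [← rel_center y, hx, hy] at a
    exact Nat.eq_of_mul_eq_mul_right (by omega : 0 < m) (by rw [a]; ring)
  have n1 : ∀ r : ℕ, r.Prime → r ∣ m → NC r C[x] := fun r hr a => by
    obtain ⟨b, -, b1, b2⟩ := nc_of_dvd hr (hx ▸ a)
    have c : NC r C[b] := ⟨b, self_mem_cen1 b, b1, b2⟩
    rcases cs b b2 with e | e
    · exact c.of_index hr (e.trans hx.symm)
    · exact (nc_iff hr).2 (rel b e ▸ ((nc_iff hr).1 c).mul_left k)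
  obtain ⟨p, hp, dp⟩ := Nat.exists_prime_and_dvd hm.ne'
  obtain ⟨q, hq, dq⟩ := Nat.exists_prime_and_dvd hk.ne'
  have hpq : p ≠ q := fun e => ne p hp dp (e ▸ dq)
  have n2 : NC q C[x] := (nc_iff hq).2 (rel y hy ▸ dq.mul_right _)
  have hB : Big x := ⟨nz x (Or.inl hx), p, q, hp, hq, hpq, n1 p hp dp, n2⟩
  have hT := h.ca hB
  have hm' : PiNat {p} m := fun r hr a => by_contra fun e =>
    (hT.gd hr (n1 r hr a)).false (hT.gd hp (n1 p hp dp)) e (hx ▸ a) (hx ▸ dp)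
  have hk' : PiNat {p}ᶜ k := (p'nat_iff hp).2 (ne p hp dp)
  have sol := sol_top.2 (ito cs lt)
  obtain ⟨v, v1, v2, v3⟩ := n2
  obtain ⟨u, u1, u2, u3⟩ := n1 p hp dp
  have s1 : ∀ r : ℕ, r.Prime → r ≠ p → O[{r}]((⊤ : Subgroup G)) ≤ C[x] := fun r hr e =>
    let ⟨_, a, b⟩ := exists_syl_le_of_not_dvd hr (H := C[x]) fun c => e (hm' r hr (hx ▸ c))
    (pcore_le_syl a).trans b
  have nO : ∀ (π : Set ℕ) (X : Subgroup G), X ≤ N(O[π]((⊤ : Subgroup G))) := fun π X => le_top.trans (pcore_nrm _ _)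
  have v4 : v ∈ O[{q}]((⊤ : Subgroup G)) := v2.zpowers.le_pcore_of_le_fitting ((le_inf le_top
    (centsC (fitting_le_of_forall_pcore fun r hr => by
      by_cases e : r = p
      · subst e
        refine centsC (p_times_q u2.zpowers (pcore_pi _ _) (v2.zpowers.p' hpq.symm)
          (hT.ab.cents (zpowers_le.2 v1) (zpowers_le.2 u1)) (nO _ _) (nO _ _) (inf_le_right.trans ?_))
        rw [cen_zpowers, cen_zpowers, hT.cen u u1 u3, hT.cen v v1 v3]
      · rw [cen_zpowers, hT.cen v v1 v3]; exact s1 r hr e))).trans (cent_sub_Fitting sol)) (mem_zpowers v)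
  haveI hN : C[x].Normal := normalizer_eq_top_iff.1 (eq_top_iff.2 fun g _ => cj_eq_self.1 (by
    conv_lhs => rw [← hT.cen v v1 v3, cj_cen1]
    exact hT.cen _ (s1 q hq hpq.symm ((mem_normalizer_iff.1 (nO _ ⊤ (mem_top g)) v).1 v4)) (conj_not_center g v3)))
  have s2 : ∀ z : G, C[z].index = m → z ∈ C[x] := fun z hz => by
    obtain ⟨g, hg⟩ := h.conj hB (hx.trans hz.symm)
    rw [cj_of_mem_nrm (le_nrm_of_normal ⊤ _ (mem_top g))] at hg
    exact hg.ge (self_mem_cen1 z)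
  have hK := hT.ab.nil.pcore_hall {p}ᶜ
  have nK : ∀ X : Subgroup G, X ≤ N(O[{p}ᶜ](C[x])) := fun X => norms_pcore _ (le_nrm_of_normal _ _)
  generalize O[{p}ᶜ](C[x]) = K at hK nK
  have iK : PiNat {p} K.index := by
    rw [← relIndex_mul_index hK.le, hx]
    exact PiNat.mul (by simpa using hK.idx) hm'
  have cK : C[x] ≤ C(K) := hT.ab.cents hK.le le_rfl
  have iP : ∀ P, Syl p P ⊤ → C[x].relIndex P = m ∧ u ∈ C[x] ⊓ P := fun P hP =>
    ⟨(CP.relI ⟨cs, hp, dp, hm', hk'⟩ hP hx).2, (hP.inf_nml' ⟨le_top, le_nrm_of_normal _ _⟩).mem_of_cen u1 u2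
      (hT.ab.cents inf_le_left le_rfl u1)⟩
  obtain ⟨P₀, hP₀⟩ := exists_syl p (⊤ : Subgroup G)
  obtain rfl : m = p := by
    obtain ⟨w, w1, w2, -, w4, w5⟩ := exists_zbar' hp hP₀.pi (H := C[x] ⊓ P₀)
      ⟨inf_le_right, normsI (le_nrm_of_normal _ _) (le_nrm _)⟩ fun e => u3 (e (iP _ hP₀).2)
    rw [hT.cen w w1.1 w2] at w4 w5
    have a3 := idx_dvd_of_fpf hp hP₀.pi hK.pi (nK _) inf_le_right (inf_le_left.trans cK) (le_inf w4 (der_le P₀))
      (fun g hg => ⟨w5 g hg, pow_mem hg _⟩) (fun b hb z => by rw [hT.cen b (hK.le hb) z, inf_comm])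
      fun e => v3 (e (hK.mem_of_cen v1 (v2.pi hpq.symm) (cK v1)))
    rw [inf_relIndex_right, (iP _ hP₀).1] at a3
    exact Nat.dvd_antisymm a3 dp
  have s3 : ∀ P, Syl m P ⊤ → ∃ g ∈ P, g ∉ C[x] ∧ C[g].index = k * m ∧ C[x] ⊓ C[g] = center G := fun P hP => by
    obtain ⟨g, g1, g2⟩ := SetLike.not_le_iff_exists.1 (CP.nle ⟨cs, hp, dp, hm', hk'⟩ hP hB.1)
    exact ⟨g, g1, g2, (cs g fun e => g2 (hT.z e)).resolve_left fun e => g2 (s2 g e), le_antisymm
      (fun t ht => by_contra fun z => g2 ((hT.cen t ht.1 z).le (cen1_comm.1 ht.2))) (le_inf hT.z (center_le_cen1 g))⟩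
  refine ⟨hp, ?_, ⟨hN, Set.ext fun z => ⟨fun hz => (em _).imp cs_eq_one.2 fun e => (hT.cen z hz e).symm ▸ hx,
    fun hz => hz.elim (fun e => hT.z (cs_eq_one.1 e)) (s2 z)⟩, hT.ab⟩,
    ⟨K, normalizer_eq_top_iff.1 (eq_top_iff.2 (nK _)), (p'nat_iff_coprime hp).1 hK.pi,
      iK.exists_pow (index_pos' _).ne'⟩, fun P hP => ?_⟩
  · obtain ⟨g, g1, -, g3, -⟩ := s3 P₀ hP₀
    have a1 := P22.card_modEq_cen hp (hP₀.pi.piElt g1).zpowers (nK _)
    have a2 := relIndex_mul_index (le_sup_right : C[g] ≤ K ⊔ C[g])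
    rw [(mulEq_sup (nK _)).relIndex_right, g3] at a2
    have a3 : C[g].relIndex K = k := eq_of_piNat_mul (π := {m}ᶜ) (PiNat.of_dvd hK.pi (relIndex_dvd _ _))
      (by rw [compl_compl]; exact iK.of_dvd (index_dvd_of_le le_sup_left)) hk' (by rw [compl_compl]; exact hm') a2
    rw [cen_zpowers, ← FT.card_inf_mul_relIndex C[g] K, a3, inf_comm] at a1
    refine (Nat.modEq_iff_dvd' hk.le).1 (Nat.ModEq.cancel_left_of_coprime (c := #(K ⊓ C[g] : Subgroup G))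
      ((p'nat_iff_coprime hp).1 (hK.pi.inf_left _)).symm ?_)
    rw [mul_one]; exact a1.symm
  · obtain ⟨g, g1, g2, g3, g4⟩ := s3 P hP
    have a1 : (C[x] ⊓ P) ⊔ ⟪g⟫ = P := (eq_or_eq_of_prime_relIndex
      (((inf_relIndex_right _ _).trans (iP P hP).1).symm ▸ hp) le_sup_left (sup_le inf_le_right
        (zpowers_le.2 g1))).resolve_left fun a => g2 (a.le (mem_sup_right (mem_zpowers g))).1
    have a2 := H3.card_der_of_ab (hT.ab.mono (inf_le_left : C[x] ⊓ P ≤ _))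
      (normsI (le_nrm_of_normal _ _) (le_nrm P) g1)
    have a3 : (C[x] ⊓ P) ⊓ C[g] = center G ⊓ (C[x] ⊓ P) := by
      rw [inf_right_comm, g4, ← inf_assoc, inf_eq_left.2 hT.z]
    rw [a1, a3, ← FT.card_inf_mul_relIndex (center G) (C[x] ⊓ P)] at a2
    rw [← Nat.eq_of_mul_eq_mul_left (card_pos _) a2]
    have a4 : (center G).relIndex C[g] ∣ m := by
      rw [← g4, inf_relIndex_right]; exact (relIndex_dvd_index_of_normal _ _).trans hx.dvd
    have a5 := relIndex_dvd_of_norm (A := center G) (inf_le_left : C[x] ⊓ P ≤ _) (le_nrm_of_normal _ _)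
    rw [rel g g3] at a5
    exact ((Nat.dvd_prime hp).1 ((PiNat.dvd_of_dvd_mul_left (PiNat.of_dvd (hP.pi.inf_right _) (relIndex_dvd _ _))
      hk' a5).trans a4)).resolve_left (one_lt_relIndex fun e => u3 (e (iP P hP).2)).ne'

end Cfsg.Agent.H8.Ito
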