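import Mathlib

/-! S3348: piece t1. -/

set_option autoImplicit false
set_option linter.unusedVariables false

namespace Cfsg.Agent.H10.Am

open Subgroup

universe u

set_option synthInstance.maxSize 4096 in
set_option synthInstance.maxHeartbeats 400000 in
theorem t1h8_s3 : ∀ B S C : Equiv.Perm (Fin 3), B ≠ 1 → B * B * B = 1 → S * B * S⁻¹ = B⁻¹ → C * S = S * C →
    C = 1 ∨ C * S = 1 := by decide +kernel

theorem t1_h8 {L : Type u} [Group L] [Finite L] {b s c : L} (hb : orderOf b = 3)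
    (cb : ∀ g, Commute g b → g ∈ zpowers b) (sb : s*b*s⁻¹ = b⁻¹) (cs : Commute c s) (N : Subgroup L) [N.Normal]
    (h3 : (Nat.card N).Coprime 3) (hq : Nat.card (L ⧸ N) = 3 ∨ Nonempty (L ⧸ N ≃* Equiv.Perm (Fin 3))) :
    (c*b)^3 = 1 ∨ (c*s*b)^3 = 1 := by
  have hn : N.Normal := inferInstance
  have b3 : b ^ 3 = 1 := hb ▸ pow_orderOf_eq_one b
  have triv : ∀ x ∈ N, x ∈ zpowers b → x = 1 := fun x hx hz => by
    have h1 : orderOf x ∣ Nat.card N := N.orderOf_dvd_natCard hx
    have h2 : orderOf x ∣ 3 := hb ▸ orderOf_dvd_of_mem_zpowers hz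
    exact orderOf_eq_one_iff.1 (Nat.eq_one_of_dvd_coprimes h3 h1 h2)
  have key : ∀ x ∈ N, (x * b) ^ 3 = 1 := fun x hx => by
    let φ : N → N := fun y => ⟨y * (b * (y : L)⁻¹ * b⁻¹), mul_mem y.2 (hn.conj_mem _ (inv_mem y.2) b)⟩
    have inj : Function.Injective φ := fun y y' e => by
      have e1 : (y : L) * (b * (y : L)⁻¹ * b⁻¹) = y' * (b * (y' : L)⁻¹ * b⁻¹) := congrArg Subtype.val e
      have e2 : Commute ((y' : L)⁻¹ * y) b := by
        show (y' : L)⁻¹ * y * b = b * ((y' : L)⁻¹ * y)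
        calc (y' : L)⁻¹ * y * b = (y' : L)⁻¹ * (y * (b * (y : L)⁻¹ * b⁻¹)) * b * y := by group
          _ = _ := by rw [e1]; group
      have e3 := triv _ (mul_mem (inv_mem y'.2) y.2) (cb _ e2)
      exact Subtype.ext (inv_mul_eq_one.1 e3).symm
    obtain ⟨y, hy⟩ := Finite.surjective_of_injective inj ⟨x, hx⟩
    have e1 : (y : L) * (b * (y : L)⁻¹ * b⁻¹) = x := congrArg Subtype.val hy
    have e2 : x * b = y * b * (y : L)⁻¹ := by rw [← e1]; group
    rw [e2, conj_pow, b3, mul_one, mul_inv_cancel]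
  have b1 : (QuotientGroup.mk' N b) ≠ 1 := fun e => by
    have := triv b ((QuotientGroup.eq_one_iff b).1 e) (mem_zpowers b)
    rw [this, orderOf_one] at hb; omega
  have q3 : QuotientGroup.mk' N b * QuotientGroup.mk' N b * QuotientGroup.mk' N b = 1 := by
    rw [← map_mul, ← map_mul, ← pow_three', b3, map_one]
  have qs : QuotientGroup.mk' N s * QuotientGroup.mk' N b * (QuotientGroup.mk' N s)⁻¹ = (QuotientGroup.mk' N b)⁻¹ := by
    rw [← map_inv, ← map_mul, ← map_mul, sb, map_inv]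
  rcases hq with hq | ⟨⟨e⟩⟩
  · haveI : Fact (Nat.Prime 3) := ⟨Nat.prime_three⟩
    haveI := isCyclic_of_prime_card hq
    have cm : QuotientGroup.mk' N s * QuotientGroup.mk' N b = QuotientGroup.mk' N b * QuotientGroup.mk' N s := by
      letI := IsCyclic.commGroup (α := L ⧸ N)
      exact mul_comm _ _
    rw [cm, mul_inv_cancel_right] at qs
    refine (b1 ?_).elim
    have : QuotientGroup.mk' N b * QuotientGroup.mk' N b = 1 := by
      nth_rewrite 2 [qs]; exact mul_inv_cancel _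
    rwa [this, one_mul] at q3
  · have := t1h8_s3 (e (QuotientGroup.mk' N b)) (e (QuotientGroup.mk' N s)) (e (QuotientGroup.mk' N c))
      (fun h => b1 (e.map_eq_one_iff.1 h)) (by rw [← map_mul, ← map_mul, q3, map_one])
      (by rw [← map_inv, ← map_mul, ← map_mul, qs, map_inv])
      (by rw [← map_mul, ← map_mul, ← map_mul, ← map_mul, cs.eq])
    rcases this with h | h
    · exact Or.inl (key c ((QuotientGroup.eq_one_iff c).1 (e.map_eq_one_iff.1 h)))
    · rw [← map_mul, ← map_mul] at h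
      exact Or.inr (key _ ((QuotientGroup.eq_one_iff _).1 (e.map_eq_one_iff.1 h)))

end Cfsg.Agent.H10.Am
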