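import Mathlib
import Cfsg.Agent.H7.Berger

/-! Average size of fixed point subgroups over a coset of an abelian coprime group of
automorphisms; primitive character degrees and class sizes.  OWNER: helper8. -/

namespace Cfsg.Agent.H8.Avg
open Cfsg Cfsg.Agent.H7
open scoped commutatorElement

section A
variable {V : Type*} [CommGroup V]

/-- fixed points -/
def fx (a : MulAut V) : Subgroup V := a.toMonoidHom.eqLocus (MonoidHom.id V)

theorem mem_fx {a : MulAut V} {v : V} : v ∈ fx a ↔ a v = v := Iff.rfl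

/-- fixed points of a subgroup -/
def fxs (H : Subgroup (MulAut V)) : Subgroup V := ⨅ h ∈ H, fx h

theorem mem_fxs {H : Subgroup (MulAut V)} {v : V} : v ∈ fxs H ↔ ∀ h ∈ H, h v = v := by
  simp [fxs, Subgroup.mem_iInf, mem_fx]

variable [Finite V]

/-- the trace map -/
noncomputable def tr (H : Subgroup (MulAut V)) : V →* V :=
  letI := Fintype.ofFinite H
  ∏ h : H, (h : MulAut V).toMonoidHom

theorem tr_apply (H : Subgroup (MulAut V)) [Fintype H] (v : V) :
    tr H v = ∏ h : H, (h : MulAut V) v := by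
  rw [tr, MonoidHom.finsetProd_apply]
  congr!

theorem tr_conj {H : Subgroup (MulAut V)} {g : MulAut V} (hg : g ∈ Subgroup.normalizer (H : Set _))
    (v : V) : tr H (g v) = g (tr H v) := by
  letI := Fintype.ofFinite H
  rw [tr_apply, tr_apply, map_prod]
  refine (Fintype.prod_equiv (H.normalizerMonoidHom ⟨g, hg⟩).toEquiv _ _ fun h => ?_).symm
  change g (h.1 v) = (g * h.1 * g⁻¹) (g v)
  simp [MulAut.mul_apply]

theorem tr_mem (H : Subgroup (MulAut V)) (v : V) : tr H v ∈ fxs H := by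
  letI := Fintype.ofFinite H
  refine mem_fxs.2 fun h hh => ?_
  rw [tr_apply, map_prod]
  exact Fintype.prod_equiv (Equiv.mulLeft (⟨h, hh⟩ : H)) _ _ fun k => rfl

theorem tr_inv {H : Subgroup (MulAut V)} {U : Subgroup V} (hU : ∀ h ∈ H, ∀ v ∈ U, h v ∈ U)
    {v : V} (hv : v ∈ U) : tr H v ∈ U := by
  letI := Fintype.ofFinite H
  rw [tr_apply]
  exact U.prod_mem fun h _ => hU h h.2 v hv

theorem tr_fix {H : Subgroup (MulAut V)} (hc : (Nat.card H).Coprime (Nat.card V)) {v : V}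
    (hv : v ∈ fxs H) (h : tr H v = 1) : v = 1 := by
  letI := Fintype.ofFinite H
  rw [tr_apply, Finset.prod_congr rfl fun (k : H) _ => mem_fxs.1 hv k k.2, Finset.prod_const,
    Finset.card_univ, ← Nat.card_eq_fintype_card] at h
  exact orderOf_eq_one_iff.1 (Nat.eq_one_of_dvd_coprimes hc (orderOf_dvd_of_pow_eq_one h)
    (orderOf_dvd_natCard v))

theorem card_mul_dvd {A B U : Subgroup V} (hA : A ≤ U) (hB : B ≤ U) (h : A ⊓ B = ⊥) :
    Nat.card A * Nat.card B = Nat.card (A ⊔ B :) ∧ Nat.card A * Nat.card B ∣ Nat.card U := by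
  have e : Nat.card A * Nat.card B = Nat.card (A ⊔ B :) := by
    have h1 := Subgroup.relIndex_sup_left (H := B) (K := A)
    have h2 := Subgroup.card_mul_index (A.subgroupOf (A ⊔ B))
    have h3 := Subgroup.card_mul_index (A.subgroupOf B)
    rw [← Subgroup.inf_subgroupOf_right, h, Subgroup.bot_subgroupOf, Subgroup.card_bot, one_mul,
      ← Subgroup.bot_subgroupOf, ← h, Subgroup.inf_subgroupOf_right] at h3
    rw [Nat.card_congr (Subgroup.subgroupOfEquivOfLe le_sup_left).toEquiv] at h2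
    rw [← h2, ← h3]
    exact congrArg _ h1.symm
  exact ⟨e, e ▸ Subgroup.card_dvd_of_le (sup_le hA hB)⟩

end A

theorem card_dvd_ker_im {G H : Type*} [Group G] [Group H] [Finite G] [Finite H] (f : G →* H)
    {X A : Subgroup G} {B : Subgroup H} (hA : ∀ x ∈ X, f x = 1 → x ∈ A) (hB : ∀ x ∈ X, f x ∈ B) :
    Nat.card X ∣ Nat.card A * Nat.card B := by
  rw [← Subgroup.card_mul_index (f.ker.subgroupOf X)]
  refine mul_dvd_mul ?_ ?_
  · rw [← Subgroup.inf_subgroupOf_right,
      Nat.card_congr (Subgroup.subgroupOfEquivOfLe inf_le_right).toEquiv]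
    exact Subgroup.card_dvd_of_le fun x hx => hA x hx.2 hx.1
  · rw [← Subgroup.relIndex, Subgroup.relIndex_ker]
    exact Subgroup.card_dvd_of_le (Subgroup.map_le_iff_le_comap.2 hB)

/-- `p`-adic valuation of the order -/
noncomputable def vc (p : ℕ) (X : Type*) : ℕ := (Nat.card X).factorization p

theorem vc_le {p : ℕ} {X Y Z : Type*} [Finite X] [Finite Y] [Finite Z] [Nonempty X] [Nonempty Y]
    [Nonempty Z] (h : Nat.card X ∣ Nat.card Y * Nat.card Z) : vc p X ≤ vc p Y + vc p Z := by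
  have := (Nat.factorization_le_iff_dvd Nat.card_pos.ne'
    (mul_ne_zero Nat.card_pos.ne' Nat.card_pos.ne')).2 h p
  rwa [Nat.factorization_mul Nat.card_pos.ne' Nat.card_pos.ne'] at this

theorem le_vc {p : ℕ} {X Y Z : Type*} [Finite X] [Finite Y] [Finite Z] [Nonempty X] [Nonempty Y]
    [Nonempty Z] (h : Nat.card Y * Nat.card Z ∣ Nat.card X) : vc p Y + vc p Z ≤ vc p X := by
  have := (Nat.factorization_le_iff_dvd (mul_ne_zero Nat.card_pos.ne' Nat.card_pos.ne')
    Nat.card_pos.ne').2 h p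
  rwa [Nat.factorization_mul Nat.card_pos.ne' Nat.card_pos.ne'] at this

theorem vc_eq {p : ℕ} {X Y Z : Type*} [Finite Y] [Finite Z] [Nonempty Y]
    [Nonempty Z] (h : Nat.card Y * Nat.card Z = Nat.card X) : vc p Y + vc p Z = vc p X := by
  rw [vc, vc, vc, ← h, Nat.factorization_mul Nat.card_pos.ne' Nat.card_pos.ne']; rfl

section B
variable {V : Type*} [CommGroup V] [Finite V]

theorem avg (p : ℕ) {N : Subgroup (MulAut V)} [Fintype N] (hN : ∀ a ∈ N, ∀ b ∈ N, a * b = b * a)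
    (hc : (Nat.card N).Coprime (Nat.card V)) {g : MulAut V}
    (hg : g ∈ Subgroup.normalizer (N : Set (MulAut V))) : ∀ (k : ℕ) (U : Subgroup V),
    Nat.card U = k → (∀ v ∈ U, g v ∈ U) → (∀ n ∈ N, ∀ v ∈ U, n v ∈ U) → U ⊓ fxs N = ⊥ →
    2 * ∑ n : N, vc p (U ⊓ fx (g * n) :) ≤ Nat.card N * vc p U := by
  intro k
  induction k using Nat.strong_induction_on with
  | _ k ih =>
  intro U hk hUg hUN hf
  by_cases hU : U = ⊥
  · subst hU; simp [vc]
  obtain ⟨H, -, hH⟩ := exists_maximal_ge_of_wellFoundedGT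
    (fun H : Subgroup (MulAut V) => H ≤ N ∧ U ⊓ fxs H ≠ ⊥) ⊥ ⟨bot_le, by
      rwa [inf_eq_left.2 fun v _ => mem_fxs.2 fun h hh => by rw [Subgroup.mem_bot.1 hh]; rfl]⟩
  obtain ⟨⟨hHN, hW⟩, hmax⟩ := hH
  set W := U ⊓ fxs H with hWd
  have hcH : (Nat.card H).Coprime (Nat.card V) :=
    hc.coprime_dvd_left (Subgroup.card_dvd_of_le hHN)
  have nN : ∀ n ∈ N, n ∈ Subgroup.normalizer (H : Set (MulAut V)) := fun n hn =>
    Subgroup.centralizer_le_normalizer _ fun h hh => hN h (hHN hh) n hn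
  have cg : ∀ n ∈ N, g * n * g⁻¹ ∈ N := fun n hn => (Subgroup.mem_normalizer_iff.1 hg n).1 hn
  have sr : ∀ n ∈ N, n ∉ H → ∀ v ∈ W, n v = v → v = 1 := fun n hn hnH v hv e => by
    by_contra h1
    refine hnH (hmax (y := H ⊔ Subgroup.zpowers n) ⟨sup_le hHN (Subgroup.zpowers_le.2 hn), ?_⟩
      le_sup_left (Subgroup.mem_sup_right (Subgroup.mem_zpowers n)))
    refine fun hb => h1 (Subgroup.mem_bot.1 (hb ▸ ⟨hv.1, mem_fxs.2 ?_⟩))
    have : H ⊔ Subgroup.zpowers n ≤ MulAction.stabilizer (MulAut V) v :=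
      sup_le (fun h hh => mem_fxs.1 hv.2 h hh) (Subgroup.zpowers_le.2 e)
    exact fun h hh => this hh
  let D : Subgroup V := U ⊓ ⨅ i : ℕ, (tr H).ker.comap (g ^ i : MulAut V).toMonoidHom
  have mD : ∀ v, v ∈ D ↔ v ∈ U ∧ ∀ i : ℕ, tr H ((g ^ i) v) = 1 := fun v => by
    simp [D, Subgroup.mem_iInf]
  have DW : D ⊓ W = ⊥ := eq_bot_iff.2 fun v hv =>
    tr_fix hcH hv.2.2 (by simpa using ((mD v).1 hv.1).2 0)
  have cgi : ∀ (i : ℕ), ∀ n ∈ N, g ^ i * n * (g ^ i)⁻¹ ∈ N := fun i n hn =>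
    (Subgroup.mem_normalizer_iff.1 (pow_mem hg i) n).1 hn
  have IH := ih (Nat.card D) (by
      rw [← hk]
      refine lt_of_le_of_ne (Subgroup.card_le_of_le inf_le_left) fun e => hW ?_
      rw [← DW, Subgroup.eq_of_le_of_card_ge (H := D) inf_le_left e.ge]
      exact (inf_eq_right.2 inf_le_left).symm) D rfl
    (fun v hv => (mD _).2 ⟨hUg v hv.1, fun i => by
      have := ((mD v).1 hv).2 (i + 1); rwa [pow_succ] at this⟩)
    (fun n hn v hv => (mD _).2 ⟨hUN n hn v hv.1, fun i => by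
      have e : (g ^ i) (n v) = (g ^ i * n * (g ^ i)⁻¹) ((g ^ i) v) := by simp [MulAut.mul_apply]
      rw [e, tr_conj (nN _ (cgi i n hn)), ((mD v).1 hv).2 i, map_one]⟩)
    (eq_bot_iff.2 (hf ▸ inf_le_inf_right _ inf_le_left))
  have ker : ∀ n ∈ N, ∀ v ∈ U ⊓ fx (g * n), tr H v = 1 → v ∈ D ⊓ fx (g * n) := by
    refine fun n hn v hv e => ⟨(mD v).2 ⟨hv.1, fun i => ?_⟩, hv.2⟩
    obtain ⟨m, hm, e'⟩ : ∃ m ∈ N, (g ^ i) v = m v := by
      induction i with
      | zero => exact ⟨1, one_mem _, rfl⟩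
      | succ i ih' =>
        obtain ⟨m, hm, e'⟩ := ih'
        refine ⟨g * (m * n⁻¹) * g⁻¹, cg _ (mul_mem hm (inv_mem hn)), ?_⟩
        have h2 : g (n v) = v := hv.2
        rw [pow_succ', MulAut.mul_apply, e']
        conv_rhs => rw [← h2]
        simp [MulAut.mul_apply]
    rw [e', tr_conj (nN m hm), e, map_one]
  have im : ∀ v ∈ U, tr H v ∈ W := fun v hv =>
    ⟨tr_inv (fun h hh => hUN h (hHN hh)) hv, tr_mem H v⟩
  by_cases hgH : g ∈ Subgroup.normalizer (H : Set (MulAut V))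
  · obtain ⟨m, hm, hmH⟩ : ∃ m ∈ N, m ∉ H := by
      by_contra! h
      exact hW (by rw [hWd, le_antisymm hHN h, hf])
    have h1 : ∀ n : N, vc p (U ⊓ fx (g * n) :) ≤ vc p (D ⊓ fx (g * n) :) +
        vc p (W ⊓ fx (g * n) :) := fun n => vc_le (card_dvd_ker_im (tr H) (ker n n.2)
      fun v hv => ⟨im v hv.1, mem_fx.2 (by
        rw [← tr_conj (mul_mem hgH (nN n n.2)), mem_fx.1 hv.2])⟩)
    have h2 : ∀ n : N, vc p (W ⊓ fx (g * n) :) + vc p (W ⊓ fx (g * (n * ⟨m, hm⟩ : N)) :) ≤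
        vc p W := fun n => le_vc (card_mul_dvd inf_le_left inf_le_left (eq_bot_iff.2
      fun v hv => sr m hm hmH v hv.1.1 (by
        have a : (g * n) v = v := hv.1.2
        have b : (g * (n * m)) v = v := hv.2.2
        rw [← mul_assoc, MulAut.mul_apply] at b
        exact (g * n).injective (b.trans a.symm)))).2
    have h3 := Finset.sum_le_sum fun n (_ : n ∈ Finset.univ) => h2 n
    rw [Finset.sum_add_distrib, Fintype.sum_equiv (Equiv.mulRight (⟨m, hm⟩ : N))
      (fun n => vc p (W ⊓ fx (g * (n * ⟨m, hm⟩ : N)) :)) (fun n => vc p (W ⊓ fx (g * n) :))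
      fun _ => rfl, Finset.sum_const, Finset.card_univ,
      ← Nat.card_eq_fintype_card, smul_eq_mul] at h3
    have h4 := Finset.sum_le_sum fun n (_ : n ∈ Finset.univ) => h1 n
    rw [Finset.sum_add_distrib] at h4
    have h5 := Nat.mul_le_mul_left (Nat.card N)
      (le_vc (p := p) (card_mul_dvd (A := D) (B := W) (U := U) inf_le_left inf_le_left DW).2)
    rw [mul_add] at h5
    omega
  · obtain ⟨m, hm, hmH⟩ : ∃ m ∈ H, g * m * g⁻¹ ∉ H := by
      by_contra! h
      exact hgH (Subgroup.mem_normalizer_fintype (S := (H : Set (MulAut V))) h)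
    set W' := W.map g.toMonoidHom with hW'
    have cW : Nat.card W' = Nat.card W := Subgroup.card_map_of_injective g.injective
    have W'U : W' ≤ U := by rintro _ ⟨v, hv, rfl⟩; exact hUg v hv.1
    have DW' : D ⊓ W' = ⊥ := eq_bot_iff.2 (by
      rintro _ ⟨hD, v, hv, rfl⟩
      have := ((mD _).1 hD).2 (orderOf g - 1)
      rw [MulEquiv.coe_toMonoidHom, ← MulAut.mul_apply, ← pow_succ,
        Nat.sub_add_cancel (orderOf_pos g), pow_orderOf_eq_one] at this
      rw [tr_fix hcH hv.2 this, map_one]; exact one_mem _)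
    have DWW : (D ⊔ W') ⊓ W = ⊥ := eq_bot_iff.2 (by
      rintro v ⟨hv, hvW⟩
      obtain ⟨d, hd, _, ⟨w, hw, rfl⟩, rfl⟩ := Subgroup.mem_sup.1 hv
      refine tr_fix hcH hvW.2 ?_
      have e1 : tr H d = 1 := by simpa using ((mD d).1 hd).2 0
      rw [map_mul, e1, one_mul]
      refine sr _ (cg m (hHN hm)) hmH _ (im _ (hUg w hw.1)) ?_
      rw [← tr_conj (nN _ (cg m (hHN hm)))]
      simp [MulAut.mul_apply, mem_fxs.1 hw.2 m hm])
    have h1 : ∀ n : N, vc p (U ⊓ fx (g * n) :) ≤ vc p (D ⊓ fx (g * n) :) + vc p W := fun n =>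
      vc_le (card_dvd_ker_im (tr H) (ker n n.2) fun v hv => im v hv.1)
    have h4 := Finset.sum_le_sum fun n (_ : n ∈ Finset.univ) => h1 n
    rw [Finset.sum_add_distrib, Finset.sum_const, Finset.card_univ,
      ← Nat.card_eq_fintype_card, smul_eq_mul] at h4
    have h5 := vc_eq (p := p) (card_mul_dvd (A := D) (U := U) inf_le_left W'U DW').1
    have h6 := le_vc (p := p) (card_mul_dvd (A := D ⊔ W') (B := W) (U := U)
      (sup_le inf_le_left W'U) inf_le_left DWW).2
    have h7 : vc p W' = vc p W := by rw [vc, cW, vc]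
    rw [← h5, h7] at h6
    have h8 := Nat.mul_le_mul_left (Nat.card N) h6
    rw [mul_add, mul_add] at h8
    omega

omit [Finite V] in
theorem fxs_inv {N : Subgroup (MulAut V)} {g : MulAut V}
    (hg : g ∈ Subgroup.normalizer (N : Set (MulAut V))) {v : V} (hv : v ∈ fxs N) : g v ∈ fxs N :=
  mem_fxs.2 fun n hn => by
    have := mem_fxs.1 hv _ ((Subgroup.mem_normalizer_iff''.1 hg n).1 hn)
    conv_rhs => rw [← this]
    simp [MulAut.mul_apply]

theorem fxs_ne {p : ℕ} [Fact p.Prime] (hV : p ∣ Nat.card V) {N : Subgroup (MulAut V)}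
    (hN : IsPGroup p N) : fxs N ≠ ⊥ := fun h => by
  obtain ⟨b, hb, h1⟩ := hN.exists_fixed_point_of_prime_dvd_card_of_fixed_point V hV
    (a := 1) fun n => map_one n.1
  exact h1 (Subgroup.mem_bot.1 (h ▸ mem_fxs.2 fun n hn => hb ⟨n, hn⟩)).symm

variable {G : Type*} [Group G] {ρ : G →* MulAut V}
  (irr : ∀ U : Subgroup V, (∀ g, ∀ v ∈ U, ρ g v ∈ U) → U = ⊥ ∨ U = ⊤)
include irr

theorem triv_p {p : ℕ} [Fact p.Prime] (hV : p ∣ Nat.card V) {N : Subgroup (MulAut V)}
    (hN : IsPGroup p N) (hn : ∀ g, ρ g ∈ Subgroup.normalizer (N : Set (MulAut V))) : N = ⊥ := by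
  have := (irr _ fun g v => fxs_inv (hn g)).resolve_left (fxs_ne hV hN)
  exact eq_bot_iff.2 fun n hn => MulEquiv.ext fun v => mem_fxs.1 (this ▸ Subgroup.mem_top v) n hn

theorem avg_irr [Fintype G] [Group.IsSolvable G] {q : ℕ} [Fact q.Prime] (hV : IsPGroup q V)
    (h1 : ρ.range ≠ ⊥) (p : ℕ) : 2 * ∑ g, vc p (fx (ρ g)) ≤ Nat.card G * vc p V := by
  haveI := (Subgroup.nontrivial_iff_ne_bot _).2 h1
  haveI := Group.isSolvable_of_surjective ρ.rangeRestrict_surjective
  obtain ⟨M, hM⟩ := H2.exists_isMinNormal (G := ρ.range)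
  obtain ⟨r, hr, hMr⟩ := hM.exists_isPGroup
  haveI := Fact.mk hr
  haveI := hM.isMulCommutative
  set N := M.map ρ.range.subtype with hN
  letI := Fintype.ofFinite N
  have N1 : N ≠ ⊥ := fun h => hM.2.1 ((Subgroup.map_eq_bot_iff_of_injective _
    ρ.range.subtype_injective).1 h)
  have hn : ∀ g, ρ g ∈ Subgroup.normalizer (N : Set (MulAut V)) := fun g =>
    Subgroup.mem_normalizer_fintype (by
      rintro _ ⟨m, hm, rfl⟩; exact ⟨_, hM.1.conj_mem m hm ⟨ρ g, g, rfl⟩, rfl⟩)
  have hc : (Nat.card N).Coprime (Nat.card V) := by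
    by_cases e : r ∣ Nat.card V
    · exact absurd (triv_p irr e (hMr.map _) hn) N1
    obtain ⟨a, ha⟩ := (hMr.map ρ.range.subtype).exists_card_eq
    rw [ha]; exact ((Nat.Prime.coprime_iff_not_dvd hr).2 e).pow_left _
  have hf : ⊤ ⊓ fxs N = ⊥ := by
    rw [top_inf_eq]
    refine (irr _ fun g v => fxs_inv (hn g)).resolve_right fun h => N1 ?_
    exact eq_bot_iff.2 fun n hn => MulEquiv.ext fun v => mem_fxs.1 (h ▸ Subgroup.mem_top v) n hn
  have key := fun g => avg p (by
    rintro _ ⟨a, ha, rfl⟩ _ ⟨b, hb, rfl⟩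
    exact congrArg Subtype.val (setLike_mul_comm ha hb)) hc (hn g) _ ⊤
    rfl (fun _ _ => trivial) (fun _ _ _ _ => trivial) hf
  have h2 := Finset.sum_le_sum fun g (_ : g ∈ Finset.univ) => key g
  have h3 : ∀ n : N, ∑ g, vc p (⊤ ⊓ fx (ρ g * n.1) :) = ∑ g, vc p (fx (ρ g)) := by
    rintro ⟨_, ⟨_, y, rfl⟩, hy, rfl⟩
    exact Fintype.sum_equiv (Equiv.mulRight y) _ _ fun g => by simp
  rw [← Finset.mul_sum, Finset.sum_comm, Finset.sum_congr rfl fun n _ => h3 n, Finset.sum_const,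
    Finset.sum_const, Finset.card_univ, Finset.card_univ, ← Nat.card_eq_fintype_card,
    ← Nat.card_eq_fintype_card, smul_eq_mul, smul_eq_mul, mul_left_comm, mul_left_comm (Nat.card G),
    vc, Subgroup.card_top] at h2
  exact Nat.le_of_mul_le_mul_left h2 Nat.card_pos

end B

section C
variable {G : Type*} [Group G]

/-- `z` centralises the chief factors of order divisible by `p` -/
def Tp (p : ℕ) (z : G) : Prop :=
  ∀ L K : Subgroup G, IsChief L K → p ∣ L.relIndex K → ∀ k ∈ K, ⁅z, k⁆ ∈ L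

theorem irr_min {Q : Type*} [Group Q] {V : Subgroup Q} [V.Normal] (hV : H2.IsMinNormal V)
    {π : G →* Q} (hπ : Function.Surjective π) (U : Subgroup V)
    (h : ∀ g, ∀ v ∈ U, (MulAut.conjNormal.comp π) g v ∈ U) : U = ⊥ ∨ U = ⊤ := by
  refine (hV.2.2 (U.map V.subtype) ⟨?_⟩ (Subgroup.map_subtype_le U)).imp
    (Subgroup.map_eq_bot_iff_of_injective _ V.subtype_injective).1 fun e => ?_
  · rintro _ ⟨v, hv, rfl⟩ x
    obtain ⟨g, rfl⟩ := hπ x
    exact ⟨_, h g v hv, rfl⟩
  · exact Subgroup.map_injective V.subtype_injective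
      (by rw [e, ← MonoidHom.range_eq_map, Subgroup.range_subtype])

theorem tp_of [Finite G] [Group.IsSolvable G] {p : ℕ} [Fact p.Prime] {M : Subgroup G} [M.Normal]
    (hM : ∀ x ∈ M, ∃ k : ℕ, x ^ p ^ k ∈ fittingSubgroup G) {z : G} (hz : z ∈ M) : Tp p z := by
  intro L K h hp k hk
  haveI := h.normal_left
  have hm := h.isMinNormal_map (QuotientGroup.mk'_surjective L) (QuotientGroup.ker_mk' L)
  haveI := hm.1
  haveI := hm.isMulCommutative
  set V := K.map (QuotientGroup.mk' L)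
  letI : CommGroup V := { (inferInstance : Group V) with mul_comm := mul_comm' }
  let ρ : G →* MulAut V := MulAut.conjNormal.comp (QuotientGroup.mk' L)
  have := triv_p (ρ := ρ) (irr_min hm (QuotientGroup.mk'_surjective L)) (p := p)
    (by rwa [IsChief.card_map (QuotientGroup.ker_mk' L)]) (N := M.map ρ) (by
      rintro ⟨_, x, hx, rfl⟩
      obtain ⟨j, hj⟩ := hM x hx
      refine ⟨j, Subtype.ext (MulEquiv.ext fun v => Subtype.ext ?_)⟩
      haveI := (H2.fittingSubgroup_normal (G := G)).map _ (QuotientGroup.mk'_surjective L)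
      haveI := H2.fittingSubgroup_isNilpotent (G := G)
      have := hm.le_centralizer_fittingSubgroup v.2 _ (H2.le_fittingSubgroup
        (Group.nilpotent_of_surjective _ ((QuotientGroup.mk' L).subgroupMap_surjective _))
        ⟨_, hj, rfl⟩)
      rw [SubmonoidClass.coe_pow, ← map_pow]
      change QuotientGroup.mk' L (x ^ p ^ j) * v.1 * (QuotientGroup.mk' L (x ^ p ^ j))⁻¹ = v.1
      rw [this, mul_inv_cancel_right]) fun g => Subgroup.mem_normalizer_fintype (by
        rintro _ ⟨m, hm, rfl⟩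
        exact ⟨_, ‹M.Normal›.conj_mem m hm g, by simp only [map_mul, map_inv]⟩)
  have e : ρ z = 1 := Subgroup.mem_bot.1 (this ▸ ⟨z, hz, rfl⟩)
  have e2 := congrArg Subtype.val (MulEquiv.congr_fun e ⟨_, k, hk, rfl⟩)
  rw [← QuotientGroup.eq_one_iff, ← QuotientGroup.mk'_apply, map_commutatorElement,
    commutatorElement_def, mul_inv_eq_one]
  exact e2

theorem sq_le {N : Type*} [Group N] [Finite G] [Finite N] {f : N →* G} (hf : IsNE f) {φ : N → ℂ}
    (hφ : IsIrrCharacter N φ) {θ : G → ℂ} (hθ : IsIrrCharacter G θ) {c : ℂ}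
    (h : (fun n => θ (f n)) = c • φ) :
    ∃ e, charDegree θ = e * charDegree φ ∧ e ∣ f.range.index ∧ e * e ≤ f.range.index := by
  have t1 : θ 1 ≠ 0 := by
    rw [char_one_eq (irr_char hθ)]; exact_mod_cast (irr_degree_pos hθ).ne'
  obtain ⟨e, h1, h2⟩ := hf.deg_ratio hφ hθ (ip_ne_zero_of_eq_smul hφ h (by rwa [map_one]))
  refine ⟨e, h1, h2, ?_⟩
  have hc : c = e := by
    have := congrFun h 1
    rw [map_one, char_one_eq (irr_char hθ), Pi.smul_apply, char_one_eq (irr_char hφ), h1,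
      Nat.cast_mul, smul_eq_mul] at this
    exact (mul_right_cancel₀ (by exact_mod_cast (irr_degree_pos hφ).ne') this).symm
  have h3 : ip (ind f φ) θ = e := by
    rw [ip_ind_left f φ (irr_cf hθ), ← ip_conj_symm, h, ip_smul_left, ip_irr_self hφ, hc]; simp
  have := degree_le_of_ip (char_ind f (irr_char hφ)) hθ h3 (char_one_eq (char_ind f (irr_char hφ)))
    (char_one_eq (irr_char hθ))
  rw [deg_ind hf.inj (irr_char hφ), h1, ← mul_assoc] at this
  exact Nat.le_of_mul_le_mul_right this (irr_degree_pos hφ)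

theorem step [Fintype G] [Group.IsSolvable G] {p : ℕ} [hp : Fact p.Prime] {L K : Subgroup G}
    (h : IsChief L K) {e : ℕ} (h1 : e ∣ L.relIndex K) (h2 : e * e ≤ L.relIndex K) :
    ∃ F : G → ℕ, (∀ g z, Tp p z → F g + vc p (K ⊓ Subgroup.centralizer {g * z} :) + vc p L ≤
      vc p (L ⊓ Subgroup.centralizer {g * z} :) + vc p K) ∧
      Nat.card G * e.factorization p ≤ ∑ g, F g := by
  haveI := h.normal_left
  have hm := h.isMinNormal_map (QuotientGroup.mk'_surjective L) (QuotientGroup.ker_mk' L)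
  haveI := hm.1
  haveI := hm.isMulCommutative
  have cV := IsChief.card_map (K := K) (QuotientGroup.ker_mk' L)
  set V := K.map (QuotientGroup.mk' L)
  letI : CommGroup V := { (inferInstance : Group V) with mul_comm := mul_comm' }
  let ρ : G →* MulAut V := MulAut.conjNormal.comp (QuotientGroup.mk' L)
  have le1 : ∀ a : MulAut V, vc p (fx a) ≤ vc p V := fun a =>
    (Nat.factorization_le_iff_dvd Nat.card_pos.ne' Nat.card_pos.ne').2
      (Subgroup.card_subgroup_dvd_card _) p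
  refine ⟨fun g => vc p V - vc p (fx (ρ g)), fun g z hz => ?_, ?_⟩
  · have a1 : vc p L + vc p V = vc p K := vc_eq (by
      rw [cV, ← Nat.card_congr (Subgroup.subgroupOfEquivOfLe h.lt.le).toEquiv]
      exact Subgroup.card_mul_index _)
    have a2 : vc p (K ⊓ Subgroup.centralizer {g * z} :) ≤
        vc p (L ⊓ Subgroup.centralizer {g * z} :) + vc p ((fx (ρ (g * z))).map V.subtype) :=
      vc_le (card_dvd_ker_im (QuotientGroup.mk' L)
        (fun x hx e => ⟨(QuotientGroup.eq_one_iff x).1 e, hx.2⟩) fun x hx =>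
          ⟨⟨_, x, hx.1, rfl⟩, Subtype.ext (by
            change QuotientGroup.mk' L (g * z) * QuotientGroup.mk' L x *
              (QuotientGroup.mk' L (g * z))⁻¹ = QuotientGroup.mk' L x
            rw [← map_mul, hx.2 _ rfl, map_mul, mul_inv_cancel_right]), rfl⟩)
    rw [vc, vc, vc, Subgroup.card_map_of_injective V.subtype_injective, ← vc, ← vc, ← vc] at a2
    have a3 := le1 (ρ g)
    have a4 := le1 (ρ (g * z))
    by_cases hd : p ∣ L.relIndex K
    · have : ρ z = 1 := MulEquiv.ext (by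
        rintro ⟨_, k, hk, rfl⟩
        have := (QuotientGroup.eq_one_iff _).2 (hz L K h hd k hk)
        rw [← QuotientGroup.mk'_apply, map_commutatorElement, commutatorElement_def,
          mul_inv_eq_one] at this
        exact Subtype.ext this)
      rw [map_mul, this, mul_one] at a2
      dsimp only; omega
    · have : vc p V = 0 := by rw [vc, cV]; exact Nat.factorization_eq_zero_of_not_dvd hd
      dsimp only; omega
  by_cases hd : p ∣ e
  swap
  · rw [Nat.factorization_eq_zero_of_not_dvd hd]; exact Nat.zero_le _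
  obtain ⟨q, k, hq, -, hk, -⟩ := h.exists_prime_pow
  obtain rfl : p = q := (Nat.prime_dvd_prime_iff_eq hp.out hq).1
    (hp.out.dvd_of_dvd_pow (hk ▸ hd.trans h1))
  rw [hk] at h1 h2
  obtain ⟨j, -, rfl⟩ := (Nat.dvd_prime_pow hq).1 h1
  rw [← pow_add, Nat.pow_le_pow_iff_right hq.one_lt] at h2
  have vV : vc p V = k := by rw [vc, cV, hk, hq.factorization_pow, Finsupp.single_eq_same]
  rw [hq.factorization_pow, Finsupp.single_eq_same]
  by_cases hc : ρ.range = ⊥
  · have := isMinNormal_card_prime_of_le_center hm fun v hv => Subgroup.mem_center_iff.2 fun x => by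
      obtain ⟨g, rfl⟩ := QuotientGroup.mk'_surjective L x
      have e : ρ g = 1 := Subgroup.mem_bot.1 (hc ▸ ⟨g, rfl⟩)
      exact mul_inv_eq_iff_eq_mul.1 (congrArg Subtype.val (MulEquiv.congr_fun e ⟨v, hv⟩))
    rw [cV, hk, Nat.prime_iff, prime_pow_iff] at this
    obtain rfl : j = 0 := by omega
    simp
  have := avg_irr (ρ := ρ) (irr_min hm (QuotientGroup.mk'_surjective L))
    (IsPGroup.of_card (cV.trans hk)) hc p
  have a5 : ∑ g, (vc p V - vc p (fx (ρ g))) + ∑ g, vc p (fx (ρ g)) = Nat.card G * vc p V := by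
    rw [← Finset.sum_add_distrib, Finset.sum_congr rfl fun g _ => Nat.sub_add_cancel (le1 _),
      Finset.sum_const, Finset.card_univ, Nat.card_eq_fintype_card, smul_eq_mul]
  have a6 := Nat.mul_le_mul_left (Nat.card G) h2
  rw [mul_add, ← vV] at a6
  dsimp only
  omega

theorem chain [Fintype G] [Group.IsSolvable G] {p : ℕ} [Fact p.Prime] {χ : G → ℂ}
    (hχ : IsIrrCharacter G χ) (hp : IsPrim χ) : ∀ (n : ℕ) (K : Subgroup G) [K.Normal],
    Nat.card K = n → ∀ (θ : K → ℂ) (c : ℂ), IsIrrCharacter K θ → (fun k : K => χ k) = c • θ →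
    ∃ F : G → ℕ, (∀ g z, Tp p z → F g + vc p (K ⊓ Subgroup.centralizer {g * z} :) ≤ vc p K) ∧
      Nat.card G * (charDegree θ).factorization p ≤ ∑ g, F g := by
  intro n
  induction n using Nat.strong_induction_on with
  | _ n ih =>
  intro K _ hn θ c hθ hc
  by_cases hK : K = ⊥
  · subst hK
    refine ⟨0, fun g z _ => by simp, ?_⟩
    rw [comm_iff_deg.1 (fun a b => Subsingleton.elim _ _) θ hθ]; simp
  obtain ⟨L, -, h⟩ := exists_chief_below (bot_lt_iff_ne_bot.2 hK)
  haveI := h.normal_left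
  obtain ⟨φ, d, hφ, hd⟩ := hp.homog hχ (isNE_subtype L)
  have c0 : c ≠ 0 := by
    rintro rfl
    have := congrFun hc 1
    rw [OneMemClass.coe_one, char_one_eq (irr_char hχ), zero_smul, Pi.zero_apply] at this
    exact (irr_degree_pos hχ).ne' (by exact_mod_cast this)
  have hr : (Subgroup.inclusion h.lt.le).range = L.subgroupOf K := Subgroup.inclusion_range _
  obtain ⟨e, e1, e2, e3⟩ := sq_le (f := Subgroup.inclusion h.lt.le)
    ⟨Subgroup.inclusion_injective _, hr ▸ inferInstance⟩ hφ hθ (c := c⁻¹ * d) (funext fun x => by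
      have a := congrFun hc (Subgroup.inclusion h.lt.le x)
      have b := congrFun hd x
      simp only [Pi.smul_apply, smul_eq_mul, Subgroup.coe_inclusion, Subgroup.coe_subtype] at a b ⊢
      rw [mul_assoc, ← b, a, inv_mul_cancel_left₀ c0])
  rw [hr] at e2 e3
  obtain ⟨F, F1, F2⟩ := ih _ (hn ▸ lt_of_le_of_ne (Subgroup.card_le_of_le h.lt.le) fun e =>
    h.lt.ne (Subgroup.eq_of_le_of_card_ge h.lt.le e.ge)) L rfl φ d hφ hd
  obtain ⟨E, E1, E2⟩ := step (p := p) h e2 e3
  refine ⟨F + E, fun g z hz => ?_, ?_⟩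
  · have := F1 g z hz; have := E1 g z hz; rw [Pi.add_apply]; omega
  · have e0 : e ≠ 0 := by rintro rfl; exact (irr_degree_pos hθ).ne' (by simpa using e1)
    simp only [Pi.add_apply]
    rw [e1, Nat.factorization_mul e0 (irr_degree_pos hφ).ne', Finsupp.add_apply, mul_add,
      Finset.sum_add_distrib]
    omega

theorem prim_deg [Finite G] [Group.IsSolvable G] (p : ℕ) [Fact p.Prime] {χ : G → ℂ}
    (hχ : IsIrrCharacter G χ) (hp : IsPrim χ) : ∃ g : G, ∀ z, Tp p z →
    (charDegree χ).factorization p ≤ (Subgroup.centralizer {g * z}).index.factorization p := by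
  letI := Fintype.ofFinite G
  obtain ⟨F, F1, F2⟩ := chain (p := p) hχ hp _ ⊤ rfl (fun k => χ k) 1
    (irr_comp_surjective (⊤ : Subgroup G).subtype Subgroup.topEquiv.surjective hχ) (one_smul _ _).symm
  rw [show charDegree (fun k : (⊤ : Subgroup G) => χ k) = charDegree χ from
    deg_comp (⊤ : Subgroup G).subtype χ] at F2
  obtain ⟨g, -, hg⟩ := Finset.exists_le_of_sum_le (s := Finset.univ) Finset.univ_nonempty
    (f := fun _ : G => (charDegree χ).factorization p) (g := F) (by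
      rwa [Finset.sum_const, Finset.card_univ, ← Nat.card_eq_fintype_card, smul_eq_mul])
  refine ⟨g, fun z hz => ?_⟩
  have a := F1 g z hz
  rw [top_inf_eq, vc, vc, Subgroup.card_top, ← Subgroup.card_mul_index (Subgroup.centralizer {g * z}),
    Nat.factorization_mul Nat.card_pos.ne' Subgroup.index_ne_zero_of_finite, Finsupp.add_apply] at a
  omega

theorem tp_one (p : ℕ) : Tp p (1 : G) := fun L _ _ _ _ _ => by simp

theorem isPrim_of [Fintype G] {χ : G → ℂ} (h : ¬ ∃ H : Subgroup G, H ≠ ⊤ ∧ ∃ θ : H → ℂ,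
    IsCharacter H θ ∧ indFun H θ = χ) : IsPrim χ := fun U θ hθ e => by
  by_contra hU
  exact h ⟨U, hU, θ, hθ, ind_subtype U θ ▸ e⟩

end C

end Cfsg.Agent.H8.Avg
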