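import Cfsg.Agent.H7.Bf0
import Cfsg.Agent.H27.G2DE
import Cfsg.Agent.H29.G2N
import Cfsg.Agent.FT.BG01

/-! S1741: piece b4. -/

set_option autoImplicit false
set_option linter.unusedSectionVars false
set_option linter.unusedVariables false

namespace Cfsg.Agent.H7.Bf

open Subgroup Cfsg.Agent.H19.Gt Cfsg.Agent.H1.G2 Cfsg.Agent.FT

universe u

variable {G : Type u} {K : Type*} [Group G] [Finite G] [CommGroup K] {τ : K × K →* G} {u v : G} {z : K}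
  {S : Sylow 2 G} {X : Subgroup G}

theorem b4_sq (h : Gz (S : Subgroup G) τ u v z) (h4 : Nat.card K = 4) {q : G} (hq : q ∈ h.Q) :
    q * q ∈ ⟪τ (z, z)⟫ := by
  have g := h.toGs
  obtain ⟨a, rfl | rfl⟩ := hq
  · have k : a * a * (a * a) = 1 := by
      have := pow_card_eq_one' (x := a)
      rw [h4] at this
      rw [← this]; simp [pow_succ, mul_assoc]
    rw [tm, ← mul_inv]
    rcases h.inv2 k with e | e
    · rw [e, inv_one, t1]; exact one_mem _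
    · rw [e, h.zi]; exact mem_zpowers _
  · rw [mul_assoc, g.vt', g.vv, mul_one, tm, mul_left_comm, mul_inv_cancel, mul_one, inv_mul_cancel_right]
    exact mem_zpowers _

theorem b4_sc (gz : Gz (S : Subgroup G) τ u v z) (h4 : Nat.card K = 4) (cen : ∀ g, g * τ (z, z) = τ (z, z) * g)
    (nml : X.Normal) (inf : (S : Subgroup G) ⊓ X = gz.M) : IsStronglyClosed gz.Q (S : Subgroup G) := by
  haveI := nml
  have zc : ∀ g, ∀ x ∈ ⟪τ (z, z)⟫, g * x = x * g := by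
    rintro g _ ⟨i, rfl⟩
    exact (Commute.zpow_right (cen g) i).eq
  haveI nt : (⟪τ (z, z)⟫).Normal := ⟨fun x hx g => by rwa [zc g x hx, mul_inv_cancel_right]⟩
  have sq : ∀ s ∈ gz.M, s * s ∈ ⟪τ (z, z)⟫ := fun s hs => by
    obtain ⟨a, ha, b, hb, rfl⟩ := gz.M_eq hs
    rw [mul_assoc, ← mul_assoc b, ← gz.Q_comm ha hb, mul_assoc, ← mul_assoc]
    exact mul_mem (gz.fl_t ▸ b4_sq gz.flp h4 ha) (b4_sq gz h4 hb)
  have cm : ∀ a ∈ gz.M, ∀ b ∈ gz.M, a * b * a⁻¹ * b⁻¹ ∈ ⟪τ (z, z)⟫ := fun a ha b hb => by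
    rw [show a * b * a⁻¹ * b⁻¹ = a * b * (a * b) * (b⁻¹ * (a * a)⁻¹ * b) * (b * b)⁻¹ by group]
    exact mul_mem (mul_mem (sq _ (mul_mem ha hb)) (nt.conj_mem' _ (inv_mem (sq a ha)) b)) (inv_mem (sq b hb))
  have MX : gz.M ≤ X := inf ▸ inf_le_right
  refine ⟨gz.Q_le.trans gz.M_le, fun q hq g hg => ?_⟩
  have hb : g * q * g⁻¹ ∈ gz.M := inf ▸ ⟨hg, nml.conj_mem _ (MX (gz.Q_le hq)) g⟩
  let π := QuotientGroup.mk' ⟪τ (z, z)⟫
  have mem : ∀ k b : G, k ∈ C[π b].comap π ↔ k * b * k⁻¹ * b⁻¹ ∈ ⟪τ (z, z)⟫ := fun k b => by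
    rw [mem_comap, mem_cen1, ← QuotientGroup.eq_one_iff (N := ⟪τ (z, z)⟫),
      show ((k * b * k⁻¹ * b⁻¹ : G) : G ⧸ ⟪τ (z, z)⟫) = π (k * b * k⁻¹ * b⁻¹) from rfl, map_mul, map_mul, map_mul,
      map_inv, map_inv, mul_inv_eq_one, mul_inv_eq_iff_eq_mul]
  have h1 : Syl 2 gz.M X := inf ▸ (syl_top Nat.prime_two S).inf_nml (nml_top_iff.2 nml)
  have h2 := h1.subl_inf (K := C[π (g * q * g⁻¹)].comap π) fun m hm => (mem _ _).2 (cm m hm _ hb)
  obtain ⟨k, hk, e⟩ := h2.syl_Jsub (Q := cj g gz.M) (h1.pi.cj g) fun x hx => by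
    obtain ⟨m, hm, rfl⟩ : ∃ m ∈ gz.M, x = g * m * g⁻¹ := ⟨_, mem_cj.1 hx, by group⟩
    refine ⟨nml.conj_mem _ (MX hm) g, (mem _ _).2 ?_⟩
    have := nt.conj_mem _ (cm m hm q (gz.Q_le hq)) g
    rwa [show g * (m * q * m⁻¹ * q⁻¹) * g⁻¹ =
      g * m * g⁻¹ * (g * q * g⁻¹) * (g * m * g⁻¹)⁻¹ * (g * q * g⁻¹)⁻¹ by group] at this
  rw [cj_cj] at e
  have h3 := pN gz cen (n := k * g) (fun s hs => e (conj_mem_cj.2 hs)) hq
  have h5 := zpowers_le.2 gz.tQ ((mem _ _).1 hk.2)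
  rwa [show k * g * q * (k * g)⁻¹ = k * (g * q * g⁻¹) * k⁻¹ * (g * q * g⁻¹)⁻¹ * (g * q * g⁻¹) by group,
    mul_mem_cancel_left h5] at h3

theorem b4_cl (H : Cw S τ u v z) {s : G} (hs : s ∈ H.gz.M) (e1 : s * s = 1) (e2 : s ≠ 1) (e3 : s ≠ τ (z, z)) :
    IsConj s (τ (z, 1)) ∨ IsConj s u := by
  have h := H.gz
  have g := h.toGs
  have fe := (H.fe s (h.M_le hs)).2
  obtain ⟨a, b, q, rfl | rfl | rfl | rfl⟩ := hs
  · rw [tm, g.teq1] at e1
    rcases h.inv2 e1.1 with rfl | rfl <;> rcases h.inv2 e1.2 with e | e <;> rw [e] at fe e2 e3 ⊢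
    · exact absurd (t1 τ) e2
    · exact .inl (fe (.inr (.inl rfl)))
    · exact .inl (fe (.inl rfl))
    · exact absurd rfl e3
  · by_cases ha : IsSquare a
    · have hb : IsSquare b := by simpa using ha.inv.mul q
      obtain ⟨c, rfl⟩ := ha
      obtain ⟨d, rfl⟩ := hb
      exact .inr (isConj_iff.2 ⟨τ (c, d), by rw [tinv, mul_assoc, g.ut, tm', inv_inv, inv_inv]⟩).symm
    · exact .inl (fe (.inr (.inr ⟨a, b, ha, fun hb => ha (by simpa using q.mul hb.inv), rfl⟩)))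
  · exact .inr (H.cv.trans (isConj_iff.2 ⟨_, (g.invv e1).symm⟩)).symm
  · exact .inr (H.cw.trans (isConj_iff.2 ⟨_, (g.invw e1).symm⟩)).symm

theorem b4_X (H : Cw S τ u v z) : ∃ X : Subgroup G, X.Normal ∧ (S : Subgroup G) ⊓ X = H.gz.M := by
  have h := H.gz
  have := h.fin
  have g := h.toGs
  obtain ⟨κ, k1, k2⟩ := de_nsq h.cyc h.four
  have n1 : τ (κ, 1) ∉ h.M := by
    rintro ⟨a, b, e, f | f | f | f⟩
    · obtain ⟨rfl, rfl⟩ := g.teq.1 f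
      exact k1 (by rwa [mul_one] at e)
    · exact h.ne_u _ _ _ _ f.symm
    · exact h.ne_v _ _ _ _ f.symm
    · exact h.ne_w _ _ _ _ f.symm
  have n2 : ∀ s ∈ (S : Subgroup G), τ (κ, 1) * s ∈ h.M ∨ s ∈ h.M := fun s hs => by
    obtain ⟨a, b, e⟩ := (g.mem _).1 hs
    rcases k2 (a * b) with q | q
    · exact .inr ⟨a, b, q, e⟩
    · refine .inl ⟨κ * a, 1 * b, by rwa [one_mul, mul_assoc], ?_⟩
      rcases e with rfl | rfl | rfl | rfl
      · exact .inl (tm ..)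
      · exact .inr (.inl (tm' ..))
      · exact .inr (.inr (.inl (tm' ..)))
      · exact .inr (.inr (.inr (tm' ..)))
  have idx : h.M.relIndex (S : Subgroup G) = 2 :=
    index_eq_two_iff_exists_notMem_and'.2 ⟨⟨τ (κ, 1), g.tS _ _⟩, n1, fun s => n2 s.1 s.2⟩
  have xx : τ (κ, 1) * u * (τ (κ, 1) * u) = 1 := by
    rw [mul_assoc, g.ut', g.uu, mul_one, tm]; simp [t1]
  have x1 : τ (κ, 1) * u ≠ 1 := t1 τ ▸ h.ne_u _ _ _ _
  have xo : orderOf (τ (κ, 1) * u) = 2 := orderOf_eq_prime (by rw [pow_two, xx]) x1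
  have xM : τ (κ, 1) * u ∉ h.M := fun e => n1 (by
    have := mul_mem e h.uM
    rwa [mul_assoc, g.uu, mul_one] at this)
  rcases Cfsg.Agent.S0111.result S h.M h.M_le idx _ xo (mul_mem (g.tS _ _) g.uS) xM with
    ⟨X, hn, hi, hx⟩ | ⟨c, hcM⟩
  · obtain ⟨ρ, r, -⟩ := h.rho
    have yX : τ (z, 1) ∈ X := by
      have := mul_self_mem_of_index_two hi (τ (ρ, 1))
      rwa [tm, r, mul_one] at this
    have cj : ∀ {a b : G}, IsConj a b → b ∈ X → a ∈ X := fun {a b} e hb => by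
      obtain ⟨c, hc⟩ := isConj_iff.1 e.symm
      exact hc ▸ hn.conj_mem _ hb c
    have uX : u ∈ X := by
      have e1 := mul_self_mem_of_index_two hi (τ (κ, 1) * v)
      rw [mul_assoc, g.vt', g.vv, mul_one, tm, mul_one, one_mul] at e1
      exact (mul_mem_cancel_left e1).1 (cj ((H.fe _ (mul_mem (g.tS _ _) g.uS)).2
        (.inr (.inr ⟨κ, κ, k1, k1, rfl⟩))) yX)
    have MX : h.M ≤ X := h.M_gen fun s hs e1 e2 e3 => (b4_cl H hs e1 e2 e3).elim (cj · yX) (cj · uX)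
    refine ⟨X, hn, le_antisymm (fun s hs => ?_) (le_inf h.M_le MX)⟩
    refine (n2 s hs.1).resolve_left fun e => hx (mul_mem ?_ (MX h.uM))
    exact (X.mul_mem_cancel_right hs.2).1 (MX e)
  · exfalso
    have k : IsConj (τ (κ, 1) * u) (c * (τ (κ, 1) * u) * c⁻¹) := isConj_iff.2 ⟨c, rfl⟩
    rcases b4_cl H hcM (by rw [cj_mul, xx]; simp) (fun e => x1 (H19.Gt.cj_one.1 e)) (fun e => h.ne_u κ 1 z z (by
      calc τ (κ, 1) * u = c⁻¹ * (c * (τ (κ, 1) * u) * c⁻¹) * c := by group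
        _ = τ (z, z) := by rw [e, H.cen]; group)) with e | e
    · rcases (H.fe _ (mul_mem (g.tS _ _) g.uS)).1 (k.trans e) with f | f | ⟨a, b, -, hb, f⟩
      · exact h.ne_u _ _ _ _ f
      · exact h.ne_u _ _ _ _ f
      · rw [mul_left_inj, g.teq] at f
        exact hb (f.2 ▸ IsSquare.one)
    · exact H.nx κ k1 (k.trans e)

theorem b4 (h : Cw S τ u v z) : IsStronglyClosed h.gz.Q (S : Subgroup G) ∧
    IsStronglyClosed h.gz.flp.Q (S : Subgroup G) := by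
  obtain ⟨X, h1, h2⟩ := b4_X h
  exact ⟨b4_sc h.gz h.four h.cen h1 h2,
    b4_sc h.gz.flp h.four (h.gz.fl_t.symm ▸ h.cen) h1 (h.gz.flp_M.symm ▸ h2)⟩

end Cfsg.Agent.H7.Bf
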