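import Mathlib
import Cfsg.Agent.H8.Star4
import Cfsg.Agent.H9.OT
import Cfsg.Agent.H9.SL5
import Cfsg.Agent.H9.Dict3
import Cfsg.Agent.H9.Quot
import Cfsg.Agent.S0972
import Cfsg.Agent.FT.BG01

/-!
Blocks with a normal defect group whose characters of height zero have equal degrees.
-/

set_option autoImplicit false

namespace Cfsg.Agent.H8.EqDeg

open Cfsg MonoidAlgebra H9
open Subgroup (zpowers)

local notation:max "𝐂 " Q:max => Subgroup.centralizer (SetLike.coe Q)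
local notation:max "𝐍 " Q:max => Subgroup.normalizer (SetLike.coe Q)

section Fus
variable {F : Type*} [Field F] [IsAlgClosed F] {p : ℕ} [Fact p.Prime] [CharP F p] {G : Type*}
  [Group G] [Finite G] {b e₀ : F[G]} {D : Subgroup G} [hn : D.Normal]

omit [Finite G] in
theorem cg_normal (x : G) : cg x D = D :=
  mem_normalizer_iff_cg.1 (top_le_normalizer_of_normal D trivial)

theorem exists_cent_cj (h : MaxPair p ⊤ b D e₀) (Q : Subgroup G) : ∀ f e : F[G], IsPair p ⊤ D e →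
    SubLE p ⊤ Q f D e → SubLE p ⊤ Q f D e₀ → ∃ c ∈ 𝐂 Q, H9.cj c e = e₀ := by
  induction Q using WellFoundedGT.induction with
  | _ Q ih =>
  intro f e he h1 h2
  rcases h1.le.eq_or_lt with rfl | hlt
  · exact ⟨1, one_mem _, by rw [← h1.eq_of_self, h2.eq_of_self, cj_one]⟩
  have hR := lt_inf_normalizer h.isP hlt
  set R := D ⊓ 𝐍 Q with hRd
  have he₀ := h.pair.1
  obtain ⟨g, hg⟩ := exists_subLE he (inf_le_left : R ≤ D)
  obtain ⟨g', hg'⟩ := exists_subLE he₀ (inf_le_left : R ≤ D)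
  have hn1 := (h1.between he hg hR.le).nsub (hg.isPair_left he) inf_le_right
  have hn2 := (h2.between he₀ hg' hR.le).nsub (hg'.isPair_left he₀) inf_le_right
  have hfp := (h.pairOf h2).1
  have hL : R ⊔ ⊤ ⊓ (𝐂 Q) ≤ pstab ⊤ Q f :=
    sup_le (h2.inf_normalizer_le_pstab he₀ h.le) hfp.centralizer_le_pstab
  have hN := le_normalizer_of_le_pstab hL
  have hD : IsDef p (R ⊔ ⊤ ⊓ (𝐂 Q)) f R := by
    obtain ⟨D', hD', h3⟩ := h.exists_def_ge h2 le_sup_right hL
    obtain ⟨t, -, -, h4, -⟩ := h.exists_conj_def le_top (h.pairOf h2) hL hD'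
    have h5 : D' ≤ D := by
      have := cg_mono t⁻¹ (h4 ▸ inf_le_left : cg t D' ≤ D)
      rwa [cg_inv_cg, cg_normal] at this
    rwa [le_antisymm (le_inf h5 (hD'.le.trans (hL.trans (pstab_le.trans inf_le_right))))
      ((le_inf inf_le_left le_sup_left).trans h3)] at hD'
  have conv : ∀ {eX : F[G]}, NSub p ⊤ Q f R eX → IsPairOf p (⊤ ⊓ 𝐂 Q) f R eX := fun hn =>
    ⟨⟨le_sup_left.trans hN, hn.2.1.isP, by
      rw [inf_assoc, inf_eq_right.2 (Subgroup.centralizer_le hn.2.2.1)]; exact hn.2.1.blk⟩,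
      hn.2.2.2.2.2⟩
  obtain ⟨t, ht, h3⟩ := hD.exists_cj_pair le_sup_right hN (hfp.isPrim_loc le_sup_right hL)
    (conv hn1) (conv hn2)
  obtain ⟨n, hn, c, hc, rfl⟩ := (H18.mem_sup_of_le_normalizer (le_sup_left.trans hN)).1 ht.1
  have hcN : c ∈ 𝐍 R := by
    simpa using mul_mem (inv_mem (Subgroup.le_normalizer hn)) ht.2
  have h4 : H9.cj c g = g' := by
    rw [← hn2.2.1.cj_self (inv_mem hn), ← h3, cj_cj, inv_mul_cancel_left]
  have h5 := hg.conj (x := c) (Subgroup.le_normalizer trivial)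
  rw [mem_normalizer_iff_cg.1 hcN, h4, cg_normal] at h5
  have h6 := he.conj (x := c) (Subgroup.le_normalizer trivial)
  rw [cg_normal] at h6
  obtain ⟨c', hc', h7⟩ := ih R hR g' _ h6 h5 hg'
  exact ⟨c' * c, mul_mem (Subgroup.centralizer_le hR.le hc') hc.2, by rw [← cj_cj, h7]⟩

theorem isNil_of_normal (h : MaxPair p ⊤ b D e₀)
    (hc : ∀ x ∈ pstab ⊤ D e₀, ¬ p ∣ orderOf x → x ∈ 𝐂 D) : IsNil p ⊤ b := by
  refine h.isNil_iff_subLE.2 fun Q f hle x hx hr => ?_
  obtain ⟨-, hxN, hxf⟩ := mem_pstab.1 hx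
  have h1 := hle.conj (x := x) (Subgroup.le_normalizer trivial)
  rw [mem_normalizer_iff_cg.1 hxN, hxf, cg_normal] at h1
  have h2 := h.pair.1.conj (x := x) (Subgroup.le_normalizer trivial)
  rw [cg_normal] at h2
  obtain ⟨c, hcQ, h3⟩ := exists_cent_cj h Q f _ h2 h1 hle
  have h4 : c * x ∈ pstab ⊤ D e₀ :=
    mem_pstab.2 ⟨trivial, top_le_normalizer_of_normal D trivial, by rw [← cj_cj, h3]⟩
  have h5 : c * x ∈ 𝐍 Q := mul_mem (Subgroup.centralizer_le_normalizer _ hcQ) hxN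
  refine mem_of_mem_sup_of_pReg (P := zpowers (pPart p (c * x)))
    (isPGroup_zpowers (orderOf_pPart _)) ((Subgroup.zpowers_le.2 (pPart_mem h5)).trans
      (normalizer_le_normalizer_centralizer Q)) ?_ hr
  have := mul_mem (Subgroup.mem_sup_right (inv_mem hcQ)) (Subgroup.mul_mem_sup
    (Subgroup.mem_zpowers (pPart p (c * x))) (Subgroup.centralizer_le hle.le
      (hc _ (pReg_mem (p := p) h4) (not_dvd_orderOf_pReg _))))
  rwa [pPart_mul_pReg, inv_mul_cancel_left] at this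

end Fus

section Quot
variable {M : Ideal AlgInt} [hMm : M.IsMaximal] {p : ℕ} [hp : Fact p.Prime] [hM : PMod M p]
  {G H : Type*} [Group G] [Finite G] [Group H] [Finite H] {φ : G →* H} {D : Subgroup G}
  [hn : D.Normal]

theorem cent_of_quot (hφ : Function.Surjective φ) (hk : φ.ker ≤ D)
    (hC : ∀ x, ¬ p ∣ orderOf x → φ x ∈ 𝐂 (D.map φ) → x ∈ 𝐂 D) {b e : (resField M)[G]}
    {a u : (resField M)[H]} (h : MaxPair p ⊤ b D e) (h' : MaxPair p ⊤ a (D.map φ) u)
    (hab : em _ φ b * a = a) (hu : pstab ⊤ (D.map φ) u ≤ 𝐂 (D.map φ)) {x : G}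
    (hx : x ∈ pstab ⊤ D e) (hr : ¬ p ∣ orderOf x) : x ∈ 𝐂 D := by
  haveI := hn.map φ hφ
  have hK : ((⊤ ⊓ 𝐂 D).map φ).Normal := Subgroup.Normal.map inferInstance φ hφ
  have hKC : (⊤ ⊓ 𝐂 D).map φ ≤ ⊤ ⊓ 𝐂 (D.map φ) := by
    rintro _ ⟨y, hy, rfl⟩
    exact ⟨trivial, map_mem_centralizer_map φ hy.2⟩
  have key : ∀ v : (resField M)[H], IsPair p ⊤ (D.map φ) v →
      IsPrim ((⊤ ⊓ 𝐂 D).map φ) (⊤ ⊓ 𝐂 (D.map φ)) v := fun v hv => by
    refine ⟨⟨fun y hy => ?_, hv.blk.mem.2⟩, hv.blk.idem, hv.blk.ne_zero, fun w hw hww =>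
      hv.blk.mul_eq (fix_mono hKC le_rfl hw) hww⟩
    by_contra h0
    obtain ⟨z, hz, rfl⟩ := exists_reg_lift hφ (not_dvd_of_idem hv.blk.mem hv.blk.idem h0)
    exact hy ⟨z, ⟨trivial, hC z hz (hv.suppC.mem h0)⟩, rfl⟩
  have hb := em_mem_fix' φ h.blk.mem
  rw [Subgroup.map_top_of_surjective φ hφ] at hb
  have h1 : em _ φ (br D b) * u ≠ 0 := by
    rw [em_br' φ h.isP fun t _ => h.blk.inv trivial, ← h'.pair.2, ← mul_assoc,
      ← br_mul_fix le_top h'.isP hb h'.blk.mem, hab, h'.pair.2]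
    exact h'.pair.1.blk.ne_zero
  have hN := le_normalizer_inf_centralizer (Q := D) (top_le_normalizer_top (G := G))
  rw [(h.isDef.isPrim_br le_rfl top_le_normalizer_top h.blk).eq_orbitSum le_rfl
    (inf_centralizer_le le_rfl) hN hN h.pair.1.blk (by rw [h.pair.2]; exact h.pair.1.blk.ne_zero),
    map_sum, Finset.sum_mul] at h1
  obtain ⟨_, h2, h3⟩ := Finset.exists_ne_zero_of_sum_ne_zero h1
  obtain ⟨t, -, rfl⟩ := mem_cjOrbit.1 h2
  have h4 := h.pair.1.conj (x := t) (Subgroup.le_normalizer trivial)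
  rw [cg_normal] at h4
  have h5 := h4.blk.em_of_reg (φ := φ) (h.isP.to_le hk) le_rfl Subgroup.le_normalizer
    fun y hy _ => Subgroup.centralizer_le hk (Subgroup.mem_inf.1 hy).2
  have h6 : H9.cj (φ (t * x * t⁻¹)) (em _ φ (H9.cj t e)) = em _ φ (H9.cj t e) := by
    rw [cj_em, cj_cj, inv_mul_cancel_right, ← cj_cj, (mem_pstab.1 hx).2.2]
  have h7 := h'.pair.1.conj (x := φ (t * x * t⁻¹)) (Subgroup.le_normalizer trivial)
  rw [cg_normal] at h7
  have hN' : ⊤ ⊓ 𝐂 (D.map φ) ≤ 𝐍 ((⊤ ⊓ 𝐂 D).map φ) := le_normalizer_of_normal' _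
  rw [← comm_of_inv h'.pair.1.blk.mem.2 (h5.supp.mono hKC)] at h3
  have h8 := ((key _ h7).eq_orbitSum le_rfl hKC hN' hN' h5 (by
    conv_lhs => rw [← h6, ← map_mul]
    exact fun h0 => h3 ((H9.cj _).map_eq_zero_iff.1 h0))).trans
      ((key _ h'.pair.1).eq_orbitSum le_rfl hKC hN' hN' h5 h3).symm
  have h9 := hC _ (by rwa [orderOf_conj']) (hu (mem_pstab.2
    ⟨trivial, top_le_normalizer_of_normal _ trivial, h8⟩))
  rwa [← cg_normal (D := D) t, ← cg_centralizer, conj_mem_cg] at h9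

theorem height_infl (hφ : Function.Surjective φ) (hk : φ.ker ≤ D) {B : Set (IrrCharacter G)}
    {A : Set (IrrCharacter H)} (hB : IsPBlock M B) (hA : IsPBlock M A) (hD : IsDefectGroup p M B D)
    (hD' : IsDefectGroup p M A (D.map φ)) {ψ : IrrCharacter H} (h : ψ ∈ A)
    (h' : inflIrr φ hφ ψ ∈ B) :
    charDegree (inflIrr φ hφ ψ : G → ℂ) = charDegree (ψ : H → ℂ) ∧
      blockHeight p B (inflIrr φ hφ ψ : G → ℂ) = blockHeight p A (ψ : H → ℂ) := by
  have h1 : charDegree (inflIrr φ hφ ψ : G → ℂ) = charDegree (ψ : H → ℂ) := by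
    have := irr_one_eq (inflIrr φ hφ ψ)
    rw [inflIrr_apply, map_one] at this
    exact_mod_cast this.symm.trans (irr_one_eq ψ)
  have h2 := defect_add_val (p := p) h
  have h3 := defect_add_val (p := p) h'
  have h4 : Nat.card G = Nat.card φ.ker * Nat.card H := by
    rw [← Subgroup.card_mul_index φ.ker, Subgroup.index_ker, MonoidHom.range_eq_top.2 hφ,
      Subgroup.card_top]
  have h5 : Nat.card D = Nat.card φ.ker * Nat.card (D.map φ) := by
    rw [← Subgroup.relIndex_ker, ← Subgroup.relIndex_bot_left φ.ker,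
      Subgroup.relIndex_mul_relIndex _ _ _ bot_le hk, Subgroup.relIndex_bot_left]
  rw [card_defectGroup hM.out hB hD, card_defectGroup hM.out hA hD'] at h5
  have h6 := congrArg (·.factorization p) h5
  have h7 := congrArg (·.factorization p) h4
  simp only [Nat.factorization_mul Nat.card_pos.ne' Nat.card_pos.ne', Finsupp.add_apply,
    Nat.factorization_mul Nat.card_pos.ne' (pow_ne_zero _ hp.out.ne_zero),
    Nat.factorization_pow_self hp.out] at h6 h7
  exact ⟨h1, by rw [h1] at h3; omega⟩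

end Quot

theorem isNil_of_deg {M : Ideal AlgInt} [hMm : M.IsMaximal] {p : ℕ} [hp : Fact p.Prime]
    [hM : PMod M p] {G : Type*} [Group G] [Finite G] {B : Set (IrrCharacter G)} (hB : IsPBlock M B)
    {D : Subgroup G} [D.Normal] (hD : IsDefectGroup p M B D) {d : ℕ}
    (hd : ∀ χ ∈ B, blockHeight p B (χ : G → ℂ) = 0 → charDegree (χ : G → ℂ) = d) :
    IsNil p ⊤ (eB M B) := by
  obtain ⟨e, h⟩ := exists_maxPair_of_def hB hD
  let φ := QuotientGroup.mk' ⁅D, D⁆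
  have hφ : Function.Surjective φ := QuotientGroup.mk'_surjective _
  have hk : φ.ker ≤ D := by rw [QuotientGroup.ker_mk']; exact Subgroup.commutator_le_left D D
  obtain ⟨ψ, h1, h2⟩ := exists_infl_def hφ (h.isP.to_le hk) hB hD
  have hA := isPBlock_blockOf (M := M) ψ
  have hψ := mem_blockOf_self (M := M) ψ
  have hab : D.map φ ≤ 𝐂 (D.map φ) := by
    rw [← Subgroup.commutator_eq_bot_iff_le_centralizer, ← Subgroup.map_commutator,
      Subgroup.map_eq_bot_iff, QuotientGroup.ker_mk']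
  obtain ⟨u, hu⟩ := exists_abD hA h2 hab
  haveI := Subgroup.Normal.map ‹D.Normal› φ hφ
  have h0 := (S0972.result p M hM.out _ hA _ h2).1 fun a ha c hc => hab hc a ha
  have h3 := hu.le_of_uni (uni_of_deg hA h0 (n := d) fun ξ hξ => by
    have h4 := infl_mem_of_mem hφ hA (isBlockUnion_of_block hB) hψ hξ h1
    obtain ⟨h5, h6⟩ := height_infl hφ hk hB hA hD h2 hξ h4
    rw [← h5, hd _ h4 (h6.trans (h0 ξ hξ))])
  refine isNil_of_normal h fun x hx hr => cent_of_quot hφ hk (fun y hy hy' => ?_) h hu.max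
    ((infl_mem_iff_mul hφ hA (isBlockUnion_of_block hB) hψ).1 h1) h3 hx hr
  refine Subgroup.zpowers_le.1 (FT.coprime_nil_cent_der h.isP.isNilpotent
    ((FT.pGrp_of_isPGroup hp.out h.isP).cop (FT.p'grp_of_not_dvd (by rwa [Nat.card_zpowers]))) ?_)
  refine le_of_le_of_eq ?_ (QuotientGroup.ker_mk' ⁅D, D⁆)
  rw [← Subgroup.map_eq_bot_iff, Subgroup.map_commutator,
    Subgroup.commutator_eq_bot_iff_le_centralizer, MonoidHom.map_zpowers,
    Subgroup.le_centralizer_iff]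
  exact Subgroup.zpowers_le.2 hy'

theorem deg_of_isNil {M : Ideal AlgInt} [hMm : M.IsMaximal] {p : ℕ} [hp : Fact p.Prime]
    [hM : PMod M p] {G : Type*} [Group G] [Finite G] {B : Set (IrrCharacter G)} (hB : IsPBlock M B)
    (hn : IsNil p ⊤ (eB M B)) :
    ∃ d, ∀ χ ∈ B, blockHeight p B (χ : G → ℂ) = 0 → charDegree (χ : G → ℂ) = d := by
  obtain ⟨P, e, hm⟩ := exists_maxPair (p := p) (H9.isBlk_eB hB)
  obtain ⟨χ, hχ, h0, Φ, hΦ⟩ := exists_equiv_of_isNil hB hn ((H9.isDefectGroup_iff hB).2 hm.isDef)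
  refine ⟨charDegree (χ : G → ℂ), fun ψ hψ h1 => ?_⟩
  obtain ⟨l, hl⟩ := Φ.surjective ⟨ψ, hψ⟩
  have h2 := hΦ l 1 not_dvd_orderOf_one
  rw [hl] at h2
  have h3 := height_of_deg hχ hψ h2 (p := p)
  obtain ⟨n, hn⟩ := hm.isP.exists_card_eq
  obtain ⟨k, -, hk⟩ := (Nat.dvd_prime_pow hp.out).1 (hn ▸ charDegree_dvd_card l)
  rw [hk, Nat.factorization_pow_self hp.out] at h3
  rw [hk, show k = 0 by omega, irr_one_eq, irr_one_eq] at h2
  exact_mod_cast (by simpa using h2)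

end Cfsg.Agent.H8.EqDeg
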