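import Cfsg.Agent.H1.G2a
import Cfsg.Agent.G75.Fin

/-! S1744: the normal subgroup with Sylow `2`-subgroup `Q₂`, case `|K| = 4`. -/

set_option autoImplicit false
set_option linter.unusedSectionVars false
set_option linter.unusedVariables false

namespace Cfsg.Agent.H1.G2

open Subgroup Cfsg.Agent.H19.Gt Cfsg.Agent.FT Cfsg.Agent.GW
open scoped commutatorElement

theorem pB4_gen {G : Type*} [Group G] [Finite G] {S A B : Subgroup G} {t : G} (hO : Cfsg.oddCore G = ⊥)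
    (hS : Syl 2 S ⊤) (hA : IsStronglyClosed A S) (hB : IsStronglyClosed B S) (hc : ∀ a ∈ A, ∀ b ∈ B, a * b = b * a)
    (ht : ∀ g, g * t = t * g) (tB : t ∈ B) (hi : A ⊓ B ≤ ⟪t⟫)
    (hs : ∀ s ∈ S ⊓ normalClosure (B : Set G), ∃ a ∈ A, ∃ b ∈ B, s = a * b) : S ⊓ normalClosure (B : Set G) = B := by
  have zc : ∀ g, ∀ x ∈ ⟪t⟫, g * x = x * g := by
    rintro g _ ⟨i, rfl⟩
    exact (Commute.zpow_right (ht g) i).eq
  haveI : (⟪t⟫).Normal := ⟨fun x hx g => by rwa [zc g x hx, mul_inv_cancel_right]⟩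
  have h0 : O[{2}ᶜ]((⊤ : Subgroup G)) = ⊥ := by rw [p'core_top Nat.prime_two]; exact hO
  have hk : ⁅normalClosure (A : Set G), normalClosure (B : Set G)⁆ ≤ ⟪t⟫ :=
    (G75.comm_le hS hA hB hc).trans (sup_le (normalClosure_le_normal hi) (h0.le.trans bot_le))
  have nB : normalClosure (B : Set G) ⊴ ⊤ := nml_top_iff.2 inferInstance
  have h1 := hS.inf_nml nB
  have h2 : B ≤ S ⊓ normalClosure (B : Set G) := le_inf hB.1 le_normalClosure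
  have h4 := focal_subgroup_le (K := B) h1.isHall fun x hx g hg e => by
    obtain ⟨a, ha, b, hb, rfl⟩ := hs x hx
    have k := hk (commutator_mem_commutator (le_normalClosure (inv_mem ha)) hg)
    have k1 : g * a * g⁻¹ = a * ⁅a⁻¹, g⁆ := by group
    rw [← conj_mul, k1] at e ⊢
    have k2 : g * b * g⁻¹ ∈ B := hB.2 b hb g
      ((mul_mem_cancel_left (mul_mem (hA.1 ha) (hB.1 (zpowers_le.2 tB k)))).1 e.1)
    have k3 := mul_mem (mul_mem (zpowers_le.2 tB k) k2) (inv_mem hb)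
    rw [show a * ⁅a⁻¹, g⁆ * (g * b * g⁻¹) * (a * b)⁻¹ = a * (⁅a⁻¹, g⁆ * (g * b * g⁻¹) * b⁻¹) * a⁻¹ by group,
      hc a ha _ k3, mul_inv_cancel_right]
    exact k3
  have h5 : normalClosure (B : Set G) ≤ ⁅normalClosure (B : Set G), normalClosure (B : Set G)⁆ ⊔ B := by
    rw [← G75.cl_top_eq] at h1 ⊢
    exact G75.cl_le_iff.2 fun x a _ => by
      obtain ⟨g, hg, e⟩ := h1.syl_elt (G75.mem_cl a trivial) ((G75.sc_of hS hB).two x a)
      rw [show x = ⁅x, g⁆ * (g * x * g⁻¹) by group]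
      exact mul_mem (mem_sup_left (commutator_mem_commutator (G75.mem_cl a trivial) hg))
        (mem_sup_right ((G75.mem_of_sc hB e.1).1 ((G75.sc_of hS hB).conj x a g)))
  refine le_antisymm ((le_inf le_rfl (inf_le_right.trans h5)).trans ?_) h2
  rw [inf_sup_right (le_normalClosure.trans (der_nml _).nrm) h2]
  exact sup_le h4 le_rfl

variable {G K : Type*} [Group G] [Finite G] [CommGroup K] {τ : K × K →* G} {u v : G} {z : K} {S : Sylow 2 G}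
  {X : Subgroup G}

theorem pB4_sq (h : Gz (S : Subgroup G) τ u v z) (h4 : Nat.card K = 4) {q : G} (hq : q ∈ h.Q) :
    q * q ∈ ⟪τ (z, z)⟫ := by
  have g := h.toGs
  obtain ⟨a, rfl | rfl⟩ := hq
  · have k : a * a * (a * a) = 1 := by
      have := pow_card_eq_one' (x := a)
      rw [h4] at this
      rw [← this]; simp [pow_succ, mul_assoc]
    rw [tm, ← mul_inv]
    rcases h.inv2 k with e | e
    · rw [e, inv_one, t1]; exact one_mem _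
    · rw [e, h.zi]; exact mem_zpowers _
  · rw [mul_assoc, g.vt', g.vv, mul_one, tm, mul_left_comm, mul_inv_cancel, mul_one, inv_mul_cancel_right]
    exact mem_zpowers _

theorem pB4_sc (h : Hy S τ u v z X) (h4 : Nat.card K = 4)
    (pN : ∀ n q : G, (∀ s ∈ h.gz.M, n * s * n⁻¹ ∈ h.gz.M) → q ∈ h.gz.Q → n * q * n⁻¹ ∈ h.gz.Q) :
    IsStronglyClosed h.gz.Q (S : Subgroup G) := by
  haveI := h.nml
  have zc : ∀ g, ∀ x ∈ ⟪τ (z, z)⟫, g * x = x * g := by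
    rintro g _ ⟨i, rfl⟩
    exact (Commute.zpow_right (h.cen g) i).eq
  haveI nt : (⟪τ (z, z)⟫).Normal := ⟨fun x hx g => by rwa [zc g x hx, mul_inv_cancel_right]⟩
  have sq : ∀ s ∈ h.gz.M, s * s ∈ ⟪τ (z, z)⟫ := fun s hs => by
    obtain ⟨a, ha, b, hb, rfl⟩ := h.gz.M_eq hs
    rw [mul_assoc, ← mul_assoc b, ← h.gz.Q_comm ha hb, mul_assoc, ← mul_assoc]
    exact mul_mem (h.gz.fl_t ▸ pB4_sq h.gz.flp h4 ha) (pB4_sq h.gz h4 hb)
  have cm : ∀ a ∈ h.gz.M, ∀ b ∈ h.gz.M, a * b * a⁻¹ * b⁻¹ ∈ ⟪τ (z, z)⟫ := fun a ha b hb => by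
    rw [show a * b * a⁻¹ * b⁻¹ = a * b * (a * b) * (b⁻¹ * (a * a)⁻¹ * b) * (b * b)⁻¹ by group]
    exact mul_mem (mul_mem (sq _ (mul_mem ha hb)) (nt.conj_mem' _ (inv_mem (sq a ha)) b)) (inv_mem (sq b hb))
  have MX : h.gz.M ≤ X := h.inf ▸ inf_le_right
  refine ⟨h.gz.Q_le.trans h.gz.M_le, fun q hq g hg => ?_⟩
  have hb : g * q * g⁻¹ ∈ h.gz.M := h.inf ▸ ⟨hg, h.nml.conj_mem _ (MX (h.gz.Q_le hq)) g⟩
  let π := QuotientGroup.mk' ⟪τ (z, z)⟫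
  have mem : ∀ k b : G, k ∈ C[π b].comap π ↔ k * b * k⁻¹ * b⁻¹ ∈ ⟪τ (z, z)⟫ := fun k b => by
    rw [mem_comap, mem_cen1, ← QuotientGroup.eq_one_iff (N := ⟪τ (z, z)⟫),
      show ((k * b * k⁻¹ * b⁻¹ : G) : G ⧸ ⟪τ (z, z)⟫) = π (k * b * k⁻¹ * b⁻¹) from rfl, map_mul, map_mul, map_mul,
      map_inv, map_inv, mul_inv_eq_one, mul_inv_eq_iff_eq_mul]
  have h1 : Syl 2 h.gz.M X := h.inf ▸ (syl_top Nat.prime_two S).inf_nml (nml_top_iff.2 h.nml)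
  have h2 := h1.subl_inf (K := C[π (g * q * g⁻¹)].comap π) fun m hm => (mem _ _).2 (cm m hm _ hb)
  obtain ⟨k, hk, e⟩ := h2.syl_Jsub (Q := cj g h.gz.M) (h1.pi.cj g) fun x hx => by
    obtain ⟨m, hm, rfl⟩ : ∃ m ∈ h.gz.M, x = g * m * g⁻¹ := ⟨_, mem_cj.1 hx, by group⟩
    refine ⟨h.nml.conj_mem _ (MX hm) g, (mem _ _).2 ?_⟩
    have := nt.conj_mem _ (cm m hm q (h.gz.Q_le hq)) g
    rwa [show g * (m * q * m⁻¹ * q⁻¹) * g⁻¹ =
      g * m * g⁻¹ * (g * q * g⁻¹) * (g * m * g⁻¹)⁻¹ * (g * q * g⁻¹)⁻¹ by group] at this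
  rw [cj_cj] at e
  have h3 := pN (k * g) q (fun s hs => e (conj_mem_cj.2 hs)) hq
  have h5 := zpowers_le.2 h.gz.tQ ((mem _ _).1 hk.2)
  rwa [show k * g * q * (k * g)⁻¹ = k * (g * q * g⁻¹) * k⁻¹ * (g * q * g⁻¹)⁻¹ * (g * q * g⁻¹) by group,
    mul_mem_cancel_left h5] at h3

theorem pB4_of (h : Hy S τ u v z X) (hO : Cfsg.oddCore G = ⊥)
    (hB : IsStronglyClosed h.gz.Q (S : Subgroup G)) (hA : IsStronglyClosed h.gz.flp.Q (S : Subgroup G)) :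
    ∃ N : Subgroup G, N.Normal ∧ (S : Subgroup G) ⊓ N = h.gz.Q := by
  haveI := h.nml
  refine ⟨normalClosure (h.gz.Q : Set G), inferInstance, pB4_gen hO (syl_top Nat.prime_two S) hA hB
    (fun a ha b hb => h.gz.Q_comm ha hb) h.cen h.gz.tQ (fun s hs => ?_) fun s hs => h.gz.M_eq ?_⟩
  · rcases h.gz.Q_inf hs.1 hs.2 with rfl | rfl
    exacts [one_mem _, mem_zpowers _]
  · exact h.inf ▸ ⟨hs.1, normalClosure_le_normal (N := X) (h.gz.Q_le.trans (h.inf ▸ inf_le_right)) hs.2⟩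

theorem pB4_pN (pN : ∀ {τ : K × K →* G} {u v : G} (h : Gz (S : Subgroup G) τ u v z)
    (hc : ∀ g : G, g * τ (z, z) = τ (z, z) * g) {n q : G} (hn : ∀ s ∈ h.M, n * s * n⁻¹ ∈ h.M) (hq : q ∈ h.Q),
    n * q * n⁻¹ ∈ h.Q) (h : Hy S τ u v z X) (hO : Cfsg.oddCore G = ⊥) (h4 : Nat.card K = 4) :
    ∃ N : Subgroup G, N.Normal ∧ (S : Subgroup G) ⊓ N = h.gz.Q :=
  pB4_of h hO (pB4_sc h h4 fun _ _ hn hq => pN h.gz h.cen hn hq)
    (pB4_sc h.flp h4 fun _ _ hn hq => pN h.flp.gz h.flp.cen hn hq)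

end Cfsg.Agent.H1.G2
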