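import Cfsg.Agent.H8.G2B4
import Cfsg.Agent.H25.G2N0

/-! S1744: piece B4. -/

set_option autoImplicit false

namespace Cfsg.Agent.H1.G2
open Subgroup Cfsg.Agent.H19.Gt

variable {G K : Type*} [Group G] [Finite G] [CommGroup K] {τ : K × K →* G} {u v : G} {z : K} {S : Sylow 2 G}
  {X : Subgroup G}

theorem pN8 (h : Gz (S : Subgroup G) τ u v z) (hc : ∀ g : G, g * τ (z, z) = τ (z, z) * g) {n q : G}
    (hn : ∀ s ∈ h.M, n * s * n⁻¹ ∈ h.M) (hq : q ∈ h.Q) : n * q * n⁻¹ ∈ h.Q :=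
  pN_core S h.t_ne hc (fun _ => h.sqt) (fun _ ha _ hb => h.prodQ ha hb) (fun _ => h.Q_inv') (fun _ => h.Q_inv)
    h.Q_le' h.Q_le h.tQ' h.tQ (fun _ hH => h.flp.Q_gen (h.fl_t.symm ▸ hH)) (fun _ => h.Q_gen) (fun s hs q hq => by
      obtain ⟨a, ha, b, hb, rfl⟩ := h.M_eq hq
      rw [← conj_mul]
      exact mul_mem (h.Q_le' (h.flp.Q_nrm hs ha)) (h.Q_le (h.Q_nrm hs hb))) (fun _ hs _ => h.Q_nrm hs) hn hq

theorem pB4 (h : Hy S τ u v z X) (hO : Cfsg.oddCore G = ⊥) (h4 : Nat.card K = 4) :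
    ∃ N : Subgroup G, N.Normal ∧ (S : Subgroup G) ⊓ N = h.gz.Q :=
  pB4_pN (fun h hc _ _ hn hq => pN8 h hc hn hq) h hO h4

end Cfsg.Agent.H1.G2
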