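import Cfsg.Agent.H26.Lf0
import Cfsg.Agent.H22.Ln1

/-! Part (ident) of S3198: a simple CIT group with Sylow `2`-subgroup of type `L₃(4)`. -/

set_option autoImplicit false

namespace Cfsg.Agent.H26.Lf
open Subgroup
universe u
variable {G : Type u} [Group G] [Finite G] {S A B : Subgroup G}

theorem ident_cen (h : St S A B)
    (hcit : ∀ t : G, orderOf t = 2 → IsPGroup 2 (centralizer ({t} : Set G))) {z : G}
    (hz : z ∈ A ⊓ B) (hz1 : z ≠ 1) : centralizer ({z} : Set G) = S := by
  have ho : orderOf z = 2 := orderOf_eq_prime (by rw [pow_two]; exact h.sqA z hz.1) hz1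
  exact h.syl.is_maximal' (hcit z ho) fun s hs => mem_centralizer_singleton_iff.2 (h.cenZ hs hz)

theorem ident_norm (h : St S A B)
    (hcit : ∀ t : G, orderOf t = 2 → IsPGroup 2 (centralizer ({t} : Set G)))
    (h3 : ¬ 3 ∣ Nat.card G) : normalizer (S : Set G) ≤ S := by
  classical
  obtain ⟨z, hz, hz1⟩ := h.exZ
  set K := normalizer (S : Set G) with hK
  letI : MulAction K G := MulAction.compHom G ((MulAut.conj : G →* MulAut G).comp K.subtype)
  have sm : ∀ (k : K) (x : G), k • x = k * x * (k : G)⁻¹ := fun k x => rfl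
  have hst : MulAction.stabilizer K z = S.subgroupOf K := by
    ext k
    rw [MulAction.mem_stabilizer_iff, sm, mem_subgroupOf, ← ident_cen h hcit hz hz1,
      mem_centralizer_singleton_iff, mul_inv_eq_iff_eq_mul]
  have hi := MulAction.index_stabilizer K z
  rw [hst] at hi
  have hsub : MulAction.orbit K z ⊆ ((A ⊓ B : Subgroup G) : Set G) \ {1} := by
    rintro _ ⟨k, rfl⟩
    have hk := mem_normalizer_iff.1 k.2
    have hk' := mem_normalizer_iff.1 (K.inv_mem k.2)
    refine ⟨h.mem_Z_of_cen ((hk z).1 (h.leZ hz)) fun t ht => ?_, fun e => hz1 ?_⟩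
    · have := h.cenZ ((hk' t).1 ht) hz
      simp only [sm]
      calc t * (k * z * (k : G)⁻¹) = k * ((k : G)⁻¹ * t * (k : G)⁻¹⁻¹ * z) * (k : G)⁻¹ := by group
        _ = _ := by rw [this]; group
    · simpa [sm] using e
  have hle := Set.ncard_le_ncard hsub
  rw [Set.ncard_sdiff_singleton_of_mem (A ⊓ B).one_mem, ← hi, ← Nat.card_coe_set_eq] at hle
  have hc : Nat.card ((A ⊓ B : Subgroup G) : Set G) = 4 := h.cZ
  rw [hc] at hle
  have hd : (S.subgroupOf K).index ∣ S.index := relIndex_dvd_index_of_le le_normalizer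
  have h2 : ¬ 2 ∣ (S.subgroupOf K).index := fun e => h.odd (e.trans hd)
  have h3' : ¬ 3 ∣ (S.subgroupOf K).index := fun e => h3 ((e.trans hd).trans S.index_dvd_card)
  have h0 : (S.subgroupOf K).index ≠ 0 := index_ne_zero_of_finite
  have h1 : (S.subgroupOf K).index = 1 := by omega
  exact subgroupOf_eq_top.1 (index_eq_one.1 h1)

theorem ident_three (h : St S A B)
    (hA : ¬ normalizer (A : Set G) ≤ normalizer ((A ⊓ B : Subgroup G) : Set G))
    (hcit : ∀ t : G, orderOf t = 2 → IsPGroup 2 (centralizer ({t} : Set G))) : 3 ∣ Nat.card G := by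
  classical
  by_contra h3
  have hN := ident_norm h hcit h3
  obtain ⟨z, hz, hz1⟩ := h.exZ
  obtain ⟨y, hy, hy1, hyz⟩ : ∃ y ∈ A ⊓ B, y ≠ 1 ∧ y ≠ z := by
    by_contra hc
    push Not at hc
    have : ((A ⊓ B : Subgroup G) : Set G) ⊆ {1, z} := fun y hy => by
      by_cases e : y = 1
      · exact Or.inl e
      · exact Or.inr (hc y hy e)
    have h1 := (Set.ncard_le_ncard this).trans ((Set.ncard_insert_le 1 {z}).trans (by rw [Set.ncard_singleton]))
    have hc : Nat.card ((A ⊓ B : Subgroup G) : Set G) = 4 := h.cZ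
    rw [← Nat.card_coe_set_eq, hc] at h1
    omega
  -- conjugates of `z` inside `Z`
  have hiso : ∀ g : G, g * z * g⁻¹ ∈ A ⊓ B → g * z * g⁻¹ = z := fun g hg => by
    have h1 : g * z * g⁻¹ ≠ 1 := fun e => hz1 (by simpa using e)
    have e1 := ident_cen h hcit hz hz1
    have e2 := ident_cen h hcit hg h1
    have : g ∈ normalizer (S : Set G) := by
      refine mem_normalizer_iff.2 fun s => ?_
      have k : s ∈ centralizer ({z} : Set G) ↔ g * s * g⁻¹ ∈ centralizer ({g * z * g⁻¹} : Set G) := by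
        rw [mem_centralizer_singleton_iff, mem_centralizer_singleton_iff]
        constructor
        · intro e
          calc g * s * g⁻¹ * (g * z * g⁻¹) = g * (s * z) * g⁻¹ := by group
            _ = _ := by rw [e]; group
        · intro e
          calc s * z = g⁻¹ * (g * s * g⁻¹ * (g * z * g⁻¹)) * g := by group
            _ = _ := by rw [e]; group
      rw [e1, e2] at k
      exact k
    rw [h.cenZ (hN this) hz]; group
  letI : CommGroup A := { (inferInstance : Group A) with mul_comm := fun a b => Subtype.ext (h.commA a.2 b.2) }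
  letI := Fintype.ofFinite A
  set H := normalizer (A : Set G) with hH
  let O : Finset A := Finset.univ.filter fun x => ∃ g ∈ H, g * z * g⁻¹ = x
  have mO : ∀ x : A, x ∈ O ↔ ∃ g ∈ H, g * z * g⁻¹ = x := fun x => by simp [O]
  let z' : A := ⟨z, hz.1⟩
  let y' : A := ⟨y, hy.1⟩
  have hzO : z' ∈ O := (mO _).2 ⟨1, H.one_mem, by simp [z']⟩
  let w : A := ∏ x ∈ O, x
  have hfix : ∀ g ∈ H, g * (w : G) * g⁻¹ = w := fun g hg => by
    let φ : A →* A :=
      { toFun := fun a => ⟨g * a * g⁻¹, (mem_normalizer_iff.1 hg a).1 a.2⟩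
        map_one' := by ext; simp
        map_mul' := fun a b => by ext; simp }
    have hφ : φ w = w := by
      rw [map_prod]
      refine Finset.prod_bij (fun a _ => φ a) (fun a ha => ?_) (fun a _ b _ e => ?_) (fun b hb => ?_)
        (fun _ _ => rfl)
      · obtain ⟨k, hk, e⟩ := (mO _).1 ha
        exact (mO _).2 ⟨g * k, H.mul_mem hg hk, by simp [φ, ← e, mul_assoc]⟩
      · have : g * (a : G) * g⁻¹ = g * b * g⁻¹ := congrArg Subtype.val e
        exact Subtype.ext (by simpa using this)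
      · obtain ⟨k, hk, e⟩ := (mO _).1 hb
        refine ⟨⟨g⁻¹ * b * g⁻¹⁻¹, (mem_normalizer_iff.1 (H.inv_mem hg) b).1 b.2⟩,
          (mO _).2 ⟨g⁻¹ * k, H.mul_mem (H.inv_mem hg) hk, by simp [← e, mul_assoc]⟩, ?_⟩
        ext; simp [φ, mul_assoc]
    exact congrArg Subtype.val hφ
  have hnB : ∀ a ∈ O.erase z', (a : G) ∉ B := fun a ha hB => by
    obtain ⟨k, -, e⟩ := (mO _).1 (Finset.mem_of_mem_erase ha)
    have := hiso k (e ▸ ⟨a.2, hB⟩)
    exact Finset.ne_of_mem_erase ha (Subtype.ext (e.symm.trans this))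
  have hyy : y' * y' = 1 := Subtype.ext (h.sqA y hy.1)
  have hmem : ∀ a ∈ O.erase z', a * y' ∈ O.erase z' := fun a ha => by
    obtain ⟨k, hk, e⟩ := (mO _).1 (Finset.mem_of_mem_erase ha)
    obtain ⟨b, hb, e2⟩ := h.onto a.2 (hnB a ha) hy
    refine Finset.mem_erase.2 ⟨fun e3 => hnB a ha ?_, (mO _).2 ⟨b * k, H.mul_mem ?_ hk, ?_⟩⟩
    · have : (a : G) * y = z := congrArg Subtype.val e3
      rw [eq_mul_inv_of_mul_eq this]
      exact B.mul_mem hz.2 (B.inv_mem hy.2)
    · refine mem_normalizer_iff.2 fun s => ⟨fun hs => h.conjAB hs hb, fun hs => ?_⟩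
      simpa [mul_assoc] using h.conjAB hs (B.inv_mem hb)
    · show b * k * z * (b * k)⁻¹ = a * y
      rw [← e2, h.invA a.2]
      calc b * k * z * (b * k)⁻¹ = b * (k * z * k⁻¹) * b⁻¹ := by group
        _ = ((a : G) * a) * b * a * b⁻¹ := by rw [e, h.sqA a a.2, one_mul]
        _ = _ := by group
  let π := QuotientGroup.mk' (zpowers y')
  have hπ : π (∏ x ∈ O.erase z', x) = 1 := by
    rw [map_prod]
    refine Finset.prod_involution (fun a _ => a * y') (fun a _ => ?_) (fun a _ _ e => ?_) hmem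
      (fun a _ => by rw [mul_assoc, hyy, mul_one])
    · have h1 : π y' = 1 := (QuotientGroup.eq_one_iff _).2 (mem_zpowers _)
      have h2 : a * a = 1 := Subtype.ext (h.sqA a a.2)
      rw [map_mul, h1, mul_one, ← map_mul, h2, map_one]
    · exact hy1 (congrArg Subtype.val (mul_eq_left.1 e))
  have hw : w = z' * ∏ x ∈ O.erase z', x := (Finset.mul_prod_erase O (fun x => x) hzO).symm
  obtain ⟨i, hi⟩ := (QuotientGroup.eq_one_iff _).1 hπ
  have hw' : (w : G) = z * y ^ i := by
    rw [hw, ← hi]; simp [z', y']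
  have hwZ : (w : G) ∈ A ⊓ B := hw' ▸ (A ⊓ B).mul_mem hz ((A ⊓ B).zpow_mem hy i)
  have hw1 : (w : G) ≠ 1 := by
    have h2 : y ^ (2 : ℤ) = 1 := by rw [zpow_two]; exact h.sqA y hy.1
    rw [hw']
    intro e
    rcases Int.even_or_odd' i with ⟨j, rfl | rfl⟩
    · rw [zpow_mul, h2, one_zpow, mul_one] at e; exact hz1 e
    · rw [zpow_add, zpow_mul, h2, one_zpow, one_mul, zpow_one] at e
      exact hyz ((eq_inv_of_mul_eq_one_right e).trans (h.invA hz.1))
  refine hA fun g hg => ?_
  have hgS : g ∈ S := by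
    rw [← ident_cen h hcit hwZ hw1, mem_centralizer_singleton_iff]
    exact mul_inv_eq_iff_eq_mul.1 (hfix g hg)
  refine mem_normalizer_iff.2 fun s => ⟨fun hs => ?_, fun hs => ?_⟩
  · rw [h.cenZ hgS hs]; simpa using hs
  · have := h.cenZ (S.inv_mem hgS) hs
    have e : s = g * s * g⁻¹ := by
      calc s = g⁻¹ * (g * s * g⁻¹) * g := by group
        _ = _ := by rw [this]; group
    rw [e]; exact hs

theorem ident [IsSimpleGroup G] (h : St S A B)
    (hA : ¬ normalizer (A : Set G) ≤ normalizer ((A ⊓ B : Subgroup G) : Set G))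
    (hcit : ∀ t : G, orderOf t = 2 → IsPGroup 2 (centralizer ({t} : Set G))) :
    ∃ (F : Type) (_ : Field F) (_ : Fintype F), Fintype.card F = 4 ∧
      Nonempty (G ≃* Matrix.ProjectiveSpecialLinearGroup (Fin 3) F) := by
  obtain ⟨a, ha, haB⟩ := h.exA
  obtain ⟨b, hb, hbA⟩ := h.symm.exA
  have hab : a * b ≠ b * a := fun e => (h.nd a ha b hb e).elim haB hbA
  obtain ⟨m, hm, hcard⟩ : ∃ m, Odd m ∧ Nat.card G = 2 ^ 6 * m :=
    ⟨S.index, Nat.not_even_iff_odd.1 fun e => h.odd e.two_dvd, by rw [← S.card_mul_index, h.cS]; norm_num⟩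
  have hev : ∀ (F : Type) [Field F] [Fintype F] (j : ℕ), Fintype.card F = 2 ^ j →
      Nonempty (G ≃* Matrix.ProjectiveSpecialLinearGroup (Fin 2) F) → False := by
    rintro F _ _ j hj ⟨e⟩
    have hj1 : 1 ≤ j := by
      rcases Nat.eq_zero_or_pos j with rfl | h
      · have := Fintype.one_lt_card (α := F); omega
      · exact h
    obtain ⟨f⟩ := BS.psl_equiv_sl hj1 hj
    have h2 : (2 : F) = 0 := by
      have := FiniteField.cast_card_eq_zero F
      rw [hj] at this
      push_cast at this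
      exact pow_eq_zero_iff (by omega) |>.1 this
    have h3 := H22.Ln.sl_sq h2 (f (e (a * b))) (by
      rw [← map_mul, ← map_mul, ← map_mul, ← map_mul,
        h.sqA _ (h.sqS (S.mul_mem (h.leA ha) (h.leB hb))).1, map_one, map_one])
    rw [← map_mul, ← map_mul, map_eq_one_iff _ f.injective, map_eq_one_iff _ e.injective,
      h.sq_eq ha hb] at h3
    apply hab
    calc a * b = (a * b * a⁻¹ * b⁻¹) * (b * a) := by group
      _ = _ := by rw [h3, one_mul]
  rcases S0348.result ⟨a, b, hab⟩ hcit with ⟨F, _, _, hF, ⟨e⟩⟩ | hh | ⟨-, j, hj, hs⟩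
  · exfalso
    have hc := H10.card_PSL_two (F := F)
    rw [← Nat.card_congr e.toEquiv] at hc
    rcases hF with h | ⟨j, h⟩ | ⟨hp, j, h | h⟩
    · rw [h, hcard] at hc
      norm_num at hc
      omega
    · exact hev F j h ⟨e⟩
    · rcases j with _ | _ | j
      · exact hev F 1 h ⟨e⟩
      · rw [h, hcard] at hc
        norm_num at hc
        omega
      · rw [h, add_tsub_cancel_right, Nat.gcd_eq_left (dvd_pow_self 2 (by omega))] at hc
        have : 6 + 1 = j + 3 := H22.Ln.two_pow_eq hm (n := (2 ^ (j + 2) + 1) * (2 ^ (j + 1) + 1))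
          (((Nat.even_pow' (by omega)).2 even_two).add_one.mul ((Nat.even_pow' (by omega)).2 even_two).add_one)
          (by rw [pow_succ', mul_assoc, ← hcard, hc]; ring)
        obtain rfl : j = 4 := by omega
        rw [h] at hp; norm_num at hp
    · rcases j with _ | _ | j
      · have := hp.pos; omega
      · have := hp.two_le; omega
      · obtain ⟨c, hc1⟩ : ∃ c, 2 ^ (j + 1) = c + 1 := ⟨2 ^ (j + 1) - 1, by have := Nat.one_le_two_pow (n := j + 1); omega⟩
        have hco : Odd c := by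
          have : Even (c + 1) := hc1 ▸ (Nat.even_pow' (by omega)).2 even_two
          exact Nat.not_even_iff_odd.1 (Nat.even_add_one.1 this)
        have hq : Fintype.card F = 2 * c + 1 := by rw [pow_succ, hc1] at h; omega
        rw [h, hq, add_tsub_cancel_right, Nat.gcd_eq_left (Dvd.intro _ rfl)] at hc
        have : 6 + 1 = j + 3 := H22.Ln.two_pow_eq hm (n := (2 * c + 1) * c) ((odd_two_mul_add_one c).mul hco)
          (by rw [pow_succ', mul_assoc, ← hcard, hc]; ring)
        obtain rfl : j = 4 := by omega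
        obtain rfl : c = 31 := by omega
        rw [hq] at hp; norm_num at hp
  · exact hh
  · exfalso
    have h1 : Even (2 ^ (2 * j + 1)) := (Nat.even_pow' (by omega)).2 even_two
    have := H22.Ln.two_pow_eq (a := 6) (b := (2 * j + 1) * 2)
      (n := ((2 ^ (2 * j + 1)) ^ 2 + 1) * (2 ^ (2 * j + 1) - 1)) hm
      ((h1.pow_of_ne_zero two_ne_zero).add_one.mul (Nat.Even.sub_odd Nat.one_le_two_pow h1 odd_one))
      (by rw [← hcard, hs, pow_mul, mul_assoc])
    obtain rfl : j = 1 := by omega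
    have h3 := ident_three h hA hcit
    rw [hs] at h3
    norm_num at h3

end Cfsg.Agent.H26.Lf
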