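import Cfsg.Agent.L1.Se0

/-! S3330: piece pB2a. -/

set_option autoImplicit false
set_option linter.unusedSectionVars false
set_option linter.unusedVariables false

namespace Cfsg.Agent.L1Se

open Subgroup Equiv

universe u

theorem pB2a_F {H : Type*} [Group H] {M : Subgroup H} {w r : H} (r3 : r ^ 3 = 1)
    (hw : ∀ m ∈ M, w * m = m * w) (hw2 : ∀ m ∈ M, (r * w * r⁻¹) * m = m * (r * w * r⁻¹))
    (hf : ∀ m ∈ M, r * m = m * r → m = 1)
    (pr : w * (r * w * r⁻¹) * (r * (r * w * r⁻¹) * r⁻¹) ∈ M)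
    (cm : w * (r * w * r⁻¹) * w⁻¹ * (r * w * r⁻¹)⁻¹ ∈ M) :
    w * (r * w * r⁻¹) * (r * (r * w * r⁻¹) * r⁻¹) = 1 ∧ w * (r * w * r⁻¹) = (r * w * r⁻¹) * w := by
  set b := r * w * r⁻¹ with hb
  set c := r * b * r⁻¹ with hc
  have hcw : r * c * r⁻¹ = w := by
    calc r * c * r⁻¹ = r ^ 3 * w * (r ^ 3)⁻¹ := by rw [hc, hb, pow_succ, pow_two]; group
      _ = w := by rw [r3]; group
  have h1 : w * b * c = 1 := hf _ pr (by
    have := hw _ pr
    calc r * (w * b * c) = (r * w * r⁻¹) * (r * b * r⁻¹) * (r * c * r⁻¹) * r := by group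
      _ = w⁻¹ * (w * b * c * w) * r := by rw [← hb, ← hc, hcw]; group
      _ = _ := by rw [← this]; group)
  have hc' : c = b⁻¹ * w⁻¹ := by rw [← mul_inv_rev]; exact eq_inv_of_mul_eq_one_right h1
  refine ⟨h1, ?_⟩
  have h2 : w * b * w⁻¹ * b⁻¹ = 1 := hf _ cm (by
    have := hw _ cm
    calc r * (w * b * w⁻¹ * b⁻¹) = (r * w * r⁻¹) * (r * b * r⁻¹) * (r * w * r⁻¹)⁻¹ * (r * b * r⁻¹)⁻¹ * r := by group
      _ = b⁻¹ * w⁻¹ * (w * b * w⁻¹ * b⁻¹) * w * b * r := by rw [← hb, ← hc, hc']; group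
      _ = b⁻¹ * w⁻¹ * ((w * b * w⁻¹ * b⁻¹) * w) * b * r := by group
      _ = b⁻¹ * ((w * b * w⁻¹ * b⁻¹) * b) * r := by rw [← this]; group
      _ = _ := by rw [← hw2 _ cm]; group)
  calc w * b = (w * b * w⁻¹ * b⁻¹) * (b * w) := by group
    _ = _ := by rw [h2, one_mul]

theorem pB2a_F2 {X : Type*} [Group X] {ρ w : X} {Y0 Y1 : Subgroup X} (r3 : ρ ^ 3 = 1) (hw : w ∈ (normalizer (Y0 : Set X))) (hr : ρ ∈ (normalizer (Y0 : Set X))) (h1 : Y1 ≤ (normalizer (Y0 : Set X)))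
    (c1 : ∀ m ∈ Y1, w * m * w⁻¹ * m⁻¹ ∈ Y0) (c2 : ∀ m ∈ Y1, (ρ * w * ρ⁻¹) * m * (ρ * w * ρ⁻¹)⁻¹ * m⁻¹ ∈ Y0)
    (hf : ∀ m ∈ Y1, ρ * m * ρ⁻¹ * m⁻¹ ∈ Y0 → m ∈ Y0)
    (pr : w * (ρ * w * ρ⁻¹) * (ρ * (ρ * w * ρ⁻¹) * ρ⁻¹) ∈ Y1)
    (cm : w * (ρ * w * ρ⁻¹) * w⁻¹ * (ρ * w * ρ⁻¹)⁻¹ ∈ Y1) :
    w * (ρ * w * ρ⁻¹) * (ρ * (ρ * w * ρ⁻¹) * ρ⁻¹) ∈ Y0 ∧ w * (ρ * w * ρ⁻¹) * w⁻¹ * (ρ * w * ρ⁻¹)⁻¹ ∈ Y0 := by
  let π := QuotientGroup.mk' (Y0.subgroupOf (normalizer (Y0 : Set X)))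
  have mem : ∀ x : (normalizer (Y0 : Set X)), π x = 1 ↔ (x : X) ∈ Y0 := fun x => QuotientGroup.eq_one_iff x
  have com : ∀ a b : (normalizer (Y0 : Set X)), π a * π b = π b * π a ↔ (a : X) * b * (a : X)⁻¹ * (b : X)⁻¹ ∈ Y0 := fun a b => by
    rw [show ((a : X) * b * (a : X)⁻¹ * (b : X)⁻¹) = (a * b * a⁻¹ * b⁻¹ : (normalizer (Y0 : Set X))) from rfl, ← mem, map_mul, map_mul,
      map_mul, map_inv, map_inv, mul_inv_eq_one, mul_inv_eq_iff_eq_mul]
  have := pB2a_F (M := (Y1.subgroupOf (normalizer (Y0 : Set X))).map π) (w := π ⟨w, hw⟩) (r := π ⟨ρ, hr⟩)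
    (by rw [← map_pow, show (⟨ρ, hr⟩ : (normalizer (Y0 : Set X))) ^ 3 = 1 from Subtype.ext r3, map_one])
    (by rintro _ ⟨m, hm, rfl⟩; exact (com _ _).2 (c1 _ hm))
    (by rintro _ ⟨m, hm, rfl⟩; rw [← map_inv, ← map_mul, ← map_mul]; exact (com _ _).2 (c2 _ hm))
    (by rintro _ ⟨m, hm, rfl⟩ e; exact (mem _).2 (hf _ hm ((com _ _).1 e)))
    (by simp only [← map_inv, ← map_mul]; exact ⟨_, pr, rfl⟩)
    (by simp only [← map_inv, ← map_mul]; exact ⟨_, cm, rfl⟩)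
  simp only [← map_inv, ← map_mul] at this
  refine ⟨(mem _).1 this.1, ?_⟩
  have h2 := this.2
  rw [map_mul, map_mul π (_ * _ * _)] at h2
  exact (com _ _).1 h2

def pB2a_T {X : Type*} [Group X] (z g : X) : Subgroup X where
  carrier := {k | k * z = z * k ∧ g * k * g⁻¹ * k⁻¹ ∈ zpowers z}
  one_mem' := ⟨by simp, by simp⟩
  mul_mem' := by
    rintro a b ⟨h1, h2⟩ ⟨h3, i, h4⟩
    refine ⟨by rw [mul_assoc, h3, ← mul_assoc, h1, mul_assoc], ?_⟩
    have k : a * z ^ i = z ^ i * a := (Commute.zpow_right h1 i)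
    simp only at h4
    rw [show g * (a * b) * g⁻¹ * (a * b)⁻¹ = g * a * g⁻¹ * a⁻¹ * (a * (g * b * g⁻¹ * b⁻¹)) * a⁻¹ by group, ← h4, k,
      show g * a * g⁻¹ * a⁻¹ * (z ^ i * a) * a⁻¹ = g * a * g⁻¹ * a⁻¹ * z ^ i by group]
    exact mul_mem h2 ⟨i, rfl⟩
  inv_mem' := by
    rintro a ⟨h1, i, h2⟩
    refine ⟨(Commute.inv_left h1), -i, ?_⟩
    have k : a⁻¹ * z ^ (-i) = z ^ (-i) * a⁻¹ := (Commute.zpow_right (Commute.inv_left h1) (-i))
    simp only at h2 ⊢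
    calc z ^ (-i) = a⁻¹ * z ^ (-i) * a := by rw [k]; group
      _ = _ := by rw [zpow_neg, h2]; group


theorem pB2a_zp {X : Type*} [Group X] {x y : X} (h2 : x * x = 1) (h : y ∈ zpowers x) : y = 1 ∨ y = x := by
  obtain ⟨k, rfl⟩ := h
  have h3 : ∀ j : ℤ, x ^ (2 * j) = 1 := fun j => by rw [zpow_mul, zpow_two, h2, one_zpow]
  rcases Int.even_or_odd' k with ⟨j, rfl | rfl⟩
  · exact .inl (h3 j)
  · right; simp only [zpow_add_one, h3, one_mul]

def pB2a_x : W := (1, swap 1 4 * swap 1 3)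

theorem pB2a_3 : ∀ s : Perm (Fin 3), s * swap 0 1 = swap 0 1 * s → s = 1 ∨ s = swap 0 1 := by decide +kernel

theorem pB2a_5 : ∀ p : Perm (Fin 5), p * eB.2 = eB.2 * p → p * uE.2 = uE.2 * p →
    p = 1 ∨ p = eB.2 ∨ p = uE.2 ∨ p = eB.2 * uE.2 := by decide +kernel

theorem pB2a_5' : ∀ p : Perm (Fin 5), p * eB.2 = eB.2 * p → p * tE.2 = tE.2 * p →
    p = 1 ∨ p = eB.2 ∨ p = tE.2 ∨ p = eB.2 * tE.2 := by decide +kernel

theorem pB2a_W {w v : W} (hv : v = uE ∨ v = tE) (h1 : w * eE = eE * w) (h2 : w * eB = eB * w) (h3 : w * v = v * w) :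
    w = 1 ∨ w = eE ∨ w = eB ∨ w = eE * eB ∨ w = v ∨ w = eE * v ∨ w = eB * v ∨ w = eE * (eB * v) := by
  obtain ⟨s, p⟩ := w
  rcases hv with rfl | rfl
  · rcases pB2a_3 s (congrArg Prod.fst h1) with rfl | rfl <;>
      rcases pB2a_5 p (congrArg Prod.snd h2) (congrArg Prod.snd h3) with rfl | rfl | rfl | rfl <;> decide +kernel
  · rcases pB2a_3 s (congrArg Prod.fst h1) with rfl | rfl <;>
      rcases pB2a_5' p (congrArg Prod.snd h2) (congrArg Prod.snd h3) with rfl | rfl | rfl | rfl <;> decide +kernel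

variable {G : Type u} [Group G] [Finite G] {ε : W →* G} {σ : G}

theorem pB2a (h : SA ε σ eB) (hn : ND ε σ) (hU : CU ε) : ∃ a f, AF ε a f := by
  let ψ : W →* G := (MulAut.conj σ).toMonoidHom.comp ε
  have pa : ∀ w, ψ w = σ * ε w * σ⁻¹ := fun w => rfl
  have si : σ⁻¹ = σ := inv_eq_of_mul_eq_one_right h.ss
  have sc : ∀ {a b : G}, σ * a * σ⁻¹ = b → σ * b * σ⁻¹ = a := fun {a b} e => by
    rw [← e, show σ * (σ * a * σ⁻¹) * σ⁻¹ = σ * σ * a * (σ * σ)⁻¹ by group, h.ss]; group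
  have ψi : Function.Injective ψ := (MulAut.conj σ).injective.comp h.inj
  have p1 : ψ eE = ε eB := h.se
  have p2 : ψ eB = ε eE := sc h.se
  have p3 : ψ tE = ε tE := h.st
  have cj : ∀ (φ : W →* G) {a b c : W}, a * b * a⁻¹ = c → φ a * φ b * (φ a)⁻¹ = φ c := fun φ {a b c} e => by
    rw [← e, map_mul, map_mul, map_inv]
  have cm : ∀ (φ : W →* G) {a b : W}, a * b = b * a → φ a * φ b = φ b * φ a := fun φ {a b} e => by
    rw [← map_mul, e, map_mul]
  have sq : ∀ (φ : W →* G) {a : W}, a * a = 1 → φ a * φ a = 1 := fun φ {a} e => by rw [← map_mul, e, map_one]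
  have ic : ∀ {φ : W →* G}, Function.Injective φ → ∀ {a b : W}, φ a * φ b = φ b * φ a → a * b = b * a :=
    fun {φ} hi {a b} e => hi (by rw [map_mul, map_mul, e])
  have cU : ∀ g, g * ε eB = ε eB * g → g * ε uE = ε uE * g → g ∈ ε.range := fun g e1 e2 => by
    have k1 := cj ε (show ((1, swap 2 4) : W)⁻¹ * eB * ((1, swap 2 4) : W)⁻¹⁻¹ = v1 by decide +kernel)
    have k2 := cj ε (show ((1, swap 2 4) : W)⁻¹ * (eB * uE) * ((1, swap 2 4) : W)⁻¹⁻¹ = v2 by decide +kernel)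
    have e3 : g * ε (eB * uE) = ε (eB * uE) * g := by rw [map_mul]; exact (Commute.mul_right e1 e2).eq
    generalize ((1, swap 2 4) : W)⁻¹ = k at k1 k2
    have := hU (ε k * g * (ε k)⁻¹) (by rw [← k1]; exact (Commute.conj_iff (ε k)).2 e1)
      (by rw [← k2]; exact (Commute.conj_iff (ε k)).2 e3)
    have km : ε k ∈ ε.range := ⟨k, rfl⟩
    exact (mul_mem_cancel_left km).1 ((mul_mem_cancel_right (inv_mem km)).1 this)
  have ee := sq ε (show eE * eE = 1 by decide +kernel)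
  have ee' := sq ε (show eB * eB = 1 by decide +kernel)
  have tt := sq ε (show tE * tE = 1 by decide +kernel)
  have uu := sq ψ (show uE * uE = 1 by decide +kernel)
  have uu1 := sq ε (show uE * uE = 1 by decide +kernel)
  have ue := cm ψ (show uE * eB = eB * uE by decide +kernel)
  have ue' := cm ψ (show uE * eE = eE * uE by decide +kernel)
  have ut := cj ψ (show uE * tE * uE⁻¹ = tE * eB by decide +kernel)
  have tu := cj ψ (show tE * uE * tE⁻¹ = uE * eB by decide +kernel)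
  have u1e := cm ε (show uE * eE = eE * uE by decide +kernel)
  have u1e' := cm ε (show uE * eB = eB * uE by decide +kernel)
  have u1t := cj ε (show uE * tE * uE⁻¹ = tE * eB by decide +kernel)
  have te := cm ε (show tE * eE = eE * tE by decide +kernel)
  have te' := cm ε (show tE * eB = eB * tE by decide +kernel)
  have eee := cm ε (show eE * eB = eB * eE by decide +kernel)
  have re := cj ψ (show pB2a_x * eB * pB2a_x⁻¹ = uE by decide +kernel)
  have ru := cj ψ (show pB2a_x * uE * pB2a_x⁻¹ = uE * eB by decide +kernel)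
  have re' := cj ψ (show pB2a_x * eE * pB2a_x⁻¹ = eE by decide +kernel)
  have r3 : ψ pB2a_x ^ 3 = 1 := by rw [← map_pow, show pB2a_x ^ 3 = 1 by decide +kernel, map_one]
  have bb : ε (tE * uE) * ε (tE * uE) = ε eB := by rw [← map_mul]; congr 1; decide +kernel
  have aa : ψ (tE * uE) * ψ (tE * uE) = ψ eB := by rw [← map_mul]; congr 1; decide +kernel
  have ta := cj ψ (show tE * (tE * uE) * tE⁻¹ = (tE * uE)⁻¹ by decide +kernel)
  simp only [map_mul, map_inv, p1, p2, p3] at ue ue' ut tu u1t re ru re' aa ta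
  have cc : ψ uE * ε uE * (ψ uE * ε uE) = ε eE * ε eB := by
    have k1 : Commute (ψ uE * ε uE) (ε eE) := Commute.mul_left ue u1e
    have k2 : Commute (ψ uE * ε uE) (ε eB) := Commute.mul_left ue' u1e'
    have k3 : ψ uE * ε uE * ε tE * (ψ uE * ε uE)⁻¹ = ε tE * (ε eE * ε eB) := by
      calc _ = ψ uE * (ε uE * ε tE * (ε uE)⁻¹) * (ψ uE)⁻¹ := by group
        _ = ψ uE * ε tE * (ψ uE)⁻¹ * (ψ uE * ε eB) * (ψ uE)⁻¹ := by rw [u1t]; group
        _ = _ := by rw [ut, ue']; group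
    have sg : σ * (ψ uE * ε uE * (ψ uE * ε uE)) * σ⁻¹ = (ψ uE * ε uE * (ψ uE * ε uE))⁻¹ := by
      rw [← conj_mul, ← conj_mul, sc (pa uE).symm, ← pa, mul_inv_rev, mul_inv_rev, inv_eq_of_mul_eq_one_right uu,
        inv_eq_of_mul_eq_one_right uu1]
    have n1 : ψ uE * ε uE * (ψ uE * ε uE) ≠ 1 := fun e => by
      obtain ⟨w, hw⟩ := cU (ψ uE) ue' (by
        rw [mul_eq_one_iff_eq_inv, mul_inv_rev, inv_eq_of_mul_eq_one_right uu, inv_eq_of_mul_eq_one_right uu1] at e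
        exact e)
      rw [← hw, ← map_inv, ← map_mul, ← map_mul, ← map_mul] at ut
      have : (1 : Perm (Fin 3)) = swap 0 1 := by simpa [tE, eE] using congrArg Prod.fst (h.inj ut)
      exact absurd this (by decide)
    generalize ψ uE * ε uE = c at *
    have k4 : Commute (c * c) (ε tE) := by
      have k5 := (k1.mul_right k2).eq
      have k6 : ε eE * ε eB * (ε eE * ε eB) = 1 := by
        rw [mul_assoc, ← mul_assoc (ε eB), ← eee, mul_assoc, ee', mul_one, ee]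
      rw [commute_iff_eq, ← mul_inv_eq_iff_eq_mul]
      calc _ = c * (c * ε tE * c⁻¹) * c⁻¹ := by group
        _ = c * (ε tE * (ε eE * ε eB)) * c⁻¹ := by rw [k3]
        _ = c * ε tE * c⁻¹ * (c * (ε eE * ε eB)) * c⁻¹ := by group
        _ = ε tE * (ε eE * ε eB * (ε eE * ε eB)) := by rw [k3, k5]; group
        _ = _ := by rw [k6, mul_one]
    have nt : ∀ y, Commute c y → c * c ≠ y * ε tE := fun y hy e => by
      have k5 : Commute c (ε tE) := by
        have : Commute c (y⁻¹ * (c * c)) := hy.inv_right.mul_right ((Commute.refl c).mul_right (Commute.refl c))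
        rwa [e, inv_mul_cancel_left] at this
      rw [k5.eq, mul_inv_cancel_right, left_eq_mul, ← map_mul, ← map_one ε] at k3
      exact absurd (h.inj k3) (by decide +kernel)
    rcases hn _ k4 with ⟨w, hw⟩ | ⟨w, hw⟩
    · have := pB2a_W (w := w) (.inr rfl) (ic h.inj (hw ▸ (k1.mul_left k1).eq)) (ic h.inj (hw ▸ (k2.mul_left k2).eq))
        (ic h.inj (hw ▸ k4.eq))
      rcases this with rfl | rfl | rfl | rfl | rfl | rfl | rfl | rfl
      · exact absurd (hw.symm.trans (map_one ε)) n1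
      · rw [← hw, h.se, ← map_inv] at sg
        exact absurd (h.inj sg) (by decide +kernel)
      · rw [← hw, sc h.se, ← map_inv] at sg
        exact absurd (h.inj sg) (by decide +kernel)
      · rw [← hw, map_mul]
      · exact absurd (by rw [← hw, one_mul]) (nt 1 (Commute.one_right c))
      · exact absurd (by rw [← hw, map_mul]) (nt _ k1)
      · exact absurd (by rw [← hw, map_mul]) (nt _ k2)
      · exact absurd (by rw [← hw, map_mul, map_mul, mul_assoc]) (nt _ (k1.mul_right k2))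
    · have k5 : ε w * ε eE * (ε w)⁻¹ = ε eB := by
        rw [hw, mul_assoc σ, (k1.mul_left k1).eq, ← h.se]; group
      rw [← map_inv, ← map_mul, ← map_mul] at k5
      have := congrArg Prod.fst (h.inj k5)
      simp [eB, eE] at this
  have ui := inv_eq_of_mul_eq_one_right uu
  have u1i := inv_eq_of_mul_eq_one_right uu1
  have u1u : ε uE * ψ uE * (ε uE)⁻¹ = ψ uE * (ε eE * ε eB) := by
    rw [← cc, u1i, ← mul_assoc, ← mul_assoc, ← mul_assoc, uu, one_mul]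
  have be : ε (tE * uE) * ε eE * (ε (tE * uE))⁻¹ = ε eE := cj ε (by decide +kernel)
  have be' : ε (tE * uE) * ε eB * (ε (tE * uE))⁻¹ = ε eB := cj ε (by decide +kernel)
  have bu : ε (tE * uE) * ψ uE * (ε (tE * uE))⁻¹ = ψ uE * ε eB := by
    rw [map_mul]
    calc _ = ε tE * (ε uE * ψ uE * (ε uE)⁻¹) * (ε tE)⁻¹ := by group
      _ = ε tE * ψ uE * (ε tE)⁻¹ * (ε tE * (ε eE * ε eB)) * (ε tE)⁻¹ := by rw [u1u]; group
      _ = ψ uE * (ε eE * ε eE) * ε eB := by rw [tu, (Commute.mul_right te te').eq]; group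
      _ = _ := by rw [ee, mul_one]
  have ab : Commute (ε tE * ψ uE) (ε (tE * uE)) := by
    have bt : ε (tE * uE) * ε tE * (ε (tE * uE))⁻¹ = ε eB * ε tE := by
      rw [← map_mul ε eB]; exact cj ε (by decide +kernel)
    rw [commute_iff_eq, eq_comm, ← mul_inv_eq_iff_eq_mul, ← conj_mul, bt, bu, ue', ← te', mul_assoc,
      ← mul_assoc (ε eB), ee', one_mul]
  have cT : ∀ g, g * ε eE * g⁻¹ = ε eE → g * ψ uE * g⁻¹ = ψ uE → g * ε eB * g⁻¹ = ε eB →
      g ∈ (centralizer {eE, eB, uE}).map ψ := fun g e1 e2 e3 => by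
    have k : ∀ w, g * ψ w * g⁻¹ = ψ w → σ⁻¹ * g * σ * ε w = ε w * (σ⁻¹ * g * σ) := fun w e => by
      rw [pa] at e
      calc _ = σ⁻¹ * (g * (σ * ε w * σ⁻¹) * g⁻¹) * g * σ := by group
        _ = _ := by rw [e]; group
    obtain ⟨w, hw⟩ := cU _ (k eB (p2 ▸ e1)) (k uE e2)
    refine ⟨w, ?_, by rw [pa, hw]; group⟩
    rintro _ (rfl | rfl | rfl)
    exacts [(ic h.inj (hw ▸ k eE (p1 ▸ e3))).symm, (ic h.inj (hw ▸ k eB (p2 ▸ e1))).symm,
      (ic h.inj (hw ▸ k uE e2)).symm]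
  have en : ∀ w ∈ centralizer {eE, eB, uE}, w = 1 ∨ w = eE ∨ w = eB ∨ w = eE * eB ∨ w = uE ∨ w = eE * uE ∨
      w = eB * uE ∨ w = eE * (eB * uE) := fun w hw =>
    pB2a_W (.inl rfl) (hw eE (by simp)).symm (hw eB (by simp)).symm (hw uE (by simp)).symm
  have le : ∀ K : Subgroup G, ε eE ∈ K → ψ uE ∈ K → ε eB ∈ K → (centralizer {eE, eB, uE}).map ψ ≤ K := by
    rintro K a1 a2 a3 _ ⟨w, hw, rfl⟩
    rcases en w hw with rfl | rfl | rfl | rfl | rfl | rfl | rfl | rfl <;>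
      (try simp only [map_mul, map_one, p1, p2]) <;> apply_rules [mul_mem, one_mem]
  generalize hb : ε (tE * uE) = b at *
  generalize hr : ψ pB2a_x = r at *
  have C := fun g : G => MulAut.conj_apply g
  have k1 : r * (ψ uE * ε eE) * r⁻¹ = ε eE := by
    rw [← conj_mul, ru, re, ue, mul_assoc, uu, mul_one]
  have cj1 : ∀ {g m y m' : G}, r * m * r⁻¹ = y → g * m * g⁻¹ = m' →
      r * g * r⁻¹ * y * (r * g * r⁻¹)⁻¹ = r * m' * r⁻¹ := fun {g m y m'} e1 e2 => by rw [← e1, ← e2]; group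
  have b1e' : r * b * r⁻¹ * ε eB * (r * b * r⁻¹)⁻¹ = ε eB := (cj1 re' be').trans re'
  have b1u : r * b * r⁻¹ * ψ uE * (r * b * r⁻¹)⁻¹ = ψ uE := (cj1 re be).trans re
  have b1e : r * b * r⁻¹ * ε eE * (r * b * r⁻¹)⁻¹ = ε eE * ε eB := by
    rw [cj1 k1 (show b * (ψ uE * ε eE) * b⁻¹ = ψ uE * ε eE * ε eB by
      rw [← conj_mul, bu, be, mul_assoc, ← eee, mul_assoc]), ← conj_mul, k1, re']
  have b2e' := (cj1 re' b1e').trans re'
  have b2u := cj1 re b1e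
  rw [← conj_mul (b := r) (a := ε eE), re, re'] at b2u
  have b2e := cj1 k1 (show r * b * r⁻¹ * (ψ uE * ε eE) * (r * b * r⁻¹)⁻¹ = ψ uE * ε eE * ε eB by
      rw [← conj_mul, b1u, b1e, mul_assoc])
  rw [← conj_mul (b := r) (a := ψ uE * ε eE), k1, re'] at b2e
  have b11 : r * b * r⁻¹ * (r * b * r⁻¹) = ε eB := by rw [conj_mul, bb, re']
  have nz : ∀ g, g * ε eB * g⁻¹ = ε eB → g ∈ normalizer (zpowers (ε eB) : Set G) := fun g e =>
    mem_normalizer_fintype (by rintro _ ⟨i, rfl⟩; exact ⟨i, by simp only [← conj_zpow, e]⟩)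
  have key := (pB2a_F2 (Y0 := zpowers (ε eB)) (Y1 := (centralizer {eE, eB, uE}).map ψ) (w := b) r3 (nz _ be') (nz _ re')
    (le _ (nz _ (by rw [eee, mul_inv_cancel_right])) (nz _ (by rw [ue', mul_inv_cancel_right])) (nz _ (by group)))
    (fun m hm => (le (pB2a_T (ε eB) b) ⟨eee, by rw [be]; simp⟩ ⟨ue', by rw [bu, ue']; simp⟩
      ⟨rfl, by rw [be']; simp⟩ hm).2)
    (fun m hm => (le (pB2a_T (ε eB) (r * b * r⁻¹)) ⟨eee, by rw [b1e, eee]; simp⟩ ⟨ue', by rw [b1u]; simp⟩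
      ⟨rfl, by rw [b1e']; simp⟩ hm).2)
    (by
      rintro _ ⟨w, hw, rfl⟩ e
      have e2 := pB2a_zp ee' e
      rw [← hr, ← p1, ← map_one ψ] at e2
      simp only [← map_mul, ← map_inv, ψi.eq_iff] at e2
      rcases en w hw with rfl | rfl | rfl | rfl | rfl | rfl | rfl | rfl
      · rw [map_one]; exact one_mem _
      · rw [p1]; exact mem_zpowers _
      all_goals exact absurd e2 (by decide +kernel))
    (by
      generalize r * (r * b * r⁻¹) * r⁻¹ = b2 at *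
      generalize r * b * r⁻¹ = b1 at *
      simp only [← C] at be bu be' b1e b1u b1e' b2e b2u b2e'
      refine cT _ ?_ ?_ ?_ <;> rw [← C] <;>
        simp only [map_mul, MulAut.mul_apply, be, bu, be', b1e, b1u, b1e', b2e, b2u, b2e', mul_assoc, ee', mul_one])
    (by
      generalize r * b * r⁻¹ = b1 at *
      have c2 : ∀ m y : G, b * b1 * m * (b * b1)⁻¹ = y → b1 * b * m * (b1 * b)⁻¹ = y →
          b * b1 * b⁻¹ * b1⁻¹ * y * (b * b1 * b⁻¹ * b1⁻¹)⁻¹ = y := fun m y e1 e2 => by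
        calc _ = b * b1 * ((b1 * b)⁻¹ * y * (b1 * b)) * (b * b1)⁻¹ := by group
          _ = b * b1 * m * (b * b1)⁻¹ := by rw [← e2]; group
          _ = y := e1
      simp only [← C] at be bu be' b1e b1u b1e'
      refine cT _ (c2 (ε eE * ε eB) _ ?_ ?_) (c2 (ψ uE * ε eB) _ ?_ ?_) (c2 (ε eB) _ ?_ ?_) <;> rw [← C] <;>
        simp only [map_mul, MulAut.mul_apply, be, bu, be', b1e, b1u, b1e', mul_assoc, ee', mul_one])).2
  generalize r * b * r⁻¹ = b1 at *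
  have eb : ε eB ∈ zpowers b := bb ▸ mul_mem (mem_zpowers b) (mem_zpowers b)
  have tf : ∀ f, ψ uE * f = f * ψ uE → ε tE * f * (ε tE)⁻¹ * (ε tE * ψ uE * f * (ε tE * ψ uE)⁻¹)⁻¹ ∈ zpowers b :=
    fun f e => by
    rw [mul_assoc (ε tE) (ψ uE) f, e, show ε tE * f * (ε tE)⁻¹ * (ε tE * (f * ψ uE) * (ε tE * ψ uE)⁻¹)⁻¹ = 1 by group]
    exact one_mem _
  rw [mul_inv_eq_iff_eq_mul] at b1u b1e'
  subst hb
  rcases pB2a_zp ee' key with e | e
  · rw [mul_inv_eq_one, mul_inv_eq_iff_eq_mul] at e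
    exact ⟨_, b1, ab, aa, ta, e.symm, b11 ▸ eb, b1e, tf _ b1u.symm⟩
  · refine ⟨_, b1 * ψ uE, ab, aa, ta, ?_, ?_, ?_, tf _ (by rw [← mul_assoc, b1u])⟩
    · rw [mul_inv_eq_iff_eq_mul] at e
      rw [commute_iff_eq, eq_comm, ← mul_inv_eq_iff_eq_mul, ← conj_mul, e, bu, ← b1e', ue', mul_assoc,
        ← mul_assoc (ε eB), ee', one_mul]
    · rw [mul_assoc, ← mul_assoc (ψ uE), ← b1u, mul_assoc, uu, mul_one, b11]; exact eb
    · rw [← b1e, mul_assoc b1, ue]; group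

end Cfsg.Agent.L1Se
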