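import Mathlib
import Cfsg.Agent.H1.Krek

/-! Nilpotent action of bracket-closed sets of homogeneous elements in graded Lie rings. -/

set_option autoImplicit false

namespace Cfsg.Agent.H8.Shu

open H1.Krek

universe u

variable {L : Type u} [LieRing L] {S S' T T' : Set L} {U V V' : AddSubgroup L} {v s : L}
  {m N : ℕ}

/-- The additive span of the brackets of `V` with `S`. -/
def ac (S : Set L) (V : AddSubgroup L) : AddSubgroup L :=
  AddSubgroup.closure {z | ∃ v ∈ V, ∃ s ∈ S, z = ⁅v, s⁆}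

theorem lie_mem_ac (hv : v ∈ V) (hs : s ∈ S) : ⁅v, s⁆ ∈ ac S V :=
  AddSubgroup.subset_closure ⟨v, hv, s, hs, rfl⟩

theorem ac_le (h : ∀ v ∈ V, ∀ s ∈ S, ⁅v, s⁆ ∈ U) : ac S V ≤ U :=
  (AddSubgroup.closure_le U).2 (by rintro _ ⟨v, hv, s, hs, rfl⟩; exact h v hv s hs)

theorem ac_mono (h1 : S ⊆ S') (h2 : V ≤ V') : ac S V ≤ ac S' V' :=
  ac_le fun _ hv _ hs => lie_mem_ac (h2 hv) (h1 hs)

theorem ac_sup_le (h1 : ac S V ≤ U) (h2 : ac S V' ≤ U) : ac S (V ⊔ V') ≤ U :=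
  ac_le fun v hv s hs => by
    obtain ⟨x, hx, y, hy, rfl⟩ := AddSubgroup.mem_sup.1 hv
    rw [add_lie]
    exact add_mem (h1 (lie_mem_ac hx hs)) (h2 (lie_mem_ac hy hs))

theorem ac_union_le (h1 : ac S V ≤ U) (h2 : ac T V ≤ U) : ac (S ∪ T) V ≤ U :=
  ac_le fun _ hv _ hs => hs.elim (fun h => h1 (lie_mem_ac hv h)) fun h => h2 (lie_mem_ac hv h)

theorem ac_closure (S : Set L) (V : AddSubgroup L) : ac (AddSubgroup.closure S) V = ac S V :=
  le_antisymm (ac_le fun v hv _ hs => (AddSubgroup.closure_le ((ac S V).comap (lb v))).2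
    (fun _ h => lie_mem_ac hv h) hs) (ac_mono AddSubgroup.subset_closure le_rfl)

theorem it_succ (S : Set L) (V : AddSubgroup L) (n : ℕ) :
    (ac S)^[n + 1] V = ac S ((ac S)^[n] V) := Function.iterate_succ_apply' _ _ _

theorem it_mono (h1 : S ⊆ S') (h2 : V ≤ V') (n : ℕ) : (ac S)^[n] V ≤ (ac S')^[n] V' := by
  induction n with
  | zero => exact h2
  | succ n ih => rw [it_succ, it_succ]; exact ac_mono h1 ih

theorem it_le (h : ac S V ≤ V) (n : ℕ) : (ac S)^[n] V ≤ V := by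
  induction n with
  | zero => exact le_rfl
  | succ n ih => rw [it_succ]; exact (ac_mono le_rfl ih).trans h

theorem it_anti (h : ac S V ≤ V) {n n' : ℕ} (hn : n ≤ n') : (ac S)^[n'] V ≤ (ac S)^[n] V := by
  obtain ⟨r, rfl⟩ := Nat.exists_eq_add_of_le hn
  rw [Function.iterate_add_apply]
  exact it_mono le_rfl (it_le h r) n

theorem it_mul {F : ℕ → AddSubgroup L} (h : ∀ j, (ac S)^[N] (F j) ≤ F (j + 1)) (j : ℕ) :
    (ac S)^[N * j] (F 0) ≤ F j := by
  induction j with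
  | zero => exact le_rfl
  | succ j ih =>
    rw [Nat.mul_succ, add_comm, Function.iterate_add_apply]
    exact (it_mono le_rfl ih N).trans (h j)

theorem ac_ac_le (hV : ac S V ≤ V) (h : ∀ t ∈ T, ∀ s ∈ S, ∀ v ∈ V, ⁅v, ⁅t, s⁆⁆ ∈ U)
    (hU : ac T V ≤ U) : ac S (ac T V) ≤ U :=
  ac_le fun _ hx s hs => ac_le (U := U.comap (rb s)) (fun v hv t ht => by
    change ⁅⁅v, t⁆, s⁆ ∈ U
    rw [lie_lie, sub_eq_add_neg, lie_skew]
    exact add_mem (h t ht s hs v hv) (hU (lie_mem_ac (hV (lie_mem_ac hv hs)) ht))) hx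

theorem it_union (hT' : T' ⊆ S) (hT : T ⊆ S) (hV : ac S V ≤ V) (hU : ac S U ≤ U) (hUV : U ≤ V)
    (hn : ∀ t ∈ T, ∀ s ∈ S, ⁅t, s⁆ ∈ T ∨ ∀ v ∈ V, ⁅v, ⁅t, s⁆⁆ ∈ U)
    (h1 : (ac T)^[m] V ≤ U) (h2 : (ac T')^[N] V ≤ U) : (ac (T ∪ T'))^[N * m] V ≤ U := by
  let F : ℕ → AddSubgroup L := fun j => (fun X => ac T X ⊔ U)^[j] V
  have hF : ∀ j, F (j + 1) = ac T (F j) ⊔ U := fun j => Function.iterate_succ_apply' _ _ _
  have a1 : ∀ j, ac S (F j) ≤ F j ∧ F j ≤ V ∧ F j ≤ (ac T)^[j] V ⊔ U := fun j => by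
    induction j with
    | zero => exact ⟨hV, le_rfl, le_sup_left⟩
    | succ j ih =>
      rw [hF, it_succ]
      refine ⟨ac_sup_le (ac_ac_le ih.1 (fun t ht s hs v hv => ?_) le_sup_left)
        (hU.trans le_sup_right), sup_le ((ac_mono hT ih.2.1).trans hV) hUV, sup_le
        ((ac_mono le_rfl ih.2.2).trans (ac_sup_le le_sup_left
          (((ac_mono hT le_rfl).trans hU).trans le_sup_right))) le_sup_right⟩
      exact (hn t ht s hs).elim (fun h => AddSubgroup.mem_sup_left (lie_mem_ac hv h))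
        fun h => AddSubgroup.mem_sup_right (h v (ih.2.1 hv))
  have a2 : ∀ j r, (ac (T ∪ T'))^[r] (F j) ≤ (ac T')^[r] (F j) ⊔ F (j + 1) := fun j r => by
    induction r with
    | zero => exact le_sup_left
    | succ r ih =>
      rw [it_succ, it_succ]
      refine (ac_mono le_rfl ih).trans (ac_sup_le (ac_union_le ?_ le_sup_left)
        (((ac_mono (Set.union_subset hT hT') le_rfl).trans (a1 _).1).trans le_sup_right))
      rw [hF]
      exact (ac_mono le_rfl (it_le ((ac_mono hT' le_rfl).trans (a1 j).1) r)).trans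
        (le_sup_left.trans le_sup_right)
  refine (it_mul (F := F) (fun j => (a2 j N).trans (sup_le ?_ le_rfl)) m).trans
    ((a1 m).2.2.trans (sup_le h1 le_rfl))
  rw [hF]
  exact ((it_mono le_rfl (a1 j).2.1 N).trans h2).trans le_sup_right

theorem it_cover {ι : Type*} [Fintype ι] {t : ℕ} (ht : Fintype.card ι ≤ t) {C : ι → Set L}
    (hC : ∀ x ∈ S, ∃ i, x ∈ C i) (h : ∀ i, (ac (C i))^[m] ⊤ = ⊥) (hV : ac S V ≤ V)
    (hU : ac S U ≤ U) (hUV : U ≤ V)
    (hn : ∀ i, ∀ t ∈ S ∩ C i, ∀ s ∈ S, ⁅t, s⁆ ∈ S ∩ C i ∨ ∀ v ∈ V, ⁅v, ⁅t, s⁆⁆ ∈ U) :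
    (ac S)^[(m + 1) ^ t] V ≤ U := by
  classical
  have key : ∀ E : Finset ι, (ac {x | x ∈ S ∧ ∃ i ∈ E, x ∈ C i})^[m ^ E.card] V ≤ U := fun E => by
    induction E using Finset.induction_on with
    | empty => exact ac_le fun _ _ _ hs => by simp at hs
    | insert i E hi ih =>
      rw [Finset.card_insert_of_notMem hi, pow_succ]
      refine (it_mono (fun x hx => ?_) le_rfl _).trans (it_union (fun _ h => h.1)
        Set.inter_subset_left hV hU hUV (hn i) (((it_mono Set.inter_subset_right le_top m).trans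
          (h i).le).trans bot_le) ih)
      obtain ⟨h1, j, h2, h3⟩ := hx
      exact (Finset.mem_insert.1 h2).elim (fun e => Or.inl ⟨h1, e ▸ h3⟩)
        fun e => Or.inr ⟨h1, j, e, h3⟩
  refine (it_anti hV ((Nat.pow_le_pow_left m.le_succ _).trans
    (Nat.pow_le_pow_right m.succ_pos ht))).trans ((it_mono (fun x hx => ?_) le_rfl _).trans
      (key Finset.univ))
  simpa [hx] using hC x hx

/-- The brackets of elements of `S`. -/
def dS (S : Set L) : Set L := {z | ∃ x ∈ S, ∃ y ∈ S, z = ⁅x, y⁆}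

theorem it_sol {ι : Type*} [Fintype ι] {t : ℕ} (ht : Fintype.card ι ≤ t) {C : ι → Set L}
    (h : ∀ i, (ac (C i))^[m] ⊤ = ⊥) (s : ℕ) : ∀ S : Set L, dS S ⊆ S → (∀ x ∈ S, ∃ i, x ∈ C i) →
    (∀ x ∈ dS^[s] S, x = 0) → (ac S)^[((m + 1) ^ t) ^ s] ⊤ = ⊥ := by
  induction s with
  | zero => exact fun S _ _ h0 => le_bot_iff.1 (ac_le fun v _ s hs => by simp [h0 s hs])
  | succ s ih =>
    intro S hS hC h0
    have h1 : ∀ t ∈ dS S, ∀ s ∈ S, ⁅t, s⁆ ∈ dS S := fun t ht s hs => ⟨t, hS ht, s, hs, rfl⟩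
    have h2 := ih (dS S) (by rintro _ ⟨x, hx, y, hy, rfl⟩; exact h1 x hx y (hS hy))
      (fun x hx => hC x (hS hx)) h0
    have h3 : ∀ j, ac S ((ac (dS S))^[j] ⊤) ≤ (ac (dS S))^[j] ⊤ := fun j => by
      induction j with
      | zero => exact le_top
      | succ j ih =>
        rw [it_succ]
        exact ac_ac_le ih (fun t ht s hs v hv => lie_mem_ac hv (h1 t ht s hs)) le_rfl
    rw [pow_succ', ← le_bot_iff, ← h2]
    exact it_mul (F := fun j => (ac (dS S))^[j] ⊤) (fun j => it_cover ht hC h (h3 j) (h3 _)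
      (it_anti le_top j.le_succ) fun i t ht s hs => Or.inr fun v hv => by
        rw [it_succ]; exact lie_mem_ac hv ⟨t, ht.1, s, hs, rfl⟩) _

/-- The bound in the theorem of Kreknin type. -/
def kf (m : ℕ) : ℕ → ℕ
  | 0 => 0
  | k + 1 => kf m k + (kf m k + 1) * m

theorem ac_gen {n : ℕ} {A : ZMod n → AddSubgroup L} (hA : fb A A ≤ A) (X : Set (ZMod n))
    (c : ZMod n) : ac (A 0) (gen A X c) ≤ gen A X c := by
  have : gen A X ≤ fun j => gen A X j ⊓ ⨅ a ∈ A 0, (gen A X j).comap (rb a) := by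
    refine gen_le (fun j hj y hy => ?_) (fb_le' fun i j x y hx hy => ?_)
    · simp only [AddSubgroup.mem_inf, AddSubgroup.mem_iInf]
      exact ⟨le_gen hj hy, fun a ha => le_gen hj (add_zero j ▸ lie_mem hA hy ha : ⁅y, a⁆ ∈ A j)⟩
    · simp only [AddSubgroup.mem_inf, AddSubgroup.mem_iInf] at hx hy ⊢
      refine ⟨lie_mem gen_graded hx.1 hy.1, fun a ha => ?_⟩
      change ⁅⁅x, y⁆, a⁆ ∈ gen A X (i + j)
      rw [lie_lie, sub_eq_add_neg, lie_skew]
      exact add_mem (lie_mem gen_graded hx.1 (hy.2 a ha)) (lie_mem gen_graded (hx.2 a ha) hy.1)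
  refine ac_le fun v hv a ha => ?_
  have h1 := this c hv
  simp only [AddSubgroup.mem_inf, AddSubgroup.mem_iInf] at h1
  exact h1.2 a ha

theorem ks_aux {n : ℕ} [NeZero n] (k : ℕ) : ∀ A : ZMod n → AddSubgroup L, fb A A ≤ A →
    (ac (A 0 : Set L))^[m] ⊤ = ⊥ → der^[kf m k] A ≤ gen A {j | k ≤ j.val} := by
  induction k with
  | zero => exact fun A _ _ i => le_gen (Nat.zero_le _)
  | succ k ih =>
    intro A hA h0
    classical
    have sub : ∀ s, (ac (der^[s] A 0 : Set L))^[m] ⊤ = ⊥ := fun s =>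
      le_bot_iff.1 ((it_mono ((der_iter hA s).1 0) le_rfl m).trans h0.le)
    rw [kf, Function.iterate_add_apply]
    refine (ih _ (der_iter hA _).2 (sub _)).trans (gen_le (fun c hc => ?_) gen_graded)
    by_cases hc' : c.val = k
    swap
    · exact ((der_iter hA _).1 c).trans (le_gen (lt_of_le_of_ne hc (Ne.symm hc')))
    suffices H : ∀ r, der^[(kf m k + 1) * r] A c ≤
        gen A {j | k + 1 ≤ j.val} c ⊔ (ac (A 0 : Set L))^[r] ⊤ by simpa [h0] using H m
    intro r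
    induction r with
    | zero => exact le_top.trans le_sup_right
    | succ r ih' =>
      have hN := der_iter hA ((kf m k + 1) * r)
      have hs := sub ((kf m k + 1) * r)
      rw [Nat.mul_succ, add_comm, Function.iterate_add_apply, Function.iterate_succ_apply', it_succ]
      generalize der^[(kf m k + 1) * r] A = N at hN hs ih' ⊢
      refine (((fb_mono (der_iter hN.2 (kf m k)).1 (ih N hN.2 hs)).trans (fb_gen_le (M := fun i =>
        if i = c then gen A {j | k + 1 ≤ j.val} c ⊔ ac (A 0) ((ac (A 0 : Set L))^[r] ⊤) else ⊤) hN.2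
          fun i j x y hj hx hy => ?_)) c).trans (if_pos rfl).le
      split_ifs with h
      swap
      · trivial
      by_cases hj' : j = c
      · obtain rfl : i = 0 := by simpa [hj'] using h
        rw [← lie_skew]
        exact neg_mem (ac_sup_le ((ac_gen hA _ c).trans le_sup_left) le_sup_right
          (lie_mem_ac (ih' (hj' ▸ hy)) (hN.1 0 hx)))
      have h2 := i.val_lt
      have h3 := j.val_lt
      have h4 : k ≤ j.val := hj
      have h6 : j.val ≠ k := fun e => hj' (ZMod.val_injective n (e.trans hc'.symm))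
      have h5 : k + 1 ≤ i.val ∧ k + 1 ≤ j.val := by
        rw [← h] at hc'
        rcases lt_or_ge (i.val + j.val) n with l | l
        · rw [ZMod.val_add_of_lt l] at hc'; omega
        · rw [ZMod.val_add_of_le l] at hc'; omega
      exact AddSubgroup.mem_sup_left (h ▸ lie_mem gen_graded (le_gen h5.1 (hN.1 i hx))
        (le_gen h5.2 (hN.1 j hy)))

theorem ks {n : ℕ} [NeZero n] {A : ZMod n → AddSubgroup L} (hA : fb A A ≤ A)
    (h0 : (ac (A 0 : Set L))^[m] ⊤ = ⊥) : der^[kf m n] A = ⊥ :=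
  le_bot_iff.1 ((ks_aux n A hA h0).trans (gen_le (fun i hi => absurd i.val_lt (not_lt.2 hi))
    (fb_le' fun i j x y hx _ => by rw [AddSubgroup.mem_bot.1 hx, zero_lie]; exact zero_mem _)))

theorem dS_subset {n : ℕ} {A : ZMod n → AddSubgroup L} (h : ∀ x ∈ S, ∃ i, x ∈ A i) (s : ℕ) :
    ∀ x ∈ dS^[s] S, ∃ i, x ∈ der^[s] A i := by
  induction s with
  | zero => exact h
  | succ s ih =>
    rw [Function.iterate_succ_apply', Function.iterate_succ_apply']
    rintro _ ⟨x, hx, y, hy, rfl⟩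
    obtain ⟨i, hi⟩ := ih x hx
    obtain ⟨j, hj⟩ := ih y hy
    exact ⟨i + j, lie_mem_fb hi hj⟩

theorem lie_main (p m t : ℕ) [NeZero p] (r : ℕ) : ∃ B, ∀ (L : Type u) [LieRing L] (α ι : Type u)
    [Fintype ι], Fintype.card ι ≤ t → ∀ (W : (α → ZMod p) → Set L) (C : ι → Set L),
    (∀ l μ x y, x ∈ W l → y ∈ W μ → ⁅x, y⁆ ∈ W (l + μ)) → (∀ l, ∀ x ∈ W l, ∃ i, x ∈ C i) →
    (∀ i, (ac (C i))^[m] ⊤ = ⊥) → (∀ i, ∀ c ∈ C i, ∀ x ∈ W 0, ⁅c, x⁆ ∈ C i) →
    ∀ E : Finset α, E.card = r → (ac {x | ∃ l, (∀ a ∉ E, l a = 0) ∧ x ∈ W l})^[B] ⊤ = ⊥ := by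
  induction r with
  | zero =>
    refine ⟨(m + 1) ^ t, fun L _ α ι _ ht W C h1 h2 h3 h4 E hE => le_bot_iff.1 ?_⟩
    obtain rfl := Finset.card_eq_zero.1 hE
    refine (it_mono (S' := W 0) ?_ le_rfl _).trans (it_cover ht (h2 0) h3
      le_top (ac_le fun v hv _ _ => by simp [AddSubgroup.mem_bot.1 hv]) le_top
      fun i t ht s hs => Or.inl ⟨by simpa using h1 0 0 t s ht.1 hs, h4 i t ht.2 s hs⟩)
    rintro x ⟨l, hl, hx⟩
    rwa [show l = 0 from funext fun a => hl a (by simp)] at hx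
  | succ r ih =>
    obtain ⟨B, hB⟩ := ih
    refine ⟨((m + 1) ^ t) ^ kf B p, fun L _ α ι _ ht W C h1 h2 h3 h4 E hE => ?_⟩
    classical
    obtain ⟨a, E, ha, rfl, hE'⟩ := Finset.card_eq_succ.1 hE
    let A : ZMod p → AddSubgroup L := fun i =>
      AddSubgroup.closure {x | ∃ l, (∀ b ∉ insert a E, l b = 0) ∧ l a = i ∧ x ∈ W l}
    have hA : fb A A ≤ A := fb_le' fun i j x y hx hy => by
      refine (AddSubgroup.closure_le ((A (i + j)).comap (rb y))).2 ?_ hx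
      rintro x ⟨l, a1, a2, a3⟩
      refine (AddSubgroup.closure_le ((A (i + j)).comap (lb x))).2 ?_ hy
      rintro y ⟨μ, b1, b2, b3⟩
      exact AddSubgroup.subset_closure
        ⟨l + μ, fun b hb => by simp [a1 b hb, b1 b hb], by simp [a2, b2], h1 _ _ _ _ a3 b3⟩
    have h0 : (ac (A 0 : Set L))^[B] ⊤ = ⊥ := by
      rw [show ac (A 0 : Set L) = ac _ from funext (ac_closure _), ← le_bot_iff,
        ← hB L α ι ht W C h1 h2 h3 h4 E hE']
      refine it_mono ?_ le_rfl _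
      rintro x ⟨l, a1, a2, a3⟩
      refine ⟨l, fun b hb => ?_, a3⟩
      by_cases e : b = a
      · rw [e, a2]
      · exact a1 b (by simp [e, hb])
    refine it_sol ht h3 _ _ ?_ (fun x ⟨l, _, hx⟩ => h2 l x hx) fun x hx => ?_
    · rintro _ ⟨x, ⟨l, a1, a2⟩, y, ⟨μ, b1, b2⟩, rfl⟩
      exact ⟨l + μ, fun b hb => by simp [a1 b hb, b1 b hb], h1 _ _ _ _ a2 b2⟩
    · obtain ⟨i, hi⟩ := dS_subset (A := A) (by
        rintro x ⟨l, a1, a2⟩
        exact ⟨l a, AddSubgroup.subset_closure ⟨l, a1, rfl, a2⟩⟩) _ x hx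
      rwa [ks hA h0] at hi

end Cfsg.Agent.H8.Shu
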