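import Mathlib
import Cfsg.Agent.H8.Shu1
import Cfsg.Agent.H1.LieAut

/-! Lie rings with an elementary abelian group of automorphisms. -/

set_option autoImplicit false

namespace Cfsg.Agent.H8.Shu

open H1.Krek Polynomial
open scoped TensorProduct

section
variable {R L A ι : Type} [CommRing R] [LieRing L] [LieAlgebra R L] [Group A] [Fintype A]

open Classical in
/-- The trace map of a subgroup. -/
noncomputable def av (ρ : A →* Module.End R L) (D : Subgroup A) : Module.End R L :=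
  ∑ a ∈ Finset.univ.filter (· ∈ D), ρ a

/-- The hypotheses of the theorem on Lie rings. -/
structure Hyp (p m N : ℕ) (ρ : A →* Module.End R L) (X : Set (Submodule R L))
    (C : ι → Submodule R L) : Prop where
  tor : ∀ x : L, N • x = 0
  lie : ∀ a x y, ρ a ⁅x, y⁆ = ⁅ρ a x, ρ a y⁆
  inv : ∀ Y ∈ X, ∀ a, ∀ x ∈ Y, ρ a x ∈ Y
  top : ⊤ ≤ sSup X
  cl : ∀ Y ∈ X, ∀ Z ∈ X, ∀ D : Subgroup A, D.index ≤ p →
    ∃ W ∈ X, ∀ x ∈ Y, ∀ y ∈ Z, av ρ D ⁅x, y⁆ ∈ W
  cov : ∀ Y ∈ X, ∃ i, Y ≤ C i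
  nil : ∀ i, (ac (C i : Set L))^[m] ⊤ = ⊥
  zero : ∀ i, ∀ Y ∈ X, ∀ c ∈ C i, ∀ x ∈ Y, ⁅c, av ρ ⊤ x⁆ ∈ C i

omit [Fintype A] in
theorem exists_nsmul {N n : ℕ} (hN : ∀ x : L, N • x = 0) (hc : N.Coprime n) (x : L) :
    ∃ u : ℕ, u • n • x = x :=
  exists_nsmul_eq_self_of_coprime (hc.coprime_dvd_left (addOrderOf_dvd_of_nsmul_eq_zero (hN x))).symm

theorem exists_av {N : ℕ} (hN : ∀ x : L, N • x = 0) (hc : N.Coprime (Nat.card A))
    (ρ : A →* Module.End R L) (D : Subgroup A) {z : L} (hz : ∀ a ∈ D, ρ a z = z) :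
    ∃ u : ℕ, u • av ρ D z = z := by
  classical
  rw [av, LinearMap.sum_apply, Finset.sum_congr rfl fun a ha => hz a (Finset.mem_filter.1 ha).2,
    Finset.sum_const, ← Fintype.card_subtype, ← Nat.card_eq_fintype_card]
  exact exists_nsmul hN (hc.coprime_dvd_right D.card_subgroup_dvd_card) z

variable {p m N : ℕ} [hp : Fact p.Prime] {ρ : A →* Module.End R L} {X : Set (Submodule R L)}
  {C : ι → Submodule R L}

omit [Fintype A] in
theorem mem_closure_eigen {ω : R} (h1 : ω ^ p = 1) (h2 : ∑ i ∈ Finset.range p, ω ^ i = 0)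
    (hN : ∀ x : L, N • x = 0) (hc : N.Coprime p) (hA : ∀ a b : A, a * b = b * a)
    (hA' : ∀ a : A, a ^ p = 1) {Y : Submodule R L} (hY : ∀ a, ∀ x ∈ Y, ρ a x ∈ Y) (E : Finset A) :
    ∀ x ∈ Y, x ∈ AddSubgroup.closure
      {x | x ∈ Y ∧ ∃ l : A → ZMod p, ∀ a ∈ E, ρ a x = ω ^ (l a).val • x} := by
  classical
  induction E using Finset.induction_on with
  | empty => exact fun x hx => AddSubgroup.subset_closure ⟨hx, 0, by simp⟩
  | insert a E ha ih =>
    intro x hx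
    refine (AddSubgroup.closure_le _).2 ?_ (ih x hx)
    rintro x ⟨hx, l, hl⟩
    let Z : Submodule R L := Y ⊓ ⨅ b ∈ E, LinearMap.ker (ρ b - ω ^ (l b).val • 1)
    have mZ : ∀ y, y ∈ Z ↔ y ∈ Y ∧ ∀ b ∈ E, ρ b y = ω ^ (l b).val • y := fun y => by
      simp [Z, sub_eq_zero]
    have hZ : ∀ y ∈ Z, ρ a y ∈ Z := fun y hy => (mZ _).2 ⟨hY a y ((mZ y).1 hy).1, fun b hb => by
      rw [← Module.End.mul_apply, ← map_mul, hA, map_mul, Module.End.mul_apply,
        ((mZ y).1 hy).2 b hb, map_smul]⟩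
    obtain ⟨e, e1, e2⟩ := sum_eigen h1 h2 ((ρ a).restrict hZ) (by
      rw [Module.End.pow_restrict]
      ext y
      simp [← map_pow, hA']) (⟨x, (mZ x).2 ⟨hx, hl⟩⟩ : Z)
    obtain ⟨u, hu⟩ := exists_nsmul hN hc x
    have e3 : ∑ i, (e i : L) = p • x := by simpa using congrArg Subtype.val e2
    rw [SetLike.mem_coe, ← hu, ← e3]
    refine nsmul_mem (sum_mem fun i _ => AddSubgroup.subset_closure ?_) u
    refine ⟨((mZ _).1 (e i).2).1, Function.update l a i, fun b hb => ?_⟩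
    rcases Finset.mem_insert.1 hb with rfl | hb'
    · simpa using congrArg Subtype.val (e1 i)
    · rw [Function.update_of_ne (ne_of_mem_of_not_mem hb' ha)]
      exact ((mZ _).1 (e i).2).2 b hb'

theorem Hyp.nilp {ω : R} (h2 : ∑ i ∈ Finset.range p, ω ^ i = 0) (hc : N.Coprime p)
    (hc' : N.Coprime (Nat.card A)) (hA : ∀ a b : A, a * b = b * a) (hA' : ∀ a : A, a ^ p = 1)
    (h : Hyp p m N ρ X C) {B : ℕ} (hB : ∀ (W : (A → ZMod p) → Set L) (C : ι → Set L),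
    (∀ l μ x y, x ∈ W l → y ∈ W μ → ⁅x, y⁆ ∈ W (l + μ)) → (∀ l, ∀ x ∈ W l, ∃ i, x ∈ C i) →
    (∀ i, (ac (C i))^[m] ⊤ = ⊥) → (∀ i, ∀ c ∈ C i, ∀ x ∈ W 0, ⁅c, x⁆ ∈ C i) →
    (ac {x | ∃ l, (∀ a ∉ (Finset.univ : Finset A), l a = 0) ∧ x ∈ W l})^[B] ⊤ = ⊥) :
    (ac (Set.univ : Set L))^[B] ⊤ = ⊥ := by
  have h1 : ω ^ p = 1 := by rw [← sub_eq_zero, ← geom_sum_mul, h2, zero_mul]
  have := hB (fun l => {x | (∃ Y ∈ X, x ∈ Y) ∧ ∀ a, ρ a x = ω ^ (l a).val • x})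
    (fun i => C i) ?_ ?_ h.nil ?_
  · rw [← _root_.funext (ac_closure _)] at this
    refine le_bot_iff.1 ((it_mono (fun x _ => ?_) le_rfl B).trans this.le)
    have hx := h.top (Submodule.mem_top (x := x))
    rw [sSup_eq_iSup'] at hx
    refine Submodule.iSup_induction _ (motive := fun x => x ∈ AddSubgroup.closure _) hx
      (fun Y x hx => AddSubgroup.closure_mono ?_ (mem_closure_eigen h1 h2 h.tor hc hA hA'
        (h.inv Y Y.2) Finset.univ x hx)) (zero_mem _) fun _ _ => add_mem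
    rintro x ⟨hx, l, hl⟩
    exact ⟨l, by simp, ⟨Y, Y.2, hx⟩, fun a => hl a (Finset.mem_univ a)⟩
  · rintro l μ x y ⟨⟨Y, hY, hx⟩, a1⟩ ⟨⟨Z, hZ, hy⟩, b1⟩
    have e : ∀ a, ρ a ⁅x, y⁆ = ω ^ ((l + μ) a).val • ⁅x, y⁆ := fun a => by
      rw [h.lie, a1, b1, smul_lie, lie_smul, smul_smul, ← pow_add, Pi.add_apply, ZMod.val_add,
        ← pow_eq_pow_mod _ h1]
    letI : MulAction A L := MulAction.compHom L ρ
    obtain ⟨W, hW, h3⟩ := h.cl Y hY Z hZ (MulAction.stabilizer A ⁅x, y⁆) (by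
      rw [MulAction.index_stabilizer]
      refine (Set.ncard_le_ncard (t := (fun i : ZMod p => ω ^ i.val • ⁅x, y⁆) '' Set.univ)
        (by rintro _ ⟨a, rfl⟩; exact ⟨_, trivial, (e a).symm⟩)).trans
        ((Set.ncard_image_le).trans (by simp)))
    obtain ⟨u, hu⟩ := exists_av h.tor hc' ρ (MulAction.stabilizer A ⁅x, y⁆) fun a ha => ha
    exact ⟨⟨W, hW, hu ▸ nsmul_mem (h3 x hx y hy) u⟩, e⟩
  · rintro l x ⟨⟨Y, hY, hx⟩, -⟩
    exact (h.cov Y hY).imp fun i hi => hi hx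
  · rintro i c hc x ⟨⟨Y, hY, hx⟩, a1⟩
    obtain ⟨u, hu⟩ := exists_av h.tor hc' ρ ⊤ (z := x) fun a _ => by simpa using a1 a
    rw [← hu, lie_nsmul]
    exact nsmul_mem (h.zero i Y hY c hc x hx) u

end

section
variable {R L A ι : Type} [CommRing R] [LieRing L] [Group A] [Fintype A]

theorem bc_lie {Y Z W : Submodule ℤ L} {φ ψ : Module.End ℤ L}
    (h : ∀ x ∈ Y, ∀ y ∈ Z, φ ⁅x, ψ y⁆ ∈ W) {x y : R ⊗[ℤ] L} (hx : x ∈ Y.baseChange R)
    (hy : y ∈ Z.baseChange R) : φ.baseChange R ⁅x, ψ.baseChange R y⁆ ∈ W.baseChange R := by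
  obtain ⟨x, rfl⟩ := Submodule.toBaseChange_surjective' R Y hx
  obtain ⟨y, rfl⟩ := Submodule.toBaseChange_surjective' R Z hy
  clear hx hy
  have a1 : ∀ x y z : R ⊗[ℤ] L, ⁅x + y, z⁆ = ⁅x, z⁆ + ⁅y, z⁆ := fun x y z => add_lie x y z
  have a2 : ∀ x y z : R ⊗[ℤ] L, ⁅x, y + z⁆ = ⁅x, y⁆ + ⁅x, z⁆ := fun x y z => lie_add x y z
  have a3 : ∀ x : R ⊗[ℤ] L, ⁅(0 : R ⊗[ℤ] L), x⁆ = 0 := fun x => zero_lie x
  have a4 : ∀ x : R ⊗[ℤ] L, ⁅x, (0 : R ⊗[ℤ] L)⁆ = 0 := fun x => lie_zero x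
  induction x using TensorProduct.induction_on with
  | zero => simp [a3]
  | add a b ha hb => simpa [a1] using add_mem ha hb
  | tmul r a =>
    induction y using TensorProduct.induction_on with
    | zero => simp [a4]
    | add c d hc hd => simpa [a2] using add_mem hc hd
    | tmul s b => simpa using Submodule.tmul_mem_baseChange_of_mem _ (h a a.2 b b.2)

theorem bc_map {Y : Submodule ℤ L} {φ : Module.End ℤ L} (h : ∀ x ∈ Y, φ x ∈ Y) {x : R ⊗[ℤ] L}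
    (hx : x ∈ Y.baseChange R) : φ.baseChange R x ∈ Y.baseChange R := by
  obtain ⟨x, rfl⟩ := Submodule.toBaseChange_surjective' R Y hx
  clear hx
  induction x using TensorProduct.induction_on with
  | zero => simp
  | add a b ha hb => simpa using add_mem ha hb
  | tmul r a => simpa using Submodule.tmul_mem_baseChange_of_mem _ (h a a.2)

theorem bc_it (Y : Submodule ℤ L) (j : ℕ) : (ac (Y.baseChange R : Set (R ⊗[ℤ] L)))^[j] ⊤ ≤
    (((ac (Y : Set L))^[j] ⊤).toIntSubmodule.baseChange R).toAddSubgroup := by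
  induction j with
  | zero => exact fun x _ => by simp
  | succ j ih =>
    rw [it_succ, it_succ]
    exact ac_le fun v hv s hs => by
      simpa using bc_lie (φ := 1) (ψ := 1) (W := (ac (Y : Set L) ((ac (Y : Set L))^[j] ⊤)).toIntSubmodule)
        (fun x hx y hy => lie_mem_ac hx hy) (ih hv) hs

variable {p m N : ℕ} {ρ : A →* Module.End ℤ L} {X : Set (Submodule ℤ L)} {C : ι → Submodule ℤ L}

theorem Hyp.bc (R : Type) [CommRing R] (h : Hyp p m N ρ X C) :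
    Hyp p m N ((Module.End.baseChangeHom ℤ R L).toRingHom.toMonoidHom.comp ρ)
      ((·.baseChange R) '' X) fun i => (C i).baseChange R := by
  have e : ∀ D, av ((Module.End.baseChangeHom ℤ R L).toRingHom.toMonoidHom.comp ρ) D =
      (av ρ D).baseChange R := fun D => (map_sum (Module.End.baseChangeHom ℤ R L) _ _).symm
  refine ⟨fun x => ?_, fun a => (LieAlgebra.ExtendScalars.map (AlgHom.id ℤ R)
    (⟨ρ a, h.lie a _ _⟩ : L →ₗ⁅ℤ⁆ L)).map_lie, ?_, fun x _ => ?_, ?_, ?_, fun i => ?_, ?_⟩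
  · induction x using TensorProduct.induction_on with
    | zero => simp
    | add a b ha hb => rw [smul_add, ha, hb, add_zero]
    | tmul r a => rw [← TensorProduct.tmul_smul, h.tor, TensorProduct.tmul_zero]
  · rintro _ ⟨Y, hY, rfl⟩ a x hx
    exact bc_map (h.inv Y hY a) hx
  · induction x using TensorProduct.induction_on with
    | zero => simp
    | add a b ha hb => exact add_mem (ha trivial) (hb trivial)
    | tmul r a =>
      refine (sSup_le fun Y hY y hy => ?_ : sSup X ≤ Submodule.comap (TensorProduct.mk ℤ R L r)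
        (Submodule.restrictScalars ℤ (sSup ((fun Y : Submodule ℤ L => Y.baseChange R) '' X))))
          (h.top (Submodule.mem_top (x := a)))
      exact Submodule.mem_sSup_of_mem (Set.mem_image_of_mem _ hY)
        (Submodule.tmul_mem_baseChange_of_mem r hy)
  · rintro _ ⟨Y, hY, rfl⟩ _ ⟨Z, hZ, rfl⟩ D hD
    obtain ⟨W, hW, h1⟩ := h.cl Y hY Z hZ D hD
    exact ⟨_, ⟨W, hW, rfl⟩, fun x hx y hy => by
      rw [e]; simpa using bc_lie (ψ := 1) h1 hx hy⟩
  · rintro _ ⟨Y, hY, rfl⟩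
    exact (h.cov Y hY).imp fun i hi => Submodule.baseChange_mono R hi
  · simpa [h.nil i] using bc_it (R := R) (C i) m
  · rintro i _ ⟨Y, hY, rfl⟩ c hc x hx
    rw [e]; simpa using bc_lie (φ := 1) (h.zero i Y hY) hc hx

end

theorem lie_act (p m t r : ℕ) [hp : Fact p.Prime] : ∃ B, ∀ (L A ι : Type) [LieRing L] [Group A]
    [Fintype A] [Fintype ι], Nat.card A = r → Fintype.card ι ≤ t → (∀ a b : A, a * b = b * a) →
    (∀ a : A, a ^ p = 1) → ∀ N : ℕ, N.Coprime p → N.Coprime r → ∀ (ρ : A →* Module.End ℤ L) X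
    (C : ι → Submodule ℤ L), Hyp p m N ρ X C → (ac (Set.univ : Set L))^[B] ⊤ = ⊥ := by
  obtain ⟨B, hB⟩ := lie_main.{0} p m t r
  refine ⟨B, fun L A ι _ _ _ _ hr ht hA hA' N hc hc' ρ X C h => ?_⟩
  obtain ⟨R, _, _, _, ω, h2⟩ : ∃ (R : Type) (_ : CommRing R) (_ : Module.Free ℤ R) (_ : Nontrivial R)
      (ω : R), ∑ i ∈ Finset.range p, ω ^ i = 0 :=
    ⟨AdjoinRoot (cyclotomic p ℤ), _, (cyclotomic.monic p ℤ).free_adjoinRoot,
    AdjoinRoot.nontrivial _ (degree_cyclotomic_pos p ℤ hp.out.pos).ne', AdjoinRoot.root _, by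
      simpa using ((congrArg (aeval (AdjoinRoot.root (cyclotomic p ℤ))) (cyclotomic_prime ℤ p)).symm.trans
        (AdjoinRoot.aeval_eq _)).trans AdjoinRoot.mk_self⟩
  have h3 := (h.bc R).nilp h2 hc (hr ▸ hc') hA hA' fun W C a1 a2 a3 a4 =>
    hB _ A ι ht W C a1 a2 a3 a4 _ (by rw [Finset.card_univ, ← hr, Nat.card_eq_fintype_card])
  have key : ∀ j, (ac (Set.univ : Set L))^[j] ⊤ ≤ ((ac (Set.univ : Set (R ⊗[ℤ] L)))^[j] ⊤).comap
      (TensorProduct.mk ℤ R L 1).toAddMonoidHom := fun j => by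
    induction j with
    | zero => exact fun _ _ => trivial
    | succ j ih =>
      rw [it_succ, it_succ]
      exact ac_le fun v hv s _ => by
        simpa using lie_mem_ac (L := R ⊗[ℤ] L) (v := (1 : R) ⊗ₜ[ℤ] v) (ih hv)
          (Set.mem_univ ((1 : R) ⊗ₜ[ℤ] s))
  refine le_bot_iff.1 fun x hx => ?_
  have h4 := key B hx
  rw [h3] at h4
  exact (Module.FaithfullyFlat.one_tmul_eq_zero_iff ℤ L x).1 h4

end Cfsg.Agent.H8.Shu
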