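import Mathlib
import Cfsg.Agent.H8.Shu2
import Cfsg.Agent.H1.GrLie
import Cfsg.Agent.FT.BG01

/-! Coprime action of elementary abelian groups: nilpotency from special subgroups. -/

set_option autoImplicit false
set_option linter.unusedSectionVars false

namespace Cfsg.Agent.H8.Shu

open Cfsg Subgroup FT H3 H1 H1.GrL
open scoped commutatorElement

variable {G : Type} [Group G] [Finite G] {P A X Y Z D : Subgroup G} {p m n : ℕ} {x : G}

/-- The subring of the Lie ring of `P` associated with a subgroup. -/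
noncomputable def LL (P X : Subgroup G) : AddSubgroup (GrL P) :=
  AddSubgroup.closure {z | ∃ n, ∃ x ∈ X, x ∈ γ[n](P) ∧ z = ι P n x}

theorem mem_LL (h1 : x ∈ X) (h2 : x ∈ γ[n](P)) : ι P n x ∈ LL P X :=
  AddSubgroup.subset_closure ⟨n, x, h1, h2, rfl⟩

theorem LL_le {U : AddSubgroup (GrL P)} (h : ∀ n, ∀ x ∈ X, x ∈ γ[n](P) → ι P n x ∈ U) :
    LL P X ≤ U :=
  (AddSubgroup.closure_le U).2 (by rintro _ ⟨n, x, h1, h2, rfl⟩; exact h n x h1 h2)

theorem LL_mono (h : X ≤ Y) : LL P X ≤ LL P Y := LL_le fun _ _ h1 h2 => mem_LL (h h1) h2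

theorem LL_bot : LL P ⊥ = ⊥ :=
  le_bot_iff.1 (LL_le fun n x h _ => by rw [mem_bot.1 h, ι_one]; exact zero_mem _)

theorem LL_top : LL P P = ⊤ :=
  top_le_iff.1 fun u _ => ind (Q := fun u => u ∈ LL P P) (zero_mem _)
    (fun n _ h => mem_LL (lcs_le n P h) h) (fun _ _ => add_mem) u

theorem lie_LL {u v : GrL P} (hu : u ∈ LL P X) (hv : v ∈ LL P Y) : ⁅u, v⁆ ∈ LL P ⁅X, Y⁆ :=
  LL_le (U := (LL P ⁅X, Y⁆).comap (Krek.rb v)) (fun i x h1 h2 =>
    LL_le (U := (LL P ⁅X, Y⁆).comap (Krek.lb (ι P i x))) (fun j y h3 h4 => by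
      change ⁅ι P i x, ι P j y⁆ ∈ LL P ⁅X, Y⁆
      rw [lie_ι h2 h4]
      exact mem_LL (commutator_mem_commutator h1 h3) (lcs_comm h2 h4)) hv) hu

/-- The preimage of a subgroup of the Lie ring in a term of the lower central series. -/
def pre (P : Subgroup G) (n : ℕ) (U : AddSubgroup (GrL P)) : Subgroup G where
  carrier := {x | x ∈ γ[n](P) ∧ ι P n x ∈ U}
  one_mem' := ⟨one_mem _, ι_one (P := P) _ ▸ U.zero_mem⟩
  mul_mem' := fun ha hb => ⟨mul_mem ha.1 hb.1, ι_mul ha.1 hb.1 ▸ U.add_mem ha.2 hb.2⟩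
  inv_mem' := fun ha => ⟨inv_mem ha.1, ι_inv ha.1 ▸ U.neg_mem ha.2⟩

theorem LL_le_of_gen (hp : p.Prime) (hA : Abelem p A) (h1 : A ≠ ⊥) (hn : A ≤ N(P)) (hc : Cop P A)
    (hZ : A ≤ N(Z)) {U : AddSubgroup (GrL P)}
    (h : ∀ D ≤ A, D.relIndex A = p → LL P (Z ⊓ C(D)) ≤ U) : LL P Z ≤ U :=
  LL_le fun n _ h2 h3 => (coprime_abelem_gen_cent (L := pre P n U) hp hA h1
    (normsI hZ (norms_lcs n hn)) (hc.mono_left (inf_le_right.trans (lcs_le n P)))
    (fun D hD e _ hy => ⟨hy.1.2, h D hD e (mem_LL ⟨hy.1.1, hy.2⟩ hy.1.2)⟩) ⟨h2, h3⟩).2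

theorem exists_rho (hn : A ≤ N(P)) : ∃ ρ : A →* Module.End ℤ (GrL P),
    ∀ (a : A) n x, x ∈ γ[n](P) → ρ a (ι P n x) = ι P n (a * x * (a : G)⁻¹) := by
  have m : ∀ (a : A) {n x}, x ∈ γ[n](P) → a * x * (a : G)⁻¹ ∈ γ[n](P) := fun a _ _ hx =>
    conj_mem (norms_lcs _ hn a.2) hx
  choose F hF using fun a : A => exists_lift (P := P) (fun n x => ι P n (a * x * (a : G)⁻¹))
    (fun n x y hx hy => by rw [← ι_mul (m a hx) (m a hy)]; congr 1; group)
    fun n x hx => ι_zero (m a hx)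
  refine ⟨⟨⟨fun a => (F a).toIntLinearMap, LinearMap.toAddMonoidHom_injective
    (hom_ext fun n x hx => by simp [hF _ n x hx])⟩, fun a b => LinearMap.toAddMonoidHom_injective
    (hom_ext fun n x hx => ?_)⟩, fun a n x hx => hF a n x hx⟩
  change F (a * b) _ = F a (F b _)
  rw [hF _ n x hx, hF _ n x hx, hF _ n _ (m b hx)]
  simp [mul_assoc]

theorem av_mem [Fintype A] (hn : A ≤ N(P)) (hc : Cop P A) (hs : Sol P) (hZ : A ≤ N(Z))
    {ρ : A →* Module.End ℤ (GrL P)}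
    (hρ : ∀ (a : A) n x, x ∈ γ[n](P) → ρ a (ι P n x) = ι P n (a * x * (a : G)⁻¹))
    (E : Subgroup A) {u : GrL P} (hu : u ∈ LL P Z) :
    av ρ E u ∈ LL P (Z ⊓ C(E.map A.subtype)) := by
  classical
  refine LL_le (U := (LL P _).comap (av ρ E).toAddMonoidHom) (fun n x h1 h2 => ?_) hu
  have hE := map_subtype_le E
  have h3 : Z ⊓ γ[n](P) ≤ P := inf_le_right.trans (lcs_le n P)
  refine (((coprime_cent_prod (hE.trans (normsI hZ (norms_lcs n hn))) (hc.mono h3 hE)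
    (hs.mono h3)).sup.ge.trans (sup_le (commutator_le.2 ?_) fun y hy => ⟨hy.1.2, ?_⟩) :
      _ ≤ pre P n _) ⟨h1, h2⟩).2
  · rintro y hy _ ⟨d, hd, rfl⟩
    have h4 := conj_mem (norms_lcs n hn d.2) (inv_mem hy.2)
    have h5 : ⁅y, (d : G)⁆ = y * (d * y⁻¹ * (d : G)⁻¹) := by group
    refine ⟨h5 ▸ mul_mem hy.2 h4, ?_⟩
    change av ρ E (ι P n ⁅y, (d : G)⁆) ∈ LL P _
    have h6 : av ρ E * ρ d = av ρ E := by
      rw [av, Finset.sum_mul]
      exact Finset.sum_equiv (Equiv.mulRight d) (fun a => by simp [E.mul_mem_cancel_right hd])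
        fun a _ => by simp
    rw [h5, ι_mul hy.2 h4, ← hρ d n _ (inv_mem hy.2), map_add, ← Module.End.mul_apply, h6,
      ι_inv hy.2, map_neg, add_neg_cancel]
    exact zero_mem _
  · change av ρ E (ι P n y) ∈ LL P _
    rw [av, LinearMap.sum_apply]
    refine sum_mem fun a ha => ?_
    rw [hρ a n y hy.1.2, mem_cen.1 hy.2 a ⟨a, (Finset.mem_filter.1 ha).2, rfl⟩,
      mul_inv_cancel_right]
    exact mem_LL ⟨hy.1.1, hy.2⟩ hy.1.2

/-- Iterated commutator. -/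
abbrev itc (j : ℕ) (Y X : Subgroup G) : Subgroup G := (fun Z => ⁅Z, X⁆)^[j] Y

theorem itc_succ (j : ℕ) : itc (j + 1) Y X = ⁅itc j Y X, X⁆ := Function.iterate_succ_apply' _ _ _

theorem itc_mono (h1 : Y ≤ Z) (h2 : X ≤ D) (j : ℕ) : itc j Y X ≤ itc j Z D := by
  induction j with
  | zero => exact h1
  | succ j ih => rw [itc_succ, itc_succ]; exact commSS ih h2

theorem itc_le (h : X ≤ N(Y)) (j : ℕ) : itc j Y X ≤ Y := by
  induction j with
  | zero => exact le_rfl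
  | succ j ih => rw [itc_succ]; exact (commSS ih le_rfl).trans (comm_le_left h)

theorem it_LL {κ : Sort*} (f : κ → Subgroup G) (j : ℕ) :
    (ac (LL P X : Set (GrL P)))^[j] (⨆ i, LL P (f i)) ≤ ⨆ i, LL P (itc j (f i) X) := by
  induction j with
  | zero => exact le_rfl
  | succ j ih =>
    rw [it_succ]
    refine ac_le fun v hv s hs => (iSup_le fun i u hu => ?_ :
      _ ≤ AddSubgroup.comap (Krek.rb s) (⨆ i, LL P (itc (j + 1) (f i) X))) (ih hv)
    exact AddSubgroup.mem_iSup_of_mem i (by rw [itc_succ]; exact lie_LL hu hs)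

theorem mem_it (hx : x ∈ γ[n](P)) : ι P n x ∈ (ac (Set.univ : Set (GrL P)))^[n] ⊤ := by
  induction n generalizing x with
  | zero => trivial
  | succ n ih =>
    rw [it_succ]
    exact ι_ind (fun x hx y _ => lie_mem_ac (ih hx) (Set.mem_univ _)) hx

/-- The hypotheses of the theorem on groups. -/
structure GH (p m : ℕ) (P A : Subgroup G) (F : Set (Subgroup G)) {κ : Type} (Q : κ → Subgroup G) :
    Prop where
  ab : Abelem p A
  ne : A ≠ ⊥
  nrm : A ≤ N(P)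
  cop : Cop P A
  sol : Sol P
  le : ∀ X ∈ F, X ≤ P
  inv : ∀ X ∈ F, A ≤ N(X)
  gen : P ≤ sSup F
  cl : ∀ X ∈ F, ∀ Y ∈ F, ∀ D ≤ A, D.relIndex A ≤ p → ⁅X, Y⁆ ⊓ C(D) ∈ F
  cov : ∀ X ∈ F, ∃ i, X ≤ Q i
  zero : ∀ i, P ⊓ C(A) ≤ N(Q i)
  nil : ∀ i, ∀ D ≤ A, D.relIndex A = p → itc m (P ⊓ C(D)) (Q i) = ⊥

variable {F : Set (Subgroup G)} {κ : Type} {Q : κ → Subgroup G}

theorem GH.hyp [Fintype A] (hp : p.Prime) (h : GH p m P A F Q) : ∃ ρ : A →* Module.End ℤ (GrL P),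
    Hyp p m #P ρ ((fun X => (LL P X).toIntSubmodule) '' F) fun i => (LL P (Q i)).toIntSubmodule := by
  obtain ⟨ρ, hρ⟩ := exists_rho h.nrm
  have m : ∀ (a : A) {n x}, x ∈ γ[n](P) → a * x * (a : G)⁻¹ ∈ γ[n](P) := fun a _ _ hx =>
    conj_mem (norms_lcs _ h.nrm a.2) hx
  refine ⟨ρ, ind (smul_zero _) (fun n x hx => ?_) fun a b ha hb => by rw [smul_add, ha, hb, add_zero],
    fun a u v => ?_, ?_, ?_, ?_, ?_, fun i => ?_, ?_⟩
  · rw [← ι_pow hx, pow_card (lcs_le n P hx), ι_one]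
  · refine ind (Q := fun u => ρ a ⁅u, v⁆ = ⁅ρ a u, ρ a v⁆) (by simp) (fun i x hx => ?_)
      (fun _ _ h1 h2 => by simp [h1, h2]) u
    refine ind (Q := fun v => ρ a ⁅_, v⁆ = ⁅ρ a _, ρ a v⁆) (by simp) (fun j y hy => ?_)
      (fun _ _ h1 h2 => by simp [h1, h2]) v
    rw [lie_ι hx hy, hρ _ _ _ hx, hρ _ _ _ hy, hρ _ _ _ (lcs_comm hx hy), lie_ι (m a hx) (m a hy),
      conjugate_commutatorElement]
  · rintro _ ⟨X, hX, rfl⟩ a u hu
    exact LL_le (U := (LL P X).comap (ρ a).toAddMonoidHom) (fun n x h1 h2 => by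
      change ρ a _ ∈ LL P X
      rw [hρ a n x h2]
      exact mem_LL (conj_mem (h.inv X hX a.2) h1) (m a h2)) hu
  · set S := (sSup ((fun X => (LL P X).toIntSubmodule) '' F)).toAddSubgroup
    have h1 : ∀ X ∈ F, LL P X ≤ S := fun X hX u hu =>
      Submodule.mem_sSup_of_mem (Set.mem_image_of_mem _ hX) hu
    have h2 : ∀ U : AddSubgroup (GrL P), (∀ X ∈ F, LL P X ≤ U) → S ≤ U := fun U hU =>
      (sSup_le (by rintro _ ⟨X, hX, rfl⟩; exact hU X hX) : _ ≤ U.toIntSubmodule)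
    have h3 : ∀ x ∈ P, ι P 0 x ∈ S := fun x hx => ((h.gen.trans (sSup_le fun X hX y hy =>
      ⟨h.le X hX hy, h1 X hX (mem_LL (n := 0) hy (h.le X hX hy))⟩) : _ ≤ pre P 0 S) hx).2
    have h4 : ∀ n, ∀ x ∈ γ[n](P), ι P n x ∈ S := fun n => by
      induction n with
      | zero => exact h3
      | succ n ih =>
        refine fun x hx => ι_ind (fun x hx y hy => h2 (S.comap (Krek.rb _)) (fun X hX u hu =>
          h2 (S.comap (Krek.lb u)) (fun Y hY v hv => ?_) (h3 y hy)) (ih x hx)) hx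
        exact LL_le_of_gen hp h.ab h.ne h.nrm h.cop (normsR (h.inv X hX) (h.inv Y hY))
          (fun D hD e => h1 _ (h.cl X hX Y hY D hD e.le)) (lie_LL hu hv)
    exact fun u _ => (LL_top.ge.trans (LL_le fun n x _ => h4 n x) : _ ≤ S) trivial
  · rintro _ ⟨X, hX, rfl⟩ _ ⟨Y, hY, rfl⟩ E hE
    exact ⟨_, ⟨_, h.cl X hX Y hY _ (map_subtype_le E) (by
      rwa [relIndex, subgroupOf, comap_map_eq_self_of_injective A.subtype_injective]), rfl⟩,
      fun u hu v hv => av_mem h.nrm h.cop h.sol (normsR (h.inv X hX) (h.inv Y hY)) hρ E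
        (lie_LL hu hv)⟩
  · rintro _ ⟨X, hX, rfl⟩
    exact (h.cov X hX).imp fun i hi => LL_mono hi
  · refine le_bot_iff.1 ((it_mono le_rfl (LL_top.ge.trans (LL_le_of_gen hp h.ab h.ne h.nrm h.cop
      h.nrm fun D hD e => le_iSup (fun D : {D // D ≤ A ∧ D.relIndex A = p} => LL P (P ⊓ C(D.1)))
        ⟨D, hD, e⟩)) _).trans ((it_LL _ _).trans (iSup_le fun D => ?_)))
    rw [h.nil i D.1 D.2.1 D.2.2, LL_bot]
  · rintro i _ ⟨X, hX, rfl⟩ c hc u hu
    refine LL_mono (comm_le_left ?_) (lie_LL hc (av_mem h.nrm h.cop h.sol (h.inv X hX) hρ ⊤ hu))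
    rw [map_subtype_top]
    exact (inf_le_inf_right _ (h.le X hX)).trans (h.zero i)

theorem GH.eq_bot (hp : p.Prime) (h : GH p m P A F Q) (hn : γ[n](P) ≤ γ[n + 1](P)) :
    γ[n](P) = ⊥ := by
  have nK := lcs_nml n P
  have hK := norms_lcs n h.nrm
  have nK' := nK.der
  set K := γ[n](P) with hKd
  have nm : ∀ {W : Subgroup G}, ⁅K, K⁆ ≤ W → W ≤ K → K ≤ N(W) := fun h1 h2 =>
    (nml_of_der_le h1 h2).nrm
  have key : P ≤ qpre(⁅K, K⁆, F(P /ₛ ⁅K, K⁆)) := h.gen.trans (sSup_le fun X hX => by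
    have hXP := h.le X hX
    have hXK := hXP.trans nK.nrm
    obtain ⟨i, hi⟩ := h.cov X hX
    let W : ℕ → Subgroup G := fun j =>
      ⁅K, K⁆ ⊔ ⨆ D : {D // D ≤ A ∧ D.relIndex A = p}, itc j (K ⊓ C(D.1)) X
    have w1 : ∀ j, W j ≤ K := fun j => sup_le (der_le K) (iSup_le fun D =>
      (itc_mono inf_le_left le_rfl j).trans (itc_le hXK j))
    have w2 : ∀ j, ⁅W j, X⁆ ≤ W (j + 1) := fun j => by
      rw [commC]
      refine (H22.le_cmod.1 (sup_le (H22.le_cmod.2 ⟨(der_le K).trans (nm le_sup_left (w1 _)),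
        (comm_le_right (hXP.trans nK'.nrm)).trans le_sup_left⟩) (iSup_le fun D => H22.le_cmod.2
        ⟨((le_iSup _ D).trans (le_sup_right.trans (w1 j))).trans (nm le_sup_left (w1 _)), ?_⟩))).2
      rw [commC, ← itc_succ]
      exact le_sup_of_le_right (le_iSup (fun D : {D // D ≤ A ∧ D.relIndex A = p} =>
        itc (j + 1) (K ⊓ C(D.1)) X) D)
    have w3 : ∀ j, γ[n + j](K ⊔ X) ≤ W j ∧ X ≤ N(W j) := fun j => by
      induction j with
      | zero =>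
        have : K ≤ W 0 := coprime_abelem_gen_cent hp h.ab h.ne hK (h.cop.mono_left nK.le)
          fun D hD e => le_sup_of_le_right (le_iSup (fun D : {D // D ≤ A ∧ D.relIndex A = p} =>
            itc 0 (K ⊓ C(D.1)) X) ⟨D, hD, e⟩)
        exact ⟨(lowerCentralSeries_mono n (sup_le nK.le hXP)).trans this,
          le_antisymm (w1 0) this ▸ hXK⟩
      | succ j ih =>
        have h1 : X ≤ N(W (j + 1)) := normsY (hXP.trans nK'.nrm) (norms_iSup fun D =>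
          itc_succ (Y := K ⊓ C(D.1)) j ▸ norm_comm_right _ X)
        exact ⟨(commSS ih.1 le_rfl).trans (comm_sup_le' (sup_le (nm le_sup_left (w1 _)) h1)
          ((commSS (w1 j) le_rfl).trans le_sup_left) (w2 j)), h1⟩
    have w4 : W m ≤ ⁅K, K⁆ := sup_le le_rfl (iSup_le fun D => ((itc_mono
      (inf_le_inf_right _ nK.le) hi m).trans (h.nil i D.1 D.2.1 D.2.2).le).trans bot_le)
    have s1 : ∀ j, Subn (γ[j](P) ⊔ X) P := fun j => by
      induction j with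
      | zero => rw [lcs_zero, sup_eq_left.2 hXP]; exact Subn.refl P
      | succ j ih =>
        refine (Nml.subn ⟨sup_le_sup_right (lcs_anti P j.le_succ) X, sup_le (norms_of_comm_le ?_)
          (norms_of_le le_sup_right)⟩).trans ih
        rw [commC]
        exact (commSS le_rfl (sup_le (lcs_le _ P) hXP)).trans le_sup_left
    have h2 := (sup_le nK.le hXP).trans nK'.nrm
    exact le_sup_right.trans ((quo_le_iff h2).1 (fitting_max_subn ((s1 n).quo nK'.nrm)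
      ((nil_quo_iff h2).2 ⟨_, (w3 m).1.trans w4⟩))))
  obtain ⟨r, hr⟩ := (nil_quo_iff nK'.nrm).1 ((fitting_nil _).mono ((quo_le_iff nK'.nrm).2 key))
  have h3 : ∀ j, K ≤ γ[n + j](P) := fun j => by
    induction j with
    | zero => exact le_rfl
    | succ j ih => exact hn.trans (commSS ih le_rfl)
  exact (h.sol.mono nK.le).eq_bot_of_le_der ((h3 r).trans ((lcs_anti P (by omega)).trans hr))

theorem grp_main (p m t k : ℕ) (hp : p.Prime) : ∃ B, ∀ (G : Type) [Group G] [Finite G]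
    (P A : Subgroup G) (F : Set (Subgroup G)) (κ : Type) [Fintype κ] (Q : κ → Subgroup G),
    #A = p ^ k → Fintype.card κ ≤ t → GH p m P A F Q → γ[B](P) = ⊥ := by
  haveI := Fact.mk hp
  obtain ⟨B, hB⟩ := lie_act p m t (p ^ k)
  refine ⟨B, fun G _ _ P A F κ _ Q hA ht h => h.eq_bot hp fun x hx => ?_⟩
  haveI := Fintype.ofFinite A
  obtain ⟨ρ, hρ⟩ := h.hyp hp
  have hk : k ≠ 0 := fun e => h.ne (eq_bot_iff_card'.2 (by rw [hA, e, pow_zero]))
  have hc : (#P).Coprime (p ^ k) := hA ▸ h.cop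
  have h1 := mem_it hx
  rw [hB _ A κ hA ht (fun a b => Subtype.ext (h.ab.ab.comm a.2 b.2))
    (fun a => Subtype.ext (h.ab.pow a.2)) _ ((Nat.coprime_pow_right_iff (Nat.pos_of_ne_zero hk) _ _).1 hc)
    hc ρ _ _ hρ] at h1
  exact (ι_eq_zero hx).1 h1

end Cfsg.Agent.H8.Shu
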