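import Mathlib
import Cfsg.Agent.H8.Shu3
import Cfsg.Agent.H1.Alperin
import Cfsg.Agent.S0515

/-! Special subgroups, and the theorems of Acciarri and Shumyatsky. -/

set_option autoImplicit false
set_option linter.unusedSectionVars false

namespace Cfsg.Agent.H8.Shu

open Cfsg Subgroup FT H3 H1 SemidirectProduct
open scoped commutatorElement

variable {G : Type} [Group G] [Finite G] {M A : Subgroup G} {p e e' : ℕ}
  {F F' E E' : Set (Subgroup G)} {w w' : Subgroup G → Subgroup G}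

/-- Invariant subgroups centralizing a hyperplane. -/
def F0 (p : ℕ) (M A : Subgroup G) : Set (Subgroup G) :=
  {X | A ≤ N(X) ∧ ∃ D ≤ A, D.relIndex A ≤ p ∧ X ≤ M ⊓ C(D)}

/-- The next family of special subgroups. -/
def nx (p : ℕ) (M A : Subgroup G) (F F' : Set (Subgroup G)) : Set (Subgroup G) :=
  {X | X ∈ F0 p M A ∧ ∃ K ∈ F, ∃ K' ∈ F', X ≤ ⁅K, K'⁆}

theorem nx_mono (h1 : F ⊆ E) (h2 : F' ⊆ E') : nx p M A F F' ⊆ nx p M A E E' :=
  fun _ ⟨a, K, b, K', c, d⟩ => ⟨a, K, h1 b, K', h2 c, d⟩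

/-- A family of special subgroups for the word `w`. -/
structure Gd (p : ℕ) (M A : Subgroup G) (F : Set (Subgroup G)) (w : Subgroup G → Subgroup G)
    (e : ℕ) : Prop where
  sub : F ⊆ F0 p M A
  gen : w M ≤ sSup F
  cov : ∀ X ∈ F, ∃ B ≤ A, B.relIndex A ≤ p ^ e ∧ X ≤ w (M ⊓ C(B))
  mono : Monotone w
  le : ∀ Y, w Y ≤ Y
  nrm : ∀ X Y : Subgroup G, X ≤ N(Y) → X ≤ N(w Y)

theorem inf_mem_F0 (hA : Abelem p A) {Z D : Subgroup G} (hZ : A ≤ N(Z)) (hM : Z ≤ M) (hD : D ≤ A)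
    (h : D.relIndex A ≤ p) : Z ⊓ C(D) ∈ F0 p M A :=
  ⟨normsI hZ (norms_cent (cents_norm (hA.ab.cents hD le_rfl))), D, hD, h, inf_le_inf_right _ hM⟩

theorem F0.le {X : Subgroup G} (h : X ∈ F0 p M A) : X ≤ M := h.2.choose_spec.2.2.trans inf_le_left

theorem comm_inf_mem (hA : Abelem p A) (h : F ⊆ F0 p M A) (h' : F' ⊆ F0 p M A) {X Y D : Subgroup G}
    (hX : X ∈ F) (hY : Y ∈ F') (hD : D ≤ A) (hi : D.relIndex A ≤ p) :
    ⁅X, Y⁆ ⊓ C(D) ∈ nx p M A F F' :=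
  ⟨inf_mem_F0 hA (normsR (h hX).1 (h' hY).1) (comm_le_of_le (F0.le (h hX)) (F0.le (h' hY))) hD hi,
    X, hX, Y, hY, inf_le_left⟩

variable (hp : p.Prime) (hA : Abelem p A) (h1 : A ≠ ⊥) (hn : A ≤ N(M)) (hc : Cop M A)
include hp hA h1 hn hc

theorem gd_zero : Gd p M A (F0 p M A) id 1 :=
  ⟨le_rfl, coprime_abelem_gen_cent hp hA h1 hn hc fun _ hD e =>
    le_sSup (inf_mem_F0 hA hn le_rfl hD e.le), fun _ ⟨_, D, a, b, c⟩ => ⟨D, a, by simpa using b, c⟩,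
    monotone_id, fun _ => le_rfl, fun _ _ h => h⟩

omit hn in
theorem Gd.step (h : Gd p M A F w e) (h' : Gd p M A F' w' e') (s : nx p M A F F' ⊆ F)
    (s' : nx p M A F F' ⊆ F') : Gd p M A (nx p M A F F') (fun Y => ⁅w Y, w' Y⁆) (e + e') := by
  have a1 : ∀ X ∈ F, ∀ Y ∈ F', ⁅X, Y⁆ ≤ sSup (nx p M A F F') := fun X hX Y hY =>
    coprime_abelem_gen_cent hp hA h1 (normsR (h.sub hX).1 (h'.sub hY).1) (hc.mono_left
      (comm_le_of_le (F0.le (h.sub hX)) (F0.le (h'.sub hY)))) fun _ hD e =>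
        le_sSup (comm_inf_mem hA h.sub h'.sub hX hY hD e.le)
  have a2 : ∀ X, (∀ Z ∈ nx p M A F F', ⁅Z, X⁆ ≤ sSup (nx p M A F F')) →
      X ≤ N(sSup (nx p M A F F')) := fun X hX => norms_of_comm_le (by
    rw [commC]
    exact (H22.le_cmod.1 (sSup_le fun Z hZ => H22.le_cmod.2
      ⟨norms_of_le (le_sSup hZ), commC Z X ▸ hX Z hZ⟩)).2)
  refine ⟨fun _ h => h.1, (commSS h.gen h'.gen).trans (H22.le_cmod.1 (sSup_le fun Y hY =>
    H22.le_cmod.2 ⟨a2 Y fun Z hZ => a1 Z (s hZ) Y hY, ?_⟩)).2, ?_,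
    fun _ _ l => commSS (h.mono l) (h'.mono l), fun Y => comm_le_of_le (h.le Y) (h'.le Y),
    fun X Y l => normsR (h.nrm X Y l) (h'.nrm X Y l)⟩
  · rw [commC]
    exact (H22.le_cmod.1 (sSup_le fun X hX => H22.le_cmod.2
      ⟨a2 X fun Z hZ => commC X Z ▸ a1 X hX Z (s' hZ), commC X Y ▸ a1 X hX Y hY⟩)).2
  · rintro X ⟨-, K, hK, K', hK', hX⟩
    obtain ⟨B, b1, b2, b3⟩ := h.cov K hK
    obtain ⟨B', c1, c2, c3⟩ := h'.cov K' hK'
    exact ⟨B ⊓ B', inf_le_left.trans b1, (relIndex_inf_le ..).trans (pow_add p e e' ▸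
      Nat.mul_le_mul b2 c2), hX.trans (commSS
        (b3.trans (h.mono (inf_le_inf_left _ (cen_anti inf_le_left))))
        (c3.trans (h'.mono (inf_le_inf_left _ (cen_anti inf_le_right)))))⟩

theorem gd_lcs (i : ℕ) : ∃ F, Gd p M A F (fun Y => γ[i](Y)) (i + 1) ∧
    nx p M A F (F0 p M A) ⊆ F := by
  induction i with
  | zero => exact ⟨_, gd_zero hp hA h1 hn hc, fun _ h => h.1⟩
  | succ i ih =>
    obtain ⟨F, h, s⟩ := ih
    exact ⟨_, h.step hp hA h1 hc (gd_zero hp hA h1 hn hc) s fun _ h => h.1, nx_mono s le_rfl⟩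

theorem gd_dn (i : ℕ) : ∃ F, Gd p M A F (dn i) (2 ^ i) ∧ nx p M A F F ⊆ F := by
  induction i with
  | zero => exact ⟨_, gd_zero hp hA h1 hn hc, fun _ h => h.1⟩
  | succ i ih =>
    obtain ⟨F, h, s⟩ := ih
    have := h.step hp hA h1 hc h s s
    rw [← two_mul, ← pow_succ', ← funext (dn_succ i)] at this
    exact ⟨_, this, nx_mono s s⟩

omit hp hA h1 hn hc in
theorem main (p k c : ℕ) (hp : p.Prime) (hk : 3 ≤ k) : ∃ B, ∀ (G : Type) [Group G] [Finite G]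
    (M A : Subgroup G) (w : Subgroup G → Subgroup G) (e : ℕ), Abelem p A → #A = p ^ k →
    A ≤ N(M) → (#M).Coprime p → e + 2 ≤ k → (∀ Y : Subgroup G, Sol (w Y) → Sol Y) →
    (A ≠ ⊥ → Cop M A → ∃ F, Gd p M A F w e ∧ nx p M A F F ⊆ F) →
    (∀ a ∈ A, a ≠ 1 → γ[c](w (M ⊓ C[a])) = ⊥) → γ[B](w M) = ⊥ := by
  obtain ⟨B, hB⟩ := grp_main p (c + 1) (2 ^ p ^ k) k hp
  refine ⟨B, fun G _ _ M A w e hA hAk hn hc he hw hF h => ?_⟩
  have h1 : A ≠ ⊥ := fun h1 => by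
    rw [h1, card_bot] at hAk
    exact (Nat.one_lt_pow (by omega) hp.one_lt).ne hAk
  have hc' : Cop M A := by rw [Cop, hAk]; exact hc.pow_right k
  obtain ⟨F, g, s⟩ := hF h1 hc'
  have hs : Sol M := S0515.main hp hA (hAk ▸ Nat.pow_le_pow_right hp.pos hk)
    (p'grp_of_not_dvd ((Nat.Prime.coprime_iff_not_dvd hp).1 hc.symm)) hn fun a a1 a2 =>
      hw _ (nil_iff_lcs.2 ⟨c, h a a1 a2⟩ : Nil _).sol
  haveI := Fintype.ofFinite {B : Subgroup G // B ≤ A ∧ B.relIndex A ≤ p ^ e}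
  refine hB G _ A F {B : Subgroup G // B ≤ A ∧ B.relIndex A ≤ p ^ e}
    (fun B => w (M ⊓ C(B.1))) hAk ?_ ⟨hA, h1, g.nrm _ _ hn, hc'.mono_left (g.le M),
      hs.mono (g.le M), fun X hX => ?_, fun X hX => (g.sub hX).1, g.gen,
      fun X hX Y hY D hD hi => s (comm_inf_mem hA g.sub g.sub hX hY hD hi), fun X hX => ?_,
      fun B => g.nrm _ _ (norms_of_le (inf_le_inf (g.le M) (cen_anti B.2.1))), fun B D hD hi => ?_⟩
  · haveI := Fintype.ofFinite A
    rw [← Nat.card_eq_fintype_card, ← hAk, Nat.card_eq_fintype_card (α := A), ← Fintype.card_set,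
      ← Nat.card_eq_fintype_card]
    refine Nat.card_le_card_of_injective (fun B => (B.1.subgroupOf A : Set A)) fun B B' e => ?_
    exact Subtype.ext (by
      rw [← inf_eq_left.2 B.2.1, ← inf_eq_left.2 B'.2.1, ← subgroupOf_map_subtype,
        ← subgroupOf_map_subtype, SetLike.coe_injective e])
  · obtain ⟨B, -, -, b⟩ := g.cov X hX
    exact b.trans (g.mono inf_le_left)
  · obtain ⟨B, b1, b2, b3⟩ := g.cov X hX
    exact ⟨⟨B, b1, b2⟩, b3⟩
  · have h2 : B.1 ⊓ D ≠ ⊥ := fun h2 => by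
      have h3 := (relIndex_inf_le (H := B.1) (K := D) (L := A)).trans (Nat.mul_le_mul B.2.2 hi.le)
      rw [h2, relIndex_bot_left, hAk, ← pow_succ, Nat.pow_le_pow_iff_right hp.one_lt] at h3
      omega
    obtain ⟨a, ha, a1⟩ := exists_ne_one h2
    have h3 : w M ⊓ C(D) ≤ N(w (M ⊓ C[a])) :=
      g.nrm _ _ (norms_of_le (inf_le_inf (g.le M) (cen_le_cen1 ha.2)))
    have h4 := g.mono (inf_le_inf_left M (cen_le_cen1 ha.1))
    have h5 : ∀ j, itc (j + 1) (w M ⊓ C(D)) (w (M ⊓ C(B.1))) ≤ γ[j](w (M ⊓ C[a])) := fun j => by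
      induction j with
      | zero => exact (commSS le_rfl h4).trans (comm_le_right h3)
      | succ j ih => rw [itc_succ]; exact commSS ih h4
    exact le_bot_iff.1 ((h5 c).trans (h a (hD ha.2) a1).le)

omit hp hA h1 hn hc in
theorem sol_of_dn (i : ℕ) (Y : Subgroup G) (h : Sol (dn i Y)) : Sol Y := by
  induction i with
  | zero => exact h
  | succ i ih => exact ih (sol_of_der (dn_succ i Y ▸ h))

omit hp hA h1 hn hc in
theorem main' (p k c : ℕ) (hp : p.Prime) (hk : 3 ≤ k) (w : ∀ {G : Type} [Group G],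
    Subgroup G → Subgroup G) (e : ℕ) (he : e + 2 ≤ k)
    (hw : ∀ {G H : Type} [Group G] [Group H] (f : G →* H) (Y : Subgroup G),
      (w Y).map f = w (Y.map f))
    (hs : ∀ {G : Type} [Group G] [Finite G] (Y : Subgroup G), Sol (w Y) → Sol Y)
    (hF : ∀ {G : Type} [Group G] [Finite G] (M A : Subgroup G), Abelem p A → A ≠ ⊥ → A ≤ N(M) →
      Cop M A → ∃ F, Gd p M A F w e ∧ nx p M A F F ⊆ F) :
    ∃ B : ℕ, ∀ (G : Type) [Group G] [Finite G], (Nat.card G).Coprime p →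
      ∀ A : Subgroup (MulAut G), IsElementaryAbelian p A → Nat.card A = p ^ k →
        (∀ a ∈ A, a ≠ 1 → γ[c](w (⊤ : Subgroup
          ((a : MulAut G).toMonoidHom.eqLocus (MonoidHom.id G)))) = ⊥) →
        γ[B](w (⊤ : Subgroup G)) = ⊥ := by
  obtain ⟨B, hB⟩ := main p k c hp hk
  refine ⟨B, fun G _ _ hc A hA hAk h => ?_⟩
  haveI := sd_finite (MonoidHom.id (MulAut G))
  have h1 := sd_norms (MonoidHom.id (MulAut G)) (A.map inr)
  have := hB _ _ (A.map inr) w e (Abelem.map hA _) ((sd_cardR _ A).trans hAk) h1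
    (by rwa [sd_cardL, card_top]) he hs (fun a b => hF _ _ (Abelem.map hA _) a h1 b) (by
      rintro _ ⟨a, ha, rfl⟩ a1
      rw [← cen_zpowers, ← MonoidHom.map_zpowers, sd_cen (MonoidHom.id _) _
        (a.toMonoidHom.eqLocus (MonoidHom.id G)) fun x => ⟨fun h b hb =>
          MulAction.mem_stabilizer_iff.1 ((zpowers_le (H := MulAction.stabilizer (MulAut G) x)).2
            h hb), fun h => h a (mem_zpowers a)⟩, ← map_subtype_top (MonoidHom.eqLocus _ _), ← hw,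
        ← hw, ← map_lowerCentralSeries, ← map_lowerCentralSeries,
        h a ha fun e => a1 (by rw [e, map_one]), Subgroup.map_bot, Subgroup.map_bot])
  rwa [← hw, ← map_lowerCentralSeries, map_eq_bot_iff_of_injective _ inl_injective] at this

end Cfsg.Agent.H8.Shu
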