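import Cfsg.Agent.GO.A8

/-! S3105: extensions of `2`-groups by `L₃(2)` of sectional rank at most `4`; definitions. -/

set_option autoImplicit false
set_option linter.unusedSectionVars false
set_option linter.unusedVariables false

namespace Cfsg.Agent.H8.Tr

open Cfsg Subgroup Cfsg.Agent.FT

universe u

variable {X : Type u} [Group X] [Finite X]

/-- `X / Q` is simple of order `168`, `σ` has order `7`, `ρ` has order `3`. -/
structure B (Q : Subgroup X) (σ ρ : X) : Prop where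
  nQ : Q.Normal
  pQ : PGrp 2 Q
  idx : Q.index = 168
  simp : ∀ K : Subgroup X, K.Normal → Q ≤ K → K = Q ∨ K = ⊤
  o7 : orderOf σ = 7
  o3 : orderOf ρ = 3
  nrm : ρ ∈ N(⟪σ⟫)
  sr : GO.SR 4 (⊤ : Subgroup X)

/-- `[Q, σ]` is elementary abelian of order `8` and central in `Q`. -/
def S1 (Q : Subgroup X) (σ : X) : Prop :=
  #⁅Q, ⟪σ⟫⁆ = 8 ∧ (∀ x ∈ ⁅Q, ⟪σ⟫⁆, x * x = 1) ∧ ⁅Q, ⟪σ⟫⁆ ≤ C(Q)

/-- `N` is a natural module. -/
structure Nm (Q N : Subgroup X) : Prop where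
  nN : N.Normal
  c8 : #N = 8
  sq : ∀ n ∈ N, n * n = 1
  le : N ≤ Q
  cen : C(N) = Q

/-- `w` induces a transvection with centre `z` on `N`. -/
structure Wt (Q N : Subgroup X) (ρ z w : X) : Prop where
  zN : z ∈ N
  z1 : z ≠ 1
  zρ : ρ * z = z * ρ
  wQ : w ∉ Q
  sq : w * w ∈ Q
  pr : w * (ρ * w * ρ⁻¹) * (ρ * (ρ * w * ρ⁻¹) * ρ⁻¹) ∈ Q
  cm : w * (ρ * w * ρ⁻¹) * w⁻¹ * (ρ * w * ρ⁻¹)⁻¹ ∈ Q
  tv : ∀ n ∈ N, w * n * w⁻¹ * n⁻¹ ∈ ⟪z⟫
  cen : ∀ n ∈ N, w * n = n * w → (ρ * w * ρ⁻¹) * n = n * (ρ * w * ρ⁻¹) → n ∈ ⟪z⟫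
  ex : ∃ u ∈ N, u ∉ ⟪z⟫ ∧ w * u = u * w
  fpf : ∀ n ∈ N, ρ * n * ρ⁻¹ * n⁻¹ ∈ ⟪z⟫ → n ∈ ⟪z⟫

/-- the homocyclic-type normal subgroup in the case of two nontrivial chief factors -/
structure Dd (Q N D : Subgroup X) (ρ c : X) : Prop where
  nD : D.Normal
  ND : N ≤ D
  DQ : D ≤ Q
  ab : ∀ a ∈ D, ∀ b ∈ D, a * b = b * a
  sq : ∀ d ∈ D, d * d ∈ N
  onto : ∀ n ∈ N, ∃ d ∈ D, d * d = n
  cD : c ∈ D
  c2 : c * c = 1
  cρ : ρ * c = c * ρ
  inv : ∀ a ∈ D, a * a = 1 → a ∈ N ∨ a * c ∈ N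
  cX : ∀ g : X, g * c * g⁻¹ * c⁻¹ ∈ N
  free : ∀ a ∈ D, a * a = 1 → ∀ w : X, w * w ∈ Q → w * a = a * w → a ∈ N ∨ w ∈ Q
  cenQ : ∀ g : X, ∀ q ∈ Q, g * q * g⁻¹ * q⁻¹ ∈ D
  q8 : ∀ q ∈ Q, q * q ∈ D → q ∈ D ∨ (∀ d ∈ D, q * d * q⁻¹ = d⁻¹) ∨ (q * q * c ∈ N ∧ c ∉ N)

variable {Q N K M : Subgroup X} {σ ρ x y : X}

theorem cop_of (pK : PGrp 2 K) (ho : Odd (orderOf x)) : Cop K ⟪x⟫ := by
  obtain ⟨n, hn⟩ := pK.card
  rw [Cop, hn, Nat.card_zpowers]
  exact (Nat.coprime_two_left.2 ho).pow_left n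

theorem B.cop (h : B Q σ ρ) (hK : K ≤ Q) : Cop K ⟪σ⟫ := cop_of (h.pQ.mono hK) (by rw [h.o7]; decide)

theorem B.sol (h : B Q σ ρ) (hK : K ≤ Q) : Sol K := (h.pQ.mono hK).nil.sol

theorem nrm_of [K.Normal] (A : Subgroup X) : A ≤ N(K) := (normalizer_eq_top K).ge.trans' le_top

theorem B.notQ (h : B Q σ ρ) (ho : Odd (orderOf x)) (h1 : x ≠ 1) : x ∉ Q := fun hx => by
  have := cop_of (h.pQ.mono (zpowers_le.2 hx)) ho
  rw [Cop, Nat.coprime_self, Nat.card_zpowers] at this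
  exact h1 (orderOf_eq_one_iff.1 this)

theorem B.σQ (h : B Q σ ρ) : σ ∉ Q :=
  h.notQ (by rw [h.o7]; decide) fun e => by have := h.o7; rw [e, orderOf_one] at this; omega

theorem B.ρQ (h : B Q σ ρ) : ρ ∉ Q :=
  h.notQ (by rw [h.o3]; decide) fun e => by have := h.o3; rw [e, orderOf_one] at this; omega

/-- a normal subgroup containing `Q` and `σ` is everything -/
theorem B.top (h : B Q σ ρ) [hK : K.Normal] (hQ : Q ≤ K) (hσ : σ ∈ K) : K = ⊤ :=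
  (h.simp K hK hQ).resolve_left fun e => h.σQ (e ▸ hσ)

theorem sr_map {Y : Type u} [Group Y] [Finite Y] (f : X →* Y) (hf : Function.Surjective f) {k : ℕ}
    (h : GO.SR k (⊤ : Subgroup X)) : GO.SR k (⊤ : Subgroup Y) := fun K N _ hN hs => by
  have := h (K.comap f) (N.comap f) le_top (comap_mono hN) fun x hx => by
    rw [mem_comap, map_mul]; exact hs _ hx
  have e : ∀ L : Subgroup Y, #(L.comap f) * Nat.card Y = #L * Nat.card X := fun L => by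
    have h1 := (L.comap f).card_mul_index
    have h2 := L.card_mul_index
    rw [index_comap_of_surjective _ hf] at h1
    rw [← h1, ← h2]; ring
  have h3 : #K * Nat.card X ≤ 2 ^ k * #N * Nat.card X := by
    rw [← e K, mul_assoc, ← e N, ← mul_assoc]; exact Nat.mul_le_mul_right _ this
  exact Nat.le_of_mul_le_mul_right h3 Nat.card_pos

theorem B.ord (h : B Q σ ρ) [M.Normal] (hM : M ≤ Q) {p : ℕ} (hp : p.Prime) (h2 : Odd p) (ho : orderOf x = p) :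
    orderOf (QuotientGroup.mk' M x) = p := by
  haveI := Fact.mk hp
  refine orderOf_eq_prime (by rw [← map_pow, ← ho, pow_orderOf_eq_one, map_one]) fun e => ?_
  exact h.notQ (ho ▸ h2) (fun e => by rw [e, orderOf_one] at ho; exact hp.one_lt.ne ho)
    (hM ((QuotientGroup.eq_one_iff _).1 e))

theorem B.quo (h : B Q σ ρ) (M : Subgroup X) [M.Normal] (hM : M ≤ Q) :
    B (Q.map (QuotientGroup.mk' M)) (QuotientGroup.mk' M σ) (QuotientGroup.mk' M ρ) := by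
  have hs := QuotientGroup.mk'_surjective M
  have hk : (QuotientGroup.mk' M).ker ≤ Q := by rw [QuotientGroup.ker_mk']; exact hM
  refine ⟨h.nQ.map _ hs, h.pQ.map _, by rw [index_map_eq _ hs hk, h.idx], fun K hK hQ => ?_,
    h.ord hM (by norm_num) (by decide) h.o7, h.ord hM (by norm_num) (by decide) h.o3, ?_, sr_map _ hs h.sr⟩
  · rcases h.simp (K.comap (QuotientGroup.mk' M)) (hK.comap _) (map_le_iff_le_comap.1 hQ) with e | e
    · left; rw [← e, map_comap_eq_self_of_surjective hs]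
    · right; rw [← map_comap_eq_self_of_surjective hs K, e, map_top_of_surjective _ hs]
  · rw [← MonoidHom.map_zpowers]
    exact le_normalizer_map _ ⟨ρ, h.nrm, rfl⟩

/-- conjugacy classes inside a normal subgroup -/
theorem cls [hN : N.Normal] (hx : x ∈ N) (h1 : x ≠ 1) : C[x].index + 1 ≤ #N := by
  have hi := MulAction.index_stabilizer (ConjAct X) x
  have e : C[x].index = (MulAction.stabilizer (ConjAct X) x).index := by
    rw [← index_comap_of_surjective (MulAction.stabilizer (ConjAct X) x)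
      (f := ConjAct.toConjAct.toMonoidHom) ConjAct.toConjAct.surjective]
    congr 1
    ext g
    simp [mem_centralizer_singleton_iff, ConjAct.smul_def, mul_inv_eq_iff_eq_mul]
  have hsub : MulAction.orbit (ConjAct X) x ⊆ (N : Set X) \ {1} := by
    rintro _ ⟨g, rfl⟩
    exact ⟨hN.conj_mem _ hx _, fun e => h1 (by simpa [ConjAct.smul_def] using e)⟩
  have hle := Set.ncard_le_ncard hsub
  rw [Set.ncard_sdiff_singleton_of_mem N.one_mem, ← hi, ← Nat.card_coe_set_eq] at hle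
  have : 0 < #N := Nat.card_pos
  have h2 : Nat.card (N : Set X) = #N := rfl
  omega

/-- an element of order `7` acting fixed-point-freely on a group of order `8` is transitive -/
theorem tr7 (ho : orderOf σ = 7) (hK : #K = 8) (hn : σ ∈ N(K)) (hf : K ⊓ C(⟪σ⟫) = ⊥)
    (hx : x ∈ K) (x1 : x ≠ 1) (hy : y ∈ K) (y1 : y ≠ 1) : ∃ s ∈ ⟪σ⟫, s * x * s⁻¹ = y := by
  letI : MulAction ⟪σ⟫ X := MulAction.compHom X ((MulAut.conj : X →* MulAut X).comp ⟪σ⟫.subtype)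
  have sm : ∀ (k : ⟪σ⟫) (x : X), k • x = k * x * (k : X)⁻¹ := fun k x => rfl
  have hi := MulAction.index_stabilizer ⟪σ⟫ x
  have hd := (MulAction.stabilizer ⟪σ⟫ x).index_dvd_card
  rw [Nat.card_zpowers, ho] at hd
  have hsub : MulAction.orbit ⟪σ⟫ x ⊆ (K : Set X) \ {1} := by
    rintro _ ⟨k, rfl⟩
    exact ⟨(mem_normalizer_iff.1 (zpowers_le.2 hn k.2) x).1 hx, fun e => x1 (by simpa [sm] using e)⟩
  rcases (Nat.dvd_prime (by norm_num)).1 hd with e | e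
  · exfalso
    have : x ∈ K ⊓ C(⟪σ⟫) := ⟨hx, fun s hs => by
      have : (⟨s, hs⟩ : ⟪σ⟫) ∈ MulAction.stabilizer ⟪σ⟫ x := by rw [index_eq_one.1 e]; trivial
      exact mul_inv_eq_iff_eq_mul.1 this⟩
    exact x1 (by rwa [hf, mem_bot] at this)
  · have := Set.eq_of_subset_of_ncard_le hsub (by
      rw [Set.ncard_sdiff_singleton_of_mem K.one_mem, ← hi, ← Nat.card_coe_set_eq, e]
      exact (show Nat.card (K : Set X) - 1 = 7 by rw [show Nat.card (K : Set X) = #K from rfl, hK]).le)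
    obtain ⟨k, hk⟩ : y ∈ MulAction.orbit ⟪σ⟫ x := this ▸ ⟨hy, y1⟩
    exact ⟨k, k.2, hk⟩

theorem sup2 (hn : x ∈ N(K)) (h2 : x * x ∈ K) : y ∈ K ⊔ ⟪x⟫ ↔ y ∈ K ∨ y * x ∈ K := by
  rw [H3.mem_sup_zpowers_iff hn]
  have h3 : ∀ j : ℤ, x ^ (2 * j) ∈ K := fun j => by rw [zpow_mul, zpow_two]; exact zpow_mem h2 j
  constructor
  · rintro ⟨n, hn, k, rfl⟩
    rcases Int.even_or_odd' k with ⟨j, rfl | rfl⟩
    · exact Or.inl (mul_mem hn (h3 j))
    · right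
      have := mul_mem hn (h3 (j + 1))
      rwa [show 2 * (j + 1) = 2 * j + 1 + 1 by ring, zpow_add_one, ← mul_assoc] at this
  · rintro (e | e)
    · exact ⟨y, e, 0, by simp⟩
    · exact ⟨_, e, -1, by simp⟩

theorem zp2 (h2 : x * x = 1) : y ∈ ⟪x⟫ ↔ y = 1 ∨ y = x := by
  have := sup2 (K := ⊥) (x := x) (y := y) (by rw [normalizer_eq_top]; trivial) h2
  rw [bot_sup_eq, mem_bot, mem_bot, mul_eq_one_iff_eq_inv, inv_eq_of_mul_eq_one_right h2] at this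
  exact this

/-- Lemma F: a central extension of a four-group by a fixed-point-free section is abelian. -/
theorem lemF {H : Type*} [Group H] {M : Subgroup H} {w r : H} (r3 : r ^ 3 = 1)
    (hw : ∀ m ∈ M, w * m = m * w) (hw2 : ∀ m ∈ M, (r * w * r⁻¹) * m = m * (r * w * r⁻¹))
    (hf : ∀ m ∈ M, r * m = m * r → m = 1)
    (pr : w * (r * w * r⁻¹) * (r * (r * w * r⁻¹) * r⁻¹) ∈ M)
    (cm : w * (r * w * r⁻¹) * w⁻¹ * (r * w * r⁻¹)⁻¹ ∈ M) :
    w * (r * w * r⁻¹) * (r * (r * w * r⁻¹) * r⁻¹) = 1 ∧ w * (r * w * r⁻¹) = (r * w * r⁻¹) * w := by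
  set b := r * w * r⁻¹ with hb
  set c := r * b * r⁻¹ with hc
  have hcw : r * c * r⁻¹ = w := by
    calc r * c * r⁻¹ = r ^ 3 * w * (r ^ 3)⁻¹ := by rw [hc, hb, pow_succ, pow_two]; group
      _ = w := by rw [r3]; group
  have h1 : w * b * c = 1 := hf _ pr (by
    have := hw _ pr
    calc r * (w * b * c) = (r * w * r⁻¹) * (r * b * r⁻¹) * (r * c * r⁻¹) * r := by group
      _ = w⁻¹ * (w * b * c * w) * r := by rw [← hb, ← hc, hcw]; group
      _ = _ := by rw [← this]; group)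
  have hc' : c = b⁻¹ * w⁻¹ := by rw [← mul_inv_rev]; exact eq_inv_of_mul_eq_one_right h1
  refine ⟨h1, ?_⟩
  have h2 : w * b * w⁻¹ * b⁻¹ = 1 := hf _ cm (by
    have := hw _ cm
    calc r * (w * b * w⁻¹ * b⁻¹) = (r * w * r⁻¹) * (r * b * r⁻¹) * (r * w * r⁻¹)⁻¹ * (r * b * r⁻¹)⁻¹ * r := by group
      _ = b⁻¹ * w⁻¹ * (w * b * w⁻¹ * b⁻¹) * w * b * r := by rw [← hb, ← hc, hc']; group
      _ = b⁻¹ * w⁻¹ * ((w * b * w⁻¹ * b⁻¹) * w) * b * r := by group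
      _ = b⁻¹ * ((w * b * w⁻¹ * b⁻¹) * b) * r := by rw [← this]; group
      _ = _ := by rw [← hw2 _ cm]; group)
  calc w * b = (w * b * w⁻¹ * b⁻¹) * (b * w) := by group
    _ = _ := by rw [h2, one_mul]

end Cfsg.Agent.H8.Tr
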