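import Cfsg.Agent.H8.Tr0

/-! S3105: auxiliary lemmas for the local argument. -/

set_option autoImplicit false
set_option linter.unusedSectionVars false
set_option linter.unusedVariables false

namespace Cfsg.Agent.H8.Tr

open Cfsg Subgroup Cfsg.Agent.FT

universe u

variable {X : Type u} [Group X] [Finite X] {Q N D K : Subgroup X} {σ ρ c z w q x : X}

theorem Nm.qc (hN : Nm Q N) (hq : q ∈ Q) (hx : x ∈ N) : q * x = x * q :=
  ((hN.cen ▸ hq : q ∈ C(N)) x hx).symm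

theorem Wt.mul (h : B Q σ ρ) (hN : Nm Q N) (hw : Wt Q N ρ z w) (hq : q ∈ Q) : Wt Q N ρ z (w * q) := by
  haveI := h.nQ
  have mem : ∀ x : X, x ∈ Q ↔ QuotientGroup.mk' Q x = 1 := fun x => (QuotientGroup.eq_one_iff x).symm
  have hq1 := (mem q).1 hq
  have k : ∀ {w q : X}, q ∈ Q → ∀ n ∈ N, w * q * n = n * (w * q) → w * n = n * w := fun {w q} hq n hn e => by
    rw [mul_assoc, hN.qc hq hn, ← mul_assoc, ← mul_assoc] at e
    exact mul_right_cancel e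
  refine ⟨hw.zN, hw.z1, hw.zρ, fun e => hw.wQ ((mul_mem_cancel_right hq).1 e), ?_, ?_, ?_, fun n hn => ?_,
    fun n hn e1 e2 => hw.cen n hn (k hq n hn e1) (k (h.nQ.conj_mem q hq ρ) n hn ?_), ?_, hw.fpf⟩
  · have := (mem _).1 hw.sq
    rw [mem]; simpa only [map_mul, map_inv, hq1, mul_one] using this
  · have := (mem _).1 hw.pr
    rw [mem]; simpa only [map_mul, map_inv, hq1, mul_one] using this
  · have := (mem _).1 hw.cm
    rw [mem]; simpa only [map_mul, map_inv, hq1, mul_one] using this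
  · have := hw.tv n hn
    rwa [show w * q * n * (w * q)⁻¹ * n⁻¹ = w * (q * n) * q⁻¹ * w⁻¹ * n⁻¹ by group, hN.qc hq hn,
      show w * (n * q) * q⁻¹ * w⁻¹ * n⁻¹ = w * n * w⁻¹ * n⁻¹ by group]
  · rwa [show ρ * w * ρ⁻¹ * (ρ * q * ρ⁻¹) = ρ * (w * q) * ρ⁻¹ by group]
  · obtain ⟨u, hu, h1, h2⟩ := hw.ex
    exact ⟨u, hu, h1, by rw [mul_assoc, hN.qc hq hu, ← mul_assoc, h2, mul_assoc]⟩

theorem lemE {H : Type*} [Group H] {w r : H} (pr : w * (r * w * r⁻¹) * (r * (r * w * r⁻¹) * r⁻¹) = 1)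
    (ha : r * (w * w) = (w * w) * r)
    (k1 : w * (w * (r * w * r⁻¹) * w⁻¹ * (r * w * r⁻¹)⁻¹) = (w * (r * w * r⁻¹) * w⁻¹ * (r * w * r⁻¹)⁻¹) * w) :
    w * (r * w * r⁻¹) * w⁻¹ * (r * w * r⁻¹)⁻¹ = (w * w) ^ 3 ∧ (w * w * (w * w)) ^ 3 = 1 := by
  have hb : (r * w * r⁻¹) * (r * w * r⁻¹) = w * w := by
    calc _ = r * (w * w) * r⁻¹ := by group
      _ = _ := by rw [ha]; group
  have hc : (r * (r * w * r⁻¹) * r⁻¹) * (r * (r * w * r⁻¹) * r⁻¹) = w * w := by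
    calc _ = r * ((r * w * r⁻¹) * (r * w * r⁻¹)) * r⁻¹ := by group
      _ = _ := by rw [hb, ha]; group
  generalize r * (r * w * r⁻¹) * r⁻¹ = c at *
  generalize r * w * r⁻¹ = b at *
  obtain rfl : c = (w * b)⁻¹ := eq_inv_of_mul_eq_one_right pr
  set κ := w * b * w⁻¹ * b⁻¹ with hκ
  have k2 : w * κ⁻¹ = κ⁻¹ * w := (Commute.inv_right k1)
  have e1 : κ = (w * w) ^ 3 := by
    have : (w * w)⁻¹ = κ⁻¹ * (w * w) * (w * w) := by
      calc (w * w)⁻¹ = (w * κ⁻¹) * w * (b * b) := by rw [← hc, hκ]; group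
        _ = _ := by rw [k2, hb]; group
    calc κ = κ * (κ⁻¹ * (w * w) * (w * w)) * (w * w) := by rw [← this]; group
      _ = _ := by rw [pow_succ, pow_two]; group
  refine ⟨e1, ?_⟩
  have e2 : κ * κ = 1 := by
    calc κ * κ = (κ * w) * b * w⁻¹ * b⁻¹ := by rw [hκ]; group
      _ = (w * w) * b * (w * w)⁻¹ * b⁻¹ := by rw [← k1, hκ]; group
      _ = 1 := by rw [← hb]; group
  rw [(Commute.refl (w * w)).mul_pow, ← e1, e2]

theorem lemG {H : Type*} [Group H] {w b c : H} (h1 : w * w = 1) (h2 : b * b = 1) (h3 : c * c = 1)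
    (h4 : w * b * c * (w * b * c) = 1) (h5 : w * (w * b * c) = w * b * c * w) (h6 : b * (w * b * c) = w * b * c * b) :
    w * b * w⁻¹ * b⁻¹ = 1 := by
  generalize he : w * b * c = e at *
  have hc : c = (w * b)⁻¹ * e := by rw [← he]; group
  have k : Commute (w * b)⁻¹ e := ((Commute.mul_left h5 h6 : Commute (w * b) e)).inv_left
  rw [hc, ← sq, k.mul_pow, sq e, h4, mul_one, inv_pow, inv_eq_one, sq] at h3
  rw [inv_eq_of_mul_eq_one_right h1, inv_eq_of_mul_eq_one_right h2, ← h3]; group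

theorem cenT {H : Type*} [Group H] {T : H} (hT : ∀ g, g * T = T * g) (W R : H) :
    W * T * (R * (W * T) * R⁻¹) * (R * (R * (W * T) * R⁻¹) * R⁻¹) =
      W * (R * W * R⁻¹) * (R * (R * W * R⁻¹) * R⁻¹) * T ^ 3 := by
  have c2 : ∀ a b, a * T * b = a * b * T := fun a b => by rw [mul_assoc, ← hT, mul_assoc]
  have c1 : ∀ g W, g * (W * T) * g⁻¹ = g * W * g⁻¹ * T := fun g W => by rw [← mul_assoc, c2]
  rw [c1, c1]
  generalize R * (R * W * R⁻¹) * R⁻¹ = c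
  generalize R * W * R⁻¹ = b
  rw [c2 W (b * T), c2 (W * (b * T)) (c * T), ← mul_assoc W b T, c2 (W * b) (c * T), pow_succ, pow_two]; group

theorem lemF' {Y0 Y1 : Subgroup X} (r3 : ρ ^ 3 = 1) (hw : w ∈ N(Y0)) (hr : ρ ∈ N(Y0)) (h1 : Y1 ≤ N(Y0))
    (c1 : ∀ m ∈ Y1, w * m * w⁻¹ * m⁻¹ ∈ Y0) (c2 : ∀ m ∈ Y1, (ρ * w * ρ⁻¹) * m * (ρ * w * ρ⁻¹)⁻¹ * m⁻¹ ∈ Y0)
    (hf : ∀ m ∈ Y1, ρ * m * ρ⁻¹ * m⁻¹ ∈ Y0 → m ∈ Y0)
    (pr : w * (ρ * w * ρ⁻¹) * (ρ * (ρ * w * ρ⁻¹) * ρ⁻¹) ∈ Y1)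
    (cm : w * (ρ * w * ρ⁻¹) * w⁻¹ * (ρ * w * ρ⁻¹)⁻¹ ∈ Y1) :
    w * (ρ * w * ρ⁻¹) * (ρ * (ρ * w * ρ⁻¹) * ρ⁻¹) ∈ Y0 ∧ w * (ρ * w * ρ⁻¹) * w⁻¹ * (ρ * w * ρ⁻¹)⁻¹ ∈ Y0 := by
  let π := QuotientGroup.mk' (Y0.subgroupOf N(Y0))
  have mem : ∀ x : N(Y0), π x = 1 ↔ (x : X) ∈ Y0 := fun x => QuotientGroup.eq_one_iff x
  have com : ∀ a b : N(Y0), π a * π b = π b * π a ↔ (a : X) * b * (a : X)⁻¹ * (b : X)⁻¹ ∈ Y0 := fun a b => by
    rw [show ((a : X) * b * (a : X)⁻¹ * (b : X)⁻¹) = (a * b * a⁻¹ * b⁻¹ : N(Y0)) from rfl, ← mem, map_mul, map_mul,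
      map_mul, map_inv, map_inv, mul_inv_eq_one, mul_inv_eq_iff_eq_mul]
  have := lemF (M := (Y1.subgroupOf N(Y0)).map π) (w := π ⟨w, hw⟩) (r := π ⟨ρ, hr⟩)
    (by rw [← map_pow, show (⟨ρ, hr⟩ : N(Y0)) ^ 3 = 1 from Subtype.ext r3, map_one])
    (by rintro _ ⟨m, hm, rfl⟩; exact (com _ _).2 (c1 _ hm))
    (by rintro _ ⟨m, hm, rfl⟩; rw [← map_inv, ← map_mul, ← map_mul]; exact (com _ _).2 (c2 _ hm))
    (by rintro _ ⟨m, hm, rfl⟩ e; exact (mem _).2 (hf _ hm ((com _ _).1 e)))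
    (by simp only [← map_inv, ← map_mul]; exact ⟨_, pr, rfl⟩)
    (by simp only [← map_inv, ← map_mul]; exact ⟨_, cm, rfl⟩)
  simp only [← map_inv, ← map_mul] at this
  refine ⟨(mem _).1 this.1, ?_⟩
  have h2 := this.2
  rw [map_mul, map_mul π (_ * _ * _)] at h2
  exact (com _ _).1 h2

/-- elements commuting with `z`, and with `g` modulo `z` -/
def Tz (z g : X) : Subgroup X where
  carrier := {k | k * z = z * k ∧ g * k * g⁻¹ * k⁻¹ ∈ ⟪z⟫}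
  one_mem' := ⟨by simp, by simp⟩
  mul_mem' := by
    rintro a b ⟨h1, h2⟩ ⟨h3, i, h4⟩
    refine ⟨by rw [mul_assoc, h3, ← mul_assoc, h1, mul_assoc], ?_⟩
    have k : a * z ^ i = z ^ i * a := (Commute.zpow_right h1 i)
    simp only at h4
    rw [show g * (a * b) * g⁻¹ * (a * b)⁻¹ = g * a * g⁻¹ * a⁻¹ * (a * (g * b * g⁻¹ * b⁻¹)) * a⁻¹ by group, ← h4, k,
      show g * a * g⁻¹ * a⁻¹ * (z ^ i * a) * a⁻¹ = g * a * g⁻¹ * a⁻¹ * z ^ i by group]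
    exact mul_mem h2 ⟨i, rfl⟩
  inv_mem' := by
    rintro a ⟨h1, i, h2⟩
    refine ⟨(Commute.inv_left h1), -i, ?_⟩
    have k : a⁻¹ * z ^ (-i) = z ^ (-i) * a⁻¹ := (Commute.zpow_right (Commute.inv_left h1) (-i))
    simp only at h2 ⊢
    calc z ^ (-i) = a⁻¹ * z ^ (-i) * a := by rw [k]; group
      _ = _ := by rw [zpow_neg, h2]; group

theorem Tz.nrm (hz : z ∈ K) (h : K ≤ Tz z x) : x ∈ N(K) :=
  mem_normalizer_fintype fun k hk => by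
    have := K.mul_mem (zpowers_le.2 hz (h hk).2) hk
    simpa using this

theorem Tz.sqs (hz : z ∈ K) (hs : ∀ k ∈ K, k * k ∈ ⟪z⟫) (h : K ≤ Tz z x) (h2 : x * x ∈ ⟪z⟫) :
    ∀ k ∈ K ⊔ ⟪x⟫, k * k ∈ ⟪z⟫ := fun t ht => by
  have hn := Tz.nrm hz h
  rcases (sup2 hn (zpowers_le.2 hz h2)).1 ht with e | e
  · exact hs t e
  · obtain ⟨-, j, h7⟩ := h ((mem_normalizer_iff.1 (inv_mem hn) _).1 e)
    have h8 := (Commute.zpow_right (h e).1 (-j)).eq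
    simp only at h7
    have : t * t = z ^ (-j) * (t * x * (t * x)) * (x * x)⁻¹ := by
      calc t * t = t * x * (z ^ j)⁻¹ * (t * x) * (x * x)⁻¹ := by rw [h7]; group
        _ = _ := by rw [← zpow_neg, h8]; group
    rw [this]
    exact mul_mem (mul_mem ⟨-j, rfl⟩ (hs _ e)) (inv_mem h2)

end Cfsg.Agent.H8.Tr
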