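import Cfsg.Agent.H8.Tr1

/-! S3105: the local argument, first steps. -/

set_option autoImplicit false
set_option linter.unusedSectionVars false
set_option linter.unusedVariables false

namespace Cfsg.Agent.H8.Tr

open Cfsg Subgroup Cfsg.Agent.FT

universe u

variable {X : Type u} [Group X] [Finite X] {Q N D K : Subgroup X} {σ ρ c z w q x g d n : X}

local notation "Pr(" ρ ", " w ")" => w * (ρ * w * ρ⁻¹) * (ρ * (ρ * w * ρ⁻¹) * ρ⁻¹)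
local notation "Kc(" ρ ", " w ")" => w * (ρ * w * ρ⁻¹) * w⁻¹ * (ρ * w * ρ⁻¹)⁻¹

theorem B.cube (h : B Q σ ρ) (hq : q ∈ Q) : ∃ m : ℕ, (q ^ 3) ^ m = q := by
  obtain ⟨k, hk⟩ := h.pQ.card
  refine exists_pow_eq_self_of_coprime (Nat.Coprime.coprime_dvd_right (?_ : orderOf q ∣ 2 ^ k) ?_)
  · rw [← hk]; exact Q.orderOf_dvd_natCard hq
  · exact Nat.Coprime.pow_right k (by decide)

theorem B.r3 (h : B Q σ ρ) : ρ ^ 3 = 1 := by rw [← h.o3, pow_orderOf_eq_one]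

theorem Dd.csq (hD : Dd Q N D ρ c) (hd : d ∈ D) (g : X) :
    (g * d * g⁻¹ * d⁻¹) * (g * d * g⁻¹ * d⁻¹) = g * (d * d) * g⁻¹ * (d * d)⁻¹ := by
  have := hD.ab _ (inv_mem hd) _ (hD.nD.conj_mem d hd g)
  calc _ = g * d * g⁻¹ * (d⁻¹ * (g * d * g⁻¹)) * d⁻¹ := by group
    _ = _ := by rw [this]; group

theorem Dd.cm (hD : Dd Q N D ρ c) (hd : d ∈ D) (g : X) : g * d * g⁻¹ * d⁻¹ ∈ D :=
  mul_mem (hD.nD.conj_mem d hd g) (inv_mem hd)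

theorem Dd.sq2 (hD : Dd Q N D ρ c) (hd : d ∈ D) (hx : x ∈ D) : d * x * (d * x) = d * d * (x * x) := by
  rw [mul_assoc d x, ← mul_assoc x d, ← hD.ab _ hd _ hx]; group

theorem zc (h : g * z = z * g) (hx : x ∈ ⟪z⟫) : g * x = x * g := by
  obtain ⟨i, rfl⟩ := hx
  exact (Commute.zpow_right h i).eq

theorem Wt.wz (hN : Nm Q N) (hw : Wt Q N ρ z w) : w * z = z * w := by
  rcases (zp2 (hN.sq _ hw.zN)).1 (hw.tv z hw.zN) with e | e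
  · rwa [mul_inv_eq_one, mul_inv_eq_iff_eq_mul] at e
  · rw [mul_inv_eq_iff_eq_mul, hN.sq _ hw.zN] at e
    exact absurd (by simpa using e) hw.z1

theorem Wt.wz2 (hN : Nm Q N) (hw : Wt Q N ρ z w) : (ρ * w * ρ⁻¹) * z = z * (ρ * w * ρ⁻¹) :=
  (((Commute.mul_left hw.zρ (hw.wz hN)).mul_left (Commute.inv_left hw.zρ)) : Commute _ z)

theorem Wt.tz2 (hw : Wt Q N ρ z w) (h : w * (ρ⁻¹ * x * ρ) * w⁻¹ * (ρ⁻¹ * x * ρ)⁻¹ ∈ ⟪z⟫) :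
    (ρ * w * ρ⁻¹) * x * (ρ * w * ρ⁻¹)⁻¹ * x⁻¹ ∈ ⟪z⟫ := by
  have e := zc hw.zρ h
  rwa [show (ρ * w * ρ⁻¹) * x * (ρ * w * ρ⁻¹)⁻¹ * x⁻¹ =
    ρ * (w * (ρ⁻¹ * x * ρ) * w⁻¹ * (ρ⁻¹ * x * ρ)⁻¹) * ρ⁻¹ by group, e, mul_inv_cancel_right]

theorem Wt.tv2 (hN : Nm Q N) (hw : Wt Q N ρ z w) (hn : n ∈ N) :
    (ρ * w * ρ⁻¹) * n * (ρ * w * ρ⁻¹)⁻¹ * n⁻¹ ∈ ⟪z⟫ :=
  hw.tz2 (hw.tv _ (hN.nN.conj_mem' n hn ρ))

theorem Wt.exn (hN : Nm Q N) (hw : Wt Q N ρ z w) : ∃ n ∈ N, w * n * w⁻¹ * n⁻¹ = z := by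
  by_contra hc
  refine hw.wQ (hN.cen ▸ fun n hn => ?_)
  rcases (zp2 (hN.sq _ hw.zN)).1 (hw.tv n hn) with e | e
  · rw [mul_inv_eq_one, mul_inv_eq_iff_eq_mul] at e; exact e.symm
  · exact absurd ⟨n, hn, e⟩ hc

theorem step1 (h : B Q σ ρ) (hN : Nm Q N) (hD : Dd Q N D ρ c)
    (hI : c ∉ N → ∀ q ∈ Q, q * q ∈ D → q ∈ D ∨ q * q * c ∈ N) (hw : Wt Q N ρ z w) :
    ∃ w, Wt Q N ρ z w ∧ w * w ∈ D ∧ Pr(ρ, w) ∈ D ∧ Kc(ρ, w) ∈ D := by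
  haveI := hD.nD
  let π := QuotientGroup.mk' D
  have mem : ∀ x : X, π x = 1 ↔ x ∈ D := fun x => QuotientGroup.eq_one_iff x
  have cen : ∀ q ∈ Q, ∀ g, g * π q = π q * g := fun q hq g => by
    obtain ⟨g, rfl⟩ := QuotientGroup.mk'_surjective D g
    have := (mem _).2 (hD.cenQ g q hq)
    rwa [map_mul, map_mul, map_mul, map_inv, map_inv, mul_inv_eq_one, mul_inv_eq_iff_eq_mul] at this
  obtain ⟨m, hm⟩ := h.cube (inv_mem hw.pr)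
  have ht : (Pr(ρ, w))⁻¹ ^ m ∈ Q := pow_mem (inv_mem hw.pr) m
  have hv := hw.mul h hN ht
  have hp : π (Pr(ρ, w * (Pr(ρ, w))⁻¹ ^ m)) = 1 := by
    have := cenT (cen _ ht) (π w) (π ρ)
    rw [← map_pow, ← pow_mul, mul_comm m 3, pow_mul, hm] at this
    simp only [← map_mul, ← map_inv] at this
    rw [this, mul_inv_cancel, map_one]
  generalize w * (Pr(ρ, w))⁻¹ ^ m = v at hv hp
  obtain ⟨e1, e2⟩ := lemE (w := π v) (r := π ρ) (by simpa only [map_mul, map_inv] using hp)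
    (by simpa only [map_mul] using cen _ hv.sq (π ρ)) (by simpa only [map_mul, map_inv] using cen _ hv.cm (π v))
  have h4 : v * v * (v * v) ∈ D := by
    obtain ⟨k, hk⟩ := h.cube (mul_mem hv.sq hv.sq)
    rw [← mem, ← hk, map_pow, map_pow]
    simp only [map_mul]
    rw [e2, one_pow]
  have h2 : v * v ∈ D := by
    by_cases hc : c ∈ N
    · rcases hD.q8 _ hv.sq h4 with e | e | e
      · exact e
      · obtain ⟨u, hu, u1, u2⟩ := hv.ex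
        obtain ⟨x, hx, rfl⟩ := hD.onto u hu
        have m2 := hD.csq hx v
        rw [u2, mul_inv_cancel_right, mul_inv_cancel] at m2
        have mN : v * x * v⁻¹ * x⁻¹ ∈ N := (hD.inv _ (hD.cm hx v) m2).elim id fun e => (mul_mem_cancel_right hc).1 e
        have := hv.tv _ mN
        refine absurd ((inv_mem_iff (x := x * x)).1 ?_) u1
        convert this using 1
        calc (x * x)⁻¹ = (v * v * x * (v * v)⁻¹) * x⁻¹ * 1 := by rw [e x hx]; group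
          _ = _ := by rw [← inv_one, ← m2]; group
      · exact absurd hc e.2
    · refine (hI hc _ hv.sq h4).elim id fun e => ?_
      have b2 : v * v * (v * v) * (v * v * (v * v)) = 1 := by
        have := hN.sq _ e
        rwa [hD.sq2 h4 hD.cD, hD.c2, mul_one] at this
      rcases hD.free _ h4 b2 v hv.sq (by group) with e' | e'
      · exact absurd ((mul_mem_cancel_left e').1 e) hc
      · exact absurd e' hv.wQ
  refine ⟨v, hv, h2, (mem _).1 hp, (mem _).1 ?_⟩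
  simp only [map_mul, map_inv]
  rw [e1, ← map_mul, (mem _).2 h2, one_pow]

/-- elements of `D` with square in `⟪z⟫` -/
def Yd (hD : Dd Q N D ρ c) (z : X) : Subgroup X where
  carrier := {d | d ∈ D ∧ d * d ∈ ⟪z⟫}
  one_mem' := ⟨D.one_mem, by simp⟩
  mul_mem' := by
    rintro a b ⟨h1, h2⟩ ⟨h3, h4⟩
    exact ⟨mul_mem h1 h3, by rw [hD.sq2 h1 h3]; exact mul_mem h2 h4⟩
  inv_mem' := by
    rintro a ⟨h1, h2⟩
    exact ⟨inv_mem h1, by rw [← mul_inv_rev]; exact inv_mem h2⟩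

theorem Yd.nrm (hD : Dd Q N D ρ c) (h : g * z = z * g) : g ∈ N(Yd hD z) :=
  mem_normalizer_fintype fun k hk => ⟨hD.nD.conj_mem _ hk.1 g, by
    rw [show g * k * g⁻¹ * (g * k * g⁻¹) = g * (k * k) * g⁻¹ by group, zc h hk.2, mul_inv_cancel_right]
    exact hk.2⟩

theorem lemY (h : B Q σ ρ) (hN : Nm Q N) (hD : Dd Q N D ρ c) (hw : Wt Q N ρ z w)
    (pr : Pr(ρ, w) ∈ D) (cm : Kc(ρ, w) ∈ D) : Pr(ρ, w) ∈ Yd hD z ∧ Kc(ρ, w) ∈ Yd hD z :=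
  lemF' (Y1 := D) h.r3 (Yd.nrm hD (hw.wz hN)) (Yd.nrm hD hw.zρ)
    (fun d hd => Yd.nrm hD (hD.ab _ hd _ (hD.ND hw.zN)))
    (fun m hm => ⟨hD.cm hm _, by rw [hD.csq hm]; exact hw.tv _ (hD.sq _ hm)⟩)
    (fun m hm => ⟨hD.cm hm _, by rw [hD.csq hm]; exact hw.tv2 hN (hD.sq _ hm)⟩)
    (fun m hm e => ⟨hm, hw.fpf _ (hD.sq _ hm) (by rw [← hD.csq hm]; exact e.2)⟩) pr cm

theorem step2 (h : B Q σ ρ) (hN : Nm Q N) (hD : Dd Q N D ρ c) (hw : Wt Q N ρ z w)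
    (h2 : w * w ∈ D) (pr : Pr(ρ, w) ∈ D) (cm : Kc(ρ, w) ∈ D) :
    ∃ w, Wt Q N ρ z w ∧ w * w ∈ N ∧ Pr(ρ, w) ∈ Yd hD z := by
  haveI := hD.nD
  have z2 := hN.sq _ hw.zN
  suffices ∃ w, Wt Q N ρ z w ∧ w * w ∈ D ∧ Pr(ρ, w) ∈ D ∧ Kc(ρ, w) ∈ D ∧ w * w * (w * w) = 1 by
    obtain ⟨v, hv, a1, a2, a3, a4⟩ := this
    exact ⟨v, hv, (hD.free _ a1 a4 v hv.sq (by group)).resolve_right hv.wQ, (lemY h hN hD hv a2 a3).1⟩
  obtain ⟨-, -, k2⟩ := lemY h hN hD hw pr cm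
  have h4 : w * w * (w * w) ∈ ⟪z⟫ := by
    refine hw.cen _ (hD.sq _ h2) (by group) ?_
    have e1 := hD.csq h2 (ρ * w * ρ⁻¹)
    have e2 := hD.sq2 (hD.nD.conj_mem _ cm w) cm
    have e3 : w * (Kc(ρ, w)) * w⁻¹ * (w * (Kc(ρ, w)) * w⁻¹) = (Kc(ρ, w)) * (Kc(ρ, w)) := by
      rw [show w * (Kc(ρ, w)) * w⁻¹ * (w * (Kc(ρ, w)) * w⁻¹) = w * ((Kc(ρ, w)) * (Kc(ρ, w))) * w⁻¹ by group,
        zc (hw.wz hN) k2, mul_inv_cancel_right]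
    rw [e3, hN.sq _ (zpowers_le.2 hw.zN k2)] at e2
    have e4 : ρ * w * ρ⁻¹ * (w * w) * (ρ * w * ρ⁻¹)⁻¹ * (w * w)⁻¹ = (w * (Kc(ρ, w)) * w⁻¹ * (Kc(ρ, w)))⁻¹ := by
      simp only [mul_inv_rev, inv_inv, mul_assoc, inv_mul_cancel_left, mul_inv_cancel_left]
    rw [e4, ← mul_inv_rev, e2, inv_one, eq_comm, mul_inv_eq_one, mul_inv_eq_iff_eq_mul] at e1
    exact e1
  rcases (zp2 z2).1 h4 with e | e
  · exact ⟨w, hw, h2, pr, cm, e⟩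
  obtain ⟨n, hn, e1⟩ := hw.exn hN
  obtain ⟨x, hx, rfl⟩ := hD.onto n hn
  have mem : ∀ x : X, x ∈ D ↔ QuotientGroup.mk' D x = 1 := fun x => (QuotientGroup.eq_one_iff x).symm
  have hx1 := (mem x).1 hx
  refine ⟨w * x, hw.mul h hN (hD.DQ hx), ?_, ?_, ?_, ?_⟩
  · have := (mem _).1 h2
    rw [mem]; simpa only [map_mul, map_inv, hx1, mul_one] using this
  · have := (mem _).1 pr
    rw [mem]; simpa only [map_mul, map_inv, hx1, mul_one] using this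
  · have := (mem _).1 cm
    rw [mem]; simpa only [map_mul, map_inv, hx1, mul_one] using this
  · have hx' := hD.nD.conj_mem' x hx w
    rw [show w * x * (w * x) = w * w * (w⁻¹ * x * w * x) by group, hD.sq2 h2 (mul_mem hx' hx), hD.sq2 hx' hx, e]
    calc z * (w⁻¹ * x * w * (w⁻¹ * x * w) * (x * x)) = w⁻¹ * (w * z) * w⁻¹ * (x * x) * w * (x * x) := by group
      _ = x * x * (x * x) := by rw [hw.wz hN, ← e1]; group
      _ = 1 := hN.sq _ hn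

theorem step3 (h : B Q σ ρ) (hN : Nm Q N) (hD : Dd Q N D ρ c) (hw : Wt Q N ρ z w)
    (h2 : w * w ∈ N) (pr : Pr(ρ, w) ∈ Yd hD z) :
    ∃ w y, Wt Q N ρ z w ∧ w * w ∈ N ∧ y ∈ D ∧ y * y = z ∧ ρ * y = y * ρ ∧ y ∈ Tz z w ∧ Pr(ρ, w) ∈ N ⊔ ⟪y⟫ := by
  haveI := hN.nN
  have z2 := hN.sq _ hw.zN
  have zD := hD.ND hw.zN
  obtain ⟨d, hd, d2⟩ := hD.onto z hw.zN
  have hd1 := hD.nD.conj_mem d hd ρ
  have hd2 := hD.nD.conj_mem _ hd1 ρ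
  have s1 : ∀ a, a * a = z → ρ * a * ρ⁻¹ * (ρ * a * ρ⁻¹) = z := fun a e => by
    rw [show ρ * a * ρ⁻¹ * (ρ * a * ρ⁻¹) = ρ * (a * a) * ρ⁻¹ by group, e, hw.zρ, mul_inv_cancel_right]
  obtain ⟨y, hy, y2, yρ⟩ : ∃ y ∈ D, y * y = z ∧ ρ * y = y * ρ := by
    refine ⟨_, mul_mem (mul_mem hd hd1) hd2, ?_, ?_⟩
    · rw [hD.sq2 (mul_mem hd hd1) hd2, hD.sq2 hd hd1, s1 _ (s1 _ d2), s1 _ d2, d2, z2, one_mul]
    · calc _ = (ρ * d * ρ⁻¹) * (ρ * (ρ * d * ρ⁻¹) * ρ⁻¹) * (ρ ^ 3 * d * (ρ ^ 3)⁻¹) * ρ := by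
            rw [pow_succ, pow_two]; group
        _ = _ := by rw [h.r3, one_mul, inv_one, mul_one, ← hD.ab _ hd _ (mul_mem hd1 hd2), ← mul_assoc]
  obtain ⟨n, hn, e1⟩ := hw.exn hN
  obtain ⟨x, hx, rfl⟩ := hD.onto n hn
  have hm := hD.cm hx w
  have m2 := hD.csq hx w
  rw [e1] at m2
  have mT : w * x * w⁻¹ * x⁻¹ ∈ Tz z w := ⟨hD.ab _ hm _ zD, by
    have := hD.ab _ (hD.ND h2) _ hx
    refine (inv_mem_iff (x := z)).2 (mem_zpowers z) |> fun k => ?_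
    convert k using 1
    calc _ = (w * w * x) * (w * w)⁻¹ * x⁻¹ * ((w * x * w⁻¹ * x⁻¹) * (w * x * w⁻¹ * x⁻¹))⁻¹ := by
          simp only [mul_inv_rev, inv_inv, mul_assoc, inv_mul_cancel_left, mul_inv_cancel_left]
      _ = _ := by rw [this, m2]; group⟩
  have NT : N ≤ Tz z w := fun n hn => ⟨hD.ab _ (hD.ND hn) _ zD, hw.tv n hn⟩
  obtain ⟨y, hy, y2, yρ, yT⟩ : ∃ y ∈ D, y * y = z ∧ ρ * y = y * ρ ∧ y ∈ Tz z w := by
    rcases hD.inv _ (mul_mem hm hy) (by rw [hD.sq2 hm hy, m2, y2, z2]) with e | e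
    · exact ⟨y, hy, y2, yρ, (mul_mem_cancel_left mT).1 (NT e)⟩
    · refine ⟨y * c, mul_mem hy hD.cD, by rw [hD.sq2 hy hD.cD, y2, hD.c2, mul_one],
        (Commute.mul_right yρ hD.cρ).eq, (mul_mem_cancel_left mT).1 (NT (by rwa [mul_assoc] at e))⟩
  have key : Pr(ρ, w) ∈ N ⊔ ⟪y⟫ ∨ Pr(ρ, w) * c ∈ N ⊔ ⟪y⟫ := by
    have s := fun t => sup2 (K := N) (x := y) (y := t) (by rw [normalizer_eq_top]; trivial) (y2 ▸ hw.zN)
    rcases (zp2 z2).1 pr.2 with e | e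
    · exact (hD.inv _ pr.1 e).imp (fun e => (s _).2 (.inl e)) fun e => (s _).2 (.inl e)
    · refine (hD.inv _ (mul_mem pr.1 hy) (by rw [hD.sq2 pr.1 hy, e, y2, z2])).imp (fun e => (s _).2 (.inr e))
        fun e => (s _).2 (.inr ?_)
      rwa [mul_assoc _ c, hD.ab _ hD.cD _ hy, ← mul_assoc]
  rcases key with e | e
  · exact ⟨w, y, hw, h2, hy, y2, yρ, yT, e⟩
  let π := QuotientGroup.mk' N
  have mem : ∀ x : X, π x = 1 ↔ x ∈ N := fun x => QuotientGroup.eq_one_iff x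
  have cen : ∀ g, g * π c = π c * g := fun g => by
    obtain ⟨g, rfl⟩ := QuotientGroup.mk'_surjective N g
    have := (mem _).2 (hD.cX g)
    rwa [map_mul, map_mul, map_mul, map_inv, map_inv, mul_inv_eq_one, mul_inv_eq_iff_eq_mul] at this
  refine ⟨w * c, y, hw.mul h hN (hD.DQ hD.cD), (mem _).1 ?_, hy, y2, yρ, ⟨yT.1, ?_⟩, ?_⟩
  · rw [map_mul, map_mul]
    nth_rw 1 [cen]
    rw [show π c * π w * (π w * π c) = π c * (π w * π w) * π c by group, ← map_mul,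
      (mem _).2 h2, mul_one, ← map_mul, hD.c2, map_one]
  · rw [show w * c * y * (w * c)⁻¹ * y⁻¹ = w * (c * y) * c⁻¹ * w⁻¹ * y⁻¹ by group, hD.ab _ hD.cD _ hy,
      show w * (y * c) * c⁻¹ * w⁻¹ * y⁻¹ = w * y * w⁻¹ * y⁻¹ by group]
    exact yT.2
  · have := cenT cen (π w) (π ρ)
    rw [← map_pow, pow_succ, pow_two, hD.c2, one_mul] at this
    simp only [← map_mul, ← map_inv] at this
    rw [← mul_inv_eq_one, ← map_inv, ← map_mul, mem] at this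
    exact (mul_mem_cancel_right (inv_mem e)).1 (mem_sup_left this)

theorem step4 (h : B Q σ ρ) (hN : Nm Q N) (hD : Dd Q N D ρ c) (hw : Wt Q N ρ z w) {y : X}
    (h2 : w * w ∈ N) (hy : y ∈ D) (y2 : y * y = z) (yρ : ρ * y = y * ρ) (yT : y ∈ Tz z w)
    (pr : Pr(ρ, w) ∈ N ⊔ ⟪y⟫) : False := by
  haveI := hN.nN
  haveI := h.nQ
  have z2 := hN.sq _ hw.zN
  have zD := hD.ND hw.zN
  have zN := zpowers_le.2 hw.zN
  have YD : N ⊔ ⟪y⟫ ≤ D := sup_le hD.ND (zpowers_le.2 hy)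
  have T1 : N ⊔ ⟪y⟫ ≤ Tz z w := sup_le (fun n hn => ⟨hD.ab _ (hD.ND hn) _ zD, hw.tv n hn⟩) (zpowers_le.2 yT)
  have T2 : N ⊔ ⟪y⟫ ≤ Tz z (ρ * w * ρ⁻¹) := sup_le (fun n hn => ⟨hD.ab _ (hD.ND hn) _ zD, hw.tv2 hN hn⟩)
    (zpowers_le.2 ⟨yT.1, hw.tz2 (by rw [mul_assoc ρ⁻¹, ← yρ, inv_mul_cancel_left]; exact yT.2)⟩)
  have yN : y ∉ N := fun e => hw.z1 (y2 ▸ hN.sq _ e)
  have zy : z ∈ ⟪y⟫ := y2 ▸ mul_mem (mem_zpowers y) (mem_zpowers y)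
  have yz : ∀ t ∈ ⟪y⟫, t ∈ N → t ∈ ⟪z⟫ := fun t ht tN => by
    have := (sup2 (K := ⟪z⟫) (x := y) (y := t) (Tz.nrm (mem_zpowers z) (zpowers_le.2 ⟨rfl, by
      rw [yT.1]; simp⟩)) (y2 ▸ mem_zpowers z)).1 (mem_sup_right ht)
    exact this.resolve_right fun e => yN ((mul_mem_cancel_left tN).1 (zN e))
  let π := QuotientGroup.mk' N
  have mem : ∀ x : X, π x = 1 ↔ x ∈ N := fun x => QuotientGroup.eq_one_iff x
  have com : ∀ a b : X, a * b * a⁻¹ * b⁻¹ ∈ N → π a * π b = π b * π a := fun a b e => by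
    have := (mem _).2 e
    rwa [map_mul, map_mul, map_mul, map_inv, map_inv, mul_inv_eq_one, mul_inv_eq_iff_eq_mul] at this
  have s1 : ∀ a, a * a ∈ N → ρ * a * ρ⁻¹ * (ρ * a * ρ⁻¹) ∈ N := fun a e => by
    rw [show ρ * a * ρ⁻¹ * (ρ * a * ρ⁻¹) = ρ * (a * a) * ρ⁻¹ by group]; exact hN.nN.conj_mem _ e _
  have kN : Kc(ρ, w) ∈ N := by
    have := lemG (w := π w) (b := π (ρ * w * ρ⁻¹)) (c := π (ρ * (ρ * w * ρ⁻¹) * ρ⁻¹))
      (by rw [← map_mul, mem]; exact h2) (by rw [← map_mul, mem]; exact s1 _ h2)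
      (by rw [← map_mul, mem]; exact s1 _ (s1 _ h2))
      (by simp only [← map_mul]; rw [mem]; exact hD.sq _ (YD pr))
      (by rw [← map_mul, ← map_mul]; exact com _ _ (zN (T1 pr).2))
      (by rw [← map_mul, ← map_mul]; exact com _ _ (zN (T2 pr).2))
    simp only [← map_mul, ← map_inv] at this
    exact (mem _).1 this
  have ny : ∀ g : X, g * y = y * g → g ∈ N(⟪y⟫) := fun g e => mem_normalizer_fintype fun k hk => by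
    rwa [zc e hk, mul_inv_cancel_right]
  have kz : Kc(ρ, w) ∈ ⟪z⟫ := yz _ (lemF' (Y0 := ⟪y⟫) (Y1 := N ⊔ ⟪y⟫) h.r3
    (Tz.nrm zy (le_sup_right.trans T1)) (ny _ yρ) (fun d hd => ny _ (hD.ab _ (YD hd) _ hy))
    (fun m hm => zpowers_le.2 zy (T1 hm).2) (fun m hm => zpowers_le.2 zy (T2 hm).2)
    (fun m hm e => by
      obtain ⟨n, hn, k, rfl⟩ := (H3.mem_sup_zpowers_iff (by rw [normalizer_eq_top]; trivial)).1 hm
      have e' : ρ * (n * y ^ k) * ρ⁻¹ * (n * y ^ k)⁻¹ = ρ * n * ρ⁻¹ * n⁻¹ := by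
        calc _ = ρ * n * (y ^ k * ρ⁻¹) * (y ^ k)⁻¹ * n⁻¹ := by group
          _ = _ := by rw [← ((Commute.zpow_right yρ k).inv_left).eq]; group
      rw [e'] at e
      exact mul_mem (zpowers_le.2 zy (hw.fpf n hn (yz _ e (mul_mem (hN.nN.conj_mem _ hn _) (inv_mem hn))))) ⟨k, rfl⟩)
    pr (mem_sup_left kN)).2 kN
  have w2z : w * w ∈ ⟪z⟫ := hw.cen _ h2 (by group) (by
    have e : w * (Kc(ρ, w)) * w⁻¹ * (Kc(ρ, w)) = 1 := by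
      rw [zc (hw.wz hN) kz, mul_inv_cancel_right, hN.sq _ kN]
    calc ρ * w * ρ⁻¹ * (w * w) = (w * (Kc(ρ, w)) * w⁻¹ * (Kc(ρ, w))) * (ρ * w * ρ⁻¹ * (w * w)) := by rw [e, one_mul]
      _ = _ := by simp only [mul_inv_rev, inv_inv, mul_assoc, inv_mul_cancel_left, mul_inv_cancel_left, inv_mul_cancel, mul_one])
  have w2z' : ρ * w * ρ⁻¹ * (ρ * w * ρ⁻¹) ∈ ⟪z⟫ := by
    rwa [show ρ * w * ρ⁻¹ * (ρ * w * ρ⁻¹) = ρ * (w * w) * ρ⁻¹ by group, zc hw.zρ w2z, mul_inv_cancel_right]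
  have T0 : N ≤ Tz z y := fun n hn => ⟨hD.ab _ (hD.ND hn) _ zD, by rw [hD.ab _ hy _ (hD.ND hn)]; simp⟩
  have T3 : N ⊔ ⟪y⟫ ⊔ ⟪w⟫ ≤ Tz z (ρ * w * ρ⁻¹) := sup_le T2 (zpowers_le.2 ⟨hw.wz hN, by
    have := inv_mem kz
    rwa [show (Kc(ρ, w))⁻¹ = ρ * w * ρ⁻¹ * w * (ρ * w * ρ⁻¹)⁻¹ * w⁻¹ by group] at this⟩)
  have z0 : z ∈ N ⊔ ⟪y⟫ := mem_sup_left hw.zN
  have z1 : z ∈ N ⊔ ⟪y⟫ ⊔ ⟪w⟫ := mem_sup_left z0
  have q0 := Tz.sqs hw.zN (fun k hk => by rw [hN.sq k hk]; exact one_mem _) T0 (y2 ▸ mem_zpowers z)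
  have q1 := Tz.sqs z0 q0 T1 w2z
  have q2 := Tz.sqs z1 q1 T3 w2z'
  have c0 := H3.card_sup_zpowers Nat.prime_two (Tz.nrm hw.zN T0) yN (by rw [pow_two, y2]; exact hw.zN)
  have c1 := H3.card_sup_zpowers Nat.prime_two (Tz.nrm z0 T1) (fun e => hw.wQ (hD.DQ (YD e)))
    (by rw [pow_two]; exact zpowers_le.2 z0 w2z)
  have c2 := H3.card_sup_zpowers Nat.prime_two (Tz.nrm z1 T3) (fun e => by
      rcases (sup2 (Tz.nrm z0 T1) (zpowers_le.2 z0 w2z)).1 e with e | e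
      · exact hw.wQ (by simpa [mul_assoc] using h.nQ.conj_mem' _ (hD.DQ (YD e)) ρ)
      · obtain ⟨u, hu, u1, u2⟩ := hw.ex
        have := hN.qc (hD.DQ (YD e)) hu
        rw [mul_assoc, u2, ← mul_assoc, ← mul_assoc u] at this
        exact u1 (hw.cen u hu u2 (mul_right_cancel this)))
    (by rw [pow_two]; exact zpowers_le.2 z1 w2z')
  have := h.sr _ ⟪z⟫ le_top (zpowers_le.2 (mem_sup_left z1)) q2
  rw [c2, c1, c0, hN.c8, Nat.card_zpowers, orderOf_eq_prime (p := 2) (by rw [pow_two, z2]) hw.z1] at this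
  omega

theorem loc (h : B Q σ ρ) (hN : Nm Q N) (hD : Dd Q N D ρ c)
    (hI : c ∉ N → ∀ q ∈ Q, q * q ∈ D → q ∈ D ∨ q * q * c ∈ N) (hw : Wt Q N ρ z w) : False := by
  obtain ⟨w, hw, a1, a2, a3⟩ := step1 h hN hD hI hw
  obtain ⟨w, hw, a1, a2⟩ := step2 h hN hD hw a1 a2 a3
  obtain ⟨w, y, hw, a1, a2, a3, a4, a5, a6⟩ := step3 h hN hD hw a1 a2
  exact step4 h hN hD hw a1 a2 a3 a4 a5 a6

end Cfsg.Agent.H8.Tr
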