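import Cfsg.Agent.H8.Tr2
import Cfsg.Agent.H16.Trom
import Cfsg.Agent.H28.TrexW
import Cfsg.Agent.H20.Trcen

/-! S3105: the main induction. -/

set_option autoImplicit false
set_option linter.unusedSectionVars false
set_option linter.unusedVariables false

namespace Cfsg.Agent.H8.Tr

open Cfsg Subgroup Cfsg.Agent.FT

universe u

/-- the statement of the two-chief-factor piece -/
def TwoA : Prop := ∀ (X : Type u) [Group X] [Finite X] (Q N : Subgroup X) (σ ρ : X) (h : B Q σ ρ) (hN : Nm Q N)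
  [N.Normal] (hσ : N ⊓ C(⟪σ⟫) = ⊥)
  (hA : ∀ a ∈ Q, a ∈ C(Q) → a * a = 1 → ∀ w : X, w * w ∈ Q → w * a = a * w → a ∈ N ∨ w ∈ Q)
  (h1 : S1 (Q.map (QuotientGroup.mk' N)) (QuotientGroup.mk' N σ)) (c : X) (hc : c ∈ Q) (hcσ : c * σ = σ * c)
  (hg : ∀ x ∈ Q, x * σ = σ * x → x ∈ ⟪c⟫),
  ∃ D c0, Dd Q N D ρ c0 ∧ (c0 ∉ N → ∀ q ∈ Q, q * q ∈ D → q ∈ D ∨ q * q * c0 ∈ N)

theorem quo_cent {X : Type u} [Group X] [Finite X] {Q M : Subgroup X} {σ : X} [M.Normal]
    (h : QuotientGroup.mk' M σ ∈ C(Q.map (QuotientGroup.mk' M))) : ⁅Q, ⟪σ⟫⁆ ≤ M := by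
  refine le_trans ?_ (QuotientGroup.ker_mk' M).le
  rw [← Subgroup.map_eq_bot_iff, map_commutator, MonoidHom.map_zpowers, commutator_comm,
    commutator_eq_bot_iff_le_centralizer]
  exact zpowers_le.2 h

theorem mainS (tw : TwoA.{u}) (n : ℕ) : ∀ (X : Type u) [Group X] [Finite X] (Q : Subgroup X) (σ ρ : X),
    #Q = n → B Q σ ρ → σ ∉ C(Q) → S1 Q σ := by
  induction n using Nat.strong_induction_on with
  | _ n ih =>
  intro X _ _ Q σ ρ hn h hσ
  haveI := h.nQ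
  have lt : ∀ (M : Subgroup X) [M.Normal], M ≤ Q → M ≠ ⊥ → #(Q.map (QuotientGroup.mk' M)) < n := fun M _ hM h1 => by
    have h2 := (M.subgroupOf Q).card_mul_index
    rw [Nat.card_congr (subgroupOfEquivOfLe hM).toEquiv, hn, show (M.subgroupOf Q).index =
      #(Q.map (QuotientGroup.mk' M)) by rw [card_map_eq, QuotientGroup.ker_mk']; rfl] at h2
    have h3 : 1 < #M := (one_lt_card_iff_ne_bot M).2 h1
    have h4 : 0 < #(Q.map (QuotientGroup.mk' M)) := Nat.card_pos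
    nlinarith
  by_cases hZ : ∀ z ∈ Q, z ∈ center X → z = 1
  · obtain ⟨N, hN, hNσ, hA⟩ := om h (fun e => hσ (by rw [e]; intro x hx; simp [mem_bot.1 hx])) hZ
    haveI := hN.nN
    by_cases hc : QuotientGroup.mk' N σ ∈ C(Q.map (QuotientGroup.mk' N))
    · have h1 := quo_cent hc
      have h2 : ⁅Q, ⟪σ⟫⁆ = N := le_antisymm h1 fun x hx => by
        obtain ⟨a, ha, b, hb, rfl⟩ := (coprime_cent_prod (nrm_of _) (h.cop le_rfl) (h.sol le_rfl)).mul x (hN.le hx)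
        have : b ∈ N ⊓ C(⟪σ⟫) := ⟨(mul_mem_cancel_left (h1 ha)).1 hx, hb.2⟩
        rw [hNσ, mem_bot] at this
        rwa [this, mul_one]
      rw [S1, h2]
      exact ⟨hN.c8, hN.sq, fun x hx q hq => hN.qc hq hx⟩
    · exfalso
      have hq := h.quo N hN.le
      have h1 := ih _ (lt N hN.le fun e => by have := hN.c8; rw [e, card_bot] at this; omega) _ _ _ _ rfl hq hc
      obtain ⟨_, ⟨c, hc1, rfl⟩, c2, c3⟩ := cyc hq h1
      have hK : N ≤ N ⊔ ⟪c⟫ := le_sup_left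
      have hcm : ⁅N ⊔ ⟪c⟫, ⟪σ⟫⁆ ≤ N := quo_cent (by
        rw [Subgroup.map_sup, MonoidHom.map_zpowers, (map_eq_bot_iff N).2 (QuotientGroup.ker_mk' N).ge, bot_sup_eq]
        intro x hx
        exact (zc c2.symm hx).symm)
      obtain ⟨a, ha, b, hb, e⟩ := (coprime_cent_prod_of_le hK (nrm_of _) (h.cop hN.le) (.inl (h.sol hN.le)) hcm).mul c
        (mem_sup_right (mem_zpowers c))
      have bσ : b * σ = σ * b := (hb.2 σ (mem_zpowers σ)).symm
      have hbc : QuotientGroup.mk' N c = QuotientGroup.mk' N b := by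
        rw [e, map_mul, show QuotientGroup.mk' N a = 1 from (QuotientGroup.eq_one_iff a).2 ha, one_mul]
      obtain ⟨D, c0, hD, hI⟩ := tw X Q N σ ρ h hN hNσ hA h1 b (sup_le hN.le (zpowers_le.2 hc1) hb.1) bσ
        fun x hx xσ => by
          obtain ⟨k, hk⟩ := c3 _ ⟨x, hx, rfl⟩ (by rw [← map_mul, xσ, map_mul])
          simp only [hbc, ← map_zpow] at hk
          have : (b ^ k)⁻¹ * x ∈ N ⊓ C(⟪σ⟫) := mem_inf.2 ⟨QuotientGroup.eq.1 hk,
            mul_mem (inv_mem (zpow_mem (mem_inf.1 hb).2 k)) fun s hs => (zc xσ hs).symm⟩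
          rw [hNσ, mem_bot, inv_mul_eq_one] at this
          exact ⟨k, this⟩
      obtain ⟨z, w, hw⟩ := exW h hN
      exact loc h hN hD hI hw
  · push Not at hZ
    obtain ⟨z, hz, zc', z1, z2⟩ : ∃ z ∈ Q, z ∈ center X ∧ z ≠ 1 ∧ z * z = 1 := by
      obtain ⟨z, hz, h1, h2⟩ := hZ
      obtain ⟨k, hk⟩ := h.pQ.card
      have h3 : 2 ∣ orderOf z := by
        obtain ⟨j, -, e⟩ := (Nat.dvd_prime_pow Nat.prime_two).1 (hk ▸ Q.orderOf_dvd_natCard hz)
        rcases j with _ | j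
        · exact absurd (orderOf_eq_one_iff.1 e) h2
        · rw [e]; exact dvd_pow_self 2 j.succ_ne_zero
      have h4 := orderOf_pow_orderOf_div (orderOf_pos z).ne' h3
      refine ⟨z ^ (orderOf z / 2), pow_mem hz _, pow_mem h1 _, fun e => ?_, ?_⟩
      · rw [e, orderOf_one] at h4; omega
      · have := pow_orderOf_eq_one (z ^ (orderOf z / 2))
        rwa [h4, pow_two] at this
    haveI : (⟪z⟫).Normal := ⟨fun x hx g => by rwa [zc (mem_center_iff.1 zc' g) hx, mul_inv_cancel_right]⟩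
    have hz' := zpowers_le.2 hz
    refine cen h hz z2 zc' (ih _ (lt _ hz' fun e => z1 (zpowers_eq_bot.1 e)) _ _ _ _ rfl (h.quo _ hz') fun hc => hσ ?_)
    exact coprime_cents_of_comm_cents (nrm_of _) (h.cop le_rfl) ((quo_cent hc).trans (zpowers_le.2 fun s _ =>
      mem_center_iff.1 zc' s)) (mem_zpowers σ)

end Cfsg.Agent.H8.Tr
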