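import Cfsg.Agent.H8.Tr3

/-! S3105: the case of two nontrivial chief factors. -/

set_option autoImplicit false
set_option linter.unusedSectionVars false
set_option linter.unusedVariables false

namespace Cfsg.Agent.H8.Tr

open Cfsg Subgroup Cfsg.Agent.FT

universe u

variable {X : Type u} [Group X] [Finite X] {Q N P D M K : Subgroup X} {σ ρ c e a b g u x y : X}

structure TA (Q N P : Subgroup X) (σ ρ c e : X) : Prop where
  h : B Q σ ρ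
  hN : Nm Q N
  NP : N ≤ P
  PQ : P ≤ Q
  c64 : #P = 64
  cP : ⁅Q, ⟪σ⟫⁆ ≤ P
  dec : ∀ q ∈ Q, ∃ p ∈ P, ∃ t ∈ ⟪c⟫, q = p * t
  der : ∀ a ∈ Q, ∀ b ∈ Q, a * b * a⁻¹ * b⁻¹ ∈ N
  sq : ∀ x ∈ P, x * x ∈ N
  tr : ∀ x ∈ P, x ∉ N → ∀ y ∈ P, y ∉ N → ∃ s ∈ ⟪σ⟫, ∃ n ∈ N, s * x * s⁻¹ = y * n
  ne : ∀ x ∈ P, x * x = 1 → x ∈ N
  inj : ∀ x ∈ P, ∀ y ∈ P, x * x = y * y → ∃ n ∈ N, x = y * n
  onto : ∀ n ∈ N, ∃ d ∈ P, d * d = n
  cQ : c ∈ Q
  e2 : e * e = 1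
  ec : e ∈ ⟪c⟫
  eu : ∀ t ∈ ⟪c⟫, t * t ∈ N → t = 1 ∨ t = e
  eN : e ∈ N → e = 1
  eρ : ρ * e = e * ρ
  eσ : σ * e = e * σ

theorem ta_card [M.Normal] (h : M ≤ K) : #M * #(K.map (QuotientGroup.mk' M)) = #K := by
  have h2 := (M.subgroupOf K).card_mul_index
  rwa [Nat.card_congr (subgroupOfEquivOfLe h).toEquiv, show (M.subgroupOf K).index =
    #(K.map (QuotientGroup.mk' M)) by rw [card_map_eq, QuotientGroup.ker_mk']; rfl] at h2

theorem Nm.sqn (hN : Nm Q N) (hy : y ∈ Q) {n : X} (hn : n ∈ N) : y * n * (y * n) = y * y := by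
  rw [mul_assoc y n, ← mul_assoc n, ← hN.qc hy hn, mul_assoc y n, hN.sq n hn, mul_one]

theorem ta_inv (c : X) : ∃ e ∈ ⟪c⟫, e * e = 1 ∧ ∀ t ∈ ⟪c⟫, t * t = 1 → t = 1 ∨ t = e := by
  classical
  by_cases h : ∃ e ∈ ⟪c⟫, e * e = 1 ∧ e ≠ 1
  · obtain ⟨e, he, e2, e1⟩ := h
    refine ⟨e, he, e2, fun t ht t2 => ?_⟩
    by_contra hc
    push Not at hc
    haveI := Fintype.ofFinite ⟪c⟫
    have := IsCyclic.card_pow_eq_one_le (α := ⟪c⟫) (n := 2) (by norm_num)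
    have h3 : ({1, ⟨e, he⟩, ⟨t, ht⟩} : Finset ⟪c⟫).card = 3 := by
      rw [Finset.card_eq_three]
      exact ⟨_, _, _, fun h => e1 (congrArg Subtype.val h).symm, fun h => hc.1 (congrArg Subtype.val h).symm,
        fun h => hc.2 (congrArg Subtype.val h).symm, rfl⟩
    have h4 := Finset.card_le_card (s := ({1, ⟨e, he⟩, ⟨t, ht⟩} : Finset ⟪c⟫))
      (t := Finset.univ.filter fun a => a ^ 2 = 1) (by
        intro a ha
        simp only [Finset.mem_insert, Finset.mem_singleton] at ha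
        rw [Finset.mem_filter]
        rcases ha with rfl | rfl | rfl
        · simp
        · exact ⟨Finset.mem_univ _, Subtype.ext (by simpa [pow_two] using e2)⟩
        · exact ⟨Finset.mem_univ _, Subtype.ext (by simpa [pow_two] using t2)⟩)
    omega
  · push Not at h
    exact ⟨1, one_mem _, mul_one 1, fun t ht t2 => .inl (h t ht t2)⟩

theorem ta_mk (h : B Q σ ρ) (hN : Nm Q N) [N.Normal] (hσ : N ⊓ C(⟪σ⟫) = ⊥)
    (h1 : S1 (Q.map (QuotientGroup.mk' N)) (QuotientGroup.mk' N σ)) (hc : c ∈ Q) (hcσ : c * σ = σ * c)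
    (hg : ∀ x ∈ Q, x * σ = σ * x → x ∈ ⟪c⟫) : ∃ e, TA Q N ⁅Q, ⟪σ⟫⁆ σ ρ c e := by
  haveI := h.nQ
  set π := QuotientGroup.mk' N with hπ
  have mem : ∀ x : X, π x = 1 ↔ x ∈ N := fun x => QuotientGroup.eq_one_iff x
  have hq := h.quo N hN.le
  have hP : (⁅Q, ⟪σ⟫⁆ : Subgroup X).map π = ⁅Q.map π, ⟪π σ⟫⁆ := by rw [map_commutator, MonoidHom.map_zpowers]
  have mP : ∀ x ∈ (⁅Q, ⟪σ⟫⁆ : Subgroup X), π x ∈ ⁅Q.map π, ⟪π σ⟫⁆ := fun x hx => hP ▸ ⟨x, hx, rfl⟩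
  have bot : ∀ n ∈ N, σ * n = n * σ → n = 1 := fun n hn e => by
    have : n ∈ N ⊓ C(⟪σ⟫) := mem_inf.2 ⟨hn, fun s hs => (zc e.symm hs).symm⟩
    rwa [hσ, mem_bot] at this
  have NP : N ≤ ⁅Q, ⟪σ⟫⁆ := fun n hn => by
    obtain ⟨a, ha, b, hb, e⟩ := (coprime_cent_prod (nrm_of _) (h.cop hN.le) (h.sol hN.le)).mul n hn
    rw [hσ, mem_bot] at hb
    rw [e, hb, mul_one]
    exact commutator_mono hN.le le_rfl ha
  have PQ := cen_le h
  have c64 : #(⁅Q, ⟪σ⟫⁆ : Subgroup X) = 64 := by rw [← ta_card NP, hN.c8, hP, h1.1]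
  have dec : ∀ q ∈ Q, ∃ p ∈ (⁅Q, ⟪σ⟫⁆ : Subgroup X), ∃ t ∈ ⟪c⟫, q = p * t := fun q hq => by
    obtain ⟨a, ha, b, hb, e⟩ := (coprime_cent_prod (nrm_of _) (h.cop le_rfl) (h.sol le_rfl)).mul q hq
    exact ⟨a, ha, b, hg b hb.1 (hb.2 σ (mem_zpowers σ)).symm, e⟩
  have sq : ∀ x ∈ (⁅Q, ⟪σ⟫⁆ : Subgroup X), x * x ∈ N := fun x hx => by
    rw [← mem, map_mul]; exact h1.2.1 _ (mP x hx)
  have tr : ∀ x ∈ (⁅Q, ⟪σ⟫⁆ : Subgroup X), x ∉ N → ∀ y ∈ (⁅Q, ⟪σ⟫⁆ : Subgroup X), y ∉ N →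
      ∃ s ∈ ⟪σ⟫, ∃ n ∈ N, s * x * s⁻¹ = y * n := fun x hx x1 y hy y1 => by
    obtain ⟨s, hs, e⟩ := tr7 hq.o7 h1.1 (cen_nP hq (mem_zpowers _)) (cen_ti hq (cen_ab hq h1)) (mP x hx)
      (fun e => x1 ((mem x).1 e)) (mP y hy) (fun e => y1 ((mem y).1 e))
    rw [← MonoidHom.map_zpowers] at hs
    obtain ⟨s, hs, rfl⟩ := hs
    refine ⟨s, hs, y⁻¹ * (s * x * s⁻¹), (mem _).1 ?_, by group⟩
    simp only [map_mul, map_inv]
    rw [e, inv_mul_cancel]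
  have cj : ∀ s x : X, s * x * s⁻¹ * (s * x * s⁻¹) = s * (x * x) * s⁻¹ := fun s x => by group
  have ne : ∀ x ∈ (⁅Q, ⟪σ⟫⁆ : Subgroup X), x * x = 1 → x ∈ N := fun x hx x2 => by
    by_contra x1
    have := h.sr ⁅Q, ⟪σ⟫⁆ ⊥ le_top bot_le fun y hy => by
      by_cases y1 : y ∈ N
      · exact hN.sq y y1
      · obtain ⟨s, -, n, hn, e⟩ := tr x hx x1 y hy y1
        rw [mem_bot, ← hN.sqn (PQ hy) hn, ← e, cj, x2]; group
    rw [c64, card_bot] at this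
    omega
  obtain ⟨e, ec, e2, eu⟩ := ta_inv c
  have cσ : ∀ t ∈ ⟪c⟫, σ * t = t * σ := fun t ht => zc hcσ.symm ht
  refine ⟨e, h, hN, NP, PQ, c64, le_rfl, dec, fun a ha b hb => ?_, sq, tr, ne, fun x hx y hy e => ?_,
    fun n hn => ?_, hc, e2, ec, fun t ht t2 => eu t ht (bot _ t2 (cσ _ (mul_mem ht ht))),
    fun h => bot e h (cσ e ec), ?_, cσ e ec⟩
  · obtain ⟨p, hp, t, ht, rfl⟩ := dec a ha
    obtain ⟨p', hp', t', ht', rfl⟩ := dec b hb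
    have k1 : Commute (π (p' * t')) (π p) := h1.2.2 (mP p hp) _ ⟨_, hb, rfl⟩
    have k2 : Commute (π t) (π p') := h1.2.2 (mP p' hp') _ ⟨_, zpowers_le.2 hc ht, rfl⟩
    have k3 : Commute (π t) (π t') := by
      obtain ⟨i, rfl⟩ := ht
      exact (show Commute (c ^ i) t' from zc (Commute.zpow_left rfl i) ht').map π
    have k4 := k1.symm.mul_left (by rw [map_mul]; exact k2.mul_right k3)
    rw [← mem, map_mul, map_mul, map_mul, map_inv, map_inv, mul_inv_eq_one, mul_inv_eq_iff_eq_mul, map_mul π p]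
    exact k4
  · by_cases x1 : x ∈ N
    · exact ⟨y⁻¹ * x, mul_mem (inv_mem (ne y hy (e ▸ hN.sq x x1))) x1, by group⟩
    obtain ⟨s, hs, n, hn, e1⟩ := tr x hx x1 y hy fun y1 => x1 (ne x hx (e ▸ hN.sq y y1))
    by_cases s1 : s = 1
    · exact ⟨n, hn, by simpa [s1] using e1⟩
    have e3 : s * (x * x) = x * x * s := by
      rw [← mul_inv_eq_iff_eq_mul, ← cj, e1, hN.sqn (PQ hy) hn, e]
    haveI : Fact (Nat.Prime 7) := ⟨by norm_num⟩
    obtain ⟨i, hi⟩ := mem_zpowers_of_prime_card (G := ⟪σ⟫) (p := 7) (by rw [Nat.card_zpowers, h.o7])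
      (g := ⟨s, hs⟩) (g' := ⟨σ, mem_zpowers σ⟩) fun e => s1 (congrArg Subtype.val e)
    have hi' : s ^ i = σ := congrArg Subtype.val hi
    exact absurd (ne x hx (bot _ (sq x hx) (hi' ▸ (Commute.zpow_left e3 i).eq))) x1
  · by_cases n1 : n = 1
    · exact ⟨1, one_mem _, by rw [n1, mul_one]⟩
    obtain ⟨x, hx, x1⟩ : ∃ x ∈ (⁅Q, ⟪σ⟫⁆ : Subgroup X), x ∉ N := by
      by_contra hc
      push Not at hc
      have := card_le_of_le (show ⁅Q, ⟪σ⟫⁆ ≤ N from hc)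
      rw [c64, hN.c8] at this
      omega
    obtain ⟨s, hs, e⟩ := tr7 h.o7 hN.c8 (nrm_of _ (mem_zpowers σ)) hσ (sq x hx) (fun e => x1 (ne x hx e)) hn n1
    exact ⟨_, (mem_normalizer_iff.1 (cen_nP h hs) x).1 hx, by rw [cj, e]⟩
  · have k : ρ * e * ρ⁻¹ ∈ ⟪c⟫ := hg _ (h.nQ.conj_mem _ (zpowers_le.2 hc ec) _) (by
      have := zc (cσ e ec).symm ((mem_normalizer_iff.1 (inv_mem h.nrm) σ).1 (mem_zpowers σ))
      calc ρ * e * ρ⁻¹ * σ = ρ * (e * (ρ⁻¹ * σ * ρ⁻¹⁻¹)) * ρ⁻¹ := by group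
        _ = _ := by rw [this]; group)
    rcases eu _ k (by rw [cj, e2]; group) with e3 | e3
    · rw [show e = 1 by simpa using e3, mul_one, one_mul]
    · exact mul_inv_eq_iff_eq_mul.1 e3

theorem TA.eQ (t : TA Q N P σ ρ c e) : e ∈ Q := zpowers_le.2 t.cQ t.ec

theorem TA.sqe (t : TA Q N P σ ρ c e) (ha : a ∈ Q) (hb : b ∈ Q) : ∃ n ∈ N, a * b * (a * b) = a * a * (b * b) * n := by
  have := t.der _ (inv_mem ha) _ hb
  refine ⟨_, this, ?_⟩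
  rw [mul_assoc (a * a), t.hN.qc (mul_mem hb hb) this]; group

theorem TA.eP (t : TA Q N P σ ρ c e) : e ∈ N(P) := mem_normalizer_fintype fun p hp => by
  simpa using mul_mem (t.NP (t.der _ t.eQ _ (t.PQ hp))) hp

theorem TA.mem (t : TA Q N P σ ρ c e) : x ∈ P ⊔ ⟪e⟫ ↔ x ∈ P ∨ x * e ∈ P := sup2 t.eP (t.e2 ▸ one_mem _)

theorem TA.AQ (t : TA Q N P σ ρ c e) : P ⊔ ⟪e⟫ ≤ Q := sup_le t.PQ (zpowers_le.2 t.eQ)

theorem TA.mem' (t : TA Q N P σ ρ c e) : x ∈ P ⊔ ⟪e⟫ ↔ x ∈ Q ∧ x * x ∈ N := by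
  refine ⟨fun hx => ⟨t.AQ hx, ?_⟩, fun ⟨hx, x2⟩ => ?_⟩
  · rcases t.mem.1 hx with h | h
    · exact t.sq x h
    · obtain ⟨n, hn, e1⟩ := t.sqe (t.AQ hx) t.eQ
      have := t.sq _ h
      rwa [e1, t.e2, mul_one, mul_mem_cancel_right hn] at this
  · obtain ⟨p, hp, s, hs, rfl⟩ := t.dec x hx
    obtain ⟨n, hn, e1⟩ := t.sqe (t.PQ hp) (zpowers_le.2 t.cQ hs)
    rw [e1, mul_mem_cancel_right hn, mul_mem_cancel_left (t.sq p hp)] at x2
    rcases t.eu s hs x2 with rfl | rfl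
    · exact mem_sup_left (by rwa [mul_one])
    · exact mul_mem (mem_sup_left hp) (mem_sup_right (mem_zpowers _))

theorem TA.nA (t : TA Q N P σ ρ c e) : (P ⊔ ⟪e⟫).Normal := ⟨fun x hx g => t.mem'.2 ⟨t.h.nQ.conj_mem _ (t.AQ hx) g, by
  rw [show g * x * g⁻¹ * (g * x * g⁻¹) = g * (x * x) * g⁻¹ by group]; exact t.hN.nN.conj_mem _ (t.mem'.1 hx).2 g⟩⟩

theorem TA.cenQ (t : TA Q N P σ ρ c e) [D.Normal] (hD : P ≤ D) (g : X) : ∀ q ∈ Q, g * q * g⁻¹ * q⁻¹ ∈ D := by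
  haveI := t.h.nQ
  haveI := t.h.nQ.map _ (QuotientGroup.mk'_surjective D)
  have k : ∀ g : X, g ∈ C(Q.map (QuotientGroup.mk' D)).comap (QuotientGroup.mk' D) ↔ ∀ q ∈ Q, g * q * g⁻¹ * q⁻¹ ∈ D :=
    fun g => by
    have : ∀ q, g * q * g⁻¹ * q⁻¹ ∈ D ↔ QuotientGroup.mk' D q * QuotientGroup.mk' D g =
        QuotientGroup.mk' D g * QuotientGroup.mk' D q := fun q => by
      rw [← QuotientGroup.eq_one_iff (N := D), show ((g * q * g⁻¹ * q⁻¹ : X) : X ⧸ D) =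
        QuotientGroup.mk' D (g * q * g⁻¹ * q⁻¹) from rfl, map_mul, map_mul, map_mul, map_inv, map_inv, mul_inv_eq_one,
        mul_inv_eq_iff_eq_mul, eq_comm]
    exact ⟨fun h q hq => (this q).2 (h _ ⟨q, hq, rfl⟩), fun h => by rintro _ ⟨q, hq, rfl⟩; exact (this q).1 (h q hq)⟩
  refine (k g).1 ?_
  rw [t.h.top (K := C(Q.map (QuotientGroup.mk' D)).comap (QuotientGroup.mk' D))
    (fun a ha => (k a).2 fun q hq => hD (t.NP (t.der a ha q hq)))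
    ((k σ).2 fun q hq => hD (t.cP (by
      have := inv_mem (commutator_mem_commutator hq (mem_zpowers σ))
      rwa [commutatorElement_inv, commutatorElement_def] at this)))]
  trivial

theorem TA.one (t : TA Q N P σ ρ c e) (hx : x ∈ P) (x1 : x ∉ N) (x2 : e * x * (e * x) = 1) : Dd Q N P ρ 1 := by
  have ei : e⁻¹ = e := inv_eq_of_mul_eq_one_right t.e2
  have iv : ∀ y ∈ P, e * y * e⁻¹ = y⁻¹ := fun y hy => by
    rw [ei, eq_inv_iff_mul_eq_one]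
    by_cases y1 : y ∈ N
    · rw [t.hN.qc t.eQ y1, mul_assoc y, t.e2, mul_one, t.hN.sq y y1]
    obtain ⟨s, hs, n, hn, e1⟩ := t.tr x hx x1 y hy y1
    have e3 : s * (e * x) * s⁻¹ = e * y * n := by rw [← mul_assoc, ← zc t.eσ.symm hs, mul_assoc e y, ← e1]; group
    rw [mul_assoc (e * y), ← t.hN.sqn (mul_mem t.eQ (t.PQ hy)) hn, ← e3,
      show s * (e * x) * s⁻¹ * (s * (e * x) * s⁻¹) = s * (e * x * (e * x)) * s⁻¹ by group, x2]
    group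
  have ab : ∀ a ∈ P, ∀ b ∈ P, a * b = b * a := fun a ha b hb => by
    have := iv _ (mul_mem ha hb)
    rw [show e * (a * b) * e⁻¹ = e * a * e⁻¹ * (e * b * e⁻¹) by group, iv a ha, iv b hb, ← mul_inv_rev, inv_inj] at this
    exact this.symm
  haveI nP : P.Normal := ⟨fun y hy g => by
    refine (t.mem.1 (t.nA.conj_mem _ (mem_sup_left hy) g)).elim id fun h => ?_
    refine t.NP (t.hN.nN.conj_mem _ (t.ne y hy ?_) g)
    have := iv _ h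
    rw [ei, mul_assoc, mul_assoc _ e e, t.e2, mul_one, mul_inv_rev, ei, mul_right_inj, eq_inv_iff_mul_eq_one] at this
    calc y * y = g⁻¹ * (g * y * g⁻¹ * (g * y * g⁻¹)) * g := by group
      _ = 1 := by rw [this]; group⟩
  refine ⟨nP, t.NP, t.PQ, ab, t.sq, t.onto, one_mem _, mul_one 1, by simp, fun a ha a2 => .inl (t.ne a ha a2),
    fun g => by simp, fun a ha a2 _ _ _ => .inl (t.ne a ha a2), t.cenQ le_rfl, fun q hq q2 => ?_⟩
  obtain ⟨p, hp, s, hs, rfl⟩ := t.dec q hq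
  obtain ⟨n, hn, e1⟩ := t.sqe (t.PQ hp) (zpowers_le.2 t.cQ hs)
  rw [e1, mul_mem_cancel_right (t.NP hn), mul_mem_cancel_left (mul_mem hp hp)] at q2
  have s2 : s * s = 1 := (t.eu _ (mul_mem hs hs) (t.sq _ q2)).elim id fun h => by
    rw [h] at q2 ⊢; exact t.eN (t.ne e q2 t.e2)
  rcases t.eu s hs (s2 ▸ one_mem _) with rfl | rfl
  · exact .inl (by rwa [mul_one])
  · refine .inr (.inl fun d hd => ?_)
    rw [show p * s * d * (p * s)⁻¹ = p * (s * d * s⁻¹) * p⁻¹ by group, iv d hd, ab p hp _ (inv_mem hd)]; group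

theorem Nm.gen (hN : Nm Q N) (ha : a ∈ N) (hb : b ∈ N) (hu : u ∈ N) (a1 : a ≠ 1) (b1 : b ≠ 1) (ab : b ≠ a)
    (ga : g * a = a * g) (gb : g * b = b * g) (gu : g * u = u * g) (hg : g ∉ Q) : u = 1 ∨ u = a ∨ u = b ∨ u = a * b := by
  by_contra hc
  push Not at hc
  have z := fun y => zp2 (y := y) (hN.sq a ha)
  have bi : b⁻¹ = b := inv_eq_of_mul_eq_one_right (hN.sq b hb)
  have := (exW_gen hN ha a1 hb (fun h => ((z _).1 h).elim b1 ab) hu (fun h => ((z _).1 h).elim hc.1 hc.2.1)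
    (fun h => ((z _).1 h).elim (fun e => hc.2.2.1 (by rw [← bi]; exact eq_inv_of_mul_eq_one_left e))
      fun e => hc.2.2.2 (by rw [← e, mul_assoc, hN.sq b hb, mul_one]))).1
  refine hg (hN.cen ▸ fun n hn => ?_)
  have k : N ≤ C[g] := this ▸ sup_le (sup_le (zpowers_le.2 (mem_cen1.2 ga.symm)) (zpowers_le.2 (mem_cen1.2 gb.symm)))
    (zpowers_le.2 (mem_cen1.2 gu.symm))
  exact mem_cen1.1 (k hn)

theorem B.exg (h : B Q σ ρ) {A A' : Subgroup X} (h1 : A.index ≤ 15) (h2 : A'.index ≤ 7) : ∃ g ∈ A, g ∈ A' ∧ g ∉ Q := by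
  by_contra hc
  push Not at hc
  have h3 := index_antitone (show A ⊓ A' ≤ Q from fun g hg => hc g hg.1 hg.2)
  have h4 := (index_inf_le (H := A) (K := A')).trans (Nat.mul_le_mul h1 h2)
  rw [h.idx] at h3
  omega

theorem TA.two (t : TA Q N P σ ρ c e)
    (hA : ∀ a ∈ Q, a ∈ C(Q) → a * a = 1 → ∀ w : X, w * w ∈ Q → w * a = a * w → a ∈ N ∨ w ∈ Q)
    (h2 : ∀ x ∈ P, e * x * (e * x) = 1 → x ∈ N) :
    Dd Q N (P ⊔ ⟪e⟫) ρ e ∧ (e ∉ N → ∀ q ∈ Q, q * q ∈ P ⊔ ⟪e⟫ → q ∈ P ⊔ ⟪e⟫ ∨ q * q * e ∈ N) := by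
  haveI := t.nA
  haveI := t.hN.nN
  have hN := t.hN
  have ei : e⁻¹ = e := inv_eq_of_mul_eq_one_right t.e2
  have eA : e ∈ P ⊔ ⟪e⟫ := mem_sup_right (mem_zpowers e)
  have cj : ∀ s x : X, s * x * s⁻¹ * (s * x * s⁻¹) = s * (x * x) * s⁻¹ := fun s x => by group
  have c7 : ∀ u ∈ N, u ≠ 1 → C[u].index ≤ 7 := fun u hu u1 => by have := cls hu u1; rw [hN.c8] at this; omega
  have inv : ∀ a ∈ P ⊔ ⟪e⟫, a * a = 1 → a ∈ N ∨ a * e ∈ N := fun a ha a2 =>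
    (t.mem.1 ha).imp (fun h => t.ne a h a2) fun h => h2 _ h (by
      rw [show e * (a * e) * (e * (a * e)) = e * a * (e * e) * a * e by group, t.e2, mul_one, mul_assoc e, a2, mul_one, t.e2])
  have cX : ∀ g : X, g * e * g⁻¹ * e⁻¹ ∈ N := fun g => by
    rcases inv _ (t.nA.conj_mem _ eA g) (by rw [cj, t.e2]; group) with h | h
    · exact mul_mem h (inv_mem (by simpa [mul_assoc] using hN.nN.conj_mem' _ h g))
    · rwa [ei]
  have b0 : ∀ x ∈ P, x * e = e * x := fun x hx => by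
    by_contra hc
    have x1 : x ∉ N := fun h => hc (hN.qc t.eQ h).symm
    have bN := t.der _ (t.PQ hx) _ t.eQ
    have b1 : x * e * x⁻¹ * e⁻¹ ≠ 1 := fun h => hc (by rwa [mul_inv_eq_one, mul_inv_eq_iff_eq_mul] at h)
    have b2 : x * e * x⁻¹ * e⁻¹ ≠ x * x := fun h => x1 (h2 x hx (by
      have : e * x⁻¹ * e⁻¹ = x := mul_left_cancel (a := x) (by rw [← h]; group)
      calc e * x * (e * x) = e * x * (e * (e * x⁻¹ * e⁻¹)) := by rw [this]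
        _ = e * x * (e * e) * x⁻¹ * e⁻¹ := by group
        _ = 1 := by rw [t.e2]; group))
    obtain ⟨u, hu, u1⟩ := cen_ex (K := N) [1, x * x, x * e * x⁻¹ * e⁻¹, x * x * (x * e * x⁻¹ * e⁻¹)] (by
      rw [hN.c8]; simp)
    simp only [List.mem_cons, List.not_mem_nil, or_false] at u1
    haveI := t.nA.map _ (QuotientGroup.mk'_surjective N)
    have i1 := cls (N := (P ⊔ ⟪e⟫).map (QuotientGroup.mk' N)) (x := QuotientGroup.mk' N x) ⟨x, mem_sup_left hx, rfl⟩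
      fun h => x1 ((QuotientGroup.eq_one_iff x).1 h)
    have i2 := ta_card (M := N) (t.NP.trans (le_sup_left : P ≤ P ⊔ ⟪e⟫))
    have i3 : #(P ⊔ ⟪e⟫ : Subgroup X) ≤ 2 * #P := by
      by_cases k : e ∈ P
      · rw [sup_eq_left.2 (zpowers_le.2 k)]; omega
      · exact (H3.card_sup_zpowers Nat.prime_two t.eP k (by rw [pow_two, t.e2]; exact one_mem _)).le
    rw [t.c64, ← i2, hN.c8] at i3
    obtain ⟨g, g1, g2, g3⟩ := t.h.exg (A := C[QuotientGroup.mk' N x].comap (QuotientGroup.mk' N)) (by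
      rw [index_comap_of_surjective _ (QuotientGroup.mk'_surjective N)]; omega) (c7 u hu fun h => u1 (.inl h))
    have n1 : x⁻¹ * (g * x * g⁻¹) ∈ N := by
      rw [← QuotientGroup.eq_one_iff (N := N), show ((x⁻¹ * (g * x * g⁻¹) : X) : X ⧸ N) =
        QuotientGroup.mk' N (x⁻¹ * (g * x * g⁻¹)) from rfl, map_mul, map_mul, map_mul, map_inv, map_inv,
        mem_cen1.1 (mem_comap.1 g1)]
      group
    obtain ⟨n, hn, e1⟩ : ∃ n ∈ N, g * x * g⁻¹ = x * n := ⟨_, n1, by group⟩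
    obtain ⟨m, hm, e2⟩ : ∃ m ∈ N, g * e * g⁻¹ = m * e := ⟨_, cX g, by group⟩
    refine u1 (hN.gen (t.sq x hx) bN hu (fun h => x1 (t.ne x hx h)) b1 b2 ?_ ?_ (mem_cen1.1 g2) g3)
    · rw [← mul_inv_eq_iff_eq_mul, ← cj, e1, hN.sqn (t.PQ hx) hn]
    · rw [← mul_inv_eq_iff_eq_mul, show g * (x * e * x⁻¹ * e⁻¹) * g⁻¹ =
        g * x * g⁻¹ * (g * e * g⁻¹) * (g * x * g⁻¹)⁻¹ * (g * e * g⁻¹)⁻¹ by group, e1, e2]
      have k1 := hN.qc (mul_mem (hN.le hm) t.eQ) hn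
      have k2 := hN.qc (t.PQ hx) hm
      have k3 := hN.qc (hN.le bN) hm
      calc _ = x * (n * (m * e)) * n⁻¹ * x⁻¹ * e⁻¹ * m⁻¹ := by group
        _ = (x * m) * e * x⁻¹ * e⁻¹ * m⁻¹ := by rw [← k1]; group
        _ = m * (x * e * x⁻¹ * e⁻¹) * m⁻¹ := by rw [k2]; group
        _ = _ := by rw [← k3]; group
  have eZ : ∀ q ∈ Q, q * e = e * q := fun q hq => by
    obtain ⟨p, hp, s, hs, rfl⟩ := t.dec q hq
    obtain ⟨i, rfl⟩ := hs
    exact (Commute.mul_left (b0 p hp) (zc (Commute.zpow_left rfl i) t.ec)).eq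
  have sqe : ∀ q ∈ Q, q * e * (q * e) = q * q := fun q hq => by
    rw [mul_assoc q e, ← mul_assoc e, ← eZ q hq, mul_assoc q e, t.e2, mul_one]
  have fix : ∀ x ∈ P, ∀ g : X, g * (x * x) = x * x * g →
      ∃ m, m * m = 1 ∧ (∀ q ∈ Q, q * m = m * q) ∧ g * x * g⁻¹ = x * m := fun x hx g h => by
    have hz := t.nA.conj_mem _ (mem_sup_left hx) g
    rw [← mul_inv_eq_iff_eq_mul, ← cj] at h
    rcases t.mem.1 hz with h1 | h1
    · obtain ⟨n, hn, e1⟩ := t.inj _ h1 x hx h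
      exact ⟨n, hN.sq n hn, fun q hq => hN.qc hq hn, e1⟩
    · obtain ⟨n, hn, e1⟩ := t.inj _ h1 x hx (by rw [sqe _ (t.AQ hz), h])
      exact ⟨n * e, by rw [sqe _ (hN.le hn), hN.sq n hn], fun q hq => (Commute.mul_right (hN.qc hq hn) (eZ q hq)).eq,
        by rw [← mul_assoc, ← e1, mul_assoc _ e e, t.e2, mul_one]⟩
  have ab : ∀ x ∈ P, ∀ y ∈ P, x * y = y * x := fun x hx y hy => by
    by_cases x1 : x ∈ N
    · exact (hN.qc (t.PQ hy) x1).symm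
    by_cases y1 : y ∈ N
    · exact hN.qc (t.PQ hx) y1
    by_cases xy : y * y = x * x
    · obtain ⟨n, hn, rfl⟩ := t.inj y hy x hx xy
      rw [mul_assoc x n, ← hN.qc (t.PQ hx) hn]
    have x2 : x * x ≠ 1 := fun h => x1 (t.ne x hx h)
    have y2 : y * y ≠ 1 := fun h => y1 (t.ne y hy h)
    obtain ⟨g, g1, g2, g3⟩ := t.h.exg ((c7 _ (t.sq x hx) x2).trans (by norm_num)) (c7 _ (t.sq y hy) y2)
    obtain ⟨m, m1, m2, m3⟩ := fix x hx g (mem_cen1.1 g1)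
    obtain ⟨n, n1, n2, n3⟩ := fix y hy g (mem_cen1.1 g2)
    have hxy := mul_mem hx hy
    have := hN.gen (t.sq x hx) (t.sq y hy) (t.sq _ hxy) x2 y2 xy (mem_cen1.1 g1) (mem_cen1.1 g2) (by
      rw [← mul_inv_eq_iff_eq_mul, ← cj, show g * (x * y) * g⁻¹ = g * x * g⁻¹ * (g * y * g⁻¹) by group, m3, n3]
      have k1 := m2 _ (t.PQ hy)
      have k2 := m2 _ (t.PQ hx)
      have k3 := n2 _ (t.PQ hxy)
      have k4 : x * m * (y * n) * (x * m * (y * n)) = x * (m * y) * n * (x * m) * y * n := by group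
      rw [k4, ← k1, k2]
      have k5 : n * m = m * n := by
        have := congrArg (fun a => x⁻¹ * a) m3
        simp only [inv_mul_cancel_left] at this
        exact (n2 m (this ▸ mul_mem (inv_mem (t.PQ hx)) (t.h.nQ.conj_mem _ (t.PQ hx) g))).symm
      calc _ = x * y * m * (n * m) * (x * y * n) := by group
        _ = x * y * (m * m) * n * (n * (x * y)) := by rw [k5, k3]; group
        _ = x * y * (n * n) * (x * y) := by rw [m1]; group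
        _ = _ := by rw [n1, mul_one]) g3
    rcases this with h | h | h | h
    · have := hN.qc (t.PQ hx) (t.ne _ hxy h)
      rw [mul_assoc] at this
      exact mul_left_cancel this
    · obtain ⟨k, hk, e1⟩ := t.inj _ hxy x hx h
      exact absurd (mul_left_cancel e1 ▸ hk) y1
    · obtain ⟨k, hk, e1⟩ := t.inj _ hxy y hy h
      rw [hN.qc (t.PQ hy) hk] at e1
      exact absurd (mul_right_cancel e1 ▸ hk) x1
    · rw [mul_assoc, mul_assoc, mul_right_inj, ← mul_assoc, ← mul_assoc, mul_left_inj] at h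
      exact h.symm
  have q8 : ∀ q ∈ Q, q * q ∈ P ⊔ ⟪e⟫ → q ∈ P ⊔ ⟪e⟫ ∨ (q * q * e ∈ N ∧ e ∉ N) := fun q hq q2 => by
    obtain ⟨p, hp, s, hs, rfl⟩ := t.dec q hq
    obtain ⟨n, hn, e1⟩ := t.sqe (t.PQ hp) (zpowers_le.2 t.cQ hs)
    rw [e1, mul_mem_cancel_right (mem_sup_left (t.NP hn)), mul_mem_cancel_left (mem_sup_left (mul_mem hp hp))] at q2
    by_cases s2 : s * s = 1
    · left
      rcases t.eu s hs (s2 ▸ one_mem _) with h | h
      · rw [h, mul_one]; exact mem_sup_left hp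
      · rw [h]; exact mul_mem (mem_sup_left hp) eA
    · have h := (t.eu _ (mul_mem hs hs) (t.mem'.1 q2).2).resolve_left s2
      refine .inr ⟨?_, fun k => s2 (h.trans (t.eN k))⟩
      rw [e1, h, mul_assoc, eZ n (hN.le hn), ← mul_assoc, mul_assoc (p * p), t.e2, mul_one]
      exact mul_mem (t.sq p hp) hn
  have ab1 : ∀ x ∈ P, P ⊔ ⟪e⟫ ≤ C[x] := fun x hx =>
    sup_le (fun y hy => mem_cen1.2 (ab y hy x hx)) (zpowers_le.2 (mem_cen1.2 (b0 x hx).symm))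
  refine ⟨⟨t.nA, t.NP.trans le_sup_left, t.AQ, fun a ha b hb => ?_, fun d hd => (t.mem'.1 hd).2, fun n hn => ?_, eA,
    t.e2, t.eρ, inv, cX, fun a ha a2 => hA a (t.AQ ha) (fun q hq => ?_) a2, t.cenQ le_sup_left,
    fun q hq q2 => (q8 q hq q2).imp_right .inr⟩, fun _ q hq q2 => (q8 q hq q2).imp_right And.left⟩
  · exact mem_cen1.1 ((sup_le (fun y hy => mem_cen1.2 (mem_cen1.1 (ab1 y hy hb)).symm)
      (zpowers_le.2 (mem_cen1.2 (eZ b (t.AQ hb)).symm)) : P ⊔ ⟪e⟫ ≤ C[b]) ha)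
  · obtain ⟨d, hd, e1⟩ := t.onto n hn
    exact ⟨d, mem_sup_left hd, e1⟩
  · rcases inv a ha a2 with h | h
    · exact hN.qc hq h
    · have := hN.qc hq h
      rw [mul_assoc a, ← eZ q hq, ← mul_assoc, ← mul_assoc] at this
      exact mul_right_cancel this

theorem twoB : TwoA.{u} := fun X _ _ Q N σ ρ h hN _ hσ hA h1 c hc hcσ hg => by
  obtain ⟨e, t⟩ := ta_mk h hN hσ h1 hc hcσ hg
  by_cases h2 : ∀ x ∈ (⁅Q, ⟪σ⟫⁆ : Subgroup X), e * x * (e * x) = 1 → x ∈ N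
  · exact ⟨_, _, t.two hA h2⟩
  · push Not at h2
    obtain ⟨x, hx, x2, x1⟩ := h2
    exact ⟨_, _, t.one hx x1 x2, fun k => absurd (one_mem N) k⟩

end Cfsg.Agent.H8.Tr
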