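import Cfsg.Agent.H5.HS2
import Cfsg.Agent.H20.Invol

/-! Groups without real elements of odd prime power order are `2`-closed.  OWNER: helper8. -/

namespace Cfsg.Agent.H8.TC
open Cfsg Subgroup Cfsg.Agent.FT

universe u
variable {G : Type u} [Group G] [Finite G]

/-- no nontrivial element of odd prime power order is real -/
def NR (G : Type*) [Group G] : Prop :=
  ∀ p : ℕ, p.Prime → p ≠ 2 → ∀ y t : G, PiElt {p} y → t * y * t⁻¹ = y⁻¹ → y = 1

theorem NR.quo (h : NR G) (K : Subgroup G) [K.Normal] (hK : PGrp 2 K) : NR (G ⧸ K) := by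
  intro p hp h2 y t hy e
  obtain ⟨t, rfl⟩ := QuotientGroup.mk_surjective t
  obtain ⟨x, rfl⟩ := QuotientGroup.mk_surjective y
  have e0 : ((constt {p} x : G) : G ⧸ K) = x := by
    have := constt_map (QuotientGroup.mk' K) {p} x
    rw [QuotientGroup.mk'_apply, QuotientGroup.mk'_apply, hy.constt_eq] at this
    exact this
  rw [← e0] at e ⊢
  have hz := piElt_constt {p} x
  generalize constt {p} x = z at e hz
  have nK : ∀ g, g ∈ N(K) := fun g => K.normalizer_eq_top ▸ mem_top g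
  have c := (hK.p' h2.symm).cop' hz.zpowers
  have h1 : Syl p ⟪z⟫ (K ⊔ ⟪z⟫) := Hall.sup_right (hK.p' h2.symm) hz.zpowers (zpowers_le.2 (nK z))
  have h3 : K ⊔ ⟪z⟫ ⊴ K ⊔ ⟪z⟫ ⊔ ⟪t⟫ := nml_sup_left (zpowers_le.2 (mem_nrm_of_cj_le (by
    rw [cj_sup, cj_zpowers, cj_eq_self.2 (nK t)]
    refine sup_le le_sup_left (zpowers_le.2 ?_)
    have : (z⁻¹)⁻¹ * (t * z * t⁻¹) ∈ K := QuotientGroup.eq.1 e.symm
    simpa using mul_mem (mem_sup_right (inv_mem (mem_zpowers z))) (mem_sup_left (T := ⟪z⟫) this))))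
  obtain ⟨d, hd, n, hn, rfl⟩ := (h1.frattini h3).mul t (mem_sup_right (mem_zpowers t))
  obtain ⟨k, hk, a, ha, rfl⟩ := (mem_sup_norm (zpowers_le.2 (nK z))).1 hd
  have hm : a * n ∈ N(⟪z⟫) := mul_mem (le_nrm _ ha) hn.2
  rw [mul_assoc k] at e
  generalize a * n = m at e hm
  rw [QuotientGroup.mk_mul, (QuotientGroup.eq_one_iff k).2 hk, one_mul] at e
  have : (z⁻¹)⁻¹ * (m * z * m⁻¹) ∈ K := QuotientGroup.eq.1 e.symm
  have e1 := eq_one_of_mem_inf c.inf this (mul_mem (inv_mem (inv_mem (mem_zpowers z)))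
    (conj_mem hm (mem_zpowers z)))
  rw [h p hp h2 z m hz (inv_mul_eq_one.1 e1).symm]; rfl

theorem NR.mem (h : NR G) {s : G} (hs : s * s = 1) : s ∈ pCore 2 G := by
  refine H2.mem_pCore_of_forall_isPGroup_closure_conj s fun g => ?_
  have h1 : g * s * g⁻¹ * (g * s * g⁻¹) = 1 := by rw [conj_mul, hs, mul_one, mul_inv_cancel]
  generalize g * s * g⁻¹ = w at h1
  have i := H20.inverts_mul_left hs h1
  have p2 : PiElt {2} (s * w) := piElt_iff.2 fun q hq hd => by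
    by_contra h2
    obtain ⟨y, hy, ho⟩ := haveI := Fact.mk hq; H22.exists_mem_orderOf_eq hd
    obtain ⟨k, rfl⟩ := mem_zpowers_iff.1 hy
    have := h q hq h2 _ s (pElt_of_pow_eq_one hq (ho ▸ pow_orderOf_eq_one _))
      ((H20.conj_zpow_of_inverts i k).trans (zpow_neg _ _))
    rw [this, orderOf_one] at ho
    exact hq.one_lt.ne ho
  rintro ⟨d, hd⟩
  have : d ∈ closure {s, s * w} := (closure_le _).2 (by
    rintro _ (rfl | rfl)
    · exact subset_closure (.inl rfl)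
    · simpa using mul_mem (inv_mem (subset_closure (k := {s, s * _}) (.inl rfl)))
        (subset_closure (.inr rfl))) hd
  obtain ⟨k, rfl | rfl⟩ := (H20.mem_closure_inverts_iff hs i d).1 this
  · obtain ⟨j, hj⟩ := (pElt_iff Nat.prime_two).1 (p2.zpowers.piElt (zpow_mem (mem_zpowers _) k))
    exact ⟨j, Subtype.ext hj⟩
  · refine ⟨1, Subtype.ext ?_⟩
    change (s * (s * w) ^ k) ^ 2 ^ 1 = 1
    rw [pow_one, sq, ← mul_assoc, H20.mul_zpow_of_inverts i, mul_assoc, mul_assoc, ← mul_assoc s,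
      hs, one_mul, zpow_neg, inv_mul_cancel]

theorem NR.normal (h : NR G) (P : Sylow 2 G) : (P : Subgroup G).Normal := by
  haveI := H2.pCore_characteristic (p := 2) (G := G)
  have hK := pGrp_of_isPGroup Nat.prime_two (H2.pCore_isPGroup (p := 2) (G := G))
  have e : pCore 2 (G ⧸ pCore 2 G) = ⊥ := by
    rw [← H2.pCore_map_of_ker_le (QuotientGroup.mk'_surjective _) (QuotientGroup.ker_mk' _).le,
      Subgroup.map_eq_bot_iff, QuotientGroup.ker_mk']
  have : ¬ 2 ∣ (pCore 2 G).index := fun hd => by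
    obtain ⟨s, hs⟩ := exists_prime_orderOf_dvd_card' (G := G ⧸ pCore 2 G) 2 hd
    have := (h.quo _ hK).mem (s := s) (by rw [← sq]; exact orderOf_dvd_iff_pow_eq_one.1 hs.dvd)
    rw [e, mem_bot] at this
    rw [this, orderOf_one] at hs
    exact absurd hs (by norm_num)
  have := (H2.pCore_isPGroup.toSylow this).is_maximal' P.isPGroup'
    (H2.pCore_isPGroup.le_sylow_of_normal P)
  rw [this]
  exact inferInstanceAs (pCore 2 G).Normal

theorem nr_of (hJ : H5c.J3.{u}) (h : ∀ (q : ℕ) [Fact q.Prime], q ≠ 2 → ∀ T : Sylow q G,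
    ∀ x ∈ (T : Subgroup G), x ≠ 1 → ∀ g ∈ N(centerThompsonAOf (T : Subgroup G)),
    g * x * g⁻¹ ≠ x⁻¹) : NR G := by
  haveI := Fact.mk Nat.prime_three
  have h3 := (H5c.s2757 hJ default (h 3 (by norm_num) default)).1
  intro p hp h2 y t hy e
  haveI := Fact.mk hp
  by_cases p3 : p = 3
  · subst p3
    exact (H5c.n3_of_s3 (H := ⊤) fun i => h3 (H18.Involves.trans i (H18.involves_subgroup _))).inv
      trivial trivial hy e
  have hq : ¬ Involves (qd p) G := fun i => by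
    obtain ⟨n, hn⟩ := H5c.psl_three (F := ZMod p) fun j => h3 (H18.Involves.trans j
      (H18.Involves.trans (H18.involves_of_surjective _ (QuotientGroup.mk'_surjective _))
        (H5b.involves_SL2_of_qd i)))
    rw [ZMod.card] at hn
    exact p3 ((Nat.prime_dvd_prime_iff_eq Nat.prime_three hp).1 (hn ▸ dvd_pow_self 3 (by omega))).symm
  obtain ⟨T, hT⟩ := ((pGrp_iff hp).1 hy.zpowers).exists_le_sylow
  have yT := hT (mem_zpowers y)
  obtain ⟨x, hx, e'⟩ := H5b.ctl_ZJn_sub_of_qdFree (H := ⊤) h2 (.inl rfl)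
    (fun i => hq (H18.Involves.trans i (H18.involves_subgroup _)))
    ((syl_iff_sylIn hp).1 (syl_top hp T)) {y} t trivial
    (Set.singleton_subset_iff.2 yT) (by rintro _ rfl; exact e ▸ inv_mem yT)
  by_contra y1
  exact h p h2 T y yT y1 x (by rw [H5b.centerThompsonAOf_eq]; exact hx.2) ((e' y rfl).trans e)

theorem not_inv {H : Subgroup G} (h : ∀ P : Sylow 2 H, (P : Subgroup H).Normal) {q : ℕ}
    (h2 : q ≠ 2) {x g : G} (hq : PiElt {q} x) (hx : x ∈ H) (hg : g ∈ H) (e : g * x * g⁻¹ = x⁻¹) :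
    x = 1 := by
  let P : Sylow 2 H := default
  haveI := h P
  have o : Odd (Nat.card (H ⧸ (P : Subgroup H))) :=
    Nat.odd_iff.2 (Nat.two_dvd_ne_zero.1 P.not_dvd_index)
  have e1 : ((⟨g, hg⟩ : H) : H ⧸ (P : Subgroup H)) * (⟨x, hx⟩ : H) * ((⟨g, hg⟩ : H) : H ⧸ P.1)⁻¹ =
      ((⟨x, hx⟩ : H) : H ⧸ P.1)⁻¹ := by
    rw [← QuotientGroup.mk_inv, ← QuotientGroup.mk_inv, ← QuotientGroup.mk_mul,
      ← QuotientGroup.mk_mul]
    exact congrArg _ (Subtype.ext e)
  have od := fun y : H ⧸ (P : Subgroup H) => o.of_dvd_nat (orderOf_dvd_natCard y)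
  have e3 := mem_cen1.1 (GW.mem_of_sq_mem (od _) (H5c.sq_cen e1))
  rw [e3, mul_inv_cancel_right] at e1
  have e2 := (QuotientGroup.eq_one_iff _).1 (GW.eq_one_of_sq (od _) (mul_eq_one_iff_eq_inv.2 e1))
  obtain ⟨k, hk⟩ := P.isPGroup' ⟨_, e2⟩
  have : PiElt {2} x := (pElt_iff Nat.prime_two).2 ⟨k, congrArg (fun z => z.1.1) hk⟩
  exact hq.eq_one_of_mem (this.zpowers.p' h2.symm) (mem_zpowers x)

theorem s2756 (hJ : H5c.J3.{u}) : ((∀ P : Sylow 2 G, (P : Subgroup G).Normal) ↔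
    ∀ (q : ℕ) [Fact q.Prime], q ≠ 2 → q ∣ Nat.card G → ∀ T : Sylow q G,
      ∀ P : Sylow 2 N(centerThompsonAOf (T : Subgroup G)),
        (P : Subgroup N(centerThompsonAOf (T : Subgroup G))).Normal) ∧
    ((∀ P : Sylow 2 G, (P : Subgroup G).Normal) ↔ ∀ (q : ℕ) [Fact q.Prime], q ≠ 2 →
      ∀ T : Sylow q G, ∀ x ∈ (T : Subgroup G), x ≠ 1 → ∀ g ∈ N(centerThompsonAOf (T : Subgroup G)),
        g * x * g⁻¹ ≠ x⁻¹) := by
  have ab : (∀ P : Sylow 2 G, (P : Subgroup G).Normal) → ∀ (H : Subgroup G) (P : Sylow 2 H),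
      (P : Subgroup H).Normal := fun h H P => by
    obtain ⟨Q, hQ⟩ := P.exists_comap_subtype_eq
    haveI := h Q
    rw [← hQ]; infer_instance
  have bc : ∀ (q : ℕ) [hq : Fact q.Prime], q ≠ 2 → ∀ T : Sylow q G,
      (q ∣ Nat.card G → ∀ P : Sylow 2 N(centerThompsonAOf (T : Subgroup G)), P.1.Normal) →
      ∀ x ∈ (T : Subgroup G), x ≠ 1 → ∀ g ∈ N(centerThompsonAOf (T : Subgroup G)),
        g * x * g⁻¹ ≠ x⁻¹ := fun q hq h2 T h x hx h1 g hg e => by
    have p := (syl_top hq.out T).pi.piElt hx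
    refine h1 (not_inv (h ((p.dvd_of_ne_one (mt orderOf_eq_one_iff.1 h1)).trans
      (orderOf_dvd_natCard x))) h2 p ?_ hg e)
    rw [H5b.centerThompsonAOf_eq]
    exact (H5b.isFn_ZJn 0).le_N _ hx
  exact ⟨⟨fun h _ _ _ _ _ => ab h _, fun h => (nr_of hJ fun q _ h2 T =>
    bc q h2 T fun d => h q h2 d T).normal⟩, fun h q _ h2 T => bc q h2 T fun _ => ab h _,
    fun h => (nr_of hJ h).normal⟩

end Cfsg.Agent.H8.TC
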