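import Cfsg.Agent.FT.Hall
import Cfsg.Agent.H10.SL2b
import Cfsg.Agent.H10.PSL2Max
import Cfsg.Agent.H28.SecRep
import Cfsg.Agent.H3.HallPetrescu
import Cfsg.Agent.S3053

/-! Groups with an extraspecial Sylow subgroup of order `p ^ 3` and exponent `p`. -/

set_option autoImplicit false
set_option linter.unusedSectionVars false

namespace Cfsg.Agent.H8.X3

open Cfsg Cfsg.Agent.FT Cfsg.Agent.H10 Subgroup MulAction Matrix
open scoped MatrixGroups commutatorElement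

variable {p : ℕ} [hp : Fact p.Prime]

/-- the point `x` is fixed by an element of large order -/
def Good (H : Subgroup PGL(2, ZMod p)) (x : PL (ZMod p)) : Prop :=
  ∃ t ∈ H, t • x = x ∧ ∀ k, t ^ k = 1 → p - 1 ∣ 3 * k

theorem poly {H : Subgroup PGL(2, ZMod p)} (hH : ¬ p ∣ #H) (h7 : 7 < p) (x : Fin 3 → PL (ZMod p))
    (hx : Function.Injective x) (h : ∀ i, Good H (x i)) : NoCycNormal H ∧ (#H = 12 ∨ #H = 24 ∨ #H = 60) := by
  refine (dickson_coprime p hH).resolve_left fun ⟨z, z', _, he, hle⟩ => ?_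
  have k : ∀ i, rat (x i) = z ∨ rat (x i) = z' := fun i => by
    obtain ⟨t, ht, e, o⟩ := h i
    have t2 : t * t ≠ 1 := fun y => by
      have := Nat.le_of_dvd (by norm_num) (o 2 (by rw [pow_two, y]))
      omega
    rcases mem_pairStab.1 (hle ht) with ⟨a, b⟩ | ⟨a, b⟩
    · exact (lineAct_pgl (ZMod p) p).fix_pair (by rintro rfl; exact t2 (one_mul _)) he.1 a b (smul_rat_eq_iff.2 e)
    · exact absurd ((lineAct_pgl (ZMod p) p).swap_mul_self he.1 a b) t2
  have n : ∀ i j, rat (x i) = rat (x j) → i = j := fun i j e => hx (rat_injective e)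
  rcases k 0 with a | a <;> rcases k 1 with b | b <;> rcases k 2 with c | c <;>
    first | exact absurd (n _ _ (a.trans b.symm)) (by decide) | exact absurd (n _ _ (a.trans c.symm)) (by decide) |
      exact absurd (n _ _ (b.trans c.symm)) (by decide)

theorem le13 {H : Subgroup PGL(2, ZMod p)} (hH : ¬ p ∣ #H) (x : Fin 3 → PL (ZMod p))
    (hx : Function.Injective x) (h : ∀ i, Good H (x i)) : p ≤ 13 ∧ p ≠ 11 := by
  by_cases h7 : p ≤ 7
  · omega
  obtain ⟨h1, h2⟩ := poly hH (not_le.1 h7) x hx h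
  obtain ⟨t, ht, -, o⟩ := h 0
  have a := h1.orderOf_le_five h2 ht
  have b := o _ (pow_orderOf_eq_one t)
  have c := orderOf_pos t
  have := Nat.le_of_dvd (by omega) b
  have := hp.out
  refine ⟨by_contra fun y => ?_, by rintro rfl; omega⟩
  have : p = 14 ∨ p = 15 ∨ p = 16 := by omega
  rcases this with rfl | rfl | rfl <;> norm_num at this

theorem le7 {H : Subgroup PGL(2, ZMod p)} (hH : ¬ p ∣ #H) (h : ∀ x, Good H x) : p ≤ 7 := by
  by_contra h7
  have hx : Function.Injective ![inf (ZMod p), pt 0, pt 1] := by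
    have a := pt_ne_inf (0 : ZMod p)
    have b := pt_ne_inf (1 : ZMod p)
    have c : pt (0 : ZMod p) ≠ pt 1 := pt_injective.ne zero_ne_one
    intro i j e
    fin_cases i <;> fin_cases j <;> first | rfl | simp_all
  obtain ⟨h1, h2⟩ := le13 hH _ hx fun _ => h _
  obtain ⟨h3, h4⟩ := poly hH (not_le.1 h7) _ hx fun _ => h _
  obtain rfl : p = 13 := by
    have q := hp.out
    have : p = 8 ∨ p = 9 ∨ p = 10 ∨ p = 12 ∨ p = 13 := by omega
    rcases this with rfl | rfl | rfl | rfl | rfl <;> first | rfl | norm_num at q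
  obtain ⟨s, hs, o3⟩ := exists_elt_of_prime_dvd Nat.prime_three (show 3 ∣ #H by omega)
  haveI := Fact.mk Nat.prime_three
  obtain ⟨x, hx⟩ := (IsPGroup.of_card (p := 3) (n := 1) (G := ⟪s⟫) (by rw [Nat.card_zpowers, o3]; rfl)).nonempty_fixed_point_of_prime_not_dvd_card
    (PL (ZMod 13)) (by rw [card_PL, Nat.card_zmod]; norm_num)
  obtain ⟨t, ht, e, o⟩ := h x
  have m : ∀ {u} (hu : u ∈ H), u • x = x → (⟨u, hu⟩ : H) ∈ stabilizer H (rat x) := fun _ e => smul_rat_eq_iff.2 e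
  have s1 := m hs (hx ⟨s, mem_zpowers s⟩)
  obtain ⟨c, -, -, -, -, hc⟩ := (lineAct_sub 13 H).exists_partner ((lineAct_sub 13 H).U_eq_bot_of_not_dvd hH (rat x))
    fun y => by
      rw [y, mem_bot, Subtype.ext_iff] at s1
      rw [show s = 1 from s1, orderOf_one] at o3
      omega
  have a := orderOf_dvd_of_mem_zpowers (hc ▸ s1)
  have b : (⟨t, ht⟩ : H) ^ orderOf c = 1 := orderOf_dvd_iff_pow_eq_one.1 (orderOf_dvd_of_mem_zpowers (hc ▸ m ht e))
  replace b := o _ (congrArg Subtype.val b)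
  have d := h3.orderOf_le_five h4 c.2
  have f := orderOf_pos c
  rw [Subgroup.orderOf_coe] at d
  rw [Subgroup.orderOf_mk, o3] at a
  omega

variable {G : Type*} [Group G] [Finite G] {P : Subgroup G} {a b z g u : G}

/-- the hypothesis -/
structure Hyp (p : ℕ) (P : Subgroup G) : Prop where
  syl : Syl p P ⊤
  card : #P = p ^ 3
  exp : ∀ x ∈ P, x ^ p = 1
  der : ⁅P, P⁆ ≤ Z(P)
  cz : #Z(P) = p

theorem hyp_of (P : Sylow p G) (hE : IsExtraspecial p P) (hc : Nat.card P = p ^ 3) (he : Monoid.exponent P = p) :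
    Hyp p (P : Subgroup G) where
  syl := syl_top hp.out P
  card := hc
  exp x hx := congrArg Subtype.val (he ▸ Monoid.pow_exponent_eq_one (⟨x, hx⟩ : P) :)
  der := by rw [der_eq_map, center_eq_map]; exact map_mono hE.1.2.2.le
  cz := by rw [center_eq_map, card_map_of_injective (subtype_injective _)]; exact hE.2

/-- the transvection with axis `a` is induced in `G` -/
def W (z a : G) : Prop := ∃ u, u * a * u⁻¹ = a ∧ u * z * u⁻¹ = a * z

namespace Hyp

variable (h : Hyp p P)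
include h

theorem zp (hz : z ∈ Z(P)) (z1 : z ≠ 1) : Z(P) = ⟪z⟫ := eq_zpowers_of_prime (h.cz ▸ hp.out) hz z1

theorem ord (ha : a ∈ P) (a1 : a ≠ 1) : orderOf a = p := orderOf_eq_prime (h.exp a ha) a1

theorem conj (ha : a ∈ P) (a1 : a ∉ Z(P)) (hz : z ∈ Z(P)) : ∃ u ∈ P, u * a * u⁻¹ = z * a :=
  S3053.exists_conj (h.der.trans inf_le_right) h.cz ha (fun y => a1 ⟨ha, y⟩) hz

theorem w_of_conj (ha : a ∈ P) (a1 : a ∉ Z(P)) (hz : z ∈ Z(P)) (z1 : z ≠ 1) (e : g * a * g⁻¹ = z) : W z a := by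
  have c : g * z * g⁻¹ ∈ C[z] := by
    rw [← e, ← cj_cen1, e, conj_mem_cj]
    exact cen_le_cen1 ha hz.2
  obtain ⟨c, hc, y⟩ := (h.syl.subl (le_cen1.2 hz.2) le_top).syl_elt c
    (pElt_of_pow_eq_one hp.out (by rw [conj_pow, h.exp z hz.1, mul_one, mul_inv_cancel]))
  have e' : c * g * a * (c * g)⁻¹ = z := by
    rw [show c * g * a * (c * g)⁻¹ = c * (g * a * g⁻¹) * c⁻¹ by group, e, mem_cen1.1 hc, mul_inv_cancel_right]
  rw [show c * (g * z * g⁻¹) * c⁻¹ = c * g * z * (c * g)⁻¹ by group] at y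
  generalize c * g = g at e' y
  obtain ⟨u, hu, e⟩ := h.conj y (fun x => a1 (by
    rw [h.zp hz z1, ← e', ← cj_zpowers, e', conj_mem_cj] at x
    rw [h.zp hz z1, ← eq_zpowers_of_prime (by rw [Nat.card_zpowers, h.ord ha (by rintro rfl; exact a1 (one_mem _))]; exact hp.out) x z1]
    exact mem_zpowers a)) hz
  refine ⟨g⁻¹ * u * g, ?_, ?_⟩
  · rw [show g⁻¹ * u * g * a * (g⁻¹ * u * g)⁻¹ = g⁻¹ * (u * (g * a * g⁻¹) * u⁻¹) * g by group, e', mem_cen.1 hz.2 u hu, ← e']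
    group
  · rw [show g⁻¹ * u * g * z * (g⁻¹ * u * g)⁻¹ = g⁻¹ * (u * (g * z * g⁻¹) * u⁻¹) * g by group, e]
    conv_lhs => lhs; rhs; lhs; rw [← e']
    group

theorem diag (ha : a ∈ P) (a1 : a ∉ Z(P)) (hz : z ∈ Z(P)) (z1 : z ≠ 1) (w : W z a) {s c : ℕ} (d : p ∣ c + s * (c + 1)) :
    ∃ g ∈ N(P), g * z * g⁻¹ = z ^ (c + 1) ∧ ∃ w ∈ Z(P), g * a * g⁻¹ = w * a ^ (s + 1) := by
  obtain ⟨u, u1, u2⟩ := w
  obtain ⟨v, hv, v1⟩ := h.conj ha a1 hz
  have cm : Commute a z := mem_cen.1 hz.2 a ha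
  have U : ∀ s i j : ℕ, MulAut.conj (u ^ s) (a ^ i * z ^ j) = a ^ (i + s * j) * z ^ j := fun s => by
    induction s with
    | zero => simp
    | succ s ih =>
      intro i j
      rw [pow_succ, map_mul MulAut.conj, MulAut.mul_apply, map_mul (MulAut.conj u), map_pow (MulAut.conj u),
        map_pow (MulAut.conj u), show MulAut.conj u a = a from u1, show MulAut.conj u z = a * z from u2, cm.mul_pow, ← mul_assoc, ← pow_add, ih]
      congr 2
      ring
  have V : ∀ i j : ℕ, MulAut.conj v (a ^ i * z ^ j) = a ^ i * z ^ (i + j) := fun i j => by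
    rw [map_mul, map_pow, map_pow, MulAut.conj_apply, MulAut.conj_apply, v1, mem_cen.1 hz.2 v hv, mul_inv_cancel_right,
      ← cm.eq, cm.mul_pow, mul_assoc, ← pow_add]
  obtain ⟨t, t1, t2⟩ : ∃ t, t * z * t⁻¹ = z ^ (c + 1) ∧ t * a * t⁻¹ = a ^ (s + 1) * z := by
    have T : ∀ i j : ℕ, MulAut.conj (u ^ s * v * u ^ c) (a ^ i * z ^ j) =
        a ^ (i + c * j + s * (i + c * j + j)) * z ^ (i + c * j + j) := fun i j => by
      rw [map_mul MulAut.conj, map_mul MulAut.conj, MulAut.mul_apply, MulAut.mul_apply, U, V, U]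
    obtain ⟨d, e⟩ := d
    refine ⟨u ^ s * v * u ^ c, ?_⟩
    generalize u ^ s * v * u ^ c = t at T
    constructor
    · simpa [e, pow_mul, h.exp a ha] using T 0 1
    · simpa [add_comm] using T 1 0
  have e := h.zp hz z1
  have tz : t ∈ N(⟪z⟫) := mem_nrm_of_cj_le (by rw [cj_zpowers, t1, zpowers_le]; exact npow_mem_zpowers _ _)
  let K : Subgroup G :=
    { carrier := {k | k ∈ C[z] ∧ ⁅k, a⁆ ∈ ⟪z⟫}
      one_mem' := ⟨one_mem _, by simp⟩
      mul_mem' := fun {x y} hx hy => ⟨mul_mem hx.1 hy.1, by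
        rw [show ⁅x * y, a⁆ = x * ⁅y, a⁆ * x⁻¹ * ⁅x, a⁆ by simp only [commutatorElement_def]; group]
        exact mul_mem (conj_mem (norms_zpowers_of_cen1 le_rfl hx.1) hy.2) hx.2⟩
      inv_mem' := fun {x} hx => ⟨inv_mem hx.1, by
        rw [show ⁅x⁻¹, a⁆ = x⁻¹ * ⁅x, a⁆⁻¹ * x by simp only [commutatorElement_def]; group]
        exact conj_mem' (norms_zpowers_of_cen1 le_rfl hx.1) (inv_mem hx.2)⟩ }
  have pk : P ≤ K := fun x hx => ⟨le_cen1.2 hz.2 hx, e ▸ h.der (commutator_mem_commutator hx ha)⟩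
  obtain ⟨k, hk, y⟩ := (h.syl.subl pk le_top).syl_Jsub (h.syl.pi.cj t⁻¹) fun x hx => by
    rw [mem_cj, inv_inv] at hx
    refine ⟨?_, ?_⟩
    · rw [← cen_zpowers, ← conj_mem_cj (g := t), cj_cen, cj_of_mem_nrm tz, ← e]
      exact le_cen_center le_rfl hx
    · rw [← conj_mem_cj (g := t), cj_of_mem_nrm tz, ← e, show t * ⁅x, a⁆ * t⁻¹ = ⁅t * x * t⁻¹, t * a * t⁻¹⁆ by
        simp only [commutatorElement_def]; group, t2]
      exact h.der (commutator_mem_commutator hx (mul_mem (pow_mem ha _) hz.1))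
  rw [cj_cj] at y
  replace hk := K.inv_mem hk
  refine ⟨t * k⁻¹, by simpa using inv_mem (mem_nrm_of_cj_le y), ?_, t * ⁅k⁻¹, a⁆ * t⁻¹ * z, ?_, ?_⟩
  · rw [← t1, mul_assoc t, mem_cen1.1 hk.1]; group
  · exact mul_mem (e ▸ conj_mem tz hk.2) hz
  · rw [mul_assoc _ z, ← (cm.pow_left _).eq, ← t2, commutatorElement_def]; group

theorem scalar (hg : g ∈ N(P)) {n : ℕ} (e : ∀ x ∈ P, ∃ w ∈ Z(P), g * x * g⁻¹ = w * x ^ n) (ha : a ∈ P) (hb : b ∈ P) :
    g * ⁅a, b⁆ * g⁻¹ = ⁅a, b⁆ ^ (n * n) := by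
  obtain ⟨v, hv, e1⟩ := e a ha
  obtain ⟨w, hw, e2⟩ := e b hb
  have c := mem_cen.1 (h.der (commutator_mem_commutator ha hb)).2
  have l : ∀ {w x y : G}, w ∈ Z(P) → x ∈ P → y ∈ P → ⁅w * x, y⁆ = ⁅x, y⁆ := fun {w x y} hw hx hy => by
    rw [show ⁅w * x, y⁆ = w * (x * y * x⁻¹) * w⁻¹ * y⁻¹ by simp only [commutatorElement_def]; group,
      ← mem_cen.1 hw.2 _ (conj_mem (le_nrm P hx) hy), mul_inv_cancel_right, commutatorElement_def]
  rw [show g * ⁅a, b⁆ * g⁻¹ = ⁅g * a * g⁻¹, g * b * g⁻¹⁆ by simp only [commutatorElement_def]; group, e1,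
    l hv (pow_mem ha n) (conj_mem hg hb), e2, ← commutatorElement_inv, l hw (pow_mem hb n) (pow_mem ha n),
    commutatorElement_inv, H3.comm_pow_pow (c a ha) (c b hb)]

theorem exists_rep : ∃ (σ : N(P) →* GL (Fin 2) (ZMod p)) (π : G → Fin 2 → ZMod p),
    (∀ a ∈ P, ∀ b ∈ P, π (a * b) = π a + π b) ∧ (∀ a ∈ P, π a = 0 ↔ a ∈ Z(P)) ∧ (∀ v, ∃ a ∈ P, π a = v) ∧
    ∀ g : N(P), ∀ a ∈ P, π (g * a * (g : G)⁻¹) = σ g • π a := by
  obtain ⟨S⟩ := H28.nonempty_secRep p inf_le_left h.der (fun x hx => h.exp x hx ▸ one_mem _) le_rfl (norms_center le_rfl)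
  have e := S.relIndex_eq
  obtain ⟨n, ρ, π, _, _, h1, h2, h3, h4⟩ := S
  obtain rfl : n = 2 := by
    rw [relIndex_eq_div inf_le_left, h.card, h.cz, pow_succ, Nat.mul_div_cancel _ hp.out.pos] at e
    exact (Nat.pow_right_injective hp.out.two_le e).symm
  refine ⟨GeneralLinearGroup.toLin.symm.toMonoidHom.comp ρ.asGroupHom, π, h1, h2, h3, fun g a ha => (h4 g a ha).trans ?_⟩
  exact ((congrArg (fun f : LinearMap.GeneralLinearGroup _ _ => f.1 (π a))
    (GeneralLinearGroup.toLin.apply_symm_apply (ρ.asGroupHom g))).symm :)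

theorem main : ∃ (H : Subgroup PGL(2, ZMod p)) (f : G → PL (ZMod p)), ¬ p ∣ #H ∧
    (∀ a ∈ P, a ∉ Z(P) → ∀ z ∈ Z(P), z ≠ 1 → W z a → Good H (f a)) ∧
    (∀ a ∈ P, a ∉ Z(P) → ∀ b ∈ P, b ∉ Z(P) → f a = f b → a ∈ Z(P) ⊔ ⟪b⟫) ∧ ∀ x, ∃ a ∈ P, a ∉ Z(P) ∧ f a = x := by
  classical
  obtain ⟨σ, π, h1, h2, h3, h4⟩ := h.exists_rep
  have p1 : π 1 = 0 := (h2 1 (one_mem _)).2 (one_mem _)
  have pw : ∀ a ∈ P, ∀ n : ℕ, π (a ^ n) = (n : ZMod p) • π a := fun a ha n => by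
    induction n with
    | zero => simp [p1]
    | succ n ih => rw [pow_succ, h1 _ (pow_mem ha n) a ha, ih, Nat.cast_succ, add_smul, one_smul]
  have ex : ∀ a ∈ P, ∀ b ∈ P, ∀ c : ZMod p, π a = c • π b → ∃ w ∈ Z(P), a = w * b ^ c.val := fun a ha b hb c e => by
    have m := mul_mem ha (inv_mem (pow_mem hb c.val))
    have := h1 _ m _ (pow_mem hb c.val)
    rw [inv_mul_cancel_right, pw b hb, ZMod.natCast_zmod_val, e, right_eq_add] at this
    exact ⟨_, (h2 _ m).1 this, (inv_mul_cancel_right _ _).symm⟩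
  have fe : ∀ a (ha : a ∈ P) (a1 : a ∉ Z(P)), (if h : π a = 0 then inf _ else Projectivization.mk _ (π a) h) =
      Projectivization.mk (ZMod p) (π a) (mt (h2 a ha).1 a1) := fun a ha a1 => dif_neg _
  refine ⟨((ProjGenLinGroup.mk).comp σ).range, fun a => if h : π a = 0 then inf _ else Projectivization.mk _ (π a) h,
    fun y => (h.syl.subl (le_nrm P) le_top).not_dvd hp.out (y.trans ?_), fun a ha a1 z hz z1 w => ?_,
    fun a ha a1 b hb b1 e => ?_, fun x => ?_⟩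
  · rw [← index_ker]
    refine index_dvd_of_le fun g hg => ?_
    rw [MonoidHom.mem_ker, MonoidHom.comp_apply, show σ g = 1 from Units.ext (Matrix.toLin'.injective (LinearMap.ext fun v => ?_)), map_one]
    obtain ⟨a, ha, rfl⟩ := h3 v
    have := h4 g a ha
    have m : ⁅(g : G), a⁆ ∈ Z(P) := h.der (commutator_mem_commutator hg ha)
    rw [show g * a * (g : G)⁻¹ = ⁅(g : G), a⁆ * a by rw [commutatorElement_def]; group,
      h1 _ m.1 a ha, (h2 _ m.1).2 m, zero_add] at this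
    simpa using this.symm
  · obtain ⟨l, hl⟩ := IsCyclic.exists_ofOrder_eq_natCard (α := (ZMod p)ˣ)
    obtain ⟨s, hs⟩ : ∃ s : ℕ, ((s + 1 : ℕ) : ZMod p) = l := ⟨(l - 1 : ZMod p).val, by simp⟩
    obtain ⟨c, hc⟩ : ∃ s : ℕ, ((s + 1 : ℕ) : ZMod p) = (l⁻¹ : (ZMod p)ˣ) :=
      ⟨((l⁻¹ : (ZMod p)ˣ) - 1 : ZMod p).val, by rw [Nat.cast_succ, ZMod.natCast_zmod_val, sub_add_cancel]⟩
    obtain ⟨g, hg, g1, w, hw, g2⟩ := h.diag ha a1 hz z1 w (s := s) (c := c) ((ZMod.natCast_eq_zero_iff _ _).1 (by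
      have := l.mul_inv
      rw [← hc, ← hs] at this
      push_cast at this ⊢
      linear_combination this))
    have e : σ ⟨g, hg⟩ • π a = (l : ZMod p) • π a := by
      rw [← h4 _ a ha, g2, h1 w hw.1 _ (pow_mem ha _), (h2 w hw.1).2 hw, zero_add, pw a ha, hs]
    refine ⟨_, ⟨⟨g, hg⟩, rfl⟩, ?_, fun k hk => ?_⟩
    · simp only [fe a ha a1]
      rw [MonoidHom.comp_apply, pgl_mk_smul, Projectivization.smul_mk, Projectivization.mk_eq_mk_iff']
      exact ⟨l, e.symm⟩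
    rw [← map_pow, MonoidHom.comp_apply, eq_comm, ← map_one ProjGenLinGroup.mk, pgl_mk_eq_mk_iff] at hk
    obtain ⟨n, -, hn⟩ := hk
    have sc : ∀ v : Fin 2 → ZMod p, σ (⟨g, hg⟩ ^ k) • v = n • v := fun v => by
      change (σ (⟨g, hg⟩ ^ k)).1 *ᵥ v = _
      rw [hn, smul_mulVec, Units.val_one, one_mulVec]
    have e1 : ∀ k : ℕ, σ (⟨g, hg⟩ ^ k) • π a = (l : ZMod p) ^ k • π a := fun k => by
      induction k with
      | zero => simp
      | succ k ih => rw [pow_succ, map_mul, mul_smul, e, smul_comm, ih, smul_smul, pow_succ']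
    have n1 : n = l ^ k := smul_left_injective _ (mt (h2 a ha).1 a1) ((sc _).symm.trans (e1 k))
    obtain ⟨b, hb, e2⟩ := h.conj ha a1 hz
    have e3 : ⁅b, a⁆ = z := by rw [commutatorElement_def, e2, mul_inv_cancel_right]
    have e4 := h.scalar (pow_mem hg k) (fun x hx => ex _ (conj_mem (pow_mem hg k) hx) x hx n
      ((h4 (⟨g, hg⟩ ^ k) x hx).trans (sc _))) hb ha
    have e5 : ∀ k : ℕ, g ^ k * z * (g ^ k)⁻¹ = z ^ (c + 1) ^ k := fun k => by
      induction k with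
      | zero => simp
      | succ k ih =>
        rw [show g ^ (k + 1) * z * (g ^ (k + 1))⁻¹ = g ^ k * (g * z * g⁻¹) * (g ^ k)⁻¹ by group, g1, ← conj_pow, ih,
          ← pow_mul, pow_succ]
    rw [e3, e5, pow_eq_pow_iff_modEq, h.ord hz.1 z1, ← ZMod.natCast_eq_natCast_iff, Nat.cast_pow, hc, Nat.cast_mul,
      ZMod.natCast_zmod_val, n1] at e4
    rw [← ZMod.card_units p, ← Nat.card_eq_fintype_card, ← hl]
    refine orderOf_dvd_of_pow_eq_one (Units.ext ?_)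
    rw [Units.val_pow_eq_pow_val, mul_comm, pow_mul, pow_succ, pow_two, ← e4, ← mul_pow, l.inv_mul,
      one_pow, Units.val_one]
  · simp only [fe a ha a1, fe b hb b1] at e
    obtain ⟨c, e⟩ := (Projectivization.mk_eq_mk_iff' _ _ _ _ _).1 e
    obtain ⟨w, hw, e⟩ := ex a ha b hb c e.symm
    exact e ▸ mul_mem (mem_sup_left hw) (mem_sup_right (npow_mem_zpowers _ _))
  · obtain ⟨a, ha, e⟩ := h3 x.rep
    have a1 : a ∉ Z(P) := fun y => x.rep_nonzero (e ▸ (h2 a ha).2 y)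
    refine ⟨a, ha, a1, (fe a ha a1).trans ?_⟩
    simp only [e, Projectivization.mk_rep]

theorem le7 (hc : ∀ x ∈ P, ∀ y ∈ P, x ≠ 1 → y ≠ 1 → ∃ g, g * x * g⁻¹ = y) : p ≤ 7 := by
  obtain ⟨H, f, h1, h2, -, h4⟩ := h.main
  obtain ⟨z, hz, o⟩ := exists_elt_of_prime_dvd hp.out h.cz.symm.dvd
  have z1 : z ≠ 1 := fun e => hp.out.ne_one (by rw [← o, e, orderOf_one])
  refine X3.le7 h1 fun x => ?_
  obtain ⟨a, ha, a1, rfl⟩ := h4 x
  obtain ⟨g, e⟩ := hc a ha z hz.1 (by rintro rfl; exact a1 (one_mem _)) z1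
  exact h2 a ha a1 z hz z1 (h.w_of_conj ha a1 hz z1 e)

theorem z_le {A : Subgroup G} (hA : A ≤ P) (hc : #A = p ^ 2) : Ab A ∧ Z(P) ≤ A ∧ ∃ a ∈ A, a ∉ Z(P) := by
  have ab : Ab A := IsPGroup.isMulCommutative_of_card_eq_prime_sq hc
  have lt : ∀ {i j}, i < j → p ^ i < p ^ j := Nat.pow_lt_pow_right hp.out.one_lt
  refine ⟨ab, (prime_le_or_inf (h.cz ▸ hp.out) A).resolve_right fun y => ?_, SetLike.not_le_iff_exists.1 fun y => ?_⟩
  · have e : Z(P) ⊔ A = P := eq_of_le_of_card_ge (sup_le inf_le_left hA) (by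
      rw [card_sup_of_inf (hA.trans (norms_center (le_nrm P))) y, h.cz, hc, h.card, pow_succ' p 2])
    have := ((ab_center P).sup ab (le_cen_center hA))
    rw [e] at this
    have e := h.cz
    rw [this.center, h.card] at e
    exact (lt (show 1 < 3 by norm_num)).ne' (e.trans (pow_one p).symm)
  · exact (lt (show 1 < 2 by norm_num)).not_ge (by rw [← hc, pow_one, ← h.cz]; exact card_le_of_le y)

theorem w_of_aut {A : Subgroup G} (hA : A ≤ P) (hc : #A = p ^ 2) (ha : a ∈ A) (a1 : a ∉ Z(P)) (hz : z ∈ Z(P)) (z1 : z ≠ 1)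
    (hS : ∀ φ : MulAut A, orderOf φ = p → ∃ g : G, ∀ a : A, (φ a : G) = g * (a : G) * g⁻¹) : W z a := by
  obtain ⟨ab, zl, -⟩ := h.z_le hA hc
  lift a to A using ha
  lift z to A using zl hz
  letI : CommGroup A := { (inferInstance : Group A) with mul_comm := fun x y => Subtype.ext (ab.comm x.2 y.2) }
  have ex : ∀ x : A, x ^ p = 1 := fun x => Subtype.ext (h.exp x (hA x.2))
  have oa : orderOf a = p := orderOf_eq_prime (ex a) (by rintro rfl; exact a1 (one_mem _))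
  have zq : (z : A ⧸ ⟪a⟫) ≠ 1 := fun y => a1 (by
    have y : (z : G) ∈ ⟪(a : G)⟫ := MonoidHom.map_zpowers A.subtype a ▸ mem_map_of_mem A.subtype ((QuotientGroup.eq_one_iff _).1 y)
    rw [h.zp hz z1, ← eq_zpowers_of_prime (by rw [Nat.card_zpowers, Subgroup.orderOf_coe, oa]; exact hp.out) y z1]
    exact mem_zpowers _)
  have cq : Nat.card (A ⧸ ⟪a⟫) = p := by
    have := card_eq_card_quotient_mul_card_subgroup ⟪a⟫
    rw [hc, Nat.card_zpowers, oa, pow_two] at this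
    exact (Nat.eq_of_mul_eq_mul_right hp.out.pos this).symm
  have gen := fun x => mem_zpowers_of_prime_card cq zq (g' := x)
  have od : orderOf a ∣ orderOf (z : A ⧸ ⟪a⟫) := by rw [oa, orderOf_eq_card_of_forall_mem_zpowers gen, cq]
  obtain ⟨δ, d1, d2, d3⟩ : ∃ δ : A →* A, δ z = a ∧ δ a = 1 ∧ ∀ x, δ (δ x) = 1 := by
    refine ⟨(monoidHomOfForallMemZpowers gen od).comp (QuotientGroup.mk' _),
      monoidHomOfForallMemZpowers_apply_gen gen od, ?_, fun x => ?_⟩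
    · rw [MonoidHom.comp_apply, QuotientGroup.mk'_apply, (QuotientGroup.eq_one_iff a).2 (mem_zpowers a), map_one]
    · obtain ⟨n, e⟩ := gen x
      simp only [MonoidHom.comp_apply, QuotientGroup.mk'_apply, ← e, map_zpow, monoidHomOfForallMemZpowers_apply_gen]
      rw [(QuotientGroup.eq_one_iff a).2 (mem_zpowers a), map_one, _root_.one_zpow]
  let φ : MulAut A :=
    { toFun := fun x => δ x * x
      invFun := fun x => (δ x)⁻¹ * x
      left_inv := fun x => by simp [d3]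
      right_inv := fun x => by simp [d3]
      map_mul' := fun x y => by rw [map_mul, mul_mul_mul_comm] }
  have pw : ∀ (n : ℕ) x, (φ ^ n) x = δ x ^ n * x := fun n => by
    induction n with
    | zero => simp
    | succ n ih =>
      intro x
      rw [pow_succ, MulAut.mul_apply, ih]
      change δ (δ x * x) ^ n * (δ x * x) = _
      rw [map_mul, d3, one_mul, pow_succ, mul_assoc]
  obtain ⟨g, e⟩ := hS φ (orderOf_eq_prime (MulEquiv.ext fun x => by rw [pw, ex, one_mul]; rfl) fun y => a1 (by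
    have : δ z * z = z := DFunLike.congr_fun y z
    rw [d1, mul_eq_right] at this
    exact this ▸ one_mem _))
  refine ⟨g, (e a).symm.trans (congrArg Subtype.val ?_), (e z).symm.trans (congrArg Subtype.val (?_ : _ = a * z))⟩
  · exact (congrArg (· * a) d2).trans (one_mul a)
  · exact congrArg (· * z) d1

theorem le13 (A : Fin 3 → Subgroup G) (hA : Function.Injective A) (hP : ∀ i, A i ≤ P) (hc : ∀ i, #(A i) = p ^ 2)
    (hS : ∀ i, ∀ φ : MulAut (A i), orderOf φ = p → ∃ g : G, ∀ a : A i, (φ a : G) = g * (a : G) * g⁻¹) : p ≤ 13 := by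
  obtain ⟨H, f, h1, h2, h3, -⟩ := h.main
  obtain ⟨z, hz, o⟩ := exists_elt_of_prime_dvd hp.out h.cz.symm.dvd
  have z1 : z ≠ 1 := fun e => hp.out.ne_one (by rw [← o, e, orderOf_one])
  choose ab zl a ha a1 using fun i => h.z_le (hP i) (hc i)
  refine (X3.le13 h1 (fun i => f (a i)) (fun i j e => hA ?_) fun i =>
    h2 _ (hP i (ha i)) (a1 i) z hz z1 (h.w_of_aut (hP i) (hc i) (ha i) (a1 i) hz z1 (hS i))).1
  have m := sup_le (zl j) (zpowers_le.2 (ha j)) (h3 _ (hP i (ha i)) (a1 i) _ (hP j (ha j)) (a1 j) e)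
  have r : (Z(P).relIndex (A i)).Prime := by
    rw [relIndex_eq_div (zl i), hc, h.cz, pow_two, Nat.mul_div_cancel _ hp.out.pos]; exact hp.out
  exact eq_of_le_of_card_ge (inf_eq_left.1 ((eq_or_eq_of_prime_relIndex r (le_inf (zl i) (zl j)) inf_le_left).resolve_left
    fun y => a1 i (y.le ⟨ha i, m⟩))) (by rw [hc, hc])

end Hyp

end Cfsg.Agent.H8.X3
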